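import Mathlib
import Cfsg.Agent.Lib.KL.Base
import Cfsg.Agent.Lib.RootMax.Para
import Cfsg.Agent.Lib.Forms.Stab

/-! Rank 3 actions of the symplectic and unitary groups (plans/KP.md): definitions. -/

set_option autoImplicit false

namespace CfsgLib.KP

open CfsgLib.CK CfsgLib.KL CfsgLib.Forms CfsgLib.ClMax Module

/-- the number of singular points of a non-degenerate space of dimension `k` -/
def np (Q q : ℕ) : ℕ → ℕ
  | 0 => 0
  | 1 => 0
  | k + 2 => 1 + Q * np Q q k + q * Q ^ k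

/-- the parameter `t` of a space of dimension `d` -/
def tt (Q q d : ℕ) : ℕ := q * Q ^ (d % 2)

/-- the number of points orthogonal to a point -/
def kk (Q q d : ℕ) : ℕ := 1 + Q * np Q q (d - 2)

/-- the sum of the two eigenvalues of the orthogonality relation -/
def ss (Q q d : ℕ) : ℤ := (Q : ℤ) ^ (d / 2 - 1) - (Q : ℤ) ^ (d / 2 - 2) * tt Q q d

/-- `r` is a prime and `a` has order `e` modulo `r` -/
def Od (r : ℕ) (a : ℤ) (e : ℕ) : Prop := r.Prime ∧ ∀ j : ℕ, (r : ℤ) ∣ a ^ j - 1 ↔ e ∣ j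

/-- every power `p ^ j > 1` which is `1` modulo `r` is at least `M` -/
def Pp (r p M : ℕ) : Prop := ∀ j, 0 < j → p ^ j ≡ 1 [MOD r] → M ≤ p ^ j

section Rep

variable {G : Type*} [Group G] {X Y : Type*} [MulAction G X] [MulAction G Y]

/-- `Q` is equivariant under `I` -/
def EqI (I : Subgroup G) (Q : Y → Set X) : Prop := ∀ g ∈ I, ∀ y x, g • x ∈ Q (g • y) ↔ x ∈ Q y

/-- `u` depends only on the position and satisfies all relations satisfied by the translates of `f` -/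
structure AdmF (I : Subgroup G) (A : Set X) (f : X → ℂ) (same : X → X → Prop) (u : X → ℂ) : Prop where
  pos : ∀ x ∈ A, ∀ x' ∈ A, same x x' → u x = u x'
  bal : ∀ S ⊆ A, ∀ x₀ ∈ A, ∀ c μ : ℂ, (∀ g ∈ I, sm S (fun x => f (g • x)) = c + μ * f (g • x₀)) →
    sm S u = μ * u x₀

/-- every `H`-invariant function on `B` is an affine combination of the sums of `f` over the `Q i y`, as soon as
the sums over the `Q i y` determine the admissible functions -/
def SpanF (I H : Subgroup G) (A : Set X) (B : Set Y) (same : Y → X → X → Prop) : Prop :=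
  ∀ f : X → ℂ, (∀ g ∈ H, ∀ x ∈ A, f (g • x) = f x) → (∃ x ∈ A, ∃ x' ∈ A, f x ≠ f x') →
    ∀ (k : ℕ) (Q : Fin k → Y → Set X), (∀ i, ∀ y ∈ B, Q i y ⊆ A) → (∀ i, EqI I (Q i)) →
    (∀ y ∈ B, ∀ u, AdmF I A f (same y) u → (∀ i, sm (Q i y) u = 0) → ∀ x ∈ A, u x = 0) →
    ∀ hh : Y → ℂ, (∀ g ∈ H, ∀ y ∈ B, hh (g • y) = hh y) →
      ∃ (c₀ : ℂ) (c : Fin k → ℂ), ∀ y ∈ B, hh y = c₀ + ∑ i, c i * sm (Q i y) f

open _root_.Classical in
/-- the indicator function -/
noncomputable def ind (O : Set X) (x : X) : ℂ := if x ∈ O then 1 else 0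

end Rep

variable {F : Type*} [Field F] {σ : F →+* F} {V : Type*} [AddCommGroup V] [Module F V]

/-- the symplectic case, odd characteristic -/
structure IsSp (P : PQ σ V) : Prop where
  σ_eq : ∀ a, σ a = a
  ε_eq : P.ε = -1
  two : (2 : F) ≠ 0

/-- a non-degenerate symplectic (`|F| = q` odd) or unitary (`|F| = q²`, `q ≥ 3`) space -/
structure Pol (P : PQ σ V) (q : ℕ) : Prop where
  nd : P.Nondeg
  mx : ∀ a, a + P.ε * σ a = 0 → a ∈ P.Λ
  cq : Nat.card P.Λ = q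
  σq : ∀ a, σ a = a ^ q
  three : 3 ≤ q
  kind : (IsSp P ∧ Nat.card F = q) ∨ (P.IsHerm ∧ Nat.card F = q ^ 2)

/-- the isometries of determinant one -/
noncomputable def G0 (P : PQ σ V) : Subgroup (V ≃ₗ[F] V) := P.isom ⊓ SLV F V

/-- totally singular subspaces of dimension `k` -/
def T (P : PQ σ V) (k : ℕ) : Set (Submodule F V) := {U | P.TS U ∧ finrank F U = k}

/-- flags of two totally singular subspaces -/
def T2 (P : PQ σ V) (a b : ℕ) : Set (Submodule F V × Submodule F V) :=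
  {x | x.1 ≤ x.2 ∧ x.1 ∈ T P a ∧ x.2 ∈ T P b}

/-- flags of three totally singular subspaces (repetitions allowed) -/
def T3 (P : PQ σ V) (a b c : ℕ) : Set (Submodule F V × Submodule F V × Submodule F V) :=
  {x | x.1 ≤ x.2.1 ∧ x.2.1 ≤ x.2.2 ∧ x.1 ∈ T P a ∧ x.2.1 ∈ T P b ∧ x.2.2 ∈ T P c}

/-- the points of the residue of `Y` -/
def Pt (P : PQ σ V) (Y : Submodule F V) : Set (Submodule F V) :=
  {Z | P.TS Z ∧ Y ≤ Z ∧ finrank F Z = finrank F Y + 1}

/-- the members of `C` containing `x` -/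
def thru (C : Set (Submodule F V)) (x : Submodule F V) : Set (Submodule F V) := {m | m ∈ C ∧ x ≤ m}

/-- the members of `C` inside `W` (`cnt C W` is its size) -/
def ins (C : Set (Submodule F V)) (W : Submodule F V) : Set (Submodule F V) := {m | m ∈ C ∧ m ≤ W}

/-- the lines meeting `l` and orthogonal to it (`l` included) -/
def nb (P : PQ σ V) (l : Submodule F V) : Set (Submodule F V) := {m | m ∈ T P 2 ∧ m ⊓ l ≠ ⊥ ∧ m ≤ P.perp l}

/-- the number of members of `C` through `x` orthogonal to `l` -/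
noncomputable def eta (P : PQ σ V) (C : Set (Submodule F V)) (x l : Submodule F V) : ℕ :=
  cnt (thru C x) (P.perp l)

/-- the dimensions of the intersections with the members of a flag -/
noncomputable def dims (y : Submodule F V × Submodule F V × Submodule F V) (m : Submodule F V) : ℕ × ℕ × ℕ :=
  (finrank F ↥(m ⊓ y.1), finrank F ↥(m ⊓ y.2.1), finrank F ↥(m ⊓ y.2.2))

/-- `m`, `m'` have the same position relative to `y`, `y'` -/
def Same (P : PQ σ V) (y y' : Submodule F V × Submodule F V × Submodule F V) (m m' : Submodule F V) : Prop :=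
  dims y m = dims y' m' ∧ dims y (P.perp m) = dims y' (P.perp m')

/-- same position -/
def same1 (P : PQ σ V) (y : Submodule F V × Submodule F V × Submodule F V) (m m' : Submodule F V) : Prop :=
  Same P y y m m'

/-- conjugate under the stabiliser of `y` in the isometry group -/
def sameI (P : PQ σ V) (y : Submodule F V × Submodule F V × Submodule F V)
    (x x' : Submodule F V × Submodule F V) : Prop := ∃ g ∈ P.isom, g • y = y ∧ g • x = x'

/-- `u` depends only on the position relative to `y` -/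
def PosInv (P : PQ σ V) (a : ℕ) (y : Submodule F V × Submodule F V × Submodule F V) (u : Submodule F V → ℂ) : Prop :=
  ∀ m ∈ T P a, ∀ m' ∈ T P a, same1 P y m m' → u m = u m'

/-- the span property for the flag spaces -/
structure GS (P : PQ σ V) (K : Subgroup (V ≃ₗ[F] V)) : Prop where
  one : ∀ a b c d, SpanF P.isom K (T P a) (T3 P b c d) (same1 P)
  two : ∀ a a' b c d, SpanF P.isom K (T2 P a a') (T3 P b c d) (sameI P)

/-- a proper subgroup containing the centre -/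
structure Sub (P : PQ σ V) (q : ℕ) (K : Subgroup (V ≃ₗ[F] V)) : Prop where
  pol : Pol P q
  six : 6 ≤ finrank F V
  le : K ≤ G0 P
  ne : ¬ G0 P ≤ K
  sc : ∀ g ∈ G0 P, Sc g → g ∈ K

/-- the standing hypothesis -/
structure Hyp (P : PQ σ V) (q : ℕ) (K : Subgroup (V ≃ₗ[F] V)) : Prop extends Sub P q K where
  irr : ∀ U : Submodule F V, Fx K U → U = ⊥ ∨ U = ⊤
  gs : GS P K

/-- a proper point-transitive subgroup -/
structure Tb (P : PQ σ V) (q : ℕ) (K : Subgroup (V ≃ₗ[F] V)) : Prop extends Sub P q K where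
  tr : Tr K (T P 1)

/-- point-transitive with two orbits `C`, `T P 2 \ C` on lines -/
structure Lv (P : PQ σ V) (q : ℕ) (K : Subgroup (V ≃ₗ[F] V)) (C : Set (Submodule F V)) : Prop
    extends Hyp P q K where
  tr : Tr K (T P 1)
  part : Part K (T P 2) C
  t0 : Tr K C
  t1 : Tr K (T P 2 \ C)

/-- an intriguing set of points of the residue of `Y` -/
structure Intr (P : PQ σ V) (Y : Submodule F V) (R : Set (Submodule F V)) (h₁ h₂ : ℕ) : Prop where
  ts : P.TS Y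
  sub : R ⊆ Pt P Y
  ne : R.Nonempty
  ne' : ∃ Z ∈ Pt P Y, Z ∉ R
  h1 : ∀ Z ∈ R, cnt R (P.perp Z) = h₁
  h2 : ∀ Z ∈ Pt P Y, Z ∉ R → cnt R (P.perp Z) = h₂

/-- a geometric hyperplane of the residue of `Y` -/
structure GH (P : PQ σ V) (Y : Submodule F V) (R : Set (Submodule F V)) : Prop where
  ts : P.TS Y
  sub : R ⊆ Pt P Y
  ne' : ∃ Z ∈ Pt P Y, Z ∉ R
  meet : ∀ E, P.TS E → Y ≤ E → finrank F E = finrank F Y + 2 → ∃ Z ∈ R, Z ≤ E
  cl : ∀ Z ∈ R, ∀ Z' ∈ R, Z ≠ Z' → Z' ≤ P.perp Z → ∀ Z'' ∈ Pt P Y, Z'' ≤ Z ⊔ Z' → Z'' ∈ R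

/-- a set of vectors closed under multiples and under singular sums -/
structure Clo (P : PQ σ V) (O : Set V) : Prop where
  sing : ∀ v ∈ O, P.Sing v
  smul : ∀ v ∈ O, ∀ c : F, c • v ∈ O
  add : ∀ v ∈ O, ∀ w ∈ O, P.Sing (v + w) → v + w ∈ O

/-- a class of lines which is intriguing in all point residues -/
structure Cl (P : PQ σ V) (C : Set (Submodule F V)) (h₁ h₂ : ℕ) : Prop where
  sub : C ⊆ T P 2
  intr : ∀ x ∈ T P 1, Intr P x (thru C x) h₁ h₂

/-- all lines of `E` lie in `C` -/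
def Pure (C : Set (Submodule F V)) (E : Submodule F V) : Prop :=
  ∀ l : Submodule F V, finrank F l = 2 → l ≤ E → l ∈ C

/-- no line of `E` lies in `C` -/
def Void (C : Set (Submodule F V)) (E : Submodule F V) : Prop := ∀ l ∈ C, ¬ l ≤ E

/-- the lines of `C` in `E` are the lines through `z` -/
def Cen (C : Set (Submodule F V)) (E z : Submodule F V) : Prop :=
  finrank F z = 1 ∧ z ≤ E ∧ ∀ l : Submodule F V, finrank F l = 2 → l ≤ E → (l ∈ C ↔ z ≤ l)

/-- a plane with two lines of `C` is pure -/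
def Single (P : PQ σ V) (C : Set (Submodule F V)) : Prop :=
  ∀ E ∈ T P 3, ∀ l ∈ C, ∀ l' ∈ C, l ≤ E → l' ≤ E → l ≠ l' → Pure C E

/-- every plane is pure, void or a pencil -/
def Pencil (P : PQ σ V) (C : Set (Submodule F V)) : Prop := ∀ E ∈ T P 3, Pure C E ∨ Void C E ∨ ∃ z, Cen C E z

/-- the two types in case 2a -/
def Typ (P : PQ σ V) (C : Set (Submodule F V)) : Prop :=
  (Single P C ∨ Pencil P C) ∧ ((∀ E ∈ T P 3, ¬ Pure C E) ∨ ∀ E ∈ T P 3, ¬ Void C E)

/-- the lines of `C` are the lines in the members of a spread of planes -/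
def Spr (P : PQ σ V) (C : Set (Submodule F V)) : Prop :=
  ∀ x ∈ T P 1, ∃ E ∈ T P 3, x ≤ E ∧ Pure C E ∧ ∀ l ∈ thru C x, l ≤ E

/-- the orbits on flags are determined by the intersections with `S` -/
def Orb3 (P : PQ σ V) (K : Subgroup (V ≃ₗ[F] V)) (S : Set (Submodule F V)) : Prop :=
  ∀ b c d, ∀ y ∈ T3 P b c d, ∀ y' ∈ T3 P b c d, cnt S y.1 = cnt S y'.1 → cnt S y.2.1 = cnt S y'.2.1 →
    cnt S y.2.2 = cnt S y'.2.2 → ∃ g ∈ K, g • y = y'

/-- the invariant functions on chambers of rank 3 in case 2a -/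
def Aff (P : PQ σ V) (K : Subgroup (V ≃ₗ[F] V)) (C : Set (Submodule F V)) : Prop :=
  ∀ hh : Submodule F V × Submodule F V × Submodule F V → ℂ, (∀ g ∈ K, ∀ y ∈ T3 P 1 2 3, hh (g • y) = hh y) →
    ∃ c₀ c₁ c₂ c₃ : ℂ, ∀ y ∈ T3 P 1 2 3,
      hh y = c₀ + c₁ * ind C y.2.1 + c₂ * cnt (thru C y.1) y.2.2 + c₃ * cnt C y.2.2

/-- the data of the exceptional case `U₆` -/
structure B6 (P : PQ σ V) (C : Set (Submodule F V)) (a₁ a₂ : ℕ) : Prop where
  sub : C ⊆ T P 2
  ne : a₁ ≠ a₂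
  two : ∀ y ∈ T2 P 1 3, cnt (thru C y.1) y.2 = a₁ ∨ cnt (thru C y.1) y.2 = a₂
  /-- the number of points of a plane of type `a` -/
  o : ∀ a, ∃ o, ∀ E ∈ T P 3, {x | x ∈ T P 1 ∧ x ≤ E ∧ cnt (thru C x) E = a}.ncard = o
  /-- the number of planes of type `a` on a point -/
  e : ∀ a, ∃ e, ∀ x ∈ T P 1, {E | E ∈ T P 3 ∧ x ≤ E ∧ cnt (thru C x) E = a}.ncard = e
  /-- the number of points of type `a` on a line -/
  b : ∀ a, ∃ b₀ b₁, ∀ y ∈ T2 P 2 3, (y.1 ∈ C → {x | x ∈ T P 1 ∧ x ≤ y.1 ∧ cnt (thru C x) y.2 = a}.ncard = b₀) ∧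
    (y.1 ∉ C → {x | x ∈ T P 1 ∧ x ≤ y.1 ∧ cnt (thru C x) y.2 = a}.ncard = b₁)
  ex₁ : ∃ y ∈ T2 P 1 3, cnt (thru C y.1) y.2 = a₁
  ex₂ : ∃ y ∈ T2 P 1 3, cnt (thru C y.1) y.2 = a₂
  /-- `η` is constant outside `C` -/
  η₁ : ∃ h, ∀ y ∈ T2 P 1 2, y.2 ∉ C → eta P C y.1 y.2 = h
  η₀ : ∃ y ∈ T2 P 1 2, ∃ y' ∈ T2 P 1 2, y.2 ∈ C ∧ y'.2 ∈ C ∧ eta P C y.1 y.2 ≠ eta P C y'.1 y'.2
  aff : ∃ c₀ c₁ c₂ c₃ : ℂ, ∀ y ∈ T3 P 1 2 3, ind C y.2.1 * cnt (thru C y.1) y.2.2 =
    c₀ + c₁ * ind C y.2.1 + c₂ * cnt (thru C y.1) y.2.2 + c₃ * eta P C y.1 y.2.1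

/-- an ovoid with a group which is locally flag-transitive, dimension 6 -/
structure Ov (P : PQ σ V) (K : Subgroup (V ≃ₗ[F] V)) (S : Set (Submodule F V)) : Prop where
  le : K ≤ P.isom
  sub : S ⊆ T P 1
  inv : Inv K S
  opp : ∀ x ∈ S, ∀ x' ∈ S, x' ≤ P.perp x → x' = x
  meet : ∀ M ∈ T P 3, ∃ x ∈ S, x ≤ M
  tr₀ : ∀ M ∈ T P 3, ∀ x ∈ S, x ≤ M → Tr (Stab K M) {l | l ∈ T P 2 ∧ l ≤ M ∧ ¬ x ≤ l}
  tr₁ : ∀ M ∈ T P 3, ∀ x ∈ S, x ≤ M → Tr (Stab K M) {l | l ∈ T P 2 ∧ l ≤ M ∧ x ≤ l}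
  tr₂ : ∀ x ∈ S, Tr (Stab K x) (Pt P x)

/-- the elements of `K` in the root group of `x` fix `x^⊥` pointwise -/
def NoLx (P : PQ σ V) (K : Subgroup (V ≃ₗ[F] V)) (x : V) : Prop :=
  ∀ g ∈ K, g x = x → (∀ v, P.B x v = 0 → g v - v ∈ F ∙ x) → ∀ v, P.B x v = 0 → g v = v

/-- `NoLx` at all points -/
def NoL (P : PQ σ V) (K : Subgroup (V ≃ₗ[F] V)) : Prop := ∀ x, P.Sing x → x ≠ 0 → NoLx P K x

/-- no transvections -/
def NoT (P : PQ σ V) (K : Subgroup (V ≃ₗ[F] V)) : Prop :=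
  ∀ x, P.Sing x → x ≠ 0 → ∀ g ∈ K, (∀ v, P.B x v = 0 → g v = v) → g = 1

/-- the directions of the root elements of `K` with centre `x` -/
def Lam (P : PQ σ V) (K : Subgroup (V ≃ₗ[F] V)) (x : V) : AddSubgroup V where
  carrier := {a | P.B a x = 0 ∧ ∃ g ∈ K, g x = x ∧ (∀ v, P.B x v = 0 → g v = v + P.B a v • x) ∧
    ∀ v, P.B x v = 0 → g⁻¹ v = v - P.B a v • x}
  add_mem' := by
    rintro a b ⟨a0, g, hg, g1, g2, g3⟩ ⟨b0, h, hh, h1, h2, h3⟩
    have h4 : h⁻¹ x = x := h.injective (by rw [← LinearEquiv.mul_apply, mul_inv_cancel, h1]; rfl)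
    refine ⟨by rw [P.B_add_left, a0, b0, add_zero], g * h, mul_mem hg hh, by rw [LinearEquiv.mul_apply, h1, g1],
      fun v hv => ?_, fun v hv => ?_⟩
    · rw [LinearEquiv.mul_apply, h2 v hv, map_add, map_smul, g1, g2 v hv, P.B_add_left, add_smul, add_assoc]
    · rw [mul_inv_rev, LinearEquiv.mul_apply, g3 v hv, map_sub, map_smul, h4, h3 v hv, P.B_add_left, add_smul]
      abel
  zero_mem' := ⟨by simp, 1, one_mem K, rfl, fun v _ => by simp, fun v _ => by simp⟩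
  neg_mem' := by
    rintro a ⟨a0, g, hg, g1, g2, g3⟩
    refine ⟨by simp [a0], g⁻¹, inv_mem hg,
      g.injective (by rw [← LinearEquiv.mul_apply, mul_inv_cancel, g1]; rfl), fun v hv => ?_, fun v hv => ?_⟩
    · rw [g3 v hv]; simp [sub_eq_add_neg]
    · rw [inv_inv, g2 v hv]; simp

/-- `K` contains the involution which is `-1` on `h` and `1` on `h^⊥` -/
def Zh (P : PQ σ V) (K : Subgroup (V ≃ₗ[F] V)) (h : Submodule F V) : Prop :=
  ∃ g ∈ K, (∀ v ∈ h, g v = -v) ∧ ∀ v ∈ P.perp h, g v = v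

/-- the fixed vectors -/
def fixV (R : Subgroup (V ≃ₗ[F] V)) : Submodule F V where
  carrier := {v | ∀ g ∈ R, g v = v}
  add_mem' ha hb g hg := by rw [map_add, ha g hg, hb g hg]
  zero_mem' g _ := map_zero g
  smul_mem' c _ ha g hg := by rw [map_smul, ha g hg]

theorem mem_fixV {R : Subgroup (V ≃ₗ[F] V)} {v : V} : v ∈ fixV R ↔ ∀ g ∈ R, g v = v := Iff.rfl

/-- a non-degenerate subspace -/
def ND (P : PQ σ V) (W : Submodule F V) : Prop := Disjoint W (P.perp W)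

/-- a complement of `Y` in `Y^⊥`: a model of the residue -/
structure Res (P : PQ σ V) (Y : Submodule F V) where
  /-- the complement -/
  D : Submodule F V
  ts : P.TS Y
  dis : Disjoint Y D
  sup : Y ⊔ D = P.perp Y

namespace Res

variable {P : PQ σ V} {Y : Submodule F V} (r : Res P Y)

/-- the form on the residue -/
def P' : PQ σ r.D := P.restrict r.D

/-- from the residue to `V` -/
def up (Z : Submodule F r.D) : Submodule F V := Y ⊔ Z.map r.D.subtype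

/-- from `V` to the residue -/
def dn (U : Submodule F V) : Submodule F r.D := U.comap r.D.subtype

end Res

end CfsgLib.KP
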