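import Mathlib
import Cfsg.Agent.Lib.KP.Defs

/-! KP: the common tools. -/

set_option autoImplicit false
set_option linter.unusedSectionVars false

namespace CfsgLib.KP

open CfsgLib.CK CfsgLib.KL CfsgLib.Forms CfsgLib.ClMax Module

section Act

variable {G : Type*} [Group G] {X Y Z : Type*} [MulAction G X] [MulAction G Y] [MulAction G Z] [Finite X]
  {I H : Subgroup G} {A O : Set X} {B : Set Y} {same : Y → X → X → Prop} {f u : X → ℂ}

theorem ind_mem {x : X} (h : x ∈ O) : ind O x = 1 := if_pos h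

theorem ind_not {x : X} (h : x ∉ O) : ind O x = 0 := if_neg h

theorem ind_smul (hO : Inv H O) {g : G} (hg : g ∈ H) (x : X) : ind O (g • x) = ind O x := by
  by_cases h : x ∈ O
  · rw [ind_mem h, ind_mem (hO g hg x h)]
  · rw [ind_not h, ind_not fun k => h ((inv_iff hO hg).1 k)]

theorem sm_ind (S O : Set X) : sm S (ind O) = ((O ∩ S).ncard : ℂ) := by
  classical
  rw [sm_eq_sum]
  unfold ind
  rw [Finset.sum_ite, Finset.sum_const_zero, add_zero, Finset.sum_const, nsmul_eq_mul, mul_one, ← Set.ncard_coe_finset]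
  congr 2
  ext a
  simp [and_comm]

theorem sm_congr {S : Set X} {u v : X → ℂ} (h : ∀ x ∈ S, u x = v x) : sm S u = sm S v := finsum_mem_congr rfl h

theorem sm_const {S : Set X} {c : ℂ} (h : ∀ x ∈ S, u x = c) : sm S u = S.ncard * c := by
  rw [sm_eq_sum, Finset.sum_congr rfl fun x hx => h x ((Set.Finite.mem_toFinset _).1 hx), Finset.sum_const,
    nsmul_eq_mul, Set.ncard_eq_toFinset_card S]

theorem sm_eq_zero {S : Set X} (h : ∀ x ∈ S, u x = 0) : sm S u = 0 := by rw [sm_const h, mul_zero]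

theorem sm_union {S S' : Set X} (h : Disjoint S S') (u : X → ℂ) : sm (S ∪ S') u = sm S u + sm S' u :=
  finsum_mem_union h S.toFinite S'.toFinite

theorem sm_diff {S S' : Set X} (h : S' ⊆ S) (u : X → ℂ) : sm S u = sm S' u + sm (S \ S') u := by
  rw [← sm_union Set.disjoint_sdiff_right, Set.union_sdiff_cancel h]

/-- members with value zero may be dropped -/
theorem sm_sub {S S' : Set X} (h : S' ⊆ S) (h0 : ∀ x ∈ S, x ∉ S' → u x = 0) : sm S u = sm S' u := by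
  rw [sm_diff h, sm_eq_zero (S := S \ S') fun x hx => h0 x hx.1 hx.2, add_zero]

/-- interchange of two sums -/
theorem sm_comm [Finite Z] (S : Set Z) (A : Set X) (r : Z → X → Prop) (u : X → ℂ) :
    sm S (fun z => sm {x | x ∈ A ∧ r z x} u) = sm A fun x => ({z | z ∈ S ∧ r z x}.ncard : ℂ) * u x := by
  classical
  have h1 : ∀ z, sm {x | x ∈ A ∧ r z x} u = ∑ x ∈ A.toFinite.toFinset, if r z x then u x else 0 := fun z => by
    rw [sm_eq_sum, ← Finset.sum_filter]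
    congr 1
    ext x
    simp
  simp only [h1]
  rw [sm_eq_sum, sm_eq_sum, Finset.sum_comm]
  refine Finset.sum_congr rfl fun x _ => ?_
  rw [← Finset.sum_filter, Finset.sum_const, nsmul_eq_mul, ← Set.ncard_coe_finset]
  congr 3
  ext z
  simp

theorem EqI.sm {Q : Y → Set X} (hQ : EqI I Q) {g : G} (hg : g ∈ I) (y : Y) (f : X → ℂ) :
    sm (Q y) (fun x => f (g • x)) = sm (Q (g • y)) f :=
  finsum_mem_eq_of_bijOn (fun x => g • x) ⟨fun x hx => (hQ g hg y x).2 hx, (MulAction.injective g).injOn,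
    fun x hx => ⟨g⁻¹ • x, (hQ g hg y _).1 (by simpa using hx), smul_inv_smul g x⟩⟩ fun _ _ => rfl

theorem EqI.ncard {Q : Y → Set X} (hQ : EqI I Q) {g : G} (hg : g ∈ I) (y : Y) : (Q (g • y)).ncard = (Q y).ncard :=
  (Set.ncard_congr (fun x _ => g • x) (fun x hx => (hQ g hg y x).2 hx) (fun _ _ _ _ h => smul_left_cancel g h)
    fun x hx => ⟨g⁻¹ • x, (hQ g hg y _).1 (by simpa using hx), smul_inv_smul g x⟩).symm

/-- the counts are invariant -/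
theorem EqI.cnt_inv {Q : Y → Set X} (hQ : EqI I Q) (hO : Inv H O) {g : G} (hI : g ∈ I) (hg : g ∈ H) (y : Y) :
    (O ∩ Q (g • y)).ncard = (O ∩ Q y).ncard := by
  have h := hQ.sm hI y (ind O)
  simp only [ind_smul hO hg] at h
  rw [sm_ind, sm_ind] at h
  exact_mod_cast h.symm

/-- the sums of an invariant function are invariant -/
theorem EqI.sm_inv {Q : Y → Set X} (hQ : EqI I Q) {g : G} (hI : g ∈ I) {y : Y} (h : ∀ x ∈ Q y, f (g • x) = f x) :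
    KL.sm (Q (g • y)) f = KL.sm (Q y) f := (hQ.sm hI y f).symm.trans (sm_congr h)

theorem eqI_single {pt : Y → X} (h : ∀ g ∈ I, ∀ y, pt (g • y) = g • pt y) : EqI I fun y => {pt y} :=
  fun g hg y x => by simp [h g hg]

/-- a relation `Σ_{Q z} f = c + μ f (pt z)` over an invariant family passes to the admissible functions -/
theorem AdmF.fam {s : X → X → Prop} (h : AdmF I A f s u) {Q : Z → Set X} (hQ : EqI I Q) {pt : Z → X}
    (hp : ∀ g ∈ I, ∀ z, pt (g • z) = g • pt z) {W : Set Z} (hW : Inv I W) (s₁ : ∀ z ∈ W, Q z ⊆ A)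
    (s₂ : ∀ z ∈ W, pt z ∈ A) {c μ : ℂ} (hf : ∀ z ∈ W, sm (Q z) f = c + μ * f (pt z)) :
    ∀ z ∈ W, sm (Q z) u = μ * u (pt z) := fun z hz =>
  h.bal _ (s₁ z hz) _ (s₂ z hz) c μ fun g hg => by rw [hQ.sm hg, hf _ (hW g hg z hz), hp g hg]

/-- constant sums over an invariant family -/
theorem AdmF.fam0 {s : X → X → Prop} (h : AdmF I A f s u) {Q : Z → Set X} (hQ : EqI I Q) {W : Set Z} (hW : Inv I W)
    (s₁ : ∀ z ∈ W, Q z ⊆ A) {c : ℂ} (hf : ∀ z ∈ W, sm (Q z) f = c) : ∀ z ∈ W, sm (Q z) u = 0 := fun z hz => by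
  obtain h0 | ⟨x, hx⟩ := (Q z).eq_empty_or_nonempty
  · rw [h0, sm_empty]
  · simpa using h.bal _ (s₁ z hz) x (s₁ z hz hx) c 0 fun g hg => by rw [hQ.sm hg, hf _ (hW g hg z hz)]; simp

/-- a family over a set on which `H` is transitive -/
theorem AdmF.tr {s : X → X → Prop} (h : AdmF I A f s u) (hH : H ≤ I) (hf : ∀ g ∈ H, ∀ x ∈ A, f (g • x) = f x)
    {Q : Z → Set X} (hQ : EqI I Q) {W : Set Z} (hW : Inv I W) (ht : Tr H W) (s₁ : ∀ z ∈ W, Q z ⊆ A) :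
    ∀ z ∈ W, sm (Q z) u = 0 := fun z hz =>
  h.fam0 hQ hW s₁ (c := sm (Q z) f) (fun z' hz' => by
    obtain ⟨g, hg, rfl⟩ := ht z hz z' hz'
    exact hQ.sm_inv (hH hg) fun x hx => hf g hg x (s₁ z hz hx)) z hz

/-- the sum over `A` -/
theorem AdmF.all {s : X → X → Prop} (h : AdmF I A f s u) (hA : Inv I A) : sm A u = 0 :=
  h.fam0 (Z := X → X) (Q := fun _ => A) (fun _ hg _ _ => inv_iff hA hg) (W := Set.univ) (fun _ _ _ _ => trivial)
    (fun _ _ => subset_rfl) (fun _ _ => rfl) id trivial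

/-- the span property for the indicator function of a part -/
theorem SpanF.cnt (h : SpanF I H A B same) (hO : Part H A O) {k : ℕ} (Q : Fin k → Y → Set X)
    (s : ∀ i, ∀ y ∈ B, Q i y ⊆ A) (e : ∀ i, EqI I (Q i))
    (inj : ∀ y ∈ B, ∀ u, AdmF I A (ind O) (same y) u → (∀ i, sm (Q i y) u = 0) → ∀ x ∈ A, u x = 0)
    (hh : Y → ℂ) (hi : ∀ g ∈ H, ∀ y ∈ B, hh (g • y) = hh y) :
    ∃ (c₀ : ℂ) (c : Fin k → ℂ), ∀ y ∈ B, hh y = c₀ + ∑ i, c i * (O ∩ Q i y).ncard := by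
  obtain ⟨x, hx⟩ := hO.ne
  obtain ⟨x', hx', h'⟩ := hO.ne'
  simpa only [sm_ind] using h (ind O) (fun g hg x _ => ind_smul hO.inv hg x)
    ⟨x, hO.sub hx, x', hx', by rw [ind_mem hx, ind_not h']; exact one_ne_zero⟩ k Q s e inj hh hi

/-- the counts separate the orbits -/
theorem SpanF.orb (h : SpanF I H A B same) (hO : Part H A O) {k : ℕ} (Q : Fin k → Y → Set X)
    (s : ∀ i, ∀ y ∈ B, Q i y ⊆ A) (e : ∀ i, EqI I (Q i))
    (inj : ∀ y ∈ B, ∀ u, AdmF I A (ind O) (same y) u → (∀ i, sm (Q i y) u = 0) → ∀ x ∈ A, u x = 0)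
    {y y' : Y} (hy : y ∈ B) (hy' : y' ∈ B) (h1 : ∀ i, (O ∩ Q i y).ncard = (O ∩ Q i y').ncard) :
    ∃ g ∈ H, g • y = y' := by
  classical
  obtain ⟨c₀, c, hc⟩ := h.cnt hO Q s e inj (fun z => if z ∈ CK.orb H y then 1 else 0) fun g hg z _ => by
    simp only [inv_iff (inv_orb H y) hg]
  have a1 := hc y hy
  simp only [h1] at a1
  rw [← hc y' hy', if_pos ⟨1, one_mem H, one_smul G y⟩] at a1
  by_contra h3
  rw [if_neg (show y' ∉ CK.orb H y from h3)] at a1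
  exact one_ne_zero a1

theorem SpanF.q1 (h : SpanF I H A B same) (hO : Part H A O) {Q : Y → Set X} (s : ∀ y ∈ B, Q y ⊆ A) (e : EqI I Q)
    (inj : ∀ y ∈ B, ∀ u, AdmF I A (ind O) (same y) u → sm (Q y) u = 0 → ∀ x ∈ A, u x = 0)
    (hh : Y → ℂ) (hi : ∀ g ∈ H, ∀ y ∈ B, hh (g • y) = hh y) :
    ∃ c₀ c₁ : ℂ, ∀ y ∈ B, hh y = c₀ + c₁ * (O ∩ Q y).ncard := by
  obtain ⟨c₀, c, hc⟩ := h.cnt hO (k := 1) (fun _ => Q) (fun _ => s) (fun _ => e)
    (fun y hy u hu h1 => inj y hy u hu (h1 0)) hh hi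
  exact ⟨c₀, c 0, fun y hy => by simpa using hc y hy⟩

theorem SpanF.q2 (h : SpanF I H A B same) (hO : Part H A O) {Q₁ Q₂ : Y → Set X} (s₁ : ∀ y ∈ B, Q₁ y ⊆ A)
    (s₂ : ∀ y ∈ B, Q₂ y ⊆ A) (e₁ : EqI I Q₁) (e₂ : EqI I Q₂)
    (inj : ∀ y ∈ B, ∀ u, AdmF I A (ind O) (same y) u → sm (Q₁ y) u = 0 → sm (Q₂ y) u = 0 → ∀ x ∈ A, u x = 0)
    (hh : Y → ℂ) (hi : ∀ g ∈ H, ∀ y ∈ B, hh (g • y) = hh y) :
    ∃ c₀ c₁ c₂ : ℂ, ∀ y ∈ B, hh y = c₀ + c₁ * (O ∩ Q₁ y).ncard + c₂ * (O ∩ Q₂ y).ncard := by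
  obtain ⟨c₀, c, hc⟩ := h.cnt hO ![Q₁, Q₂] (Fin.forall_fin_two.2 ⟨s₁, s₂⟩) (Fin.forall_fin_two.2 ⟨e₁, e₂⟩)
    (fun y hy u hu h1 => inj y hy u hu (h1 0) (h1 1)) hh hi
  exact ⟨c₀, c 0, c 1, fun y hy => by simpa [add_assoc] using hc y hy⟩

theorem SpanF.q3 (h : SpanF I H A B same) (hO : Part H A O) {Q₁ Q₂ Q₃ : Y → Set X} (s₁ : ∀ y ∈ B, Q₁ y ⊆ A)
    (s₂ : ∀ y ∈ B, Q₂ y ⊆ A) (s₃ : ∀ y ∈ B, Q₃ y ⊆ A) (e₁ : EqI I Q₁) (e₂ : EqI I Q₂) (e₃ : EqI I Q₃)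
    (inj : ∀ y ∈ B, ∀ u, AdmF I A (ind O) (same y) u → sm (Q₁ y) u = 0 → sm (Q₂ y) u = 0 → sm (Q₃ y) u = 0 →
      ∀ x ∈ A, u x = 0) (hh : Y → ℂ) (hi : ∀ g ∈ H, ∀ y ∈ B, hh (g • y) = hh y) :
    ∃ c₀ c₁ c₂ c₃ : ℂ, ∀ y ∈ B,
      hh y = c₀ + c₁ * (O ∩ Q₁ y).ncard + c₂ * (O ∩ Q₂ y).ncard + c₃ * (O ∩ Q₃ y).ncard := by
  obtain ⟨c₀, c, hc⟩ := h.cnt hO ![Q₁, Q₂, Q₃] (fun i => by fin_cases i <;> assumption)
    (fun i => by fin_cases i <;> assumption) (fun y hy u hu h1 => inj y hy u hu (h1 0) (h1 1) (h1 2)) hh hi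
  exact ⟨c₀, c 0, c 1, c 2, fun y hy => by simpa [add_assoc, Fin.sum_univ_three] using hc y hy⟩

/-- a function whose square is affine in it takes at most two values -/
theorem two_val {n : Y → ℕ} {c₀ c₁ : ℂ} (hc : ∀ y ∈ B, (n y : ℂ) ^ 2 = c₀ + c₁ * n y) :
    ∃ a b : ℕ, ∀ y ∈ B, n y = a ∨ n y = b := by
  by_contra! h1
  obtain ⟨y, hy, -⟩ := h1 0 0
  obtain ⟨y', hy', h2, -⟩ := h1 (n y) 0
  obtain ⟨y'', hy'', h3, h4⟩ := h1 (n y) (n y')
  have b2 : (n y' : ℂ) - n y ≠ 0 := sub_ne_zero.2 (by exact_mod_cast h2)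
  have b3 : (n y'' : ℂ) - n y ≠ 0 := sub_ne_zero.2 (by exact_mod_cast h3)
  have b4 : (n y'' : ℂ) - n y' ≠ 0 := sub_ne_zero.2 (by exact_mod_cast h4)
  refine mul_ne_zero (mul_ne_zero b2 b3) b4 ?_
  linear_combination ((n y'' : ℂ) - n y') * hc y hy - ((n y'' : ℂ) - n y) * hc y' hy' + ((n y' : ℂ) - n y) * hc y'' hy''

/-- a marked element and one count: the count is constant on the marked or on the unmarked flags -/
theorem dich_val {pt : Y → X} {n : Y → ℕ} {c₀ c₁ c₂ : ℂ}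
    (hc : ∀ y ∈ B, ind O (pt y) * n y = c₀ + c₁ * ind O (pt y) + c₂ * n y) :
    (∃ k, ∀ y ∈ B, pt y ∈ O → n y = k) ∨ ∃ k, ∀ y ∈ B, pt y ∉ O → n y = k := by
  by_contra! h1
  obtain ⟨h1, h2⟩ := h1
  obtain ⟨y, hy, a1, -⟩ := h1 0
  obtain ⟨y', hy', a2, a3⟩ := h1 (n y)
  obtain ⟨z, hz, a4, -⟩ := h2 0
  obtain ⟨z', hz', a5, a6⟩ := h2 (n z)
  have b1 := hc y hy
  have b2 := hc y' hy'
  have b3 := hc z hz
  have b4 := hc z' hz'
  rw [ind_mem a1] at b1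
  rw [ind_mem a2] at b2
  rw [ind_not a4] at b3
  rw [ind_not a5] at b4
  have d1 : (n y' : ℂ) - n y ≠ 0 := sub_ne_zero.2 (by exact_mod_cast a3)
  have d2 : (n z' : ℂ) - n z ≠ 0 := sub_ne_zero.2 (by exact_mod_cast a6)
  refine mul_ne_zero d1 d2 ?_
  linear_combination ((n z' : ℂ) - n z) * (b2 - b1) - ((n y' : ℂ) - n y) * (b4 - b3)

theorem ncard_inter_single' (O : Set X) (x : X) : ((O ∩ {x}).ncard : ℂ) = ind O x := by
  rw [← sm_ind, sm_single]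

end Act

variable {F : Type*} [Field F] [Finite F] {σ : F →+* F} {V : Type*} [AddCommGroup V] [Module F V] [Finite V]
  {P : PQ σ V} {q : ℕ} {K : Subgroup (V ≃ₗ[F] V)} {g : V ≃ₗ[F] V} {C : Set (Submodule F V)}
  {x l m m' U W Y : Submodule F V} {y y' : Submodule F V × Submodule F V × Submodule F V}

instance finite_sub : Finite (Submodule F V) := Finite.of_injective _ SetLike.coe_injective

instance finite_gl : Finite (V ≃ₗ[F] V) := Finite.of_injective (fun g : V ≃ₗ[F] V => (g : V → V)) DFunLike.coe_injective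

theorem G0_le (P : PQ σ V) : G0 P ≤ P.isom := inf_le_left

theorem Sub.le' (h : Sub P q K) : K ≤ P.isom := h.le.trans (G0_le P)

theorem Lv.tb (h : Lv P q K C) : Tb P q K := ⟨h.toSub, h.tr⟩

theorem smul_perp (hg : g ∈ P.isom) (U : Submodule F V) : g • P.perp U = P.perp (g • U) := PQ.IsIso.map_perp hg U

theorem smul_le (g : V ≃ₗ[F] V) : g • U ≤ g • W ↔ U ≤ W := (lin F V).smul_le_iff g

theorem smul_le_perp (hg : g ∈ P.isom) : g • U ≤ P.perp (g • W) ↔ U ≤ P.perp W := by rw [← smul_perp hg, smul_le]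

theorem smul_sup' (g : V ≃ₗ[F] V) (U W : Submodule F V) : g • (U ⊔ W) = g • U ⊔ g • W := (lin F V).smul_sup g U W

theorem smul_inf'' (g : V ≃ₗ[F] V) (U W : Submodule F V) : g • (U ⊓ W) = g • U ⊓ g • W := (lin F V).smul_inf g U W

theorem smul_bot'' (g : V ≃ₗ[F] V) : g • (⊥ : Submodule F V) = ⊥ := (lin F V).smul_bot g

theorem ts_smul (hg : g ∈ P.isom) : P.TS (g • U) ↔ P.TS U :=
  ⟨fun h => by simpa using (show P.TS (g⁻¹ • g • U) from h.map (g := (g⁻¹ : V ≃ₗ[F] V)) (inv_mem hg)),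
    fun h => h.map (g := (g : V →ₗ[F] V)) hg⟩

theorem smul_T (hg : g ∈ P.isom) {k : ℕ} : g • U ∈ T P k ↔ U ∈ T P k := by
  simp only [T, Set.mem_ofPred_eq, ts_smul hg, finrank_smul]

theorem smul_Pt (hg : g ∈ P.isom) : g • U ∈ Pt P (g • Y) ↔ U ∈ Pt P Y := by
  simp only [Pt, Set.mem_ofPred_eq, ts_smul hg, finrank_smul, smul_le]

theorem smul_T2 (hg : g ∈ P.isom) {a b : ℕ} {z : Submodule F V × Submodule F V} : g • z ∈ T2 P a b ↔ z ∈ T2 P a b := by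
  simp only [T2, Set.mem_ofPred_eq, Prod.smul_fst, Prod.smul_snd, smul_T hg, smul_le]

theorem smul_T3 (hg : g ∈ P.isom) {a b c : ℕ} : g • y ∈ T3 P a b c ↔ y ∈ T3 P a b c := by
  simp only [T3, Set.mem_ofPred_eq, Prod.smul_fst, Prod.smul_snd, smul_T hg, smul_le]

theorem smul_nb (hg : g ∈ P.isom) : g • m ∈ nb P (g • l) ↔ m ∈ nb P l := by
  simp only [nb, Set.mem_ofPred_eq, smul_T hg, smul_le_perp hg, ← smul_inf'']
  rw [← smul_bot'' g, (MulAction.injective g).ne_iff, smul_bot'']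

theorem inv_T (P : PQ σ V) (k : ℕ) : Inv P.isom (T P k) := fun _ hg _ h => (smul_T hg).2 h

theorem inv_T2 (P : PQ σ V) (a b : ℕ) : Inv P.isom (T2 P a b) := fun _ hg _ h => (smul_T2 hg).2 h

theorem inv_T3 (P : PQ σ V) (a b c : ℕ) : Inv P.isom (T3 P a b c) := fun _ hg _ h => (smul_T3 hg).2 h

theorem inv_Pt (hK : K ≤ P.isom) (hY : Fx K Y) : Inv K (Pt P Y) := fun g hg _ h => by
  rw [← hY g hg]; exact (smul_Pt (hK hg)).2 h

theorem pt_bot (P : PQ σ V) : Pt P ⊥ = T P 1 := by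
  ext Z; simp [Pt, T]

theorem pt_eq_thru {k : ℕ} (hY : finrank F Y = k) : Pt P Y = thru (T P (k + 1)) Y := by
  ext Z; simp only [Pt, T, thru, Set.mem_ofPred_eq, hY]; tauto

theorem T.mono {k j : ℕ} (h : U ∈ T P k) (hW : W ≤ U) (hj : finrank F W = j) : W ∈ T P j := ⟨h.1.mono hW, hj⟩

theorem T.le_perp {k : ℕ} (h : U ∈ T P k) (h1 : x ≤ U) (h2 : W ≤ U) : x ≤ P.perp W :=
  h1.trans (h.1.2.trans (P.perp_anti h2))

theorem cnt_eq (C : Set (Submodule F V)) (W : Submodule F V) : cnt C W = (ins C W).ncard := rfl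

theorem inter_ins {A : Set (Submodule F V)} (h : C ⊆ A) (W : Submodule F V) : C ∩ ins A W = ins C W :=
  Set.ext fun _ => ⟨fun k => ⟨k.1, k.2.2⟩, fun k => ⟨k.1, h k.1, k.2⟩⟩

theorem inter_ins_thru {A : Set (Submodule F V)} (h : C ⊆ A) (x W : Submodule F V) :
    C ∩ ins (thru A x) W = ins (thru C x) W :=
  Set.ext fun _ => ⟨fun k => ⟨⟨k.1, k.2.1.2⟩, k.2.2⟩, fun k => ⟨k.1.1, ⟨h k.1.1, k.1.2⟩, k.2⟩⟩

theorem smul_thru (hC : Inv K C) (hg : g ∈ K) : g • m ∈ thru C (g • x) ↔ m ∈ thru C x := by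
  simp only [thru, Set.mem_ofPred_eq, inv_iff hC hg, smul_le]

theorem cnt_smul {C' : Set (Submodule F V)} (h : ∀ m, g • m ∈ C' ↔ m ∈ C) (W : Submodule F V) :
    cnt C' (g • W) = cnt C W :=
  (Set.ncard_congr (s := ins C W) (t := ins C' (g • W)) (fun x _ => g • x)
    (fun x hx => ⟨(h x).2 hx.1, (smul_le g).2 hx.2⟩)
    (fun _ _ _ _ h => smul_left_cancel g h) fun x hx => ⟨g⁻¹ • x, ⟨(h _).1 (by simpa using hx.1),
      (smul_le g).1 (by simpa using hx.2)⟩, smul_inv_smul g x⟩).symm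

theorem cnt_inv (hC : Inv K C) (hg : g ∈ K) (W : Submodule F V) : cnt C (g • W) = cnt C W :=
  cnt_smul (fun _ => inv_iff hC hg) W

theorem cnt_thru_inv (hC : Inv K C) (hg : g ∈ K) (x W : Submodule F V) :
    cnt (thru C (g • x)) (g • W) = cnt (thru C x) W := cnt_smul (fun _ => smul_thru hC hg) W

theorem eta_inv (hK : K ≤ P.isom) (hC : Inv K C) (hg : g ∈ K) (x l : Submodule F V) :
    eta P C (g • x) (g • l) = eta P C x l := by
  rw [eta, ← smul_perp (hK hg), cnt_thru_inv hC hg, eta]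

section EqI

variable {Z : Type*} [MulAction (V ≃ₗ[F] V) Z] {a b : Z → Submodule F V}

theorem eqI_ins (P : PQ σ V) (k : ℕ) (ha : ∀ g ∈ P.isom, ∀ z, a (g • z) = g • a z) :
    EqI P.isom fun z => ins (T P k) (a z) := fun g hg z x => by
  simp only [ins, Set.mem_ofPred_eq, ha g hg, smul_T hg, smul_le]

theorem eqI_thru (P : PQ σ V) (k : ℕ) (ha : ∀ g ∈ P.isom, ∀ z, a (g • z) = g • a z) :
    EqI P.isom fun z => thru (T P k) (a z) := fun g hg z x => by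
  simp only [thru, Set.mem_ofPred_eq, ha g hg, smul_T hg, smul_le]

theorem eqI_ins_thru (P : PQ σ V) (k : ℕ) (ha : ∀ g ∈ P.isom, ∀ z, a (g • z) = g • a z)
    (hb : ∀ g ∈ P.isom, ∀ z, b (g • z) = g • b z) : EqI P.isom fun z => ins (thru (T P k) (a z)) (b z) :=
  fun g hg z x => by simp only [ins, thru, Set.mem_ofPred_eq, ha g hg, hb g hg, smul_T hg, smul_le]

theorem eqv_perp (P : PQ σ V) (ha : ∀ g ∈ P.isom, ∀ z, a (g • z) = g • a z) :
    ∀ g ∈ P.isom, ∀ z, P.perp (a (g • z)) = g • P.perp (a z) := fun g hg z => by rw [ha g hg, smul_perp hg]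

theorem eqI_nb (P : PQ σ V) : EqI P.isom (nb P) := fun _ hg _ _ => smul_nb hg

end EqI

theorem dims_of_inf (h1 : y.1 ≤ y.2.1) (h2 : y.2.1 ≤ y.2.2) (h : m ⊓ y.2.2 = m' ⊓ y.2.2) : dims y m = dims y m' := by
  have k : ∀ a ≤ y.2.2, m ⊓ a = m' ⊓ a := fun a ha => by
    rw [← inf_eq_right.2 ha, ← inf_assoc, h, inf_assoc]
  rw [dims, k _ (h1.trans h2), k _ h2, h, dims]

/-- the position only depends on the traces of `m`, `m^⊥` on the top member -/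
theorem same1_of_inf (h1 : y.1 ≤ y.2.1) (h2 : y.2.1 ≤ y.2.2) (h : m ⊓ y.2.2 = m' ⊓ y.2.2)
    (h' : P.perp m ⊓ y.2.2 = P.perp m' ⊓ y.2.2) : same1 P y m m' := ⟨dims_of_inf h1 h2 h, dims_of_inf h1 h2 h'⟩

theorem dims_smul (g : V ≃ₗ[F] V) (y : Submodule F V × Submodule F V × Submodule F V) (m : Submodule F V) :
    dims (g • y) (g • m) = dims y m := by
  have k : ∀ a, finrank F ↥(g • m ⊓ g • a) = finrank F ↥(m ⊓ a) := fun a => by rw [← smul_inf'', finrank_smul]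
  exact Prod.ext (k _) (Prod.ext (k _) (k _))

theorem same1_smul (hg : g ∈ P.isom) (hy : g • y = y) (m : Submodule F V) : same1 P y (g • m) m :=
  ⟨by conv_lhs => rw [← hy, dims_smul], by conv_lhs => rw [← smul_perp hg, ← hy, dims_smul]⟩

theorem PosInv.smul {a : ℕ} {u : Submodule F V → ℂ} (h : PosInv P a y u) (hg : g ∈ P.isom) (hy : g • y = y)
    (hm : m ∈ T P a) : u (g • m) = u m := h _ ((smul_T hg).2 hm) _ hm (same1_smul hg hy m)

theorem Pol.sing_iff (h : Pol P q) {v : V} : P.Sing v ↔ P.B v v = 0 :=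
  ⟨fun k => k.self_eq, fun k => h.mx _ (by rw [← P.self, k])⟩

theorem Pol.ts_iff (h : Pol P q) : P.TS U ↔ U ≤ P.perp U :=
  ⟨fun k => k.2, fun k => ⟨fun w hw => h.sing_iff.2 (k hw w hw), k⟩⟩

theorem Pol.isIso_iff (h : Pol P q) (f : V → V) : P.IsIso f ↔ ∀ v w, P.B (f v) (f w) = P.B v w :=
  ⟨fun k => k.B_eq, fun k => ⟨k, fun v => h.mx _ (by
    have h1 := P.self (f v)
    rw [k, P.self] at h1
    rw [map_sub]
    linear_combination -h1)⟩⟩

theorem Pol.q_le (h : Pol P q) : q ≤ Nat.card F := by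
  rcases h.kind with k | k
  · exact k.2.ge
  · rw [k.2, sq]; exact Nat.le_mul_self q

theorem Pol.three_le (h : Pol P q) : 3 ≤ Nat.card F := h.three.trans h.q_le

theorem Pol.restrict (h : Pol P q) (hW : ND P W) : Pol (P.restrict W) q where
  nd := (P.restrict_nondeg_iff).2 hW
  mx := h.mx
  cq := h.cq
  σq := h.σq
  three := h.three
  kind := h.kind.imp (fun k => ⟨⟨k.1.σ_eq, k.1.ε_eq, k.1.two⟩, k.2⟩) fun k => ⟨k.1.restrict W, k.2⟩

theorem IsSp.sing (h : IsSp P) (hP : Pol P q) (v : V) : P.Sing v := hP.mx _ (by rw [h.σ_eq, h.ε_eq]; ring)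

theorem IsSp.not_herm (h : IsSp P) : ¬ P.IsHerm := fun k => k.σ_ne (RingHom.ext h.σ_eq)

theorem Pol.card_sp (h : Pol P q) (k : IsSp P) : Nat.card F = q :=
  h.kind.elim (·.2) fun k' => (k.not_herm k'.1).elim

theorem Pol.card_herm (h : Pol P q) (k : P.IsHerm) : Nat.card F = q ^ 2 :=
  h.kind.elim (fun k' => (k'.1.not_herm k).elim) (·.2)

theorem span_mem_T {v : V} (hv : P.Sing v) (h0 : v ≠ 0) : (F ∙ v) ∈ T P 1 :=
  ⟨P.ts_span_singleton hv, finrank_span_singleton h0⟩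

theorem T.exists_vec (h : x ∈ T P 1) : ∃ v, P.Sing v ∧ v ≠ 0 ∧ x = F ∙ v := by
  obtain ⟨v, h0, rfl⟩ := exists_of_rk (F := F) (V := V) (x := x) ((lin_rk x).trans h.2)
  exact ⟨v, h.1.1 v (Submodule.mem_span_singleton_self v), h0, rfl⟩

theorem Lv.compl (h : Lv P q K C) : Lv P q K (T P 2 \ C) where
  toHyp := h.toHyp
  tr := h.tr
  part := h.part.compl ((inv_T P 2).mono h.le')
  t0 := h.t1
  t1 := by rw [Set.sdiff_sdiff_cancel_left h.part.sub]; exact h.t0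

end CfsgLib.KP
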