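import Mathlib
import Cfsg.Agent.Lib.KP.Base

/-! KP: residues (plans/KP.md, package RES). -/

set_option autoImplicit false
set_option linter.unusedSectionVars false

namespace CfsgLib.KP

open CfsgLib.CK CfsgLib.KL CfsgLib.Forms CfsgLib.RootMax CfsgLib.ClMax CfsgLib.Tech Module

variable {F : Type*} [Field F] [Finite F] {σ : F →+* F} {V : Type*} [AddCommGroup V] [Module F V] [Finite V]
  {P : PQ σ V} {q : ℕ} {K : Subgroup (V ≃ₗ[F] V)} {C : Set (Submodule F V)}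

variable {Y U : Submodule F V}

theorem exists_res (hY : P.TS Y) : Nonempty (Res P Y) := by
  obtain ⟨E, hE⟩ := Submodule.exists_isCompl Y
  refine ⟨⟨E ⊓ P.perp Y, hY, hE.disjoint.mono_right inf_le_left, ?_⟩⟩
  rw [← sup_inf_assoc_of_le E hY.2, hE.sup_eq_top, top_inf_eq]

namespace Res

variable (r : Res P Y) {Z Z' : Submodule F r.D}

theorem D_le : r.D ≤ P.perp Y := r.sup ▸ le_sup_right

theorem orth {y : V} (hy : y ∈ Y) (d : r.D) : P.B y d = 0 := r.D_le d.2 y hy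

theorem orth' {y : V} (hy : y ∈ Y) (d : r.D) : P.B d y = 0 := P.B_eq_zero_comm.1 (r.orth hy d)

theorem decomp {v : V} (hv : v ∈ P.perp Y) : ∃ y ∈ Y, ∃ d : r.D, v = y + d := by
  rw [← r.sup, Submodule.mem_sup] at hv
  obtain ⟨y, hy, d, hd, rfl⟩ := hv
  exact ⟨y, hy, ⟨d, hd⟩, rfl⟩

theorem eq_of_sub {d d' : r.D} (h : (d : V) - d' ∈ Y) : d = d' :=
  Subtype.ext (sub_eq_zero.1 (Submodule.disjoint_def.1 r.dis _ h (r.D.sub_mem d.2 d'.2)))

theorem mem_up {v : V} : v ∈ r.up Z ↔ ∃ y ∈ Y, ∃ d ∈ Z, v = y + (d : V) := by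
  rw [up, Submodule.mem_sup]
  exact ⟨fun ⟨y, hy, _, ⟨d, hd, e⟩, h⟩ => ⟨y, hy, d, hd, by rw [← h, ← e]; rfl⟩,
    fun ⟨y, hy, d, hd, h⟩ => ⟨y, hy, d, ⟨d, hd, rfl⟩, h.symm⟩⟩

theorem B_add {y y' : V} (hy : y ∈ Y) (hy' : y' ∈ Y) (d d' : r.D) : P.B (y + d) (y' + d') = P.B d d' := by
  rw [P.B_add_left, P.B_add_right, P.B_add_right, r.ts.B_eq hy hy', r.orth hy, r.orth' hy']
  simp

theorem N_add {y : V} (hy : y ∈ Y) (d : r.D) : P.N (y + d) - P.N d ∈ P.Λ := by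
  have := add_mem (P.N_add y d) (r.ts.1 y hy)
  rw [r.orth hy] at this
  convert this using 1
  ring

theorem nd (h : P.Nondeg) : ND P r.D := Submodule.disjoint_def.2 fun v hv hv' =>
  Submodule.disjoint_def.1 r.dis v (by
    rw [← P.perp_perp h Y, ← r.sup, P.perp_sup]
    exact ⟨r.D_le hv, hv'⟩) hv

theorem pol (h : Pol P q) : Pol r.P' q := h.restrict (r.nd h.nd)

theorem herm (h : P.IsHerm) : r.P'.IsHerm := h.restrict r.D

theorem sp (h : IsSp P) : IsSp r.P' := ⟨h.σ_eq, h.ε_eq, h.two⟩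

theorem B_eq (v w : r.D) : r.P'.B v w = P.B v w := rfl

theorem finrank_D (h : P.Nondeg) : finrank F r.D + 2 * finrank F Y = finrank F V := by
  have h1 := P.finrank_perp h Y
  have h2 := Submodule.finrank_sup_add_finrank_inf_eq Y r.D
  rw [r.sup, r.dis.eq_bot, finrank_bot] at h2
  omega

theorem le_up (Z : Submodule F r.D) : Y ≤ r.up Z := le_sup_left

theorem up_le_perp (Z : Submodule F r.D) : r.up Z ≤ P.perp Y :=
  sup_le r.ts.2 ((Submodule.map_subtype_le _ _).trans r.D_le)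

theorem coe_mem_up {v : r.D} : (v : V) ∈ r.up Z ↔ v ∈ Z := by
  rw [mem_up]
  refine ⟨fun ⟨y, hy, d, hd, h⟩ => ?_, fun h => ⟨0, zero_mem _, v, h, (zero_add _).symm⟩⟩
  rwa [r.eq_of_sub (d := v) (d' := d) (by rwa [h, add_sub_cancel_right])]

theorem dn_up (Z : Submodule F r.D) : r.dn (r.up Z) = Z := Submodule.ext fun _ => r.coe_mem_up

theorem up_dn (h1 : Y ≤ U) (h2 : U ≤ P.perp Y) : r.up (r.dn U) = U := by
  rw [up, dn, Submodule.map_comap_subtype, ← sup_inf_assoc_of_le _ h1, r.sup, inf_eq_right.2 h2]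

theorem up_le_up : r.up Z ≤ r.up Z' ↔ Z ≤ Z' :=
  ⟨fun h _ hv => r.coe_mem_up.1 (h (r.coe_mem_up.2 hv)), fun h => sup_le_sup_left (Submodule.map_mono h) _⟩

theorem up_inj : Function.Injective r.up := fun _ _ h =>
  le_antisymm (r.up_le_up.1 h.le) (r.up_le_up.1 h.ge)

theorem up_bot : r.up ⊥ = Y := by rw [up, Submodule.map_bot, sup_bot_eq]

theorem up_top : r.up ⊤ = P.perp Y := by rw [up, Submodule.map_subtype_top, r.sup]

theorem up_sup (Z Z' : Submodule F r.D) : r.up (Z ⊔ Z') = r.up Z ⊔ r.up Z' := by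
  rw [up, up, up, Submodule.map_sup, sup_sup_distrib_left]

theorem up_inf (Z Z' : Submodule F r.D) : r.up (Z ⊓ Z') = r.up Z ⊓ r.up Z' := by
  rw [← r.up_dn (le_inf (r.le_up Z) (r.le_up Z')) (inf_le_left.trans (r.up_le_perp Z))]
  congr 1
  rw [dn, Submodule.comap_inf, ← dn, ← dn, dn_up, dn_up]

theorem up_span (v : r.D) : r.up (F ∙ v) = Y ⊔ F ∙ (v : V) := by
  rw [up, Submodule.map_span, Set.image_singleton]
  rfl

theorem finrank_up (Z : Submodule F r.D) : finrank F (r.up Z) = finrank F Y + finrank F Z := by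
  have h2 := Submodule.finrank_sup_add_finrank_inf_eq Y (Z.map r.D.subtype)
  rwa [(r.dis.mono_right (Submodule.map_subtype_le _ _)).eq_bot, finrank_bot, add_zero,
    Submodule.finrank_map_subtype_eq] at h2

theorem ts_up : P.TS (r.up Z) ↔ r.P'.TS Z := by
  refine ⟨fun h => ⟨fun w hw => h.1 w (r.coe_mem_up.2 hw), fun v hv w hw =>
    h.B_eq (r.coe_mem_up.2 hw) (r.coe_mem_up.2 hv)⟩, fun h => r.ts.sup ⟨?_, ?_⟩
      ((Submodule.map_subtype_le _ _).trans r.D_le)⟩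
  · rintro _ ⟨w, hw, rfl⟩
    exact h.1 w hw
  · rintro _ ⟨v, hv, rfl⟩ _ ⟨w, hw, rfl⟩
    exact h.B_eq hw hv

theorem up_perp (Z : Submodule F r.D) : r.up (r.P'.perp Z) = P.perp (r.up Z) := by
  refine le_antisymm (fun v hv w hw => ?_) fun v hv => ?_
  · obtain ⟨y, hy, d, hd, rfl⟩ := r.mem_up.1 hv
    obtain ⟨y', hy', d', hd', rfl⟩ := r.mem_up.1 hw
    rw [r.B_add hy' hy]
    exact hd d' hd'
  · obtain ⟨y, hy, d, rfl⟩ := r.decomp (P.perp_anti (r.le_up Z) hv)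
    refine r.mem_up.2 ⟨y, hy, d, fun w hw => ?_, rfl⟩
    have := hv w (r.coe_mem_up.2 hw)
    rwa [P.B_add_right, r.orth' hy, zero_add] at this

theorem up_mem_T {k : ℕ} : r.up Z ∈ T P (finrank F Y + k) ↔ Z ∈ T r.P' k := by
  simp only [T, Set.mem_ofPred_eq, ts_up, finrank_up, add_right_inj]

theorem up_mem_Pt : r.up Z ∈ Pt P (r.up Z') ↔ Z ∈ Pt r.P' Z' := by
  simp only [Pt, Set.mem_ofPred_eq, ts_up, finrank_up, up_le_up, add_assoc, add_right_inj]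

theorem up_mem_Pt' : r.up Z ∈ Pt P Y ↔ Z ∈ T r.P' 1 := by
  rw [← pt_bot, ← up_mem_Pt, up_bot]

theorem exists_up (hU : P.TS U) (h : Y ≤ U) : ∃ Z, r.up Z = U :=
  ⟨_, r.up_dn h (hU.2.trans (P.perp_anti h))⟩

theorem ncard_pre {R : Set (Submodule F V)} (hR : ∀ U ∈ R, Y ≤ U ∧ U ≤ P.perp Y) :
    (r.up ⁻¹' R).ncard = R.ncard :=
  Set.ncard_preimage_of_injective_subset_range r.up_inj fun U hU => ⟨_, r.up_dn (hR U hU).1 (hR U hU).2⟩

theorem cnt_pre {R : Set (Submodule F V)} (hR : ∀ U ∈ R, Y ≤ U ∧ U ≤ P.perp Y) (Z : Submodule F r.D) :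
    cnt (r.up ⁻¹' R) Z = cnt R (r.up Z) := by
  rw [cnt, cnt, ← r.ncard_pre (R := {e | e ∈ R ∧ e ≤ r.up Z}) fun U hU => hR U hU.1]
  congr 1
  ext W
  simp only [Set.mem_ofPred_eq, Set.mem_preimage, up_le_up]

theorem pt_bounds (hU : U ∈ Pt P Y) : Y ≤ U ∧ U ≤ P.perp Y := ⟨hU.2.1, hU.1.2.trans (P.perp_anti hU.2.1)⟩

theorem up_mem_Pt'' : r.up Z ∈ Pt P Y ↔ Z ∈ Pt r.P' ⊥ := by rw [up_mem_Pt', pt_bot]

theorem intr {R : Set (Submodule F V)} {h₁ h₂ : ℕ} (h : Intr P Y R h₁ h₂) : Intr r.P' ⊥ (r.up ⁻¹' R) h₁ h₂ := by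
  have hR : ∀ U ∈ R, Y ≤ U ∧ U ≤ P.perp Y := fun U hU => pt_bounds (h.sub hU)
  refine ⟨r.P'.ts_bot, fun Z hZ => r.up_mem_Pt''.1 (h.sub hZ), ?_, ?_, fun Z hZ => ?_, fun Z hZ hZ' => ?_⟩
  · obtain ⟨U, hU⟩ := h.ne
    exact ⟨r.dn U, by rwa [Set.mem_preimage, r.up_dn (hR U hU).1 (hR U hU).2]⟩
  · obtain ⟨U, hU, hU'⟩ := h.ne'
    obtain ⟨Z, rfl⟩ := r.exists_up hU.1 hU.2.1
    exact ⟨Z, r.up_mem_Pt''.1 hU, hU'⟩
  · rw [r.cnt_pre hR, up_perp, h.h1 _ hZ]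
  · rw [r.cnt_pre hR, up_perp, h.h2 _ (r.up_mem_Pt''.2 hZ) hZ']

theorem gh {R : Set (Submodule F V)} (h : GH P Y R) : GH r.P' ⊥ (r.up ⁻¹' R) := by
  refine ⟨r.P'.ts_bot, fun Z hZ => r.up_mem_Pt''.1 (h.sub hZ), ?_, fun E hE _ hd => ?_,
    fun Z hZ Z' hZ' hne hp Z'' hZ'' hle => ?_⟩
  · obtain ⟨U, hU, hU'⟩ := h.ne'
    obtain ⟨Z, rfl⟩ := r.exists_up hU.1 hU.2.1
    exact ⟨Z, r.up_mem_Pt''.1 hU, hU'⟩
  · obtain ⟨U, hU, hU'⟩ := h.meet (r.up E) (r.ts_up.2 hE) (r.le_up E) (by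
      rw [finrank_up, hd, finrank_bot, zero_add])
    obtain ⟨Z, rfl⟩ := r.exists_up (h.sub hU).1 (h.sub hU).2.1
    exact ⟨Z, hU, r.up_le_up.1 hU'⟩
  · exact h.cl _ hZ _ hZ' (r.up_inj.ne hne) (r.up_perp Z ▸ r.up_le_up.2 hp) _ (r.up_mem_Pt''.2 hZ'')
      (r.up_sup Z Z' ▸ r.up_le_up.2 hle)

/-- the action on the residue -/
theorem exists_hom (hK : K ≤ P.isom) (hY : Fx K Y) : ∃ φ : K →* (r.D ≃ₗ[F] r.D), (∀ g, φ g ∈ r.P'.isom) ∧
    (∀ (g : K) (v : r.D), g.1 v - φ g v ∈ Y) ∧ ∀ (g : K) Z, r.up (φ g • Z) = g.1 • r.up Z := by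
  have fY : ∀ (g : K), ∀ y ∈ Y, g.1 y ∈ Y := fun g y hy => apply_mem_of_smul_eq (hY g g.2) hy
  have ex : ∀ (g : K) (v : r.D), ∃ d : r.D, g.1 v - d ∈ Y := fun g v => by
    obtain ⟨y, hy, d, e⟩ := r.decomp (v := g.1 v)
      (apply_mem_of_smul_eq (by rw [smul_perp (hK g.2), hY g g.2]) (r.D_le v.2))
    exact ⟨d, by rwa [e, add_sub_cancel_right]⟩
  choose f hf using ex
  have un : ∀ (g : K) (v d : r.D), g.1 v - d ∈ Y → f g v = d := fun g v d h => r.eq_of_sub (by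
    have := Y.sub_mem h (hf g v)
    rwa [sub_sub_sub_cancel_left] at this)
  let L : K → Module.End F r.D := fun g =>
    { toFun := f g
      map_add' := fun v w => un g _ _ (by
        have := Y.add_mem (hf g v) (hf g w)
        rwa [sub_add_sub_comm, ← map_add] at this)
      map_smul' := fun c v => un g _ _ (by
        have := Y.smul_mem c (hf g v)
        rwa [smul_sub, ← map_smul] at this) }
  let Φ : K →* Module.End F r.D :=
    { toFun := L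
      map_one' := LinearMap.ext fun v => un 1 v v (by simp)
      map_mul' := fun g h => LinearMap.ext fun v => un (g * h) v _ (by
        have := Y.add_mem (fY g _ (hf h v)) (hf g (f h v))
        rwa [map_sub, sub_add_sub_cancel] at this) }
  let φ : K →* (r.D ≃ₗ[F] r.D) :=
    (LinearMap.GeneralLinearGroup.generalLinearEquiv F r.D).toMonoidHom.comp Φ.toHomUnits
  have h2 : ∀ (g : K) (v : r.D), g.1 v - φ g v ∈ Y := hf
  have h3 : ∀ (g : K) (v : r.D), g.1 v = (g.1 v - φ g v) + φ g v := fun g v => (sub_add_cancel _ _).symm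
  have le : ∀ (g : K) Z, g.1 • r.up Z ≤ r.up (φ g • Z) := fun g Z v hv => by
    obtain ⟨y, hy, d, hd, e⟩ := r.mem_up.1 (mem_smul.1 hv)
    refine r.mem_up.2 ⟨g.1 y + (g.1 d - φ g d), Y.add_mem (fY g y hy) (h2 g d), φ g d,
      mem_smul.2 (by simpa using hd), ?_⟩
    rw [add_assoc, ← h3, ← map_add, ← e, LinearEquiv.apply_symm_apply]
  refine ⟨φ, fun g => ⟨fun v w => ?_, fun v => ?_⟩, h2, fun g Z => ?_⟩
  · rw [B_eq, B_eq, ← (hK g.2).B_eq v w, h3 g v, h3 g w, r.B_add (h2 g v) (h2 g w)]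
  · have := P.Λ.sub_mem ((hK g.2).N_eq v) (h3 g v ▸ r.N_add (h2 g v) (φ g v) : P.N (g.1 v) - P.N (φ g v) ∈ P.Λ)
    rw [sub_sub_sub_cancel_left] at this
    exact this
  · refine (Submodule.eq_of_le_of_finrank_eq (le g Z) ?_).symm
    rw [finrank_smul, finrank_up, finrank_up, finrank_smul]

end Res

end CfsgLib.KP
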