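import Mathlib
import Cfsg.Agent.Lib.KP.Res
import Cfsg.Agent.Lib.Forms.Normal
import Cfsg.Agent.Lib.RootMax.ND
import Cfsg.Agent.Lib.MinIdx.Geo

/-! KP: existence lemmas (plans/KP.md, package GEO). -/

set_option autoImplicit false
set_option linter.unusedSectionVars false

namespace CfsgLib.KP

open CfsgLib.CK CfsgLib.KL CfsgLib.Forms CfsgLib.RootMax CfsgLib.ClMax CfsgLib.Tech Module

variable {F : Type*} [Field F] [Finite F] {σ : F →+* F} {V : Type*} [AddCommGroup V] [Module F V] [Finite V]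
  {P : PQ σ V} {q : ℕ} {K : Subgroup (V ≃ₗ[F] V)} {C : Set (Submodule F V)}

variable {Y U W Z Z' E : Submodule F V} {j k : ℕ}

theorem even_sp (h : Pol P q) (k : IsSp P) : Even (finrank F V) := by
  obtain ⟨n, e, f, -, -, h1, h2, h3, h4⟩ := P.exists_witt_decomposition h.nd
  have := P.finrank_perp h.nd (Submodule.span F (Set.range (Sum.elim e f)))
  rw [P.finrank_span_hyperbolic e f h1 h2 h3, (Submodule.eq_bot_iff _).2 fun v hv => h4 v hv (k.sing h v),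
    finrank_bot] at this
  exact ⟨n, by omega⟩

theorem even_nd (h : Pol P q) (k : IsSp P) (hW : ND P W) : Even (finrank F W) := by
  exact even_sp (h.restrict hW) ⟨k.σ_eq, k.ε_eq, k.two⟩

theorem herm_of_odd (h : Pol P q) (k : Odd (finrank F V)) : P.IsHerm := by
  exact h.kind.elim (fun k' => absurd (even_sp h k'.1) (Nat.not_even_iff_odd.2 k)) (·.1)

theorem herm_of_not_sing (h : Pol P q) {a : V} (k : ¬ P.Sing a) : P.IsHerm := by
  exact h.kind.elim (fun k' => absurd (k'.1.sing h a) k) (·.1)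

theorem T.two_mul_le (h : P.Nondeg) (hU : U ∈ T P k) : 2 * k ≤ finrank F V := by
  exact hU.2 ▸ hU.1.two_mul_finrank_le h

theorem exists_sing (h : Pol P q) (hW : ND P W) (h2 : 2 ≤ finrank F W) : ∃ v ∈ W, P.Sing v ∧ v ≠ 0 := by
  rcases h.kind with k | k
  · obtain ⟨v, hv, h0⟩ := (Submodule.ne_bot_iff W).1 (by rintro rfl; simp at h2)
    exact ⟨v, hv, k.1.sing h v, h0⟩
  · obtain ⟨b, hb⟩ := (k.1.restrict W).exists_orthonormal_basis (h.restrict hW).nd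
    obtain ⟨e, f, -, -, h3, -, h4, -⟩ := (k.1.restrict W).exists_hyperbolic_pair (u := b ⟨0, by omega⟩)
      (w := b ⟨1, by omega⟩) (by simp [hb]) (by simp [hb]) (by simp [hb])
    exact ⟨e, e.2, h.sing_iff.2 h3, fun h0 => by rw [show e = 0 from Subtype.ext h0] at h4; simp at h4⟩

/-- a non-degenerate subspace of dimension at least two is spanned by singular vectors -/
theorem exists_sing_not (h : Pol P q) (hW : ND P W) (h2 : 2 ≤ finrank F W) (hU : ¬ W ≤ U) :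
    ∃ v ∈ W, P.Sing v ∧ v ∉ U := by
  obtain ⟨e, he, hs, h0⟩ := exists_sing h hW h2
  obtain ⟨v, hv, h3, h4, -⟩ := exists_sing_not_mem (U₂ := ⊥) hW he h0 hs bot_le hU fun k => h0 (k he)
  exact ⟨v, hv, h3, h4⟩

theorem two_le_of_sing (hW : ND P W) {v : V} (hv : v ∈ W) (hs : P.Sing v) (h0 : v ≠ 0) : 2 ≤ finrank F W := by
  obtain ⟨y, hy, h1, h2⟩ := exists_partner_mem hW hv h0 hs
  rw [← P.finrank_span_pair hs.self_eq h2]
  exact Submodule.finrank_mono (Submodule.span_le.2 (Set.insert_subset hv (Set.singleton_subset_iff.2 hy)))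

theorem ND.perp (h : P.Nondeg) (hW : ND P W) : ND P (P.perp W) := by
  exact P.disjoint_perp_perp h hW

theorem nd_span {a : V} (h : Pol P q) (ha : ¬ P.Sing a) : ND P (F ∙ a) := by
  refine P.disjoint_perp_iff.2 fun x hx k => ?_
  obtain ⟨c, rfl⟩ := Submodule.mem_span_singleton.1 hx
  have := k a (Submodule.mem_span_singleton_self a)
  rw [P.B_smul_left, mul_eq_zero, map_eq_zero] at this
  rw [this.resolve_right fun k => ha (h.sing_iff.2 k), zero_smul]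

/-- the orthogonal complement of a non-degenerate subspace inside another one -/
theorem ND.inf_perp (h : P.Nondeg) (hW : ND P W) (hU : ND P U) (hle : U ≤ W) :
    ND P (W ⊓ P.perp U) ∧ finrank F ↥(W ⊓ P.perp U) + finrank F U = finrank F W ∧ U ⊔ W ⊓ P.perp U = W := by
  have h1 : U ⊔ W ⊓ P.perp U = W := by
    rw [inf_comm, ← sup_inf_assoc_of_le _ hle, (P.isCompl_perp h hU).sup_eq_top, top_inf_eq]
  have h2 := Submodule.finrank_sup_add_finrank_inf_eq U (W ⊓ P.perp U)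
  rw [h1, (hU.mono_right inf_le_right).eq_bot, finrank_bot] at h2
  refine ⟨Submodule.disjoint_def.2 fun x hx hx' => Submodule.disjoint_def.1 hW x hx.1 ?_, by omega, h1⟩
  rw [← h1, P.perp_sup]
  exact ⟨hx.2, hx'⟩

theorem sup_mem_Pt (hY : P.TS Y) {v : V} (hv : P.Sing v) (h1 : v ∈ P.perp Y) (h2 : v ∉ Y) : Y ⊔ F ∙ v ∈ Pt P Y := by
  exact ⟨hY.sup (P.ts_span_singleton hv) ((Submodule.span_singleton_le_iff_mem _ _).2 h1), le_sup_left,
    Submodule.finrank_sup_span_singleton h2⟩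

/-- the points of the residue span `Y^⊥` -/
theorem exists_pt_not (h : Pol P q) (hY : Y ∈ T P k) (hk : 2 * k + 2 ≤ finrank F V) (h1 : Y ≤ W)
    (h2 : ¬ P.perp Y ≤ W) : ∃ Z ∈ Pt P Y, ¬ Z ≤ W := by
  obtain ⟨r⟩ := exists_res hY.1
  have := r.finrank_D h.nd
  obtain ⟨v, hv, hs, h3⟩ := exists_sing_not h (r.nd h.nd) (by have := hY.2; omega) (U := W)
    fun k => h2 (r.sup ▸ sup_le h1 k)
  exact ⟨_, sup_mem_Pt hY.1 hs (r.sup ▸ Submodule.mem_sup_right hv) fun k => h3 (h1 k),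
    fun k => h3 (k (Submodule.mem_sup_right (Submodule.mem_span_singleton_self v)))⟩

theorem exists_ext (h : Pol P q) (hU : U ∈ T P j) (hj : j ≤ k) (hk : 2 * k ≤ finrank F V) :
    ∃ W ∈ T P k, U ≤ W := by
  induction hj with
  | refl => exact ⟨U, hU, le_rfl⟩
  | @step k _ ih =>
    obtain ⟨W, hW, h1⟩ := ih (by omega)
    obtain ⟨Z, hZ, -⟩ := exists_pt_not h hW (by omega) le_rfl fun h2 => by
      have := Submodule.finrank_mono h2
      have := P.finrank_perp h.nd W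
      have := hW.2
      omega
    exact ⟨Z, ⟨hZ.1, by rw [hZ.2.2, hW.2]⟩, h1.trans hZ.2.1⟩

theorem exists_T (h : Pol P q) (hk : 2 * k ≤ finrank F V) : (T P k).Nonempty := by
  obtain ⟨W, hW, -⟩ := exists_ext h (U := ⊥) ⟨P.ts_bot, finrank_bot F V⟩ (Nat.zero_le k) hk
  exact ⟨W, hW⟩

theorem exists_hyp (h : Pol P q) (hW : ND P W) (h2 : 2 * k ≤ finrank F W) : ∃ e f : Fin k → V,
    (∀ i, e i ∈ W) ∧ (∀ i, f i ∈ W) ∧ (∀ i j, P.B (e i) (e j) = 0) ∧ (∀ i j, P.B (f i) (f j) = 0) ∧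
      ∀ i j, P.B (f i) (e j) = if i = j then 1 else 0 := by
  obtain ⟨U, hU⟩ := exists_T (h.restrict hW) h2
  obtain ⟨e, f, -, -, -, h3, h4, h5⟩ := hU.1.exists_hyperbolic (h.restrict hW).nd hU.2
  exact ⟨fun i => e i, fun i => f i, fun i => (e i).2, fun i => (f i).2, h3, h4, h5⟩

theorem exists_mid (hU : U ∈ T P k) (h1 : Y ≤ U) (h2 : finrank F Y ≤ j) (h3 : j ≤ k) :
    ∃ W ∈ T P j, Y ≤ W ∧ W ≤ U := by
  induction h2 with
  | refl => exact ⟨Y, T.mono hU h1 rfl, le_rfl, h1⟩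
  | @step j _ ih =>
    obtain ⟨W, hW, h4, h5⟩ := ih (by omega)
    obtain ⟨v, hv, h6⟩ := MinIdx.exists_mem_notMem (W := U) (W' := W) (by rw [hW.2, hU.2]; omega)
    have h7 := sup_le h5 ((Submodule.span_singleton_le_iff_mem _ _).2 hv)
    exact ⟨_, T.mono hU h7 (by rw [Submodule.finrank_sup_span_singleton h6, hW.2]), h4.trans le_sup_left, h7⟩

theorem Pt.eq_of_le (hZ : Z ∈ Pt P Y) (hZ' : Z' ∈ Pt P Y) (h : Z ≤ Z') : Z = Z' := by
  exact Submodule.eq_of_le_of_finrank_eq h (hZ.2.2.trans hZ'.2.2.symm)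

theorem T.eq_of_le (hU : U ∈ T P k) (hW : W ∈ T P k) (h : U ≤ W) : U = W := by
  exact Submodule.eq_of_le_of_finrank_eq h (hU.2.trans hW.2.symm)

theorem Pt.exists_vec (hZ : Z ∈ Pt P Y) : ∃ v, P.Sing v ∧ v ∈ P.perp Y ∧ v ∉ Y ∧ Z = Y ⊔ F ∙ v := by
  obtain ⟨v, hv, h1⟩ := MinIdx.exists_mem_notMem (W := Z) (W' := Y) (by rw [hZ.2.2]; omega)
  exact ⟨v, hZ.1.1 v hv, P.perp_anti hZ.2.1 (hZ.1.2 hv), h1, (Submodule.eq_of_le_of_finrank_eq
    (sup_le hZ.2.1 ((Submodule.span_singleton_le_iff_mem _ _).2 hv))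
    (by rw [Submodule.finrank_sup_span_singleton h1, hZ.2.2])).symm⟩

theorem T.sup_pt (hU : U ∈ T P k) (hZ : Z ∈ Pt P Y) (h1 : Y ≤ U) (h2 : Z ≤ P.perp U) (h3 : ¬ Z ≤ U) :
    U ⊔ Z ∈ T P (k + 1) := by
  refine ⟨hU.1.sup hZ.1 h2, ?_⟩
  obtain ⟨v, -, -, -, rfl⟩ := Pt.exists_vec hZ
  rw [← sup_assoc, sup_eq_left.2 h1, Submodule.finrank_sup_span_singleton fun k =>
    h3 (sup_le h1 ((Submodule.span_singleton_le_iff_mem _ _).2 k)), hU.2]

theorem Pt.sup (hY : Y ∈ T P k) (hZ : Z ∈ Pt P Y) (hZ' : Z' ∈ Pt P Y) (hn : Z' ≤ P.perp Z) (hne : Z ≠ Z') :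
    Z ⊔ Z' ∈ T P (k + 2) := by
  exact T.sup_pt (k := k + 1) ⟨hZ.1, by rw [hZ.2.2, hY.2]⟩ hZ' hZ.2.1 hn fun k => hne (Pt.eq_of_le hZ' hZ k).symm

/-- two different hyperplanes of a totally singular subspace -/
theorem T.inf_mem (hE : E ∈ T P (k + 2)) (hU : U ∈ T P (k + 1)) (hW : W ∈ T P (k + 1)) (h1 : U ≤ E) (h2 : W ≤ E)
    (hne : U ≠ W) : U ⊓ W ∈ T P k ∧ U ⊔ W = E := by
  have h3 : U < U ⊔ W := left_lt_sup.2 fun k => hne (T.eq_of_le hW hU k).symm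
  have h4 := Submodule.finrank_lt_finrank_of_lt h3
  have h5 : U ⊔ W = E := Submodule.eq_of_le_of_finrank_le (sup_le h1 h2) (by rw [hE.2]; rw [hU.2] at h4; omega)
  have h6 := Submodule.finrank_sup_add_finrank_inf_eq U W
  rw [h5, hE.2, hU.2, hW.2] at h6
  exact ⟨T.mono hU inf_le_left (by omega), h5⟩

theorem finrank_inf_perp (hZ : Z ∈ Pt P Y) (h2 : E ≤ P.perp Y) (hn : ¬ E ≤ P.perp Z) :
    finrank F ↥(E ⊓ P.perp Z) + 1 = finrank F E := by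
  obtain ⟨v, -, -, -, rfl⟩ := Pt.exists_vec hZ
  have h3 : (P.B v).domRestrict E ≠ 0 := fun k => hn fun x hx => by
    rw [P.perp_sup]
    exact ⟨h2 hx, P.mem_perp_span_singleton.2 (LinearMap.congr_fun k ⟨x, hx⟩)⟩
  rw [← Module.Dual.finrank_ker_add_one_of_ne_zero h3, ← Submodule.finrank_map_subtype_eq E, LinearMap.ker_domRestrict,
    Submodule.map_comap_subtype, P.perp_sup, ← inf_assoc, inf_eq_left.2 h2,
    show P.perp (F ∙ v) = LinearMap.ker (P.B v) from Submodule.ext fun _ => P.mem_perp_span_singleton]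

/-- the one-or-all axiom -/
theorem gq (hZ : Z ∈ Pt P Y) (hE : P.TS E) (h1 : Y ≤ E) (h2 : finrank F E = finrank F Y + 2) (hn : ¬ E ≤ P.perp Z) :
    E ⊓ P.perp Z ∈ Pt P Y := by
  have := finrank_inf_perp hZ (hE.2.trans (P.perp_anti h1)) hn
  exact ⟨hE.mono inf_le_left, le_inf h1 (hZ.2.1.trans hZ.1.2), by omega⟩

/-- `dim m - dim (m ∩ E^⊥) = dim E - dim (E ∩ m^⊥)` -/
theorem finrank_pair (h : P.Nondeg) (U W : Submodule F V) :
    finrank F U + finrank F ↥(W ⊓ P.perp U) = finrank F W + finrank F ↥(U ⊓ P.perp W) := by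
  have h1 := P.finrank_perp h (W ⊓ P.perp U)
  have h2 := P.finrank_perp h W
  have h3 := Submodule.finrank_sup_add_finrank_inf_eq (P.perp W) U
  rw [P.perp_inf h, P.perp_perp h] at h1
  rw [inf_comm] at h3
  omega

/-- maximal totally singular subspaces -/
theorem le_of_max (h : Pol P q) (hU : U ∈ T P k) (hk : finrank F V < 2 * k + 2) (hW : P.TS W) (h1 : W ≤ P.perp U) :
    W ≤ U := by
  have := (hU.1.sup hW h1).two_mul_finrank_le h.nd
  exact sup_eq_left.1 (Submodule.eq_of_le_of_finrank_le le_sup_left (by rw [hU.2]; omega)).symm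

theorem perp_eq_of_max (h : P.Nondeg) (hU : U ∈ T P k) (hk : finrank F V = 2 * k) : P.perp U = U := by
  have := P.finrank_perp h U
  exact (Submodule.eq_of_le_of_finrank_le hU.1.2 (by rw [hU.2] at this ⊢; omega)).symm

theorem exists_opp (h : Pol P q) (hZ : Z ∈ Pt P Y) : ∃ Z' ∈ Pt P Y, ¬ Z' ≤ P.perp Z := by
  have h1 := hZ.1.two_mul_finrank_le h.nd
  have h2 := hZ.2.2
  refine exists_pt_not h ⟨hZ.1.mono hZ.2.1, rfl⟩ (by omega) (hZ.2.1.trans hZ.1.2) fun k => ?_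
  have := Submodule.finrank_mono (P.perp_anti k)
  rw [P.perp_perp h.nd, P.perp_perp h.nd] at this
  omega

theorem exists_nbr0 (h : Pol P q) (hk : 4 ≤ finrank F V) (hZ : Z ∈ T P 1) (hZ' : Z' ∈ T P 1) :
    ∃ Z'' ∈ T P 1, Z'' ≤ P.perp Z ∧ Z'' ≤ P.perp Z' := by
  obtain ⟨v, hv, -, rfl⟩ := T.exists_vec hZ
  obtain ⟨w, hw, -, rfl⟩ := T.exists_vec hZ'
  by_cases h1 : P.B w v = 0
  · exact ⟨_, hZ, hZ.1.2, (Submodule.span_singleton_le_iff_mem _ _).2 (P.mem_perp_span_singleton.2 h1)⟩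
  have h2 : P.B w ((P.B w v)⁻¹ • v) = 1 := by rw [P.B_smul_right, inv_mul_cancel₀ h1]
  have h3 := (hv.smul (P.B w v)⁻¹).self_eq
  have h4 := P.finrank_perp h.nd (Submodule.span F {(P.B w v)⁻¹ • v, w})
  rw [P.finrank_span_pair h3 h2] at h4
  obtain ⟨u, hu, hs, h0⟩ := exists_sing h (ND.perp h.nd (P.disjoint_perp_pair h3 hw.self_eq h2)) (by omega)
  have h5 := P.mem_perp_span.1 hu
  have h6 := h5 _ (Or.inl rfl)
  rw [P.B_smul_left, mul_eq_zero, map_eq_zero] at h6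
  exact ⟨_, span_mem_T hs h0, (Submodule.span_singleton_le_iff_mem _ _).2 (P.mem_perp_span_singleton.2
    (h6.resolve_left (inv_ne_zero h1))), (Submodule.span_singleton_le_iff_mem _ _).2
    (P.mem_perp_span_singleton.2 (h5 _ (Or.inr rfl)))⟩

theorem exists_nbr (h : Pol P q) (hY : Y ∈ T P k) (hk : 2 * k + 4 ≤ finrank F V) (hZ : Z ∈ Pt P Y)
    (hZ' : Z' ∈ Pt P Y) : ∃ Z'' ∈ Pt P Y, Z'' ≤ P.perp Z ∧ Z'' ≤ P.perp Z' := by
  obtain ⟨r⟩ := exists_res hY.1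
  have := r.finrank_D h.nd
  obtain ⟨Z, rfl⟩ := r.exists_up hZ.1 hZ.2.1
  obtain ⟨Z', rfl⟩ := r.exists_up hZ'.1 hZ'.2.1
  obtain ⟨Z'', h1, h2, h3⟩ := exists_nbr0 (r.pol h) (by have := hY.2; omega) (r.up_mem_Pt'.1 hZ) (r.up_mem_Pt'.1 hZ')
  exact ⟨r.up Z'', r.up_mem_Pt'.2 h1, r.up_perp Z ▸ r.up_le_up.2 h2, r.up_perp Z' ▸ r.up_le_up.2 h3⟩

/-- connectedness of the orthogonality graph of a residue of rank at least two -/
theorem conn (h : Pol P q) (hY : Y ∈ T P k) (hk : 2 * k + 4 ≤ finrank F V) {R : Set (Submodule F V)}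
    (hZ : Z ∈ Pt P Y) (hR : Z ∈ R) (hc : ∀ Z ∈ Pt P Y, Z ∈ R → ∀ Z' ∈ Pt P Y, Z' ≤ P.perp Z → Z' ∈ R) :
    Pt P Y ⊆ R := by
  intro Z' hZ'
  obtain ⟨Z'', h1, h2, h3⟩ := exists_nbr h hY hk hZ hZ'
  exact hc Z'' h1 (hc Z hZ hR Z'' h1 h2) Z' hZ' (P.le_perp_comm.1 h3)

/-- a set of points of a totally singular interval closed under lines is a subspace -/
theorem closed {R : Set (Submodule F V)} (hU : P.TS U) (h1 : Y ≤ U) (hR : ∀ Z ∈ R, Z ∈ Pt P Y ∧ Z ≤ U)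
    (hc : ∀ Z ∈ R, ∀ Z' ∈ R, ∀ Z'' ∈ Pt P Y, Z'' ≤ Z ⊔ Z' → Z'' ∈ R) :
    ∃ W, Y ≤ W ∧ W ≤ U ∧ ∀ Z ∈ Pt P Y, (Z ∈ R ↔ Z ≤ W) := by
  have pt : ∀ v ∈ U, v ∉ Y → Y ⊔ F ∙ v ∈ Pt P Y := fun v hv h2 =>
    sup_mem_Pt (hU.mono h1) (hU.1 v hv) (P.perp_anti h1 (hU.2 hv)) h2
  have key : ∀ Z ∈ R, ∀ Z' ∈ R, ∀ v ∈ U, v ∉ Y → v ∈ Z ⊔ Z' → Y ⊔ F ∙ v ∈ R := fun Z hZ Z' hZ' v hv h2 h3 =>
    hc Z hZ Z' hZ' _ (pt v hv h2)
      (sup_le ((hR Z hZ).1.2.1.trans le_sup_left) ((Submodule.span_singleton_le_iff_mem _ _).2 h3))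
  have ms : ∀ v : V, v ∈ Y ⊔ F ∙ v := fun v => Submodule.mem_sup_right (Submodule.mem_span_singleton_self v)
  refine ⟨⟨⟨⟨{v | v ∈ U ∧ (v ∉ Y → Y ⊔ F ∙ v ∈ R)}, fun {v w} hv hw => ⟨add_mem hv.1 hw.1, fun h2 => ?_⟩⟩,
    zero_mem U, fun k => absurd (zero_mem Y) k⟩, fun c v hv => ⟨U.smul_mem c hv.1, fun h2 => ?_⟩⟩,
    fun v hv => ⟨h1 hv, fun k => absurd hv k⟩, fun v hv => hv.1, fun Z hZ => ⟨fun k v hv => ?_, fun k => ?_⟩⟩
  · by_cases a : v ∈ Y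
    · have b := hw.2 fun b => h2 (add_mem a b)
      exact key _ b _ b _ (add_mem hv.1 hw.1) h2 (Submodule.mem_sup_left (add_mem (Submodule.mem_sup_left a) (ms w)))
    by_cases b : w ∈ Y
    · exact key _ (hv.2 a) _ (hv.2 a) _ (add_mem hv.1 hw.1) h2
        (Submodule.mem_sup_left (add_mem (ms v) (Submodule.mem_sup_left b)))
    exact key _ (hv.2 a) _ (hw.2 b) _ (add_mem hv.1 hw.1) h2
      (add_mem (Submodule.mem_sup_left (ms v)) (Submodule.mem_sup_right (ms w)))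
  · have a := hv.2 fun a => h2 (Y.smul_mem c a)
    exact key _ a _ a _ (U.smul_mem c hv.1) h2 (Submodule.mem_sup_left (Submodule.smul_mem _ c (ms v)))
  · exact ⟨(hR Z k).2 hv, fun a => key Z k Z k v ((hR Z k).2 hv) a (Submodule.mem_sup_left hv)⟩
  · obtain ⟨v, -, -, h2, rfl⟩ := Pt.exists_vec hZ
    exact (k (ms v)).2 h2

end CfsgLib.KP
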