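import Mathlib
import Cfsg.Agent.Lib.KP.Base
import Cfsg.Agent.Lib.Spec.Zsig

/-! KP: arithmetic (plans/KP.md, package ARI). -/

set_option autoImplicit false
set_option linter.unusedSectionVars false

namespace CfsgLib.KP

open CfsgLib.CK CfsgLib.KL CfsgLib.Forms CfsgLib.RootMax CfsgLib.ClMax CfsgLib.Tech Module

variable {F : Type*} [Field F] [Finite F] {σ : F →+* F} {V : Type*} [AddCommGroup V] [Module F V] [Finite V]
  {P : PQ σ V} {q : ℕ} {K : Subgroup (V ≃ₗ[F] V)} {C : Set (Submodule F V)}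

theorem np_add_two (Q q k : ℕ) : np Q q (k + 2) = 1 + Q * np Q q k + q * Q ^ k := rfl

theorem th_succ' (Q k : ℕ) : th Q (k + 1) = th Q k + Q ^ k := Finset.sum_range_succ _ _

theorem th_succ (Q k : ℕ) : th Q (k + 1) = 1 + Q * th Q k := by
  rw [th, Finset.sum_range_succ', th, Finset.mul_sum, add_comm]
  simp only [pow_succ', pow_zero]

theorem np_rank (Q q ρ : ℕ) {δ : ℕ} (hδ : δ ≤ 1) :
    np Q q (2 * ρ + δ) = th Q ρ * (Q ^ (ρ - 1) * (q * Q ^ δ) + 1) := by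
  induction ρ with
  | zero => interval_cases δ <;> exact (Nat.zero_mul _).symm
  | succ ρ ih =>
    rw [show 2 * (ρ + 1) + δ = 2 * ρ + δ + 2 by ring, np_add_two, ih]
    cases ρ with
    | zero => simp [th, add_comm]
    | succ s =>
      have h := (th_succ Q (s + 1)).symm.trans (th_succ' Q (s + 1))
      rw [th_succ Q (s + 1), Nat.add_sub_cancel, Nat.add_sub_cancel]
      zify at h ⊢
      linear_combination (-(Q : ℤ) ^ (s + 1) * (q * Q ^ δ)) * h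

theorem np_eq (Q q d : ℕ) : np Q q d = th Q (d / 2) * (Q ^ (d / 2 - 1) * tt Q q d + 1) := by
  rw [tt, ← np_rank Q q (d / 2) (by omega), Nat.div_add_mod]

theorem np_step (Q q : ℕ) {d : ℕ} (hd : 2 ≤ d) : np Q q d = kk Q q d + q * Q ^ (d - 2) := by
  obtain ⟨k, rfl⟩ := Nat.exists_eq_add_of_le' hd
  rfl

theorem np_sp (q ρ : ℕ) : np q q (2 * ρ) = th q (2 * ρ) := by
  induction ρ with
  | zero => rfl
  | succ ρ ih => rw [Nat.mul_succ, np_add_two, ih, th_succ', th_succ, pow_succ']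

theorem kk_sp (q ρ : ℕ) : kk q q (2 * ρ + 2) = th q (2 * ρ + 1) := by
  rw [kk, Nat.add_sub_cancel, np_sp, th_succ]

theorem ss_sp (q ρ : ℕ) : ss q q (2 * ρ + 4) = 0 := by
  rw [ss, tt, show (2 * ρ + 4) / 2 - 1 = ρ + 1 by omega, show (2 * ρ + 4) / 2 - 2 = ρ by omega,
    show (2 * ρ + 4) % 2 = 0 by omega]
  push_cast
  ring

theorem th_mul (Q k : ℕ) : (th Q k : ℤ) * (Q - 1) = Q ^ k - 1 := by
  rw [th]
  push_cast
  exact geom_sum_mul _ _

theorem coprime_th (Q k : ℕ) : Nat.Coprime (th Q (k + 1)) (th Q k) := by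
  rw [th_succ, Nat.coprime_add_mul_right_left]
  exact Nat.coprime_one_left _

theorem sq_pow_eq (q : ℤ) (k : ℕ) : (q ^ 2) ^ k = ((-q) ^ k) ^ 2 := by rw [← neg_sq, ← pow_mul, mul_comm, pow_mul]

theorem np_su (q k : ℕ) :
    (np (q ^ 2) q (k + 1) : ℤ) * ((q : ℤ) ^ 2 - 1) = -(((-q : ℤ) ^ (k + 1) - 1) * ((-q : ℤ) ^ k - 1)) := by
  induction k using Nat.twoStepInduction with
  | zero => rw [show np (q ^ 2) q (0 + 1) = 0 from rfl]; simp
  | one => rw [np_add_two, show np (q ^ 2) q 0 = 0 from rfl]; push_cast; ring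
  | more k ih _ =>
    rw [show k + 2 + 1 = k + 1 + 2 from rfl, np_add_two]
    push_cast
    rw [sq_pow_eq]
    linear_combination (q : ℤ) ^ 2 * ih

theorem ss_su (q k : ℕ) : ss (q ^ 2) q (k + 4) = (-q : ℤ) ^ (k + 2) + (-q : ℤ) ^ (k + 1) := by
  obtain ⟨m, rfl | rfl⟩ := Nat.even_or_odd' k
  · rw [ss, tt, show (2 * m + 4) / 2 - 1 = m + 1 by omega, show (2 * m + 4) / 2 - 2 = m by omega,
      show (2 * m + 4) % 2 = 0 by omega]
    push_cast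
    rw [sq_pow_eq, sq_pow_eq]
    ring
  · rw [ss, tt, show (2 * m + 1 + 4) / 2 - 1 = m + 1 by omega, show (2 * m + 1 + 4) / 2 - 2 = m by omega,
      show (2 * m + 1 + 4) % 2 = 1 by omega]
    push_cast
    rw [sq_pow_eq, sq_pow_eq _ m]
    ring

theorem np_pos (Q q : ℕ) {d : ℕ} (hd : 2 ≤ d) : 0 < np Q q d := by
  obtain ⟨k, rfl⟩ := Nat.exists_eq_add_of_le' hd
  rw [np_add_two]
  omega

theorem np_mod {p Q q d : ℕ} (hQ : p ∣ Q) (hq : p ∣ q) (hd : 2 ≤ d) : np Q q d ≡ 1 [MOD p] := by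
  obtain ⟨k, rfl⟩ := Nat.exists_eq_add_of_le' hd
  rw [np_add_two, add_assoc]
  exact Nat.ModEq.add_left 1 ((Nat.modEq_zero_iff_dvd).2 (dvd_add (hQ.mul_right _) (hq.mul_right _)))

theorem Pol.exists_pow (h : Pol P q) : ∃ f, 0 < f ∧ q = ringChar F ^ f := by
  have := Fintype.ofFinite F
  obtain ⟨n, hp, hn⟩ := FiniteField.card F (ringChar F)
  have h1 : q ∣ ringChar F ^ (n : ℕ) := by
    rw [← hn, ← Nat.card_eq_fintype_card]
    rcases h.kind with k | k <;> rw [k.2]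
    exact dvd_pow_self q two_ne_zero
  obtain ⟨f, -, hf⟩ := (Nat.dvd_prime_pow hp).1 h1
  refine ⟨f, Nat.pos_of_ne_zero ?_, hf⟩
  rintro rfl
  exact absurd (hf ▸ h.three) (by simp)

theorem Pol.p_dvd (h : Pol P q) : ringChar F ∣ q := by
  obtain ⟨f, hf, e⟩ := h.exists_pow
  exact e ▸ dvd_pow_self _ hf.ne'

theorem Pol.odd (h : Pol P q) (k : IsSp P) : Odd q := by
  obtain ⟨f, -, e⟩ := h.exists_pow
  refine e ▸ ((CharP.char_is_prime F (ringChar F)).odd_of_ne_two fun h2 => k.two ?_).pow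
  exact_mod_cast (ringChar.spec F 2).2 (h2 ▸ dvd_rfl)

theorem dvd_iff_pow {r : ℕ} (a : ℤ) (j : ℕ) : (r : ℤ) ∣ a ^ j - 1 ↔ (a : ZMod r) ^ j = 1 := by
  rw [← ZMod.intCast_zmod_eq_zero_iff_dvd]
  push_cast
  exact sub_eq_zero

theorem Od.iff {r e : ℕ} {a : ℤ} (h : Od r a e) (j : ℕ) : (a : ZMod r) ^ j = 1 ↔ e ∣ j :=
  (dvd_iff_pow a j).symm.trans (h.2 j)

theorem Od.neg_iff {r e : ℕ} (h : Od r (-q) e) (j : ℕ) : (-q : ZMod r) ^ j = 1 ↔ e ∣ j := by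
  simpa using h.iff j

theorem Od.nat_iff {r e : ℕ} (h : Od r q e) (j : ℕ) : (q : ZMod r) ^ j = 1 ↔ e ∣ j := by
  simpa using h.iff j

theorem exists_ord {a n : ℕ} (ha : 1 < a) (hn : 2 < n) (h6 : ¬ (a = 2 ∧ n = 6)) :
    ∃ r : ℕ, r.Prime ∧ orderOf (a : ZMod r) = n := by
  obtain ⟨r, hr, h1, h2⟩ := Spec.zsigmondy ha (by omega) h6 (by omega)
  have e : ∀ k, r ∣ a ^ k - 1 ↔ (a : ZMod r) ^ k = 1 := fun k => by
    rw [← ZMod.natCast_eq_zero_iff, Nat.cast_sub (Nat.one_le_pow _ _ (by omega))]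
    push_cast
    exact sub_eq_zero
  exact ⟨r, hr, (orderOf_eq_iff (by omega)).2 ⟨(e n).1 h1, fun m hm h0 k => h2 m h0 hm ((e m).2 k)⟩⟩

theorem pp_of_ord {r p n : ℕ} (hp : 0 < p) (h : orderOf (p : ZMod r) = n) : Pp r p (p ^ n) := fun j hj k =>
  Nat.pow_le_pow_right hp (Nat.le_of_dvd hj (h ▸ orderOf_dvd_of_pow_eq_one (by
    simpa using (ZMod.natCast_eq_natCast_iff _ _ _).2 k)))

theorem neg_pow_iff {r m : ℕ} (hr : r.Prime) {x : ZMod r} (hm : 0 < m) (h : orderOf x = 2 * m) (j : ℕ) :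
    (-x) ^ j = 1 ↔ 2 * m ∣ (m + 1) * j := by
  have := Fact.mk hr
  have h1 : x ^ m = -1 := (sq_eq_one_iff.1 (by
    rw [← pow_mul, mul_comm, ← h, pow_orderOf_eq_one])).resolve_left
      (pow_ne_one_of_lt_orderOf hm.ne' (by omega))
  rw [← h, orderOf_dvd_iff_pow_eq_one, pow_mul, pow_succ, h1, neg_one_mul]

theorem neg_pow_iff_odd {r e : ℕ} (hr : r.Prime) {x : ZMod r} (ho : Odd e) (h : orderOf x = 2 * e) (j : ℕ) :
    (-x) ^ j = 1 ↔ e ∣ j := by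
  obtain ⟨m, rfl⟩ := ho
  rw [neg_pow_iff hr (by omega) h, show (2 * m + 1 + 1) * j = 2 * ((m + 1) * j) by ring,
    Nat.mul_dvd_mul_iff_left two_pos]
  refine Nat.Coprime.dvd_mul_left ?_
  rw [show 2 * m + 1 = m + (m + 1) * 1 by ring, Nat.coprime_add_mul_left_left]
  simp

theorem pos_of_three_le {p f : ℕ} (h3 : 3 ≤ p ^ f) : 0 < f := Nat.pos_of_ne_zero fun h => by simp [h] at h3

theorem prime_sp {p f e : ℕ} (hp : p.Prime) (h2 : p ≠ 2) (h3 : 3 ≤ p ^ f) (he : 3 ≤ e) :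
    ∃ r, Od r (p ^ f : ℕ) e ∧ Pp r p ((p ^ f) ^ e) := by
  have hf := pos_of_three_le h3
  obtain ⟨r, hr, h⟩ := exists_ord (n := f * e) hp.one_lt (by nlinarith) fun k => h2 k.1
  refine ⟨r, ⟨hr, fun j => ?_⟩, pow_mul p f e ▸ pp_of_ord hp.pos h⟩
  rw [dvd_iff_pow]
  push_cast
  rw [← pow_mul, ← orderOf_dvd_iff_pow_eq_one, h, Nat.mul_dvd_mul_iff_left hf]

theorem prime_odd {p f e : ℕ} (hp : p.Prime) (h3 : 3 ≤ p ^ f) (he : 3 ≤ e) (ho : Odd e) :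
    ∃ r, Od r (-(p ^ f : ℕ)) e ∧ Pp r p (((p ^ f) ^ 2) ^ e) := by
  have hf := pos_of_three_le h3
  obtain ⟨r, hr, h⟩ := exists_ord (n := f * (2 * e)) hp.one_lt (by nlinarith) fun k => by
    obtain rfl : f = 1 := by nlinarith [k.2]
    rw [k.1] at h3
    omega
  refine ⟨r, ⟨hr, fun j => ?_⟩, by rw [← pow_mul, ← pow_mul]; exact pp_of_ord hp.pos h⟩
  rw [dvd_iff_pow]
  push_cast
  exact neg_pow_iff_odd hr ho (by
    rw [orderOf_pow' _ hf.ne', h, Nat.gcd_eq_right (dvd_mul_right _ _), Nat.mul_div_cancel_left _ hf]) j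

theorem prime_any {e : ℕ} (h3 : 3 ≤ q) (he : 3 ≤ e) : ∃ r, Od r (-q) e := by
  suffices ∃ r : ℕ, r.Prime ∧ ∀ j, (-q : ZMod r) ^ j = 1 ↔ e ∣ j from
    this.imp fun r h => ⟨h.1, fun j => by simpa [dvd_iff_pow] using h.2 j⟩
  obtain ⟨m, rfl⟩ | ho := Nat.even_or_odd e
  swap
  · obtain ⟨r, hr, h⟩ := exists_ord (a := q) (n := 2 * e) (by omega) (by omega) (by omega)
    exact ⟨r, hr, neg_pow_iff_odd hr ho h⟩
  rw [← two_mul] at he ⊢
  obtain ⟨k, rfl⟩ | ho := Nat.even_or_odd m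
  · obtain ⟨r, hr, h⟩ := exists_ord (a := q) (n := 2 * (k + k)) (by omega) (by omega) (by omega)
    refine ⟨r, hr, fun j => (neg_pow_iff hr (by omega) h j).trans (Nat.Coprime.dvd_mul_left ?_)⟩
    exact Nat.Coprime.mul_left (Nat.coprime_two_left.2 ⟨k, by ring⟩) (by simp)
  have hm : 2 < m := by obtain ⟨k, rfl⟩ := ho; omega
  obtain ⟨r, hr, h⟩ := exists_ord (a := q) (n := m) (by omega) hm (by omega)
  have := Fact.mk hr
  have h1 : (-1 : ZMod r) ≠ 1 := fun k => by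
    obtain rfl : r = 2 := (Nat.prime_dvd_prime_iff_eq hr Nat.prime_two).1
      ((ZMod.natCast_eq_zero_iff 2 r).1 (by linear_combination -k))
    have := orderOf_le_card_univ (x := (q : ZMod 2))
    rw [h, ZMod.card] at this
    omega
  refine ⟨r, hr, fun j => ⟨fun k => ?_, ?_⟩⟩
  · have h2 : m ∣ j := (Nat.coprime_two_right.2 ho).dvd_of_dvd_mul_left (h ▸ orderOf_dvd_of_pow_eq_one (by
      rw [pow_mul, ← neg_sq, ← pow_mul, mul_comm, pow_mul, k, one_pow]))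
    rw [neg_pow, orderOf_dvd_iff_pow_eq_one.1 (show orderOf (q : ZMod r) ∣ j from h ▸ h2), mul_one] at k
    exact (Nat.coprime_two_left.2 ho).mul_dvd_of_dvd_of_dvd ((neg_one_pow_eq_one_iff_even h1).1 k).two_dvd h2
  · rintro ⟨c, rfl⟩
    rw [pow_mul, pow_mul, neg_sq, ← pow_mul _ 2, mul_comm 2, pow_mul, ← h, pow_orderOf_eq_one, one_pow, one_pow]

section Od

variable {r e : ℕ}

theorem Od.ne_zero {a : ℤ} (h : Od r a e) (he : 0 < e) : (a : ZMod r) ≠ 0 := fun k => by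
  have := Fact.mk h.1
  have h1 := (h.iff e).2 dvd_rfl
  rw [k, zero_pow he.ne'] at h1
  exact zero_ne_one h1

theorem Od.not_dvd (h : Od r (-q) e) (he : 0 < e) : ¬ r ∣ q := fun k =>
  h.ne_zero he (by simpa using (ZMod.natCast_eq_zero_iff q r).2 k)

theorem Od.not_dvd' (h : Od r q e) (he : 0 < e) : ¬ r ∣ q := fun k =>
  h.ne_zero he (by simpa using (ZMod.natCast_eq_zero_iff q r).2 k)

theorem Od.modEq (h : Od r q e) (hq : 0 < q) (j : ℕ) : q ^ j ≡ 1 [MOD r] ↔ e ∣ j := by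
  rw [← h.nat_iff, ← ZMod.natCast_eq_natCast_iff]
  push_cast
  rfl

theorem Od.modEq_sq (h : Od r (-q) e) (hq : 0 < q) (j : ℕ) : (q ^ 2) ^ j ≡ 1 [MOD r] ↔ e ∣ 2 * j := by
  rw [← h.neg_iff, ← ZMod.natCast_eq_natCast_iff, pow_mul, neg_sq]
  push_cast
  rfl

theorem Od.not_dvd_sub (h : Od r (-q) e) (hq : 0 < q) (he : 3 ≤ e) : ¬ r ∣ q ^ 2 - 1 := fun k => by
  have := Nat.le_of_dvd two_pos ((h.modEq_sq hq 1).1 (by
    rw [pow_one]; exact ((Nat.modEq_iff_dvd' (Nat.one_le_pow _ _ hq)).2 k).symm))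
  omega

theorem Od.not_dvd_sub' (h : Od r q e) (hq : 0 < q) (he : 2 ≤ e) : ¬ r ∣ q - 1 := fun k => by
  have := Nat.le_of_dvd one_pos ((h.modEq hq 1).1 (by rw [pow_one]; exact ((Nat.modEq_iff_dvd' hq).2 k).symm))
  omega

theorem Od.not_dvd_add (h : Od r (-q) e) (he : ¬ e ∣ 4) : ¬ r ∣ q ^ 2 + 1 := fun k => by
  have h1 := (ZMod.natCast_eq_zero_iff _ r).2 k
  push_cast at h1
  exact he ((h.neg_iff 4).1 (by linear_combination ((q : ZMod r) ^ 2 - 1) * h1))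

theorem Od.not_dvd_add' (h : Od r q e) (he : 3 ≤ e) : ¬ r ∣ q + 1 := fun k => by
  have h1 := (ZMod.natCast_eq_zero_iff _ r).2 k
  push_cast at h1
  have := Nat.le_of_dvd two_pos ((h.nat_iff 2).1 (by linear_combination ((q : ZMod r) - 1) * h1))
  omega

theorem Od.dvd_add (h : Od r (-q) 4) : r ∣ q ^ 2 + 1 := by
  have := Fact.mk h.1
  have h1 := (h.neg_iff 4).2 dvd_rfl
  have h2 : (-q : ZMod r) ^ 2 - 1 ≠ 0 := sub_ne_zero.2 fun k => absurd ((h.neg_iff 2).1 k) (by decide)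
  rw [← ZMod.natCast_eq_zero_iff]
  push_cast
  exact mul_left_cancel₀ h2 (by linear_combination h1)

theorem Od.dvd_pow_add (h : Od r (-q) e) (ho : Odd e) : r ∣ q ^ e + 1 := by
  have h1 := (h.neg_iff e).2 dvd_rfl
  rw [ho.neg_pow] at h1
  rw [← ZMod.natCast_eq_zero_iff]
  push_cast
  linear_combination -h1

theorem Od.dvd_pred {a : ℤ} (h : Od r a e) (he : 0 < e) : e ∣ r - 1 :=
  have := Fact.mk h.1
  (h.iff _).1 (ZMod.pow_card_sub_one_eq_one (h.ne_zero he))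

theorem Od.lt (h : Od r (-q) e) (he : 0 < e) : e < r := by
  have h1 := h.1.two_le
  have := Nat.le_of_dvd (by omega) (h.dvd_pred he)
  omega

theorem Od.seven_le (h : Od r (-q) 3) : 7 ≤ r := by
  have h1 := h.lt (by decide)
  have h2 := h.dvd_pred (by decide)
  have h3 := h.1
  by_contra! h4
  interval_cases r <;> simp_all (config := { decide := true })

theorem Od.dvd_np (h : Od r (-q) e) (hq : 0 < q) (he : 3 ≤ e) (k : ℕ) :
    r ∣ np (q ^ 2) q (k + 1) ↔ e ∣ k + 1 ∨ e ∣ k := by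
  have hp := Nat.prime_iff_prime_int.1 h.1
  have h1 : ¬ (r : ℤ) ∣ (q : ℤ) ^ 2 - 1 := fun k => by
    have := Nat.le_of_dvd two_pos ((h.2 2).1 (by rwa [neg_sq]))
    omega
  rw [← h.2, ← h.2, ← hp.dvd_mul, ← dvd_neg (a := (r : ℤ)), ← np_su, hp.dvd_mul, or_iff_left h1, Int.natCast_dvd_natCast]

theorem Od.dvd_th (h : Od r q e) (hq : 0 < q) (he : 2 ≤ e) (k : ℕ) : r ∣ th q k ↔ e ∣ k := by
  have hp := Nat.prime_iff_prime_int.1 h.1
  have h1 : ¬ (r : ℤ) ∣ (q : ℤ) - 1 := fun k => by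
    have := Nat.le_of_dvd one_pos ((h.2 1).1 (by rwa [pow_one]))
    omega
  rw [← h.2, ← th_mul, hp.dvd_mul, or_iff_left h1, Int.natCast_dvd_natCast]

theorem Od.delta (h : Od r (-q) e) (hq : 0 < q) {d : ℕ} (hd : 4 ≤ d) (he : e = d ∨ (e + 1 = d ∧ e ≠ 3)) :
    ¬ (r : ℤ) ∣ ((q : ℤ) ^ 2 + 1) * kk (q ^ 2) q d - ss (q ^ 2) q d := by
  obtain ⟨k, rfl⟩ := Nat.exists_eq_add_of_le' hd
  have := Fact.mk h.1
  rw [← ZMod.intCast_zmod_eq_zero_iff_dvd, ss_su, kk, show k + 4 - 2 = k + 1 + 1 from rfl]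
  have h1 := congrArg (Int.cast : ℤ → ZMod r) (np_su q (k + 1))
  have h2 := (h.neg_iff e).2 dvd_rfl
  have h3 : ∀ j, 0 < j → j < e → (-q : ZMod r) ^ j - 1 ≠ 0 := fun j hj hj' => sub_ne_zero.2 fun k =>
    absurd (Nat.le_of_dvd hj ((h.neg_iff j).1 k)) (by omega)
  have h0 : (q : ZMod r) ≠ 0 := by simpa using h.ne_zero (by omega)
  push_cast at h1 ⊢
  generalize (np (q ^ 2) q (k + 1 + 1) : ZMod r) = N at h1
  intro h4
  rcases he with rfl | ⟨he, h5⟩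
  · refine mul_ne_zero (mul_ne_zero h0 (h3 1 (by omega) (by omega))) (h3 2 (by omega) (by omega)) ?_
    rw [pow_succ _ (k + 1)] at h1 h4
    rw [show k + 4 = k + 1 + 3 from rfl, pow_add] at h2
    generalize (-q : ZMod r) ^ (k + 1) = u at h1 h2 h4
    linear_combination ((q : ZMod r) ^ 3 * (q ^ 2 - 1)) * h4 - ((q : ZMod r) ^ 2 + 1) * q ^ 5 * h1 -
      (((q : ZMod r) ^ 2 + 1) * (u * (-q) ^ 3 + 1 - q ^ 2 + q ^ 3) + (q ^ 2 - 1) * (1 - q)) * h2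
  · obtain rfl : e = k + 3 := by omega
    refine mul_ne_zero (h3 3 (by omega) (by omega)) (h3 2 (by omega) (by omega)) ?_
    rw [pow_succ _ (k + 1)] at h1 h4
    rw [show k + 3 = k + 1 + 2 from rfl, pow_add] at h2
    generalize (-q : ZMod r) ^ (k + 1) = u at h1 h2 h4
    linear_combination ((q : ZMod r) ^ 2 * (q ^ 2 - 1)) * h4 - ((q : ZMod r) ^ 2 + 1) * q ^ 4 * h1 +
      (((q : ZMod r) ^ 2 + 1) * (-q) * (u * q ^ 2 + 1 + q - q ^ 2) + (q ^ 2 - 1) * (1 - q)) * h2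

end Od

end CfsgLib.KP
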