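import Cfsg.Agent.Auto.CfsgLib_KP_np_eq_def
import Mathlib
import Cfsg.Agent.Lib.KP.Res
import Cfsg.Agent.Lib.KP.Np
import Cfsg.Agent.Lib.KP.Geo
import Cfsg.Agent.Lib.MinIdx.UFinal

/-! KP: counting points (plans/KP.md, package CNT). -/

set_option autoImplicit false
set_option linter.unusedSectionVars false

namespace CfsgLib.KP

open CfsgLib.CK CfsgLib.KL CfsgLib.Forms CfsgLib.RootMax CfsgLib.ClMax CfsgLib.Tech Module

variable {F : Type*} [Field F] [Finite F] {σ : F →+* F} {V : Type*} [AddCommGroup V] [Module F V] [Finite V]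
  {P : PQ σ V} {q : ℕ} {K : Subgroup (V ≃ₗ[F] V)} {C : Set (Submodule F V)}

variable {Y U W Z Z' : Submodule F V} {k : ℕ}

theorem cn_sub (U : Submodule F V) : (U : Set V).ncard = Nat.card F ^ finrank F U := by
  rw [← Nat.card_coe_set_eq, ← Module.natCard_eq_pow_finrank]
  rfl

theorem cn_prod {R D : Submodule F V} (hR : P.TS R) (hD : D ≤ P.perp R) (hd : Disjoint R D) :
    {v | v ∈ R ⊔ D ∧ P.Sing v}.ncard = Nat.card F ^ finrank F R * {v | v ∈ D ∧ P.Sing v}.ncard := by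
  rw [← cn_sub, ← Set.ncard_prod]
  symm
  refine Set.ncard_congr (fun x _ => x.1 + x.2) ?_ ?_ ?_
  · rintro ⟨r, d⟩ ⟨hr, h1, h2⟩
    exact ⟨Submodule.add_mem_sup hr h1, (hR.1 r hr).add h2 (hD h1 r hr)⟩
  · rintro ⟨r, d⟩ ⟨r', d'⟩ ⟨hr, h1, -⟩ ⟨hr', h1', -⟩ e
    have e' : r + d = r' + d' := e
    have h3 : r - r' = d' - d := by rw [sub_eq_sub_iff_add_eq_add, e', add_comm]
    have h4 := Submodule.disjoint_def.1 hd _ (sub_mem hr hr') (h3 ▸ sub_mem h1' h1)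
    rw [h4] at h3
    exact Prod.ext (sub_eq_zero.1 h4) (sub_eq_zero.1 h3.symm).symm
  · rintro v ⟨hv, hs⟩
    obtain ⟨r, hr, d, h1, rfl⟩ := Submodule.mem_sup.1 hv
    refine ⟨(r, d), ⟨hr, h1, ?_⟩, rfl⟩
    have := (hR.1 _ (neg_mem hr)).add hs (by
      rw [P.B_add_right, hR.B_eq (neg_mem hr) hr, hD h1 _ (neg_mem hr), add_zero])
    rwa [neg_add_cancel_left] at this

theorem cn_vec (hY : P.TS Y) (h1 : Y ≤ W) (h2 : W ≤ P.perp Y) :
    {v | v ∈ W ∧ P.Sing v}.ncard = Nat.card F ^ finrank F Y +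
      cnt (Pt P Y) W * (Nat.card F ^ (finrank F Y + 1) - Nat.card F ^ finrank F Y) := by
  have a := dc_eq ({v | v ∈ W ∧ P.Sing v} \ (Y : Set V)) (ins (Pt P Y) W) (fun v Z => v ∈ Z) (m := 1)
    (k := Nat.card F ^ (finrank F Y + 1) - Nat.card F ^ finrank F Y) (by
      rintro v ⟨⟨hv, hs⟩, hn⟩
      have h3 := sup_mem_Pt hY hs (h2 hv) hn
      rw [Set.ncard_eq_one]
      refine ⟨Y ⊔ F ∙ v, Set.ext fun Z => ⟨fun hZ => ?_, fun hZ => ?_⟩⟩
      · exact (Pt.eq_of_le h3 hZ.1.1 (sup_le hZ.1.1.2.1 ((Submodule.span_singleton_le_iff_mem _ _).2 hZ.2))).symm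
      · rw [hZ]
        exact ⟨⟨h3, sup_le h1 ((Submodule.span_singleton_le_iff_mem _ _).2 hv)⟩,
          Submodule.mem_sup_right (Submodule.mem_span_singleton_self v)⟩) (by
      rintro Z ⟨hZ, hW⟩
      rw [← hZ.2.2, ← cn_sub, ← cn_sub, ← Set.ncard_sdiff hZ.2.1]
      congr 1
      ext v
      exact ⟨fun h => ⟨h.2, h.1.2⟩, fun h => ⟨⟨⟨hW h.1, hZ.1.1 v h.1⟩, h.2⟩, h.1⟩⟩)
  rw [cnt_eq, ← a, mul_one, ← cn_sub, add_comm, Set.ncard_sdiff_add_ncard_of_subset]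
  exact fun v hv => ⟨h1 hv, hY.1 v hv⟩

theorem cn_res (W : Submodule F V) : {v | v ∈ W ∧ P.Sing v}.ncard = {v | (P.restrict W).Sing v}.ncard := by
  rw [← Set.ncard_image_of_injective _ W.injective_subtype]
  congr 1
  ext v
  exact ⟨fun h => ⟨⟨v, h.1⟩, h.2, rfl⟩, by rintro ⟨w, hw, rfl⟩; exact ⟨w.2, hw⟩⟩

theorem cn_nd_top (h : P.Nondeg) : ND P ⊤ := by
  rw [ND, P.perp_top h]
  exact disjoint_bot_right

theorem cn_aux (n : ℕ) : ∀ (V : Type*) [AddCommGroup V] [Module F V] [Finite V] (P : PQ σ V), Pol P q →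
    finrank F V = n → {v | P.Sing v}.ncard = 1 + (Nat.card F - 1) * np (Nat.card F) q n := by
  induction n using Nat.strong_induction_on with
  | _ n ih =>
  intro V _ _ _ P h hn
  by_cases h2 : 2 ≤ n
  · obtain ⟨d, rfl⟩ : ∃ d, n = d + 2 := ⟨n - 2, by omega⟩
    obtain ⟨x, -, hx, hx0⟩ := exists_sing h (cn_nd_top h.nd) (by rw [finrank_top]; omega)
    obtain ⟨r⟩ := exists_res (P.ts_span_singleton hx)
    have a1 := r.finrank_D h.nd
    rw [finrank_span_singleton hx0] at a1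
    have a2 := ih d (by omega) _ r.P' (r.pol h) (by omega)
    have a3 := cn_prod r.ts (le_sup_right.trans r.sup.le) r.dis
    rw [cn_res r.D, finrank_span_singleton hx0, r.sup] at a3
    have a4 := CfsgLib.MinIdx.ncard_sing_off h.nd hx hx0 hn
    have a5 : {v | P.Sing v} = {v | v ∈ P.perp (F ∙ x) ∧ P.Sing v} ∪ {v | P.Sing v ∧ P.B x v ≠ 0} := by
      ext v
      simp only [Set.mem_ofPred_eq, Set.mem_union, P.mem_perp_span_singleton]
      tauto
    rw [a5, Set.ncard_union_eq, a3, a4, h.cq]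
    · have a6 : {v | (P.restrict r.D).Sing v}.ncard = 1 + (Nat.card F - 1) * np (Nat.card F) q d := a2
      rw [a6, np]
      obtain ⟨Q, hQ⟩ : ∃ Q, Nat.card F = Q + 1 := ⟨Nat.card F - 1, by have := h.three_le; omega⟩
      rw [hQ, Nat.add_sub_cancel]
      ring
    · rw [Set.disjoint_left]
      exact fun v a b => b.2 (P.mem_perp_span_singleton.1 a.1)
  · have a1 : {v | P.Sing v} = {0} := by
      ext v
      refine ⟨fun hv => ?_, fun hv => by rw [hv]; exact P.sing_zero⟩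
      by_contra h0
      have := two_le_of_sing (cn_nd_top h.nd) Submodule.mem_top hv h0
      rw [finrank_top] at this
      omega
    have a2 : np (Nat.card F) q n = 0 := by
      rw [not_le] at h2
      interval_cases n <;> rfl
    rw [a1, a2, Set.ncard_singleton, mul_zero, add_zero]

theorem cn_cov (hZ : Z ∈ Pt P Y) (hU : Y ≤ U) (hn : ¬ Z ≤ U) : Z ⊓ U = Y := by
  refine (Submodule.eq_of_le_of_finrank_le (le_inf hZ.2.1 hU) ?_).symm
  have := Submodule.finrank_lt_finrank_of_lt (inf_lt_left.2 hn)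
  have := hZ.2.2
  omega

theorem cn_le (hZ : Z ∈ Pt P Y) : Z ≤ P.perp Y := hZ.1.2.trans (P.perp_anti hZ.2.1)

theorem cn_T (hY : Y ∈ T P k) (hZ : Z ∈ Pt P Y) : Z ∈ T P (k + 1) := ⟨hZ.1, hY.2 ▸ hZ.2.2⟩

theorem cn_th0 (Q : ℕ) : th Q 0 = 0 := rfl

theorem cn_th1 (Q : ℕ) : th Q 1 = 1 := by simp [th]

theorem cn_th2 (Q : ℕ) : th Q 2 = Q + 1 := by simp [th, Finset.sum_range_succ, add_comm]

theorem ncard_sing (h : Pol P q) :
    {v | P.Sing v}.ncard = 1 + (Nat.card F - 1) * np (Nat.card F) q (finrank F V) := cn_aux _ V P h rfl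

theorem ncard_sing_nd (h : Pol P q) (hW : ND P W) :
    {v | v ∈ W ∧ P.Sing v}.ncard = 1 + (Nat.card F - 1) * np (Nat.card F) q (finrank F W) := by
  rw [cn_res, ncard_sing (h.restrict hW)]

/-- the points of the residue of `Y` inside `W`, in terms of the radical of `W` -/
theorem cnt_rad (h : Pol P q) (hY : P.TS Y) (h1 : Y ≤ W) (h2 : W ≤ P.perp Y) :
    cnt (Pt P Y) W = th (Nat.card F) (finrank F ↥(W ⊓ P.perp W) - finrank F Y) +
      Nat.card F ^ (finrank F ↥(W ⊓ P.perp W) - finrank F Y) *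
        np (Nat.card F) q (finrank F W - finrank F ↥(W ⊓ P.perp W)) := by
  obtain ⟨D, hd, hs⟩ := IsModularLattice.exists_disjoint_and_sup_eq (inf_le_left : W ⊓ P.perp W ≤ W)
  have hDW : D ≤ W := le_sup_right.trans hs.le
  have hRW : W ≤ P.perp (W ⊓ P.perp W) := P.le_perp_comm.1 inf_le_right
  have hR : P.TS (W ⊓ P.perp W) := h.ts_iff.2 (inf_le_left.trans hRW)
  have hD : ND P D := by
    refine Submodule.disjoint_def.2 fun v hv hv' => Submodule.disjoint_def.1 hd v ⟨hDW hv, ?_⟩ hv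
    rw [← hs, SetLike.mem_coe, P.perp_sup]
    exact ⟨hRW (hDW hv), hv'⟩
  have a1 := cn_prod hR (hDW.trans hRW) hd
  have a2 := Submodule.finrank_sup_add_finrank_inf_eq (W ⊓ P.perp W) D
  rw [hs, hd.eq_bot, finrank_bot] at a2
  rw [hs, ncard_sing_nd h hD, cn_vec hY h1 h2] at a1
  obtain ⟨j, hj⟩ := Nat.exists_eq_add_of_le (Submodule.finrank_mono (le_inf h1 (P.le_perp_comm.1 h2)))
  rw [show finrank F W - finrank F ↥(W ⊓ P.perp W) = finrank F D by omega, hj, Nat.add_sub_cancel_left]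
  rw [hj] at a1
  have a3 := th_mul (Nat.card F) j
  obtain ⟨Q, hQ⟩ : ∃ Q, Nat.card F = Q + 1 := ⟨Nat.card F - 1, by have := h.three_le; omega⟩
  have hQ0 : 0 < Q := by have := h.three_le; omega
  rw [hQ] at a1 a3 ⊢
  rw [Nat.add_sub_cancel, pow_succ, mul_add, mul_one, Nat.add_sub_cancel] at a1
  refine Nat.eq_of_mul_eq_mul_left (show 0 < (Q + 1) ^ finrank F Y * Q by positivity) ?_
  zify at a1 ⊢
  push_cast at a3
  linear_combination a1 - ((Q : ℤ) + 1) ^ finrank F Y * a3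

theorem cnt_nd (h : Pol P q) (hW : ND P W) : cnt (T P 1) W = np (Nat.card F) q (finrank F W) := by
  rw [← pt_bot, cnt_rad h P.ts_bot bot_le (by rw [P.perp_bot]; exact le_top), Disjoint.eq_bot hW]
  simp [cn_th0]

theorem ncard_T1 (h : Pol P q) : (T P 1).ncard = np (Nat.card F) q (finrank F V) := by
  rw [← finrank_top F V, ← cnt_nd h (cn_nd_top h.nd), cnt]
  simp

theorem cnt_ts (hU : P.TS U) (h1 : Y ≤ U) : cnt (Pt P Y) U = th (Nat.card F) (finrank F U - finrank F Y) := by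
  rw [← ncard_cover h1, cnt]
  congr 1
  ext Z
  exact ⟨fun h => ⟨h.1.2.1, h.2, by have := h.1.2.2; omega⟩, fun h => ⟨⟨hU.mono h.2.1, h.1, by
    have := h.2.2; omega⟩, h.2.1⟩⟩

theorem cnt_T1 (hU : U ∈ T P k) : cnt (T P 1) U = th (Nat.card F) k := by
  rw [← pt_bot, cnt_ts hU.1 bot_le, hU.2, finrank_bot, Nat.sub_zero]

/-- hyperplanes of a totally singular subspace containing `Y` -/
theorem cnt_hy (hU : U ∈ T P (k + 1)) (h1 : Y ≤ U) :
    cnt (thru (T P k) Y) U = th (Nat.card F) (k + 1 - finrank F Y) := by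
  have := hU.2
  rw [← this, ← ncard_cocover h1, cnt]
  congr 1
  ext Z
  exact ⟨fun h => ⟨h.2, h.1.2, by have := h.1.1.2; omega⟩, fun h => ⟨⟨⟨hU.1.mono h.1, by
    have := h.2.2; omega⟩, h.2.1⟩, h.1⟩⟩

theorem cnt_hy' (hU : U ∈ T P (k + 1)) : cnt (T P k) U = th (Nat.card F) (k + 1) := by
  have := cnt_hy hU bot_le
  rw [finrank_bot, Nat.sub_zero] at this
  rw [← this]
  simp [thru]

theorem cnt_perp (h : Pol P q) (hU : U ∈ T P k) (h1 : Y ≤ U) :
    cnt (Pt P Y) (P.perp U) = th (Nat.card F) (k - finrank F Y) +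
      Nat.card F ^ (k - finrank F Y) * np (Nat.card F) q (finrank F V - 2 * k) := by
  have a := P.finrank_perp h.nd U
  have b := hU.2
  rw [cnt_rad h (hU.1.mono h1) (h1.trans hU.1.2) (P.perp_anti h1), P.perp_perp h.nd, inf_eq_right.2 hU.1.2, b,
    show finrank F (P.perp U) - k = finrank F V - 2 * k by omega]

theorem ncard_Pt (h : Pol P q) (hY : Y ∈ T P k) : (Pt P Y).ncard = np (Nat.card F) q (finrank F V - 2 * k) := by
  have := cnt_perp h hY le_rfl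
  rw [hY.2, Nat.sub_self, cn_th0, pow_zero, one_mul, zero_add] at this
  rw [← this, cnt]
  congr 1
  ext Z
  exact ⟨fun hZ => ⟨hZ, cn_le hZ⟩, fun hZ => hZ.1⟩

theorem cnt_perp_pt (h : Pol P q) (hY : Y ∈ T P k) (hZ : Z ∈ Pt P Y) :
    cnt (Pt P Y) (P.perp Z) = kk (Nat.card F) q (finrank F V - 2 * k) := by
  rw [cnt_perp h (cn_T hY hZ) hZ.2.1, hY.2, Nat.add_sub_cancel_left, cn_th1, pow_one, kk]
  rfl

theorem cnt_opp (h : Pol P q) (hY : Y ∈ T P k) (hZ : Z ∈ Pt P Y) (hZ' : Z' ∈ Pt P Y) (hn : ¬ Z' ≤ P.perp Z) :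
    cnt (Pt P Y) (P.perp Z ⊓ P.perp Z') = np (Nat.card F) q (finrank F V - 2 * k - 2) := by
  have hn' : ¬ Z ≤ P.perp Z' := fun k => hn (P.le_perp_comm.1 k)
  have a1 := cn_cov hZ' (P.le_perp_comm.1 (cn_le hZ)) hn
  have a2 := cn_cov hZ (P.le_perp_comm.1 (cn_le hZ')) hn'
  have a3 := cn_cov hZ hZ'.2.1 fun k => hn' (k.trans hZ'.1.2)
  have a4 : P.perp (Z ⊔ Z') ⊓ (Z ⊔ Z') = Y := by
    rw [P.perp_sup, inf_right_comm, inf_comm (P.perp Z), sup_inf_assoc_of_le _ hZ.1.2, a1,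
      sup_eq_left.2 hZ.2.1, a2]
  have a5 := Submodule.finrank_sup_add_finrank_inf_eq Z Z'
  have a6 := P.finrank_perp h.nd (Z ⊔ Z')
  have a7 := hZ.2.2
  have a8 := hZ'.2.2
  have a9 := hY.2
  rw [a3] at a5
  rw [← P.perp_sup, cnt_rad h hY.1 (a4.ge.trans inf_le_left) (P.perp_anti (hZ.2.1.trans le_sup_left)),
    P.perp_perp h.nd, a4, Nat.sub_self, cn_th0, pow_zero, one_mul, zero_add]
  congr 1
  omega

theorem cnt_col (h : Pol P q) (hY : Y ∈ T P k) (hZ : Z ∈ Pt P Y) (hZ' : Z' ∈ Pt P Y) (hn : Z' ≤ P.perp Z)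
    (hne : Z ≠ Z') : cnt (Pt P Y) (P.perp Z ⊓ P.perp Z') =
      Nat.card F + 1 + Nat.card F ^ 2 * np (Nat.card F) q (finrank F V - 2 * k - 4) := by
  rw [← P.perp_sup, cnt_perp h (Pt.sup hY hZ hZ' hn hne) (hZ.2.1.trans le_sup_left), hY.2,
    Nat.add_sub_cancel_left, cn_th2]
  rfl

theorem cnt_nonsing (h : Pol P q) (hY : Y ∈ T P k) {a : V} (ha : a ∈ P.perp Y) (hn : ¬ P.Sing a) :
    cnt (Pt P Y) (P.perp (F ∙ a)) = np (Nat.card F) q (finrank F V - 2 * k - 1) := by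
  have a0 : F ∙ a ≤ P.perp Y := (Submodule.span_singleton_le_iff_mem _ _).2 ha
  have a1 : Y ≤ P.perp (Y ⊔ F ∙ a) := P.le_perp_comm.1 (sup_le hY.1.2 a0)
  have a2 : (F ∙ a) ⊓ P.perp (Y ⊔ F ∙ a) = ⊥ :=
    ((nd_span h hn).mono_right (P.perp_anti le_sup_right)).eq_bot
  have a4 : P.perp (Y ⊔ F ∙ a) ⊓ (Y ⊔ F ∙ a) = Y := by
    rw [inf_comm, sup_inf_assoc_of_le _ a1, a2, sup_bot_eq]
  have a3 : Y ⊓ (F ∙ a) = ⊥ := by
    rw [eq_bot_iff, ← a2]
    exact le_inf inf_le_right (inf_le_left.trans a1)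
  have a5 := Submodule.finrank_sup_add_finrank_inf_eq Y (F ∙ a)
  have a6 := P.finrank_perp h.nd (Y ⊔ F ∙ a)
  have a9 := hY.2
  rw [a3, finrank_bot, finrank_span_singleton (show a ≠ 0 from fun k => hn (k ▸ P.sing_zero))] at a5
  have a7 : cnt (Pt P Y) (P.perp (F ∙ a)) = cnt (Pt P Y) (P.perp (Y ⊔ F ∙ a)) := by
    rw [cnt, cnt, P.perp_sup]
    congr 1
    ext Z
    exact ⟨fun k => ⟨k.1, le_inf (cn_le k.1) k.2⟩, fun k => ⟨k.1, k.2.trans inf_le_right⟩⟩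
  rw [a7, cnt_rad h hY.1 a1 (P.perp_anti le_sup_left), P.perp_perp h.nd, a4, Nat.sub_self, cn_th0, pow_zero,
    one_mul, zero_add]
  congr 1
  omega

/-- flags `Y < Z < E` -/
theorem ncard_two (h : Pol P q) (hY : Y ∈ T P k) : (thru (T P (k + 2)) Y).ncard * (Nat.card F + 1) =
    np (Nat.card F) q (finrank F V - 2 * k) * np (Nat.card F) q (finrank F V - 2 * k - 2) := by
  rw [← ncard_Pt h hY]
  refine dc_eq _ _ (fun E Z => Z ≤ E) (fun E hE => ?_) fun Z hZ => ?_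
  · have := cnt_ts hE.1.1 hE.2
    rw [hE.1.2, hY.2, Nat.add_sub_cancel_left, cn_th2] at this
    exact this
  · have := ncard_Pt h (cn_T hY hZ)
    rw [pt_eq_thru (cn_T hY hZ).2] at this
    rw [show finrank F V - 2 * k - 2 = finrank F V - 2 * (k + 1) by omega, ← this]
    congr 1
    ext E
    exact ⟨fun a => ⟨a.1.1, a.2⟩, fun a => ⟨⟨a.1, hZ.2.1.trans a.2⟩, a.2⟩⟩

theorem ncard_T2 (h : Pol P q) : (T P 2).ncard * (Nat.card F + 1) =
    np (Nat.card F) q (finrank F V) * np (Nat.card F) q (finrank F V - 2) := by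
  have := ncard_two h (Y := ⊥) (k := 0) ⟨P.ts_bot, finrank_bot F V⟩
  simpa [thru] using this

theorem cn_split (M : Set (Submodule F V)) {l : Submodule F V} (h : l ∈ M ↔ l ∈ C) :
    (M.ncard : ℂ) = ind C l + (M \ {l}).ncard := by
  by_cases hl : l ∈ C
  · rw [ind_mem hl, ← Set.ncard_sdiff_singleton_add_one (h.2 hl)]
    push_cast
    ring
  · rw [ind_not hl, Set.sdiff_singleton_eq_self (mt h.1 hl), zero_add]

/-- `η` as a sum over the planes on `l` -/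
theorem eta_sum (hC : C ⊆ T P 2) {x l : Submodule F V} (hx : x ∈ T P 1) (hl : l ∈ T P 2) (hxl : x ≤ l) :
    (eta P C x l : ℂ) = ind C l + sm (Pt P l) fun E => (cnt (thru C x) E : ℂ) - ind C l := by
  have hp : ∀ m ∈ C, x ≤ m → m ∈ Pt P x := fun m a b => ⟨(hC a).1, b, by rw [(hC a).2, hx.2]⟩
  have a := sm_comm (Pt P l) (ins (thru C x) (P.perp l) \ {l}) (fun E m => m ≤ E) fun _ => 1
  rw [sm_const (c := 1) (S := ins (thru C x) (P.perp l) \ {l}), mul_one] at a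
  · rw [eta, cnt_eq, cn_split (C := C) (l := l) (ins (thru C x) (P.perp l))
      ⟨fun k => k.1.1, fun k => ⟨⟨k, hxl⟩, hl.1.2⟩⟩, ← a]
    congr 1
    refine sm_congr fun E hE => ?_
    rw [sm_const (c := 1) (fun _ _ => rfl), mul_one, cnt_eq,
      cn_split (C := C) (l := l) (ins (thru C x) E) ⟨fun k => k.1.1, fun k => ⟨⟨k, hxl⟩, hE.2.1⟩⟩,
      add_sub_cancel_left]
    congr 2
    ext m
    exact ⟨fun k => ⟨⟨k.1.1.1, k.2⟩, k.1.2⟩, fun k => ⟨⟨⟨k.1.1, k.1.2.trans (cn_le hE)⟩, k.2⟩, k.1.2⟩⟩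
  · rintro m ⟨⟨⟨m1, m2⟩, m3⟩, m4⟩
    have b1 : ¬ m ≤ l := fun k => m4 (T.eq_of_le (hC m1) hl k)
    have b2 := T.sup_pt hl (hp m m1 m2) hxl m3 b1
    have b3 : l ⊔ m ∈ Pt P l := ⟨b2.1, le_sup_left, by rw [b2.2, hl.2]⟩
    have b4 : {E | E ∈ Pt P l ∧ m ≤ E} = {l ⊔ m} := by
      ext E
      exact ⟨fun k => (Pt.eq_of_le b3 k.1 (sup_le k.1.2.1 k.2)).symm, fun k => by
        rw [k]; exact ⟨b3, le_sup_right⟩⟩
    rw [b4, Set.ncard_singleton, Nat.cast_one, mul_one]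

theorem cnt_compl' {A : Set (Submodule F V)} (hC : C ⊆ A) (W : Submodule F V) :
    cnt C W + cnt (A \ C) W = cnt A W := by
  rw [cnt, cnt, cnt, ← Set.ncard_union_eq]
  · congr 1
    ext m
    have := @hC m
    simp only [Set.mem_union, Set.mem_ofPred_eq, Set.mem_sdiff]
    tauto
  · rw [Set.disjoint_left]
    exact fun m a b => b.1.2 a.1

theorem cnt_compl {A : Set (Submodule F V)} (hC : C ⊆ A) (x W : Submodule F V) :
    cnt (thru C x) W + cnt (thru (A \ C) x) W = cnt (thru A x) W := by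
  rw [← cnt_compl' (C := thru C x) (A := thru A x) fun m k => ⟨hC k.1, k.2⟩]
  congr 2
  ext m
  exact ⟨fun k => ⟨⟨k.1.1, k.2⟩, fun j => k.1.2 j.1⟩, fun k => ⟨⟨k.1.1, fun j => k.2 ⟨j, k.1.2⟩⟩, k.1.2⟩⟩

theorem eta_compl (h : Pol P q) (hC : C ⊆ T P 2) {x l : Submodule F V} (hx : x ∈ T P 1) (hl : l ∈ T P 2)
    (hxl : x ≤ l) : eta P C x l + eta P (T P 2 \ C) x l = kk (Nat.card F) q (finrank F V - 2) := by
  rw [eta, eta, cnt_compl hC, ← pt_eq_thru hx.2, cnt_perp_pt h hx ⟨hl.1, hxl, by rw [hl.2, hx.2]⟩]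

end CfsgLib.KP
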