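import Mathlib
import Cfsg.Agent.Lib.KP.Cnt

/-! KP: tools for the span property (plans/KP.md, package INJ). -/

set_option autoImplicit false
set_option linter.unusedSectionVars false

namespace CfsgLib.KP

open CfsgLib.CK CfsgLib.KL CfsgLib.Forms CfsgLib.RootMax CfsgLib.ClMax CfsgLib.Tech Module

variable {F : Type*} [Field F] [Finite F] {σ : F →+* F} {V : Type*} [AddCommGroup V] [Module F V] [Finite V]
  {P : PQ σ V} {q : ℕ} {K : Subgroup (V ≃ₗ[F] V)} {C : Set (Submodule F V)}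

section Abs

variable {G X : Type*} [Group G] [MulAction G X] [Finite X] {I H : Subgroup G} {A O : Set X}

theorem ij_add (S : Set X) (u v : X → ℂ) : sm S (fun x => u x + v x) = sm S u + sm S v := by
  simp only [sm_eq_sum, Finset.sum_add_distrib]

theorem ij_mul (S : Set X) (c : ℂ) (u : X → ℂ) : sm S (fun x => c * u x) = c * sm S u := by
  simp only [sm_eq_sum, Finset.mul_sum]

/-- the invariant functions vanishing off `A` and at `x₀` -/
def ijW (H : Subgroup G) (A : Set X) (x₀ : X) : Submodule ℂ (X → ℂ) where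
  carrier := {f | (∀ g ∈ H, ∀ x ∈ A, f (g • x) = f x) ∧ (∀ x, x ∉ A → f x = 0) ∧ f x₀ = 0}
  add_mem' := fun {a b} ha hb => ⟨fun g hg x hx => by simp [ha.1 g hg x hx, hb.1 g hg x hx],
    fun x hx => by simp [ha.2.1 x hx, hb.2.1 x hx], by simp [ha.2.2, hb.2.2]⟩
  zero_mem' := ⟨fun _ _ _ _ => rfl, fun _ _ => rfl, rfl⟩
  smul_mem' := fun c a ha => ⟨fun g hg x hx => by simp [ha.1 g hg x hx], fun x hx => by simp [ha.2.1 x hx],
    by simp [ha.2.2]⟩

/-- the neighbourhood sum, normalised at `x₀` -/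
noncomputable def ijL (A : Set X) (N : X → Set X) (x₀ : X) : (X → ℂ) →ₗ[ℂ] (X → ℂ) where
  toFun f x := ind A x * (sm (N x) f - sm (N x₀) f)
  map_add' f f' := by
    funext x
    have k : ∀ S : Set X, sm S (f + f') = sm S f + sm S f' := fun S => ij_add S f f'
    simp only [k, Pi.add_apply]
    ring
  map_smul' c f := by
    funext x
    have k : ∀ S : Set X, sm S (c • f) = c * sm S f := fun S => ij_mul S c f
    simp only [k, Pi.smul_apply, smul_eq_mul, RingHom.id_apply]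
    ring

/-- an invariant function is constant on a set on which the group is transitive -/
theorem ij_const {S : Set X} (hS : S ⊆ A) (t : Tr H S) {hh : X → ℂ} (hi : ∀ g ∈ H, ∀ x ∈ A, hh (g • x) = hh x) :
    ∃ a : ℂ, ∀ x ∈ S, hh x = a := by
  obtain h0 | ⟨x, hx⟩ := S.eq_empty_or_nonempty
  · exact ⟨0, by simp [h0]⟩
  · refine ⟨hh x, fun x' hx' => ?_⟩
    obtain ⟨g, hg, rfl⟩ := t x hx x' hx'
    exact hi g hg x (hS hx)

/-- an invariant eigenfunction modulo the constants -/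
theorem exists_eigen (hH : H ≤ I) (hA : Inv I A) {N : X → Set X} (s : ∀ x ∈ A, N x ⊆ A) (e : EqI I N)
    (hO : Part H A O) : ∃ (f : X → ℂ) (c μ : ℂ),
      (∀ g ∈ H, ∀ x ∈ A, f (g • x) = f x) ∧ (∃ x ∈ A, ∃ x' ∈ A, f x ≠ f x') ∧ ∀ x ∈ A, sm (N x) f = c + μ * f x := by
  obtain ⟨x₀, hx₀, hn⟩ := hO.ne'
  obtain ⟨x₁, hx₁⟩ := hO.ne
  have hL : ∀ f ∈ ijW H A x₀, ijL A N x₀ f ∈ ijW H A x₀ := fun f hf =>
    ⟨fun g hg x hx => by
      show ind A _ * (_ - _) = ind A _ * (_ - _)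
      rw [ind_smul (hA.mono hH) hg, e.sm_inv (hH hg) fun z hz => hf.1 g hg z (s x hx hz)],
    fun x hx => by
      show ind A _ * (_ - _) = 0
      rw [ind_not hx, zero_mul],
    by
      show ind A _ * (_ - _) = 0
      rw [sub_self, mul_zero]⟩
  have hm : ind O ∈ ijW H A x₀ :=
    ⟨fun g hg x _ => ind_smul hO.inv hg x, fun x hx => ind_not fun k => hx (hO.sub k), ind_not hn⟩
  have : Nontrivial (ijW H A x₀) := ⟨⟨⟨_, hm⟩, 0, fun k => by
    have := congrFun (congrArg Subtype.val k) x₁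
    simp [ind_mem hx₁] at this⟩⟩
  obtain ⟨μ, hμ⟩ := Module.End.exists_eigenvalue ((ijL A N x₀).restrict hL)
  obtain ⟨f, hf⟩ := hμ.exists_hasEigenvector
  have h1 := hf.apply_eq_smul
  obtain ⟨x, hx⟩ : ∃ x, f.1 x ≠ 0 := by
    by_contra! k
    exact hf.2 (Subtype.ext (funext k))
  refine ⟨f.1, sm (N x₀) f.1, μ, f.2.1, ⟨x, by_contra fun k => hx (f.2.2.1 x k), x₀, hx₀, by rwa [f.2.2.2]⟩,
    fun z hz => ?_⟩
  have h2 : ind A z * (sm (N z) f.1 - sm (N x₀) f.1) = μ * f.1 z := congrFun (congrArg Subtype.val h1) z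
  rw [ind_mem hz] at h2
  linear_combination h2

theorem tr_of_aff (hO : Part H A O) {f : X → ℂ} (h : ∀ hh : X → ℂ, (∀ g ∈ H, ∀ x ∈ A, hh (g • x) = hh x) →
    ∃ c₀ c₁ : ℂ, ∀ x ∈ A, hh x = c₀ + c₁ * f x) : Tr H O := by
  intro a ha b hb
  obtain ⟨x, hx, hn⟩ := hO.ne'
  obtain ⟨c₀, c₁, hc⟩ := h (ind O) fun g hg x _ => ind_smul hO.inv hg x
  obtain ⟨d₀, d₁, hd⟩ := h (ind (orb H a)) fun g hg x _ => ind_smul (inv_orb H a) hg x
  have a1 := hc a (hO.sub ha)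
  have a2 := hc b (hO.sub hb)
  have a3 := hc x hx
  have a4 := hd a (hO.sub ha)
  have a5 := hd b (hO.sub hb)
  rw [ind_mem ha] at a1
  rw [ind_mem hb] at a2
  rw [ind_not hn] at a3
  rw [ind_mem (show a ∈ orb H a from ⟨1, one_mem H, one_smul G a⟩)] at a4
  by_contra k
  rw [ind_not (show b ∉ orb H a from k)] at a5
  have c1 : c₁ ≠ 0 := fun k0 => by
    rw [k0] at a1 a3
    exact one_ne_zero (show (1 : ℂ) = 0 by linear_combination a1 - a3)
  have e : f a = f b := mul_left_cancel₀ c1 (by linear_combination a2 - a1)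
  rw [e] at a4
  exact one_ne_zero (a4.trans a5.symm)

/-- two orbits: an invariant function is affine in the indicator function -/
theorem aff_of_two (hO : O ⊆ A) (t0 : Tr H O) (t1 : Tr H (A \ O)) {hh : X → ℂ}
    (hi : ∀ g ∈ H, ∀ x ∈ A, hh (g • x) = hh x) : ∃ c μ : ℂ, ∀ x ∈ A, hh x = c + μ * ind O x := by
  obtain ⟨a, ha⟩ := ij_const hO t0 hi
  obtain ⟨b, hb⟩ := ij_const Set.sdiff_subset t1 hi
  refine ⟨b, a - b, fun x hx => ?_⟩
  by_cases k : x ∈ O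
  · rw [ind_mem k, ha x k]; ring
  · rw [ind_not k, hb x ⟨hx, k⟩]; ring

end Abs

variable {Y U : Submodule F V} {u : Submodule F V → ℂ}

theorem ij_le {Z : Submodule F V} (hZ : Z ∈ Pt P Y) : Y ≤ P.perp Z := hZ.2.1.trans hZ.1.2

theorem perp_sum (hU : P.TS U) (hY : Y < U) (all : sm (Pt P Y) u = 0)
    (h : sm (ins (Pt P Y) U) (fun Z => sm (ins (Pt P Y) (P.perp Z)) u) = 0) : sm (ins (Pt P Y) (P.perp U)) u = 0 := by
  obtain ⟨k, hk⟩ : ∃ k, finrank F U = finrank F Y + k + 1 :=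
    Nat.exists_eq_add_of_lt (Submodule.finrank_lt_finrank_of_lt hY)
  have hUY : U ≤ P.perp Y := hU.2.trans (P.perp_anti hY.le)
  have c : ∀ Z' ∈ Pt P Y, {Z | Z ∈ ins (Pt P Y) U ∧ Z' ≤ P.perp Z}.ncard =
      th (Nat.card F) (finrank F ↥(U ⊓ P.perp Z') - finrank F Y) := fun Z' hZ' => by
    rw [← cnt_ts (hU.mono inf_le_left) (le_inf hY.le (ij_le hZ')), cnt]
    congr 1
    ext Z
    simp only [ins, Set.mem_ofPred_eq, le_inf_iff, P.le_perp_comm (W := Z), and_assoc]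
  have h1 := sm_comm (ins (Pt P Y) U) (Pt P Y) (fun Z Z' => Z' ≤ P.perp Z) u
  have s : ins (Pt P Y) (P.perp U) ⊆ Pt P Y := fun _ k => k.1
  have e1 : sm (ins (Pt P Y) (P.perp U)) (fun Z' => ({Z | Z ∈ ins (Pt P Y) U ∧ Z' ≤ P.perp Z}.ncard : ℂ) * u Z') =
      ((th (Nat.card F) k : ℂ) + (Nat.card F : ℂ) ^ k) * sm (ins (Pt P Y) (P.perp U)) u := by
    rw [← ij_mul]
    refine sm_congr fun Z' hZ' => ?_
    rw [c Z' hZ'.1, inf_eq_left.2 (P.le_perp_comm.1 hZ'.2), hk, add_assoc, Nat.add_sub_cancel_left, th_succ']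
    push_cast
    rfl
  have e2 : sm (Pt P Y \ ins (Pt P Y) (P.perp U))
      (fun Z' => ({Z | Z ∈ ins (Pt P Y) U ∧ Z' ≤ P.perp Z}.ncard : ℂ) * u Z') =
      (th (Nat.card F) k : ℂ) * sm (Pt P Y \ ins (Pt P Y) (P.perp U)) u := by
    rw [← ij_mul]
    refine sm_congr fun Z' hZ' => ?_
    have := finrank_inf_perp hZ'.1 hUY fun k => hZ'.2 ⟨hZ'.1, P.le_perp_comm.1 k⟩
    rw [c Z' hZ'.1, show finrank F ↥(U ⊓ P.perp Z') - finrank F Y = k by omega]
  rw [sm_diff s, e1, e2] at h1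
  rw [sm_diff s] at all
  have h2 : (Nat.card F : ℂ) ^ k * sm (ins (Pt P Y) (P.perp U)) u = 0 := by
    have h3 := h.symm.trans h1
    linear_combination -h3 - (th (Nat.card F) k : ℂ) * all
  exact (mul_eq_zero.1 h2).resolve_left (pow_ne_zero _ (Nat.cast_ne_zero.2 Nat.card_pos.ne'))

theorem loc_zero (hU : P.TS U) (hY : Y ≤ U) (h2 : finrank F Y + 2 ≤ finrank F U) (all : sm (Pt P Y) u = 0)
    (h0 : ∀ Z ∈ Pt P Y, Z ≤ U → u Z = 0) (h1 : ∀ Z ∈ Pt P Y, Z ≤ U → sm (ins (Pt P Y) (P.perp Z)) u = 0)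
    (pos : ∀ Z ∈ Pt P Y, ∀ Z' ∈ Pt P Y, ¬ Z ≤ U → ¬ Z' ≤ U → P.perp Z ⊓ U = P.perp Z' ⊓ U → u Z = u Z') :
    ∀ Z ∈ Pt P Y, u Z = 0 := by
  have hUY : U ≤ P.perp Y := hU.2.trans (P.perp_anti hY)
  have k : ∀ H, H ≤ U → Y ≤ H → finrank F Y < finrank F H → sm (ins (Pt P Y) (P.perp H)) u = 0 :=
    fun H a b c => perp_sum (hU.mono a) (lt_of_le_of_ne b fun e => by rw [e] at c; exact c.false) all
      (sm_eq_zero fun Z hZ => h1 Z hZ.1 (hZ.2.trans a))
  have s1 : ∀ Z ∈ Pt P Y, Z ≤ P.perp U → u Z = 0 := fun Z hZ a => by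
    by_cases b : Z ≤ U
    · exact h0 Z hZ b
    refine sm_zero (k U le_rfl hY (by omega)) ⟨hZ, a⟩ fun Z' hZ' => ?_
    by_cases b' : Z' ≤ U
    · exact Or.inl (h0 Z' hZ'.1 b')
    · exact Or.inr (pos Z' hZ'.1 Z hZ b' b (by
        rw [inf_eq_right.2 (P.le_perp_comm.1 hZ'.2), inf_eq_right.2 (P.le_perp_comm.1 a)]))
  intro Z hZ
  by_cases a : Z ≤ P.perp U
  · exact s1 Z hZ a
  have d := finrank_inf_perp hZ hUY fun k => a (P.le_perp_comm.1 k)
  refine sm_zero (k (U ⊓ P.perp Z) inf_le_left (le_inf hY (ij_le hZ)) (by omega))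
    ⟨hZ, P.le_perp_comm.1 inf_le_right⟩ fun Z' hZ' => ?_
  by_cases a' : Z' ≤ P.perp U
  · exact Or.inl (s1 Z' hZ'.1 a')
  have d' := finrank_inf_perp hZ'.1 hUY fun k => a' (P.le_perp_comm.1 k)
  refine Or.inr (pos Z' hZ'.1 Z hZ (fun k => a' (k.trans hU.2)) (fun k => a (k.trans hU.2)) ?_)
  rw [inf_comm, inf_comm (P.perp Z)]
  exact (Submodule.eq_of_le_of_finrank_eq (le_inf inf_le_left (P.le_perp_comm.1 hZ'.2)) (by omega)).symm

/-- the trace of a point -/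
theorem ij_tr {x x' : Submodule F V} (hx : x ∈ T P 1) (hx' : x' ∈ T P 1) {W : Submodule F V}
    (h : x ≤ W ↔ x' ≤ W) : finrank F ↥(x ⊓ W) = finrank F ↥(x' ⊓ W) := by
  by_cases a : x ≤ W
  · rw [inf_eq_left.2 a, inf_eq_left.2 (h.1 a), hx.2, hx'.2]
  · rw [cn_cov (pt_bot P ▸ hx) bot_le a, cn_cov (pt_bot P ▸ hx') bot_le fun k => a (h.2 k)]

/-- the trace of the perp of a point -/
theorem ij_tr' {x x' : Submodule F V} (hx : x ∈ T P 1) (hx' : x' ∈ T P 1) {W : Submodule F V}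
    (h : x ≤ P.perp W ↔ x' ≤ P.perp W) : finrank F ↥(P.perp x ⊓ W) = finrank F ↥(P.perp x' ⊓ W) := by
  by_cases a : x ≤ P.perp W
  · rw [inf_eq_right.2 (P.le_perp_comm.1 a), inf_eq_right.2 (P.le_perp_comm.1 (h.1 a))]
  · have d := finrank_inf_perp (E := W) (pt_bot P ▸ hx) (P.perp_bot ▸ le_top) fun k => a (P.le_perp_comm.1 k)
    have d' := finrank_inf_perp (E := W) (pt_bot P ▸ hx') (P.perp_bot ▸ le_top) fun k => a (h.2 (P.le_perp_comm.1 k))
    rw [inf_comm, inf_comm (P.perp x')]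
    omega

theorem inj1 {b c d : ℕ} {y : Submodule F V × Submodule F V × Submodule F V} (hy : y ∈ T3 P b c d) {μ : ℂ}
    (pos : PosInv P 1 y u) (all : sm (T P 1) u = 0) (eig : ∀ x ∈ T P 1, sm (ins (T P 1) (P.perp x)) u = μ * u x)
    (h1 : sm (ins (T P 1) y.1) u = 0) (h2 : sm (ins (T P 1) y.2.1) u = 0) (h3 : sm (ins (T P 1) y.2.2) u = 0) :
    ∀ x ∈ T P 1, u x = 0 := by
  obtain ⟨y₁, y₂, y₃⟩ := y
  obtain ⟨a12, a23, t1, t2, t3⟩ := hy
  dsimp only at a12 a23 t1 t2 t3 h1 h2 h3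
  have top : sm (ins (T P 1) ⊤) u = 0 := by
    rw [← all]; congr 1; ext x; simp [ins]
  have pp : ∀ W, P.TS W → sm (ins (T P 1) W) u = 0 → sm (ins (T P 1) (P.perp W)) u = 0 := fun W hW h => by
    obtain rfl | hb := eq_bot_or_bot_lt W
    · rwa [P.perp_bot]
    · rw [← pt_bot] at *
      refine perp_sum hW hb all ?_
      rw [sm_congr fun Z hZ => eig Z hZ.1, ij_mul, h, mul_zero]
  have key : ∀ W W', (∀ M ∈ [y₁, y₂, y₃, P.perp y₃, P.perp y₂, P.perp y₁], M ≤ W ∨ W' ≤ M) →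
      sm (ins (T P 1) W') u = 0 → (∀ x ∈ T P 1, x ≤ W → u x = 0) → ∀ x ∈ T P 1, x ≤ W' → u x = 0 := by
    intro W W' hM hs h0 x hx hx'
    by_cases a : x ≤ W
    · exact h0 x hx a
    refine sm_zero hs ⟨hx, hx'⟩ fun z hz => ?_
    by_cases b : z ≤ W
    · exact Or.inl (h0 z hz.1 b)
    have e : ∀ M ∈ [y₁, y₂, y₃, P.perp y₃, P.perp y₂, P.perp y₁], z ≤ M ↔ x ≤ M := fun M m =>
      (hM M m).elim (fun c => iff_of_false (fun k => b (k.trans c)) fun k => a (k.trans c))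
        fun c => iff_of_true (hz.2.trans c) (hx'.trans c)
    exact Or.inr (pos z hz.1 x hx ⟨Prod.ext (ij_tr hz.1 hx (e _ (by simp)))
      (Prod.ext (ij_tr hz.1 hx (e _ (by simp))) (ij_tr hz.1 hx (e _ (by simp)))),
      Prod.ext (ij_tr' hz.1 hx (e _ (by simp)))
      (Prod.ext (ij_tr' hz.1 hx (e _ (by simp))) (ij_tr' hz.1 hx (e _ (by simp))))⟩)
  have a34 : y₃ ≤ P.perp y₃ := t3.1.2
  have a45 := P.perp_anti a23
  have a56 := P.perp_anti a12
  have a13 := a12.trans a23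
  have a24 := a23.trans a34
  have a35 := a34.trans a45
  have a46 := a45.trans a56
  have a14 := a13.trans a34
  have a25 := a24.trans a45
  have a36 := a35.trans a56
  have a15 := a14.trans a45
  have a26 := a25.trans a56
  have a16 := a15.trans a56
  have s0 : ∀ x ∈ T P 1, x ≤ ⊥ → u x = 0 := fun x hx k => by
    have := hx.2
    rw [le_bot_iff.1 k, finrank_bot] at this
    exact absurd this zero_ne_one
  have s1 := key ⊥ y₁ (by simp [*]) h1 s0
  have s2 := key y₁ y₂ (by simp [*]) h2 s1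
  have s3 := key y₂ y₃ (by simp [*]) h3 s2
  have s4 := key y₃ _ (by simp [*]) (pp _ t3.1 h3) s3
  have s5 := key _ _ (by simp [*]) (pp _ t2.1 h2) s4
  have s6 := key _ _ (by simp [*]) (pp _ t1.1 h1) s5
  exact fun x hx => key _ ⊤ (by simp [*]) top s6 x hx le_top

end CfsgLib.KP
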