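import Mathlib
import Cfsg.Agent.Lib.KP.Cnt

/-! KP: intriguing sets (plans/KP.md, package INTR). -/

set_option autoImplicit false
set_option linter.unusedSectionVars false

namespace CfsgLib.KP

open CfsgLib.CK CfsgLib.KL CfsgLib.Forms CfsgLib.RootMax CfsgLib.ClMax CfsgLib.Tech Module

variable {F : Type*} [Field F] [Finite F] {σ : F →+* F} {V : Type*} [AddCommGroup V] [Module F V] [Finite V]
  {P : PQ σ V} {q : ℕ} {K : Subgroup (V ≃ₗ[F] V)} {C : Set (Submodule F V)}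

variable {Y : Submodule F V} {R : Set (Submodule F V)} {h₁ h₂ d : ℕ}

theorem in_add {X : Type*} [Finite X] (S : Set X) (u v : X → ℂ) :
    sm S (fun x => u x + v x) = sm S u + sm S v := by
  simp only [sm_eq_sum, Finset.sum_add_distrib]

theorem in_mul {X : Type*} [Finite X] (S : Set X) (c : ℂ) (u : X → ℂ) :
    sm S (fun x => c * u x) = c * sm S u := by
  simp only [sm_eq_sum, Finset.mul_sum]

theorem in_tt (Q q d : ℕ) : tt Q q (d + 2) = tt Q q d := by rw [tt, tt, Nat.add_mod_right]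

theorem in_kk (Q q d : ℕ) : kk Q q (d + 4) =
    Q + 1 + Q ^ 2 * np Q q d + Q ^ (d / 2 + 1) * Q ^ (d / 2) * tt Q q d := by
  have : Q ^ d = Q ^ (d / 2) * Q ^ (d / 2) * Q ^ (d % 2) := by
    rw [← pow_add, ← pow_add]
    congr 1
    omega
  rw [kk, tt, show d + 4 - 2 = d + 2 from rfl, np, this]
  ring

theorem in_ss (Q q d : ℕ) : ss Q q (d + 4) = (Q : ℤ) ^ (d / 2 + 1) - Q ^ (d / 2) * tt Q q d := by
  rw [ss, show (d + 4) / 2 - 1 = d / 2 + 1 by omega, show (d + 4) / 2 - 2 = d / 2 by omega, in_tt Q q (d + 2), in_tt]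

theorem in_lam (Q q d : ℕ) : ((Q + 1 + Q ^ 2 * np Q q d : ℕ) : ℤ) = np Q q (d + 2) + ss Q q (d + 4) := by
  have a : Q ^ d = Q ^ (d / 2) * Q ^ (d / 2) * Q ^ (d % 2) := by
    rw [← pow_add, ← pow_add]
    congr 1
    omega
  have b : (Q : ℤ) * (Q - 1) * np Q q d = (Q ^ (d / 2) - 1) * (Q ^ (d / 2) * tt Q q d + Q) := by
    rw [np_eq, ← th_mul]
    rcases d / 2 with _ | j
    · simp [cn_th0]
    · push_cast
      ring
  rw [in_ss, np, a]
  rw [tt] at b ⊢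
  push_cast at b ⊢
  linear_combination b

/-- the number of pairs of points both orthogonal to a point -/
theorem sq_rel (h : Pol P q) {k : ℕ} (hY : Y ∈ T P k) (hR : R ⊆ Pt P Y) (hd : finrank F V = 2 * k + d) (h4 : 4 ≤ d)
    {Z : Submodule F V} (hZ : Z ∈ Pt P Y) :
    sm (ins (Pt P Y) (P.perp Z)) (fun W => (cnt R (P.perp W) : ℂ)) =
      (Nat.card F ^ (d / 2 - 1) * Nat.card F ^ (d / 2 - 2) * tt (Nat.card F) q d : ℕ) * ind R Z +
        (ss (Nat.card F) q d : ℤ) * cnt R (P.perp Z) + (np (Nat.card F) q (d - 2) : ℕ) * R.ncard := by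
  obtain ⟨e, rfl⟩ : ∃ e, d = e + 4 := ⟨d - 4, by omega⟩
  have a := sm_comm (ins (Pt P Y) (P.perp Z)) R (fun W Z' => Z' ≤ P.perp W) fun _ => 1
  have b : ∀ Z' ∈ R, ({W | W ∈ ins (Pt P Y) (P.perp Z) ∧ Z' ≤ P.perp W}.ncard : ℂ) * 1 =
      (Nat.card F ^ (e / 2 + 1) * Nat.card F ^ (e / 2) * tt (Nat.card F) q e : ℕ) * ind {Z} Z' +
        (ss (Nat.card F) q (e + 4) : ℤ) * ind {W | W ≤ P.perp Z} Z' + (np (Nat.card F) q (e + 2) : ℕ) := by
    intro Z' hZ'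
    have c : {W | W ∈ ins (Pt P Y) (P.perp Z) ∧ Z' ≤ P.perp W}.ncard = cnt (Pt P Y) (P.perp Z ⊓ P.perp Z') := by
      rw [cnt]
      congr 1
      ext W
      exact ⟨fun k => ⟨k.1.1, le_inf k.1.2 (P.le_perp_comm.1 k.2)⟩,
        fun k => ⟨⟨k.1, k.2.trans inf_le_left⟩, P.le_perp_comm.1 (k.2.trans inf_le_right)⟩⟩
    have l := congrArg (Int.cast : ℤ → ℂ) (in_lam (Nat.card F) q e)
    rw [c, mul_one]
    by_cases c1 : Z = Z'
    · subst c1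
      rw [inf_idem, cnt_perp_pt h hY hZ, show finrank F V - 2 * k = e + 4 by omega, in_kk,
        ind_mem (Set.mem_singleton Z), ind_mem (O := {W | W ≤ P.perp Z}) hZ.1.2]
      push_cast at l ⊢
      linear_combination l
    rw [ind_not (O := {Z}) (Ne.symm c1)]
    by_cases c2 : Z' ≤ P.perp Z
    · rw [cnt_col h hY hZ (hR hZ') c2 c1, show finrank F V - 2 * k - 4 = e by omega,
        ind_mem (O := {W | W ≤ P.perp Z}) c2]
      push_cast at l ⊢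
      linear_combination l
    · rw [cnt_opp h hY hZ (hR hZ') c2, show finrank F V - 2 * k - 2 = e + 2 by omega,
        ind_not (O := {W | W ≤ P.perp Z}) c2]
      ring
  rw [sm_congr b, in_add, in_add, in_mul, in_mul, sm_ind, sm_ind, Set.inter_comm {Z}, ncard_inter_single',
    sm_const (S := R) (fun _ _ => rfl)] at a
  rw [show (e + 4) / 2 - 1 = e / 2 + 1 by omega, show (e + 4) / 2 - 2 = e / 2 by omega, in_tt _ q (e + 2), in_tt,
    show e + 4 - 2 = e + 2 from rfl, mul_comm _ (R.ncard : ℂ), cnt,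
    show {W | W ∈ R ∧ W ≤ P.perp Z} = {W | W ≤ P.perp Z} ∩ R from Set.inter_comm _ _, ← a]
  refine sm_congr fun W _ => ?_
  rw [sm_const (c := 1) (fun _ _ => rfl), mul_one, cnt]

theorem Intr.in_sum (hR : Intr P Y R h₁ h₂) (W : Submodule F V) :
    sm (ins (Pt P Y) W) (fun W => (cnt R (P.perp W) : ℂ)) =
      cnt R W * h₁ + ((cnt (Pt P Y) W : ℂ) - cnt R W) * h₂ := by
  rw [sm_diff (S := ins (Pt P Y) W) (S' := ins R W) fun Z k => ⟨hR.sub k.1, k.2⟩,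
    sm_const (c := h₁) fun Z k => by rw [hR.h1 Z k.1],
    sm_const (c := h₂) fun Z k => by rw [hR.h2 Z k.1.1 fun j => k.2 ⟨j, k.1.2⟩], ← cnt_compl' hR.sub W, ← cnt_eq]
  have : ins (Pt P Y) W \ ins R W = ins (Pt P Y \ R) W := by
    ext Z
    exact ⟨fun k => ⟨⟨k.1.1, fun j => k.2 ⟨j, k.1.2⟩⟩, k.1.2⟩, fun k => ⟨⟨k.1.1, k.2⟩, fun j => k.1.2 j.1⟩⟩
  rw [this, ← cnt_eq]
  push_cast
  ring

theorem intr (h : Pol P q) (hR : Intr P Y R h₁ h₂) (hd : finrank F V = 2 * finrank F Y + d) (h4 : 4 ≤ d) :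
    (h₁ = h₂ + Nat.card F ^ (d / 2 - 1) ∧ R.ncard * th (Nat.card F) (d / 2 - 1) = h₂ * th (Nat.card F) (d / 2)) ∨
    (h₁ + Nat.card F ^ (d / 2 - 2) * tt (Nat.card F) q d = h₂ ∧
      R.ncard * (Nat.card F ^ (d / 2 - 2) * tt (Nat.card F) q d + 1) =
        h₂ * (Nat.card F ^ (d / 2 - 1) * tt (Nat.card F) q d + 1)) := by
  have hY : Y ∈ T P (finrank F Y) := ⟨hR.ts, rfl⟩
  obtain ⟨Z, hZ⟩ := hR.ne
  obtain ⟨Z', hZ', hn⟩ := hR.ne'
  have a1 := sq_rel h hY hR.sub hd h4 (hR.sub hZ)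
  have a2 := sq_rel h hY hR.sub hd h4 hZ'
  rw [hR.in_sum, hR.h1 Z hZ, ind_mem hZ, cnt_perp_pt h hY (hR.sub hZ)] at a1
  rw [hR.in_sum, hR.h2 Z' hZ' hn, ind_not hn, cnt_perp_pt h hY hZ'] at a2
  obtain ⟨e, rfl⟩ : ∃ e, d = e + 4 := ⟨d - 4, by omega⟩
  have e1 : (e + 4) / 2 - 1 = e / 2 + 1 := by omega
  have e2 : (e + 4) / 2 - 2 = e / 2 := by omega
  have e3 : (e + 4) / 2 = e / 2 + 2 := by omega
  have e4 : finrank F V - 2 * finrank F Y = e + 4 := by omega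
  have e5 : np (Nat.card F) q (e + 4 - 2) =
      th (Nat.card F) (e / 2 + 1) * (Nat.card F ^ (e / 2) * tt (Nat.card F) q e + 1) := by
    rw [show e + 4 - 2 = e + 2 from rfl, np_eq, in_tt, show (e + 2) / 2 = e / 2 + 1 by omega, Nat.add_sub_cancel]
  have e6 : ss (Nat.card F) q (e + 4) = (Nat.card F ^ (e / 2 + 1) : ℕ) -
      (Nat.card F ^ (e / 2) : ℕ) * (tt (Nat.card F) q e : ℤ) := by
    rw [in_ss]
    push_cast
    ring
  rw [e1, e2, e4, e6, kk, e5, in_tt _ q (e + 2), in_tt] at a1 a2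
  rw [e1, e2, e3, in_tt _ q (e + 2), in_tt]
  have b1 := th_succ (Nat.card F) (e / 2 + 1)
  have b2 := th_succ' (Nat.card F) (e / 2 + 1)
  have b3 : 0 < th (Nat.card F) (e / 2 + 1) := by rw [th_succ]; omega
  rw [pow_succ] at a1 a2 b2 ⊢
  generalize Nat.card F ^ (e / 2) = A at *
  generalize th (Nat.card F) (e / 2 + 1) = θ at *
  generalize th (Nat.card F) (e / 2 + 1 + 1) = θ' at *
  generalize tt (Nat.card F) q e = t at *
  generalize Nat.card F = Q at *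
  generalize R.ncard = N at *
  have c1 : (h₁ : ℤ) * h₁ + (1 + Q * (θ * (A * t + 1)) - h₁) * h₂ =
      A * Q * A * t + (A * Q - A * t) * h₁ + θ * (A * t + 1) * N := by
    rw [mul_one] at a1
    exact_mod_cast a1
  have c2 : (h₂ : ℤ) * h₁ + (1 + Q * (θ * (A * t + 1)) - h₂) * h₂ =
      (A * Q - A * t) * h₂ + θ * (A * t + 1) * N := by
    rw [mul_zero, zero_add] at a2
    exact_mod_cast a2
  have c : ((h₁ : ℤ) - h₂ - A * Q) * (h₁ - h₂ + A * t) = 0 := by linear_combination c1 - c2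
  zify at b1 b2
  rcases mul_eq_zero.1 c with c | c
  · refine Or.inl ⟨by zify; linear_combination c,
      Nat.eq_of_mul_eq_mul_left (Nat.succ_pos (A * t)) ?_⟩
    zify
    linear_combination (h₂ : ℤ) * c - c2 - (h₂ : ℤ) * (A * t + 1) * b1
  · refine Or.inr ⟨by zify; linear_combination c, Nat.eq_of_mul_eq_mul_left b3 ?_⟩
    zify
    linear_combination (h₂ : ℤ) * c - c2 - (h₂ : ℤ) * b1 + (h₂ : ℤ) * b2

theorem intr_ov (h : Pol P q) (hR : Intr P Y R 1 h₂) (hd : finrank F V = 2 * finrank F Y + d) (h4 : 4 ≤ d) :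
    h₂ = Nat.card F ^ (d / 2 - 2) * tt (Nat.card F) q d + 1 ∧
      R.ncard = Nat.card F ^ (d / 2 - 1) * tt (Nat.card F) q d + 1 := by
  rcases intr h hR hd h4 with ⟨a, -⟩ | ⟨a, b⟩
  · have := Nat.one_lt_pow (show d / 2 - 1 ≠ 0 by omega) (show 1 < Nat.card F by have := h.three_le; omega)
    omega
  · rw [← a, add_comm 1, mul_comm] at b
    exact ⟨by omega, Nat.eq_of_mul_eq_mul_left (Nat.succ_pos _) b⟩

theorem Intr.opp (hR : Intr P Y R 1 h₂) {Z Z' : Submodule F V} (hZ : Z ∈ R) (hZ' : Z' ∈ R) (h : Z' ≤ P.perp Z) :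
    Z' = Z := by
  obtain ⟨x, hx⟩ := Set.ncard_eq_one.1 (hR.h1 Z hZ)
  have a : Z ∈ ({x} : Set (Submodule F V)) := hx ▸ ⟨hZ, (hR.sub hZ).1.2⟩
  have b : Z' ∈ ({x} : Set (Submodule F V)) := hx ▸ ⟨hZ', h⟩
  exact b.trans a.symm

theorem Intr.in_compl (h : Pol P q) (hR : Intr P Y R h₁ h₂) {k : ℕ} (hk : finrank F Y = k) :
    Intr P Y (Pt P Y \ R) (kk (Nat.card F) q (finrank F V - 2 * k) - h₂)
      (kk (Nat.card F) q (finrank F V - 2 * k) - h₁) where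
  ts := hR.ts
  sub := Set.sdiff_subset
  ne := let ⟨Z, a, b⟩ := hR.ne'; ⟨Z, a, b⟩
  ne' := let ⟨Z, a⟩ := hR.ne; ⟨Z, hR.sub a, fun b => b.2 a⟩
  h1 Z hZ := by
    rw [← cnt_perp_pt h ⟨hR.ts, hk⟩ hZ.1, ← cnt_compl' hR.sub, hR.h2 Z hZ.1 hZ.2, Nat.add_sub_cancel_left]
  h2 Z hZ hn := by
    rw [← cnt_perp_pt h ⟨hR.ts, hk⟩ hZ, ← cnt_compl' hR.sub, hR.h1 Z (by_contra fun k => hn ⟨hZ, k⟩),
      Nat.add_sub_cancel_left]

theorem Intr.compl (h : Pol P q) (hR : Intr P Y R h₁ h₂) : ∃ h₁' h₂', Intr P Y (Pt P Y \ R) h₁' h₂' :=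
  ⟨_, _, hR.in_compl h rfl⟩

theorem Cl.compl (h : Pol P q) (hC : Cl P C h₁ h₂) : ∃ h₁' h₂', Cl P (T P 2 \ C) h₁' h₂' := by
  refine ⟨kk (Nat.card F) q (finrank F V - 2 * 1) - h₂, kk (Nat.card F) q (finrank F V - 2 * 1) - h₁,
    Set.sdiff_subset, fun x hx => ?_⟩
  have : thru (T P 2 \ C) x = Pt P x \ thru C x := by
    rw [pt_eq_thru hx.2]
    ext m
    exact ⟨fun k => ⟨⟨k.1.1, k.2⟩, fun j => k.1.2 j.1⟩, fun k => ⟨⟨k.1.1, fun j => k.2 ⟨j, k.1.2⟩⟩, k.1.2⟩⟩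
  rw [this]
  exact (hC.intr x hx).in_compl h hx.2

theorem Cl.eta₁ (hC : Cl P C h₁ h₂) {x l : Submodule F V} (hx : x ∈ T P 1) (hl : l ∈ C) (hxl : x ≤ l) :
    eta P C x l = h₁ := (hC.intr x hx).h1 l ⟨hl, hxl⟩

theorem Cl.eta₂ (hC : Cl P C h₁ h₂) {x l : Submodule F V} (hx : x ∈ T P 1) (hl : l ∈ T P 2) (hn : l ∉ C)
    (hxl : x ≤ l) : eta P C x l = h₂ :=
  (hC.intr x hx).h2 l ⟨hl.1, hxl, by rw [hl.2, hx.2]⟩ fun k => hn k.1

end CfsgLib.KP
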