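import Mathlib
import Cfsg.Agent.Lib.KP.Cnt

/-! KP: rank at least five (plans/KP.md, package PART). -/

set_option autoImplicit false
set_option linter.unusedSectionVars false

namespace CfsgLib.KP

open CfsgLib.CK CfsgLib.KL CfsgLib.Forms CfsgLib.RootMax CfsgLib.ClMax CfsgLib.Tech Module

variable {F : Type*} [Field F] [Finite F] {σ : F →+* F} {V : Type*} [AddCommGroup V] [Module F V] [Finite V]
  {P : PQ σ V} {q : ℕ} {K : Subgroup (V ≃ₗ[F] V)} {C : Set (Submodule F V)}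

/-- a projective plane is not partitioned into at most `Q + 1` proper subspaces -/
theorem part3 {o t : Submodule F V} (hd : finrank F t = finrank F o + 3) {s : Set (Submodule F V)}
    (hs : s.ncard ≤ Nat.card F + 1) (W : Submodule F V → Submodule F V) (h1 : ∀ i ∈ s, o ≤ W i ∧ W i ≤ t)
    (h2 : ∀ i ∈ s, ∀ j ∈ s, i ≠ j → W i ⊓ W j ≤ o) (h3 : ∀ e, (lin F V).Pt o t e → ∃ i ∈ s, e ≤ W i) (hot : o ≤ t) :
    ∃ i ∈ s, W i = t := by
  by_contra hn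
  push Not at hn
  have hQ : 2 ≤ Nat.card F := Finite.one_lt_card
  have lt : ∀ i ∈ s, finrank F (W i) < finrank F o + 3 := fun i hi =>
    hd ▸ Submodule.finrank_lt_finrank_of_lt (lt_of_le_of_ne (h1 i hi).2 (hn i hi))
  have key : ∀ U, o ≤ U → U ≤ t → (∀ i ∈ s, finrank F (W i) = finrank F o + 2 → W i ≤ U) →
      Nat.card F ^ (finrank F U - finrank F o) * th (Nat.card F) (finrank F t - finrank F U) ≤ Nat.card F + 1 := by
    intro U a1 a2 a3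
    refine ((lin F V).ncard_pt_off a1 a2).ge.trans ((Set.ncard_le_ncard (t := W '' s) ?_).trans
      ((Set.ncard_image_le).trans hs))
    rintro e ⟨he, he'⟩
    obtain ⟨i, hi, k⟩ := h3 e he
    have b1 := ((lin F V).pt_iff.1 he).2.2
    rw [lin_rk, lin_rk] at b1
    have b2 := lt i hi
    have b3 : finrank F (W i) ≠ finrank F o + 2 := fun e' => he' (k.trans (a3 i hi e'))
    exact ⟨i, hi, (Submodule.eq_of_le_of_finrank_le k (by omega)).symm⟩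
  by_cases hl : ∃ i ∈ s, finrank F (W i) = finrank F o + 2
  · obtain ⟨i, hi, e⟩ := hl
    have := key (W i) (h1 i hi).1 (h1 i hi).2 fun j hj e' => by
      by_contra hne
      have b1 := Submodule.finrank_mono (h2 i hi j hj fun k => hne (k ▸ le_rfl))
      have b2 := Submodule.finrank_sup_add_finrank_inf_eq (W i) (W j)
      have b3 := Submodule.finrank_mono (sup_le (h1 i hi).2 (h1 j hj).2)
      omega
    rw [e, hd, show finrank F o + 2 - finrank F o = 2 by omega,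
      show finrank F o + 3 - (finrank F o + 2) = 1 by omega, cn_th1] at this
    nlinarith
  · have := key o le_rfl hot fun i hi e => (hl ⟨i, hi, e⟩).elim
    rw [hd, Nat.sub_self, show finrank F o + 3 - finrank F o = 2 + 1 by omega, th_succ', cn_th2] at this
    nlinarith

section
variable {Y U W x z c l m m' E : Submodule F V}

theorem pa_pt (hU : P.TS U) (h1 : Y ≤ U) {v : V} (hv : v ∈ U) (h2 : v ∉ Y) : Y ⊔ F ∙ v ∈ Pt P Y :=
  sup_mem_Pt (hU.mono h1) (hU.1 v hv) (P.perp_anti h1 (hU.2 hv)) h2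

theorem pa_le (hU : P.TS U) (h1 : Y ≤ U) (h2 : Y ≤ W) (h : ∀ Z ∈ Pt P Y, Z ≤ U → Z ≤ W) : U ≤ W := fun v hv => by
  by_cases k : v ∈ Y
  · exact h2 k
  · exact h _ (pa_pt hU h1 hv k) (sup_le h1 ((Submodule.span_singleton_le_iff_mem _ _).2 hv))
      (Submodule.mem_sup_right (Submodule.mem_span_singleton_self v))

theorem pa_ex (hU : P.TS U) (h1 : Y ≤ U) (h2 : Y ≤ W) (h : ¬ U ≤ W) : ∃ Z ∈ Pt P Y, Z ≤ U ∧ ¬ Z ≤ W := by
  by_contra k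
  push Not at k
  exact h (pa_le hU h1 h2 k)

theorem pa_mem {k : ℕ} (hY : Y ∈ T P k) (hU : U ∈ T P (k + 1)) (h : Y ≤ U) : U ∈ Pt P Y :=
  ⟨hU.1, h, by rw [hU.2, hY.2]⟩

theorem pa_not_le {j k : ℕ} (hU : U ∈ T P k) (hW : W ∈ T P j) (h : j < k) : ¬ U ≤ W := fun e => by
  have := Submodule.finrank_mono e
  rw [hU.2, hW.2] at this
  omega

theorem pa_inf (hz : z ∈ T P 1) (hm : m ∈ T P 2) (hm' : m' ∈ T P 2) (h1 : z ≤ m) (h2 : z ≤ m') (hne : m ≠ m') :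
    m ⊓ m' = z := cn_cov (pa_mem hz hm h1) h2 fun k => hne (T.eq_of_le hm hm' k)

/-- two lines through a point of a plane -/
theorem pa_two (hz : z ∈ T P 1) (hE : E ∈ T P 3) (h : z ≤ E) :
    ∃ m ∈ T P 2, ∃ m' ∈ T P 2, z ≤ m ∧ z ≤ m' ∧ m ≤ E ∧ m' ≤ E ∧ m ≠ m' := by
  obtain ⟨m, hm, h1, h2⟩ := exists_mid (j := 2) hE h (by rw [hz.2]; omega) (by omega)
  obtain ⟨m', hm', h3, h4⟩ := pa_ex hE.1 h h1 (pa_not_le hE hm (by omega))
  exact ⟨m, hm, m', cn_T hz hm', h1, hm'.2.1, h2, h3, fun e => h4 e.ge⟩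

theorem pa_cen (hC : C ⊆ T P 2) (hc : Cen C E c) (hE : P.TS E) (hz : z ∈ T P 1) (hm : m ∈ C) (hm' : m' ∈ C)
    (h1 : z ≤ m) (h2 : z ≤ m') (h3 : m ≤ E) (h4 : m' ≤ E) (hne : m ≠ m') : c = z :=
  T.eq_of_le ⟨hE.mono hc.2.1, hc.1⟩ hz (pa_inf hz (hC hm) (hC hm') h1 h2 hne ▸
    le_inf ((hc.2.2 m (hC hm).2 h3).1 hm) ((hc.2.2 m' (hC hm').2 h4).1 hm'))

/-- if all lines of the plane `E` through `z` are in `C`, the centre is `z` -/
theorem pa_cen' (hC : C ⊆ T P 2) (hc : Cen C E c) (hE : E ∈ T P 3) (hz : z ∈ T P 1) (h : z ≤ E)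
    (h1 : ∀ m ∈ T P 2, z ≤ m → m ≤ E → m ∈ C) : c = z := by
  obtain ⟨m, hm, m', hm', a1, a2, a3, a4, a5⟩ := pa_two hz hE h
  exact pa_cen hC hc hE.1 hz (h1 m hm a1 a3) (h1 m' hm' a2 a4) a1 a2 a3 a4 a5

theorem Cen.uniq (hC : C ⊆ T P 2) (hc : Cen C E c) (hz : Cen C E z) (hE : E ∈ T P 3) : c = z :=
  pa_cen' hC hc hE ⟨hE.1.mono hz.2.1, hz.1⟩ hz.2.1 fun m hm h1 h2 => (hz.2.2 m hm.2 h2).2 h1

/-- the lines of `C` through `x` inside `U` -/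
theorem pa_sub (hC : C ⊆ T P 2) (hU : P.TS U) (hx : x ∈ T P 1) (h1 : x ≤ U)
    (hc : ∀ m ∈ C, ∀ m' ∈ C, x ≤ m → x ≤ m' → m ≠ m' → m ⊔ m' ∈ T P 3 → ∀ l ∈ T P 2, x ≤ l → l ≤ m ⊔ m' → l ∈ C) :
    ∃ W, x ≤ W ∧ W ≤ U ∧ ∀ m ∈ T P 2, x ≤ m → (m ∈ C ∧ m ≤ U ↔ m ≤ W) := by
  obtain ⟨W, a1, a2, a3⟩ := closed (R := {m | m ∈ C ∧ x ≤ m ∧ m ≤ U}) hU h1
    (fun m hm => ⟨pa_mem hx (hC hm.1) hm.2.1, hm.2.2⟩) fun m hm m' hm' l hl hle => by
      refine ⟨?_, hl.2.1, hle.trans (sup_le hm.2.2 hm'.2.2)⟩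
      by_cases e : m = m'
      · rw [← e, sup_idem] at hle
        exact T.eq_of_le (cn_T hx hl) (hC hm.1) hle ▸ hm.1
      · exact hc m hm.1 m' hm'.1 hm.2.1 hm'.2.1 e (Pt.sup hx (pa_mem hx (hC hm.1) hm.2.1)
          (pa_mem hx (hC hm'.1) hm'.2.1) (hm'.2.2.trans (hU.2.trans (P.perp_anti hm.2.2))) e) l (cn_T hx hl) hl.2.1 hle
  exact ⟨W, a1, a2, fun m hm h2 => ⟨fun k => (a3 m (pa_mem hx hm h2)).1 ⟨k.1, h2, k.2⟩,
    fun k => ⟨((a3 m (pa_mem hx hm h2)).2 k).1, k.trans a2⟩⟩⟩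

theorem pa_pure (hC : C ⊆ T P 2) (hs : Single P C) (hU : P.TS U) (hx : x ∈ T P 1) (h1 : x ≤ U) :
    ∃ W, x ≤ W ∧ W ≤ U ∧ Pure C W ∧ ∀ m ∈ C, x ≤ m → m ≤ U → m ≤ W := by
  obtain ⟨W, a1, a2, a3⟩ := pa_sub hC hU hx h1 fun m hm m' hm' _ _ hne hE l hl _ hle =>
    hs _ hE m hm m' hm' le_sup_left le_sup_right hne l hl.2 hle
  refine ⟨W, a1, a2, fun l hl hle => ?_, fun m hm h2 h3 => (a3 m (hC hm) h2).1 ⟨hm, h3⟩⟩
  have hl' : l ∈ T P 2 := ⟨hU.mono (hle.trans a2), hl⟩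
  by_cases k : x ≤ l
  · exact ((a3 l hl' k).2 hle).1
  · have hE : l ⊔ x ∈ T P 3 := T.sup_pt hl' (pt_bot P ▸ hx) bot_le
      (h1.trans (hU.2.trans (P.perp_anti (hle.trans a2)))) k
    obtain ⟨m, hm, m', hm', b1, b2, b3, b4, b5⟩ := pa_two hx hE le_sup_right
    exact hs _ hE m ((a3 m hm b1).2 (b3.trans (sup_le hle a1))).1 m' ((a3 m' hm' b2).2 (b4.trans (sup_le hle a1))).1
      b3 b4 b5 l hl le_sup_left

theorem pa_card (hl : l ∈ T P 2) : (ins (T P 1) l).ncard ≤ Nat.card F + 1 :=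
  ((cnt_T1 hl).trans (cn_th2 _)).le

theorem pa_lin {k : ℕ} (hU : P.TS U) (hl : l ∈ T P k) (he : (lin F V).Pt l U E) : E ∈ T P (k + 1) := by
  obtain ⟨-, h2, h3⟩ := (lin F V).pt_iff.1 he
  rw [lin_rk, lin_rk, hl.2] at h3
  exact ⟨hU.mono h2, h3⟩

end

theorem sa5 (h : Pol P q) (h10 : 10 ≤ finrank F V) (hC : C ⊆ T P 2) (hs : Single P C) (hv : ∀ E ∈ T P 3, ¬ Void C E)
    {l X : Submodule F V} (hl : l ∈ C) (hX : X ∈ T P 4) (hlX : l ≤ X) : ∃ E ∈ T P 3, l ≤ E ∧ E ≤ X ∧ Pure C E := by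
  obtain ⟨X₅, h5, hX5⟩ := exists_ext (k := 5) h hX (by omega) (by omega)
  have fin : ∀ H, l ≤ H → Pure C H → 3 ≤ finrank F ↥(H ⊓ X) → ∃ E ∈ T P 3, l ≤ E ∧ E ≤ X ∧ Pure C E :=
    fun H a1 a2 a3 => by
      obtain ⟨E, hE, b1, b2⟩ := exists_mid (j := 3) (U := H ⊓ X) ⟨hX.1.mono inf_le_right, rfl⟩ (le_inf a1 hlX)
        (by rw [(hC hl).2]; omega) a3
      exact ⟨E, hE, b1, b2.trans inf_le_right, fun m hm k => a2 m hm (k.trans (b2.trans inf_le_left))⟩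
  by_cases hp : Pure C X₅
  · exact fin X₅ (hlX.trans hX5) hp (by rw [inf_eq_right.2 hX5, hX.2]; omega)
  choose! Xx a1 a2 a3 a4 using fun x (hx : x ∈ ins (T P 1) X₅) => pa_pure hC hs h5.1 hx.1 hx.2
  obtain ⟨l', hl', hle, hn⟩ : ∃ l' ∈ T P 2, l' ≤ X₅ ∧ l' ∉ C := by
    by_contra k
    push Not at k
    exact hp fun m hm k' => k m ⟨h5.1.mono k', hm⟩ k'
  have up : ∀ x ∈ ins (T P 1) l', x ∈ ins (T P 1) X₅ := fun x hx => ⟨hx.1, hx.2.trans hle⟩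
  have ln : ∀ x ∈ ins (T P 1) l', ∀ E ∈ Pt P l', E ≤ l' ⊔ Xx x → ∃ m ∈ C, x ≤ m ∧ m ≤ E := fun x hx E hE k => by
    have hx' := up x hx
    have : ¬ E ⊓ Xx x ≤ x := fun e => by
      have b1 : E = l' ⊔ E ⊓ Xx x := by
        rw [inf_comm, ← sup_inf_assoc_of_le _ hE.2.1, inf_eq_right.2 k]
      exact pa_not_le (cn_T hl' hE) hl' (by omega) (b1.le.trans (sup_le le_rfl (e.trans hx.2)))
    obtain ⟨m, hm, b2, -⟩ := pa_ex (hE.1.mono inf_le_left) (le_inf (hx.2.trans hE.2.1) (a1 x hx')) le_rfl this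
    exact ⟨m, a3 x hx' m (cn_T hx.1 hm).2 (b2.trans inf_le_right), hm.2.1, b2.trans inf_le_left⟩
  obtain ⟨x, hx, e⟩ := part3 (o := l') (t := X₅) (by rw [h5.2, hl'.2]) (pa_card hl') (fun x => l' ⊔ Xx x)
    (fun x hx => ⟨le_sup_left, sup_le hle (a2 x (up x hx))⟩) (fun x hx y hy hxy => by
      by_contra k
      obtain ⟨E, hE, b1, -⟩ := pa_ex (h5.1.mono (inf_le_left.trans (sup_le hle (a2 x (up x hx)))))
        (le_inf le_sup_left le_sup_left) le_rfl k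
      obtain ⟨m, hm, b2, b3⟩ := ln x hx E hE (b1.trans inf_le_left)
      obtain ⟨m', hm', b4, b5⟩ := ln y hy E hE (b1.trans inf_le_right)
      refine hn (hs E (cn_T hl' hE) m hm m' hm' b3 b5 (fun e => ?_) l' hl'.2 hE.2.1)
      have b6 : m ≠ l' := fun e' => hn (e' ▸ hm)
      exact hxy ((pa_inf hx.1 (hC hm) hl' b2 hx.2 b6).symm.trans (pa_inf hy.1 (hC hm) hl' (e ▸ b4) hy.2 b6)))
    (fun E he => by
      have hE := pa_lin h5.1 hl' he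
      obtain ⟨m, hm, b1⟩ : ∃ m ∈ C, m ≤ E := by
        by_contra k
        exact hv E hE fun m hm k' => k ⟨m, hm, k'⟩
      obtain ⟨b2, b3⟩ := T.inf_mem hE hl' (hC hm) he.1 b1 fun e => hn (e ▸ hm)
      exact ⟨_, ⟨b2, inf_le_left⟩, b3 ▸ sup_le_sup_left
        (a4 _ (up _ ⟨b2, inf_le_left⟩) m hm inf_le_right (b1.trans he.2.1)) _⟩) hle
  have hx' := up x hx
  have d4 : finrank F (Xx x) = 4 := by
    have b1 := Submodule.finrank_sup_add_finrank_inf_eq l' (Xx x)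
    rw [cn_cov (pa_mem hx.1 hl' hx.2) (a1 x hx') fun k => hn (a3 x hx' l' hl'.2 k), e, h5.2, hx.1.2, hl'.2] at b1
    omega
  have hH : Xx x ∈ T P 4 := ⟨h5.1.mono (a2 x hx'), d4⟩
  by_cases k : l ≤ Xx x
  · refine fin _ k (a3 x hx') ?_
    have b1 := Submodule.finrank_sup_add_finrank_inf_eq (Xx x) X
    have b2 := Submodule.finrank_mono (sup_le (a2 x hx') hX5)
    rw [h5.2] at b2
    rw [d4, hX.2] at b1
    omega
  · have b1 := Submodule.finrank_sup_add_finrank_inf_eq l (Xx x)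
    have b2 := Submodule.finrank_mono (sup_le (hlX.trans hX5) (a2 x hx'))
    have b3 := Submodule.finrank_lt_finrank_of_lt (right_lt_sup.2 k)
    rw [h5.2] at b2
    rw [d4, (hC hl).2] at b1
    rw [d4] at b3
    have hy : l ⊓ Xx x ∈ ins (T P 1) X₅ := ⟨T.mono hH inf_le_right (by omega), inf_le_right.trans (a2 x hx')⟩
    have b4 : X₅ ≤ Xx (l ⊓ Xx x) := by
      rw [← Submodule.eq_of_le_of_finrank_le (sup_le (hlX.trans hX5) (a2 x hx')) (by rw [h5.2]; omega)]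
      exact sup_le (a4 _ hy l hl inf_le_left (hlX.trans hX5)) (pa_le hH.1 inf_le_right (a1 _ hy) fun m hm b5 =>
        a4 _ hy m (a3 x hx' m (cn_T hy.1 hm).2 b5) hm.2.1 (b5.trans (a2 x hx')))
    exact (hp fun m hm k' => a3 _ hy m hm (k'.trans b4)).elim

theorem pe5 (h : Pol P q) (h10 : 10 ≤ finrank F V) (hC : C ⊆ T P 2) (hs : Pencil P C) (hn : ∀ E ∈ T P 3, ¬ Pure C E)
    {l : Submodule F V} (hl : l ∈ C) : ∃ z, ∀ E ∈ Pt P l, Cen C E z := by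
  have hl2 := hC hl
  have cen : ∀ E ∈ T P 3, ∀ m ∈ C, m ≤ E → ∃ z, Cen C E z := fun E hE m hm k =>
    ((hs E hE).resolve_left (hn E hE)).resolve_left fun hv => hv m hm k
  have five : ∀ X₅ ∈ T P 5, l ≤ X₅ → ∃ z, ∀ E ∈ Pt P l, E ≤ X₅ → Cen C E z := fun X₅ h5 hle => by
    choose! Xx a1 a2 a3 using fun x (hx : x ∈ ins (T P 1) l) => pa_sub hC h5.1 hx.1 (hx.2.trans hle)
      fun m hm m' hm' b1 b2 hne hE l' hl' b3 b4 => by
        obtain ⟨c, hc⟩ := cen _ hE m hm le_sup_left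
        exact (hc.2.2 l' hl'.2 b4).2 (pa_cen hC hc hE.1 hx.1 hm hm' b1 b2 le_sup_left le_sup_right hne ▸ b3)
    have lX : ∀ x ∈ ins (T P 1) l, l ≤ Xx x := fun x hx => (a3 x hx l hl2 hx.2).1 ⟨hl, hle⟩
    have ce : ∀ x ∈ ins (T P 1) l, ∀ E ∈ Pt P l, E ≤ Xx x → Cen C E x := fun x hx E hE k => by
      obtain ⟨c, hc⟩ := cen E (cn_T hl2 hE) l hl hE.2.1
      exact pa_cen' hC hc (cn_T hl2 hE) hx.1 (hx.2.trans hE.2.1)
        (fun m hm b1 b2 => ((a3 x hx m hm b1).2 (b2.trans k)).1) ▸ hc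
    obtain ⟨x, hx, e⟩ := part3 (o := l) (t := X₅) (by rw [h5.2, hl2.2]) (pa_card hl2) Xx
      (fun x hx => ⟨lX x hx, a2 x hx⟩) (fun x hx y hy hxy => by
        by_contra k
        obtain ⟨E, hE, b1, -⟩ := pa_ex (h5.1.mono (inf_le_left.trans (a2 x hx))) (le_inf (lX x hx) (lX y hy)) le_rfl k
        exact hxy ((ce x hx E hE (b1.trans inf_le_left)).uniq hC (ce y hy E hE (b1.trans inf_le_right))
          (cn_T hl2 hE)))
      (fun E he => by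
        have hE := pa_lin h5.1 hl2 he
        obtain ⟨c, hc⟩ := cen E hE l hl he.1
        have hc' : c ∈ ins (T P 1) l := ⟨⟨hE.1.mono hc.2.1, hc.1⟩, (hc.2.2 l hl2.2 he.1).1 hl⟩
        exact ⟨c, hc', pa_le hE.1 hc.2.1 (a1 c hc') fun m hm b1 => (a3 c hc' m (cn_T hc'.1 hm) hm.2.1).1
          ⟨(hc.2.2 m (cn_T hc'.1 hm).2 b1).2 hm.2.1, b1.trans he.2.1⟩⟩) hle
    exact ⟨x, fun E hE k => ce x hx E hE (e ▸ k)⟩
  obtain ⟨E₀, hE₀, h0⟩ := exists_ext (k := 3) h hl2 (by omega) (by omega)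
  obtain ⟨z, hz⟩ := cen E₀ hE₀ l hl h0
  refine ⟨z, conn (R := {E | Cen C E z}) h hl2 (by omega) (pa_mem hl2 hE₀ h0) hz fun E hE hc E' hE' k => ?_⟩
  by_cases e : E = E'
  · exact e ▸ hc
  obtain ⟨X₅, h5, hle⟩ := exists_ext (k := 5) h (Pt.sup hl2 hE hE' k e) (by omega) (by omega)
  obtain ⟨c, hc'⟩ := five X₅ h5 (hE.2.1.trans (le_sup_left.trans hle))
  exact Cen.uniq hC (hc' E hE (le_sup_left.trans hle)) hc (cn_T hl2 hE) ▸ hc' E' hE' (le_sup_right.trans hle)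

end CfsgLib.KP
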