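import Mathlib
import Cfsg.Agent.Lib.KP.Part

/-! KP: functions on lines relative to a point-line flag (plans/KP.md, package INJ12). -/

set_option autoImplicit false
set_option linter.unusedSectionVars false

namespace CfsgLib.KP

open CfsgLib.CK CfsgLib.KL CfsgLib.Forms CfsgLib.RootMax CfsgLib.ClMax CfsgLib.Tech Module

variable {F : Type*} [Field F] [Finite F] {σ : F →+* F} {V : Type*} [AddCommGroup V] [Module F V] [Finite V]
  {P : PQ σ V} {q : ℕ} {K : Subgroup (V ≃ₗ[F] V)} {C : Set (Submodule F V)}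

section
variable {x l m w z : Submodule F V} {u : Submodule F V → ℂ}

theorem i12_ne (hz : z ∈ T P 1) : z ≠ ⊥ := fun e => by
  have := hz.2
  rw [e, finrank_bot] at this
  exact zero_ne_one this

theorem i12_pt (hl : l ∈ T P 2) (h1 : z ≤ l) (h0 : z ≠ ⊥) (h2 : ¬ l ≤ z) : z ∈ T P 1 :=
  T.mono hl h1 (by
    have b1 := Submodule.finrank_lt_finrank_of_lt (lt_of_le_not_ge h1 h2)
    have b2 : finrank F z ≠ 0 := fun e => h0 (Submodule.finrank_eq_zero.1 e)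
    rw [hl.2] at b1
    omega)

theorem i12_tr (hl : l ∈ T P 2) (hz : z ∈ T P 1) (h1 : z ≤ l) (h2 : m ≤ P.perp z) (h3 : ¬ m ≤ P.perp l) :
    P.perp m ⊓ l = z :=
  (inf_comm _ _).trans (cn_cov (pa_mem hz hl h1) (P.le_perp_comm.1 h2) fun k => h3 (P.le_perp_comm.1 k))

theorem i12_meet (hx : x ∈ T P 1) (hl : l ∈ T P 2) (hxl : x ≤ l) (pos : PosInv P 2 (x, l, l) u)
    (pen : ∀ z ∈ T P 1, sm (thru (T P 2) z) u = 0) (hnb : ∀ m ∈ T P 2, u m = 0 → sm (nb P m) u = 0) (h1 : u l = 0)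
    (h2 : sm (ins (thru (T P 2) x) (P.perp l)) u = 0) : ∀ m ∈ T P 2, m ⊓ l ≠ ⊥ → u m = 0 := by
  have same : ∀ m ∈ T P 2, ∀ m' ∈ T P 2, m ⊓ l = m' ⊓ l → P.perp m ⊓ l = P.perp m' ⊓ l → u m = u m' :=
    fun m hm m' hm' a b => pos m hm m' hm' (same1_of_inf hxl le_rfl a b)
  have pl : ∀ {m}, m ≤ P.perp l → P.perp m ⊓ l = l := fun k => inf_eq_right.2 (P.le_perp_comm.1 k)
  have A : ∀ m ∈ T P 2, x ≤ m → m ≤ P.perp l → u m = 0 := fun m hm a b => by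
    by_cases e : m = l
    · rw [e, h1]
    refine sm_zero h2 ⟨⟨hm, a⟩, b⟩ fun m' hm' => ?_
    by_cases e' : m' = l
    · exact Or.inl (by rw [e', h1])
    · exact Or.inr (same _ hm'.1.1 _ hm ((pa_inf hx hm'.1.1 hl hm'.1.2 hxl e').trans (pa_inf hx hm hl a hxl e).symm)
        ((pl hm'.2).trans (pl b).symm))
  have dm : ∀ m ∈ nb P l, ¬ x ≤ m → dims (x, l, l) m = (0, 1, 1) := fun m hm a => by
    have b1 : m ⊓ x = ⊥ := (inf_comm _ _).trans (cn_cov (pt_bot P ▸ hx) bot_le a)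
    have b2 := (i12_pt hl inf_le_right hm.2.1 fun e => a (hxl.trans (e.trans inf_le_left))).2
    simp only [dims]
    rw [b1, b2, finrank_bot]
  have A' : ∀ m ∈ nb P l, u m = 0 := fun m hm => by
    by_cases a : x ≤ m
    · exact A m hm.1 a hm.2.2
    refine sm_zero (hnb l hl h1) hm fun m' hm' => ?_
    by_cases a' : x ≤ m'
    · exact Or.inl (A m' hm'.1 a' hm'.2.2)
    · exact Or.inr (pos _ hm'.1 _ hm.1 ⟨(dm _ hm' a').trans (dm _ hm a).symm,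
        dims_of_inf hxl le_rfl ((pl hm'.2.2).trans (pl hm.2.2).symm)⟩)
  intro m hm a
  by_cases b : m ≤ P.perp l
  · exact A' m ⟨hm, a, b⟩
  have hz : m ⊓ l ∈ T P 1 := i12_pt hl inf_le_right a fun e =>
    b (T.eq_of_le hl hm (e.trans inf_le_left) ▸ hl.1.2)
  refine sm_zero (pen _ hz) ⟨hm, inf_le_left⟩ fun m' hm' => ?_
  by_cases b' : m' ≤ P.perp l
  · exact Or.inl (A' m' ⟨hm'.1, fun e => i12_ne hz (eq_bot_iff.2 (e ▸ le_inf hm'.2 inf_le_right)), b'⟩)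
  · exact Or.inr (same _ hm'.1 _ hm (pa_inf hz hm'.1 hl hm'.2 inf_le_right fun e => b' (e ▸ hl.1.2))
      ((i12_tr hl hz inf_le_right (T.le_perp hm'.1 le_rfl hm'.2) b').trans
        (i12_tr hl hz inf_le_right (T.le_perp hm le_rfl inf_le_left) b).symm))

/-- a line through `w` meeting `l` lies in `l ⊔ w` -/
theorem i12_le (hw : w ∈ T P 1) (h2 : ¬ w ≤ l) (hm : m ∈ Pt P w) (h : m ⊓ l ≠ ⊥) : m ≤ l ⊔ w := by
  have b1 : ¬ m ⊓ l ≤ w := fun k => by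
    have := Submodule.finrank_lt_finrank_of_lt (lt_of_le_not_ge k fun e => h2 (e.trans inf_le_right))
    rw [hw.2] at this
    exact h (Submodule.finrank_eq_zero.1 (by omega))
  have b2 := Submodule.finrank_lt_finrank_of_lt (right_lt_sup.2 b1)
  rw [← Submodule.eq_of_le_of_finrank_le (sup_le inf_le_left hm.2.1 : m ⊓ l ⊔ w ≤ m) (by rw [hm.2.2]; omega)]
  exact sup_le_sup_right inf_le_right _

theorem i12_J (hl : l ∈ T P 2) (hw : w ∈ T P 1) (h1 : w ≤ P.perp l) (h2 : ¬ w ≤ l) (hz : z ∈ T P 1) (h3 : z ≤ l)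
    (hm : m ∈ ins (Pt P w) (P.perp z) \ ins (Pt P w) (P.perp l)) : m ⊓ l = ⊥ ∧ P.perp m ⊓ l = z :=
  ⟨by_contra fun k => hm.2 ⟨hm.1.1, (i12_le hw h2 hm.1.1 k).trans (sup_le hl.1.2 h1)⟩,
    i12_tr hl hz h3 hm.1.2 fun k => hm.2 ⟨hm.1.1, k⟩⟩

theorem i12_ins (w U : Submodule F V) : ins (Pt P w) (P.perp (U ⊔ w)) = ins (Pt P w) (P.perp U) :=
  Set.ext fun _ => ⟨fun k => ⟨k.1, k.2.trans (P.perp_anti le_sup_left)⟩,
    fun k => ⟨k.1, P.perp_sup U w ▸ le_inf k.2 (cn_le k.1)⟩⟩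

/-- the sums over the lines through `w` orthogonal to `z` do not depend on `w` -/
theorem i12_const (h : Pol P q) (hl : l ∈ T P 2)
    (same : ∀ m ∈ T P 2, ∀ m' ∈ T P 2, m ⊓ l = m' ⊓ l → P.perp m ⊓ l = P.perp m' ⊓ l → u m = u m')
    (meet : ∀ m ∈ T P 2, m ⊓ l ≠ ⊥ → u m = 0) (hz : z ∈ T P 1) (h3 : z ≤ l) :
    ∃ s : ℂ, ∀ w ∈ T P 1, w ≤ P.perp l → ¬ w ≤ l → sm (ins (Pt P w) (P.perp z)) u = s := by
  have ex : ∀ τ, ∃ c, ∀ m ∈ T P 2, m ⊓ l = ⊥ → P.perp m ⊓ l = τ → u m = c := fun τ => by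
    by_cases k : ∃ m ∈ T P 2, m ⊓ l = ⊥ ∧ P.perp m ⊓ l = τ
    · obtain ⟨m, hm, a, b⟩ := k
      exact ⟨u m, fun m' hm' a' b' => same _ hm' _ hm (a'.trans a.symm) (b'.trans b.symm)⟩
    · exact ⟨0, fun m hm a b => (k ⟨m, hm, a, b⟩).elim⟩
  obtain ⟨c₁, k₁⟩ := ex l
  obtain ⟨c₂, k₂⟩ := ex z
  obtain ⟨a, ha⟩ : ∃ a, a = th (Nat.card F) (3 - 1) +
    Nat.card F ^ (3 - 1) * np (Nat.card F) q (finrank F V - 2 * 3) := ⟨_, rfl⟩
  obtain ⟨b, hb⟩ : ∃ b, b = th (Nat.card F) (2 - 1) +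
    Nat.card F ^ (2 - 1) * np (Nat.card F) q (finrank F V - 2 * 2) := ⟨_, rfl⟩
  refine ⟨(a - th (Nat.card F) (3 - 1) : ℕ) * c₁ + (b - a : ℕ) * c₂, fun w hw h1 h2 => ?_⟩
  have hE : l ⊔ w ∈ T P 3 := T.sup_pt hl (pt_bot P ▸ hw) bot_le h1 h2
  have hm : z ⊔ w ∈ T P 2 := T.sup_pt hz (pt_bot P ▸ hw) bot_le (h1.trans (P.perp_anti h3)) fun k => h2 (k.trans h3)
  have n1 := cnt_perp h hE le_sup_right
  have n2 := cnt_perp h hm le_sup_right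
  have n3 := cnt_ts hE.1 le_sup_right
  rw [cnt_eq, i12_ins, hw.2] at n1 n2
  rw [cnt_eq, hw.2, hE.2] at n3
  have s1 : ins (Pt P w) (P.perp l) ⊆ ins (Pt P w) (P.perp z) := fun m k => ⟨k.1, k.2.trans (P.perp_anti h3)⟩
  have s2 : ins (Pt P w) (l ⊔ w) ⊆ ins (Pt P w) (P.perp l) := fun m k => ⟨k.1, k.2.trans (sup_le hl.1.2 h1)⟩
  rw [sm_diff s1, sm_diff s2, sm_eq_zero (S := ins (Pt P w) (l ⊔ w)) fun m k => meet m (cn_T hw k.1)
      (i12_ne (T.inf_mem hE (cn_T hw k.1) hl k.2 le_sup_left fun e => h2 (e ▸ k.1.2.1)).1), zero_add,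
    sm_const (c := c₁) fun m k => k₁ m (cn_T hw k.1.1) (by_contra fun e => k.2 ⟨k.1.1, i12_le hw h2 k.1.1 e⟩)
      (inf_eq_right.2 (P.le_perp_comm.1 k.1.2)),
    sm_const (c := c₂) fun m k => k₂ m (cn_T hw k.1.1) (i12_J hl hw h1 h2 hz h3 k).1 (i12_J hl hw h1 h2 hz h3 k).2,
    Set.ncard_sdiff s1, Set.ncard_sdiff s2, n1, n2, n3, ha, hb]

theorem i12_zero (h : Pol P q) (hl : l ∈ T P 2)
    (same : ∀ m ∈ T P 2, ∀ m' ∈ T P 2, m ⊓ l = m' ⊓ l → P.perp m ⊓ l = P.perp m' ⊓ l → u m = u m')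
    (hnb : ∀ m ∈ T P 2, u m = 0 → sm (nb P m) u = 0) (meet : ∀ m ∈ T P 2, m ⊓ l ≠ ⊥ → u m = 0)
    (hz : z ∈ T P 1) (h3 : z ≤ l) (hw : w ∈ T P 1) (h1 : w ≤ P.perp l) (h2 : ¬ w ≤ l) :
    sm (ins (Pt P w) (P.perp z)) u = 0 := by
  obtain ⟨s, hs⟩ := i12_const h hl same meet hz h3
  have hm : z ⊔ w ∈ T P 2 := T.sup_pt hz (pt_bot P ▸ hw) bot_le (h1.trans (P.perp_anti h3)) fun k => h2 (k.trans h3)
  have mz : ∀ m ∈ T P 2, z ≤ m → u m = 0 := fun m k k' =>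
    meet m k fun e => i12_ne hz (eq_bot_iff.2 (e ▸ le_inf k' h3))
  have e := sm_comm (ins (T P 1) (z ⊔ w) \ {z}) (nb P (z ⊔ w)) (fun y m => y ≤ m) u
  rw [sm_congr (S := nb P (z ⊔ w)) (v := u) fun m k => ?_, hnb _ hm (mz _ hm le_sup_left),
    sm_const (c := s) fun y hy => ?_] at e
  · rw [hs w hw h1 h2]
    exact (mul_eq_zero.1 e).resolve_left (Nat.cast_ne_zero.2 (Set.ncard_ne_zero_of_mem
      (a := w) ⟨⟨hw, le_sup_right⟩, fun k => h2 (k ▸ h3)⟩))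
  · have b1 : ¬ y ≤ z := fun k => hy.2 (T.eq_of_le hy.1.1 hz k)
    have b2 : z ⊔ y = z ⊔ w := T.eq_of_le (T.sup_pt hz (pt_bot P ▸ hy.1.1) bot_le
      (T.le_perp hm hy.1.2 le_sup_left) b1) hm (sup_le le_sup_left hy.1.2)
    rw [← hs y hy.1.1 (hy.1.2.trans (sup_le (h3.trans hl.1.2) h1))
      fun k => h2 (le_sup_right.trans (b2.ge.trans (sup_le h3 k))), ← i12_ins, b2]
    congr 1
    exact Set.ext fun m => ⟨fun k => ⟨pa_mem hy.1.1 k.1.1 k.2, k.1.2.2⟩, fun k => ⟨⟨cn_T hy.1.1 k.1,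
      fun e => i12_ne hy.1.1 (eq_bot_iff.2 (e ▸ le_inf k.1.2.1 hy.1.2)), k.2⟩, k.1.2.1⟩⟩
  · by_cases a : z ≤ m
    · rw [mz m k.1 a, mul_zero]
    have b1 : m ⊓ (z ⊔ w) ∈ T P 1 := i12_pt hm inf_le_right k.2.1 fun e =>
      a (le_sup_left.trans (e.trans inf_le_left))
    have b2 : {y | y ∈ ins (T P 1) (z ⊔ w) \ {z} ∧ y ≤ m} = {m ⊓ (z ⊔ w)} := Set.eq_singleton_iff_unique_mem.2
      ⟨⟨⟨⟨b1, inf_le_right⟩, fun e => a (e.ge.trans inf_le_left)⟩, inf_le_left⟩,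
        fun y hy => T.eq_of_le hy.1.1.1 b1 (le_inf hy.2 hy.1.1.2)⟩
    rw [b2, Set.ncard_singleton, Nat.cast_one, one_mul]

theorem i12_key (h : Pol P q) (hl : l ∈ T P 2)
    (same : ∀ m ∈ T P 2, ∀ m' ∈ T P 2, m ⊓ l = m' ⊓ l → P.perp m ⊓ l = P.perp m' ⊓ l → u m = u m')
    (pen : ∀ z ∈ T P 1, sm (thru (T P 2) z) u = 0)
    (hnb : ∀ m ∈ T P 2, u m = 0 → sm (nb P m) u = 0) (meet : ∀ m ∈ T P 2, m ⊓ l ≠ ⊥ → u m = 0) :
    ∀ w ∈ T P 1, w ≤ P.perp l → ¬ w ≤ l → sm (ins (Pt P w) (P.perp l)) u = 0 ∧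
      ∀ z ∈ T P 1, z ≤ l → sm (ins (Pt P w) (P.perp z) \ ins (Pt P w) (P.perp l)) u = 0 := by
  intro w hw h1 h2
  have a1 : ∀ z ∈ T P 1, z ≤ l → sm (ins (Pt P w) (P.perp z) \ ins (Pt P w) (P.perp l)) u =
      -sm (ins (Pt P w) (P.perp l)) u := fun z hz h3 => by
    have := i12_zero h hl same hnb meet hz h3 hw h1 h2
    rw [sm_diff (S := ins (Pt P w) (P.perp z)) (S' := ins (Pt P w) (P.perp l))
      fun m k => ⟨k.1, k.2.trans (P.perp_anti h3)⟩] at this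
    exact eq_neg_of_add_eq_zero_right this
  have a2 := pen w hw
  rw [← pt_eq_thru hw.2, sm_diff (S' := ins (Pt P w) (P.perp l)) fun m k => k.1] at a2
  have e := sm_comm (ins (T P 1) l) (Pt P w \ ins (Pt P w) (P.perp l)) (fun z m => m ≤ P.perp z) u
  rw [sm_congr (S := Pt P w \ ins (Pt P w) (P.perp l)) (v := u) fun m k => ?_,
    sm_const (c := -sm (ins (Pt P w) (P.perp l)) u) fun z hz => ?_, ← cnt_eq, cnt_T1 hl, cn_th2] at e
  · have a3 : sm (ins (Pt P w) (P.perp l)) u = 0 := by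
      refine (mul_eq_zero.1 (?_ : (Nat.card F : ℂ) * _ = 0)).resolve_left (Nat.cast_ne_zero.2 Nat.card_pos.ne')
      push_cast at e
      linear_combination -a2 - e
    exact ⟨a3, fun z hz h3 => by rw [a1 z hz h3, a3, neg_zero]⟩
  · rw [← a1 z hz.1 hz.2]
    congr 1
    exact Set.ext fun m => ⟨fun k => ⟨⟨k.1.1, k.2⟩, k.1.2⟩, fun k => ⟨⟨k.1.1, k.2⟩, k.1.2⟩⟩
  · have b1 : l ⊓ P.perp m ∈ T P 1 := T.mono hl inf_le_left (by
      have := finrank_inf_perp k.1 (P.le_perp_comm.1 h1) fun e => k.2 ⟨k.1, P.le_perp_comm.1 e⟩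
      rw [hl.2] at this
      omega)
    have b2 : {z | z ∈ ins (T P 1) l ∧ m ≤ P.perp z} = {l ⊓ P.perp m} := Set.eq_singleton_iff_unique_mem.2
      ⟨⟨⟨b1, inf_le_left⟩, P.le_perp_comm.1 inf_le_right⟩,
        fun y hy => T.eq_of_le hy.1.1 b1 (le_inf hy.1.2 (P.le_perp_comm.1 hy.2))⟩
    rw [b2, Set.ncard_singleton, Nat.cast_one, one_mul]

end

theorem inj12 (h : Pol P q) (_h6 : 6 ≤ finrank F V) {x l : Submodule F V} (hx : x ∈ T P 1) (hl : l ∈ T P 2)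
    (hxl : x ≤ l) {u : Submodule F V → ℂ} (pos : PosInv P 2 (x, l, l) u)
    (pen : ∀ z ∈ T P 1, sm (thru (T P 2) z) u = 0) (hnb : ∀ m ∈ T P 2, u m = 0 → sm (nb P m) u = 0) (h1 : u l = 0)
    (h2 : sm (ins (thru (T P 2) x) (P.perp l)) u = 0) : ∀ m ∈ T P 2, u m = 0 := by
  have meet := i12_meet hx hl hxl pos pen hnb h1 h2
  have same : ∀ m ∈ T P 2, ∀ m' ∈ T P 2, m ⊓ l = m' ⊓ l → P.perp m ⊓ l = P.perp m' ⊓ l → u m = u m' :=
    fun m hm m' hm' a b => pos m hm m' hm' (same1_of_inf hxl le_rfl a b)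
  have key := i12_key h hl same pen hnb meet
  have D1 : ∀ m ∈ T P 2, m ⊓ l = ⊥ → P.perp m ⊓ l ≠ ⊥ → u m = 0 := fun m hm a b => by
    have nl : ∀ w ∈ T P 1, w ≤ m → ¬ w ≤ l := fun w hw k k' => i12_ne hw (eq_bot_iff.2 (a ▸ le_inf k k'))
    by_cases k : m ≤ P.perp l
    · obtain ⟨w, hw, -, b1⟩ := exists_mid (j := 1) hm bot_le (by simp) (by omega)
      refine sm_zero (key w hw (b1.trans k) (nl w hw b1)).1 ⟨pa_mem hw hm b1, k⟩ fun m' hm' => ?_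
      by_cases k' : m' ⊓ l = ⊥
      · exact Or.inr (same _ (cn_T hw hm'.1) _ hm (k'.trans a.symm) (by
          rw [inf_eq_right.2 (P.le_perp_comm.1 k), inf_eq_right.2 (P.le_perp_comm.1 hm'.2)]))
      · exact Or.inl (meet _ (cn_T hw hm'.1) k')
    · have hz : P.perp m ⊓ l ∈ T P 1 := i12_pt hl inf_le_right b fun e =>
        k (P.le_perp_comm.1 (e.trans inf_le_left))
      have hw : m ⊓ P.perp l ∈ T P 1 := T.mono hm inf_le_left (by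
        have := finrank_pair h.nd l m
        rw [inf_comm l, hz.2, hl.2, hm.2] at this
        omega)
      have b1 := nl _ hw inf_le_left
      refine sm_zero ((key _ hw inf_le_right b1).2 _ hz inf_le_right)
        ⟨⟨pa_mem hw hm inf_le_left, P.le_perp_comm.1 inf_le_left⟩, fun e => k e.2⟩ fun m' hm' => Or.inr ?_
      obtain ⟨b2, b3⟩ := i12_J hl hw inf_le_right b1 hz inf_le_right hm'
      exact same _ (cn_T hw hm'.1.1) _ hm (b2.trans a.symm) b3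
  intro m hm
  by_cases a : m ⊓ l = ⊥
  swap
  · exact meet m hm a
  by_cases b : P.perp m ⊓ l = ⊥
  swap
  · exact D1 m hm a b
  obtain ⟨w, hw, -, b1⟩ := exists_mid (j := 1) hm bot_le (by simp) (by omega)
  refine sm_zero (pen w hw) ⟨hm, b1⟩ fun m' hm' => ?_
  by_cases a' : m' ⊓ l = ⊥
  · by_cases b' : P.perp m' ⊓ l = ⊥
    · exact Or.inr (same _ hm'.1 _ hm (a'.trans a.symm) (b'.trans b.symm))
    · exact Or.inl (D1 _ hm'.1 a' b')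
  · exact Or.inl (meet _ hm'.1 a')

end CfsgLib.KP
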