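import Mathlib
import Cfsg.Agent.Lib.KP.Inj
import Cfsg.Agent.Lib.KP.Inj12

/-! KP: point-line flags (plans/KP.md, package S12). -/

set_option autoImplicit false
set_option linter.unusedSectionVars false

namespace CfsgLib.KP

open CfsgLib.CK CfsgLib.KL CfsgLib.Forms CfsgLib.RootMax CfsgLib.ClMax CfsgLib.Tech Module

variable {F : Type*} [Field F] [Finite F] {σ : F →+* F} {V : Type*} [AddCommGroup V] [Module F V] [Finite V]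
  {P : PQ σ V} {q : ℕ} {K : Subgroup (V ≃ₗ[F] V)} {C : Set (Submodule F V)}

variable {x : Submodule F V} {h₁ h₂ : ℕ}

theorem Lv.adm (h : Lv P q K C) {y : Submodule F V × Submodule F V × Submodule F V} {u : Submodule F V → ℂ}
    (hu : AdmF P.isom (T P 2) (ind C) (same1 P y) u) : PosInv P 2 y u ∧
      (∀ z ∈ T P 1, sm (thru (T P 2) z) u = 0) ∧ ∀ m ∈ T P 2, u m = 0 → sm (nb P m) u = 0 := by
  refine ⟨hu.pos, hu.tr h.le' (fun g hg x _ => ind_smul h.part.inv hg x) (eqI_thru P 2 (a := id) fun _ _ _ => rfl)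
    (inv_T P 1) h.tr fun z _ m hm => hm.1, fun m hm h0 => ?_⟩
  obtain ⟨c, μ, hc⟩ := aff_of_two h.part.sub h.t0 h.t1 (hh := fun m => sm (nb P m) (ind C)) fun g hg m _ =>
    (eqI_nb P).sm_inv (h.le' hg) fun x _ => ind_smul h.part.inv hg x
  have := hu.fam (eqI_nb P) (pt := id) (fun _ _ _ => rfl) (inv_T P 2) (fun _ _ _ k => k.1) (fun _ k => k) hc m hm
  rwa [id, h0, mul_zero] at this

theorem Lv.thru_ne (h : Lv P q K C) (hx : x ∈ T P 1) : (thru C x).Nonempty := by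
  obtain ⟨l, hl⟩ := h.part.ne
  obtain ⟨z, hz, -, k⟩ := exists_mid (j := 1) (h.part.sub hl) bot_le (by simp) (by omega)
  obtain ⟨g, hg, rfl⟩ := h.tr z hz x hx
  exact ⟨g • l, (smul_thru h.part.inv hg).2 ⟨hl, k⟩⟩

theorem Lv.ncard_thru (h : Lv P q K C) : ∃ n₀, ∀ x ∈ T P 1, (thru C x).ncard = n₀ := by
  obtain ⟨z, hz⟩ := exists_T (k := 1) h.pol (by have := h.six; omega)
  refine ⟨(thru C z).ncard, fun x hx => ?_⟩
  obtain ⟨g, hg, rfl⟩ := h.tr z hz x hx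
  exact EqI.ncard (I := K) (Q := thru C) (fun _ hg _ _ => smul_thru h.part.inv hg) hg z

theorem Lv.cl (h : Lv P q K C) (e₁ : ∀ y ∈ T2 P 1 2, y.2 ∈ C → eta P C y.1 y.2 = h₁)
    (e₂ : ∀ y ∈ T2 P 1 2, y.2 ∉ C → eta P C y.1 y.2 = h₂) : Cl P C h₁ h₂ := by
  refine ⟨h.part.sub, fun x hx => ?_⟩
  have pt := pt_eq_thru (P := P) hx.2
  refine ⟨hx.1, fun m hm => pt ▸ ⟨h.part.sub hm.1, hm.2⟩, h.thru_ne hx, ?_, fun Z hZ =>
    e₁ (x, Z) ⟨hZ.2, hx, h.part.sub hZ.1⟩ hZ.1, fun Z hZ hn => ?_⟩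
  · obtain ⟨m, hm⟩ := h.compl.thru_ne hx
    exact ⟨m, pt ▸ ⟨hm.1.1, hm.2⟩, fun k => hm.1.2 k.1⟩
  · rw [pt] at hZ
    exact e₂ (x, Z) ⟨hZ.2, hx, hZ.1⟩ fun k => hn ⟨k, hZ.2⟩

theorem Lv.dvd (h : Lv P q K C) (hx : x ∈ T P 1) (tr : Tr (Stab K x) (thru C x)) :
    (thru C x).ncard ∣ Nat.card (Stab K x) := by
  obtain ⟨m, hm⟩ := h.thru_ne hx
  exact Dvd.intro_left _ (tr.card_eq (fun g hg a ha => by
    rw [← hg.2]; exact (smul_thru h.part.inv hg.1).2 ha) hm).symm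

theorem Lv.s12_inj (h : Lv P q K C) : ∀ y ∈ T3 P 1 2 2, ∀ u, AdmF P.isom (T P 2) (ind C) (same1 P y) u →
    sm {y.2.1} u = 0 → sm (ins (thru (T P 2) y.1) (P.perp y.2.1)) u = 0 → ∀ m ∈ T P 2, u m = 0 := by
  rintro ⟨x, l, l'⟩ ⟨a1, a2, a3, a4, a5⟩ u hu h1 h2
  obtain rfl : l = l' := T.eq_of_le a4 a5 a2
  rw [sm_single] at h1
  exact inj12 h.pol h.six a3 a4 a1 (h.adm hu).1 (h.adm hu).2.1 (h.adm hu).2.2 h1 h2

theorem s12_eq₁ (P : PQ σ V) : EqI P.isom fun y : Submodule F V × Submodule F V × Submodule F V => {y.2.1} :=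
  eqI_single fun _ _ _ => rfl

theorem s12_eq₂ (P : PQ σ V) : EqI P.isom fun y : Submodule F V × Submodule F V × Submodule F V =>
    ins (thru (T P 2) y.1) (P.perp y.2.1) :=
  eqI_ins_thru P 2 (fun _ _ _ => rfl) fun _ hg y => (smul_perp hg y.2.1).symm

theorem s12_mem {y : Submodule F V × Submodule F V} (hy : y ∈ T2 P 1 2) : (y.1, y.2, y.2) ∈ T3 P 1 2 2 :=
  ⟨hy.1, le_rfl, hy.2.1, hy.2.2, hy.2.2⟩

theorem orb12 (h : Lv P q K C) {y y' : Submodule F V × Submodule F V} (hy : y ∈ T2 P 1 2) (hy' : y' ∈ T2 P 1 2)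
    (e₁ : y.2 ∈ C ↔ y'.2 ∈ C) (e₂ : eta P C y.1 y.2 = eta P C y'.1 y'.2) : ∃ g ∈ K, g • y = y' := by
  obtain ⟨g, hg, e⟩ := (h.gs.one 2 1 2 2).orb h.part
    ![fun y => {y.2.1}, fun y => ins (thru (T P 2) y.1) (P.perp y.2.1)]
    (Fin.forall_fin_two.2 ⟨fun y hy => Set.singleton_subset_iff.2 hy.2.2.2.1, fun _ _ _ k => k.1.1⟩)
    (Fin.forall_fin_two.2 ⟨s12_eq₁ P, s12_eq₂ P⟩) (fun y hy u hu k => h.s12_inj y hy u hu (k 0) (k 1))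
    (s12_mem hy) (s12_mem hy') (Fin.forall_fin_two.2 ⟨Nat.cast_injective (R := ℂ) (by
      change ((C ∩ {y.2}).ncard : ℂ) = (C ∩ {y'.2}).ncard
      rw [ncard_inter_single', ncard_inter_single', ind, ind, e₁]), by
      change (C ∩ ins (thru (T P 2) y.1) (P.perp y.2)).ncard = (C ∩ ins (thru (T P 2) y'.1) (P.perp y'.2)).ncard
      rw [inter_ins_thru h.part.sub, inter_ins_thru h.part.sub]
      exact e₂⟩)
  exact ⟨g, hg, Prod.ext (congrArg (·.1) e) (congrArg (·.2.1) e)⟩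

theorem dich12 (h : Lv P q K C) : (∃ k, ∀ y ∈ T2 P 1 2, y.2 ∈ C → eta P C y.1 y.2 = k) ∨
    ∃ k, ∀ y ∈ T2 P 1 2, y.2 ∉ C → eta P C y.1 y.2 = k := by
  obtain ⟨c₀, c₁, c₂, hc⟩ := (h.gs.one 2 1 2 2).q2 h.part (fun y hy => Set.singleton_subset_iff.2 hy.2.2.2.1)
    (fun _ _ _ k => k.1.1) (s12_eq₁ P) (s12_eq₂ P) h.s12_inj (fun y => ind C y.2.1 * eta P C y.1 y.2.1) fun g hg y _ => by
      change ind C (g • y.2.1) * eta P C (g • y.1) (g • y.2.1) = _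
      rw [ind_smul h.part.inv hg, eta_inv h.le' h.part.inv hg]
  refine (dich_val (O := C) (B := T3 P 1 2 2) (pt := fun y => y.2.1) (n := fun y => eta P C y.1 y.2.1)
    (c₀ := c₀) (c₁ := c₁) (c₂ := c₂) fun y hy => ?_).imp (Exists.imp fun k hk y hy => hk _ (s12_mem hy))
    (Exists.imp fun k hk y hy => hk _ (s12_mem hy))
  rw [hc y hy, ncard_inter_single', inter_ins_thru h.part.sub]
  rfl

theorem tr12 (h : Lv P q K C) (hx : x ∈ T P 1) :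
    Tr (Stab K x) (thru C x) ∨ Tr (Stab K x) (thru (T P 2 \ C) x) := by
  refine (dich12 h).imp (fun ⟨k, hk⟩ m hm m' hm' => ?_) fun ⟨k, hk⟩ m hm m' hm' => ?_
  · have a : (x, m) ∈ T2 P 1 2 := ⟨hm.2, hx, h.part.sub hm.1⟩
    have a' : (x, m') ∈ T2 P 1 2 := ⟨hm'.2, hx, h.part.sub hm'.1⟩
    obtain ⟨g, hg, e⟩ := orb12 h a a' (iff_of_true hm.1 hm'.1) ((hk _ a hm.1).trans (hk _ a' hm'.1).symm)
    exact ⟨g, ⟨hg, (Prod.ext_iff.1 e).1⟩, (Prod.ext_iff.1 e).2⟩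
  · have a : (x, m) ∈ T2 P 1 2 := ⟨hm.2, hx, hm.1.1⟩
    have a' : (x, m') ∈ T2 P 1 2 := ⟨hm'.2, hx, hm'.1.1⟩
    obtain ⟨g, hg, e⟩ := orb12 h a a' (iff_of_false hm.1.2 hm'.1.2) ((hk _ a hm.1.2).trans (hk _ a' hm'.1.2).symm)
    exact ⟨g, ⟨hg, (Prod.ext_iff.1 e).1⟩, (Prod.ext_iff.1 e).2⟩

theorem tr12a (h : Lv P q K C) (hC : Cl P C h₁ h₂) (hx : x ∈ T P 1) : Tr (Stab K x) (thru C x) := by
  intro m hm m' hm'
  obtain ⟨g, hg, e⟩ := orb12 h (y := (x, m)) (y' := (x, m')) ⟨hm.2, hx, h.part.sub hm.1⟩ ⟨hm'.2, hx, h.part.sub hm'.1⟩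
    (iff_of_true hm.1 hm'.1) (((hC.intr x hx).h1 m hm).trans ((hC.intr x hx).h1 m' hm').symm)
  exact ⟨g, ⟨hg, (Prod.ext_iff.1 e).1⟩, (Prod.ext_iff.1 e).2⟩

end CfsgLib.KP
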