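import Mathlib
import Cfsg.Agent.Lib.KP.Inj
import Cfsg.Agent.Lib.KP.S12
import Cfsg.Agent.Lib.KP.Intr

/-! KP: chambers of rank three in case 2a (plans/KP.md, package AFF3). -/

set_option autoImplicit false
set_option linter.unusedSectionVars false

namespace CfsgLib.KP

open CfsgLib.CK CfsgLib.KL CfsgLib.Forms CfsgLib.RootMax CfsgLib.ClMax CfsgLib.Tech Module

variable {F : Type*} [Field F] [Finite F] {σ : F →+* F} {V : Type*} [AddCommGroup V] [Module F V] [Finite V]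
  {P : PQ σ V} {q : ℕ} {K : Subgroup (V ≃ₗ[F] V)} {C : Set (Submodule F V)}

/-- the positions of the lines of the plane of a chamber -/
theorem a3_same {x l E m m' : Submodule F V} (hy : (x, l, E) ∈ T3 P 1 2 3) (hm : m ∈ T P 2) (hm' : m' ∈ T P 2)
    (a : m ≤ E) (a' : m' ≤ E) (b : m ≠ l) (b' : m' ≠ l) (c : x ≤ m ↔ x ≤ m') : same1 P (x, l, E) m m' := by
  obtain ⟨a12, a23, t1, t2, t3⟩ := hy
  dsimp only at a12 a23 t1 t2 t3
  have p : ∀ M ≤ E, ∀ W ≤ E, P.perp M ⊓ W = W := fun M hM W hW => inf_eq_right.2 (T.le_perp t3 hW hM)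
  refine ⟨Prod.ext ?_ (Prod.ext ?_ ?_), Prod.ext ?_ (Prod.ext ?_ ?_)⟩ <;> dsimp only [dims]
  · rw [inf_comm, inf_comm m']
    by_cases k : x ≤ m
    · rw [inf_eq_left.2 k, inf_eq_left.2 (c.1 k)]
    · rw [cn_cov (pt_bot P ▸ t1) bot_le k, cn_cov (pt_bot P ▸ t1) bot_le fun k' => k (c.2 k')]
  · rw [(T.inf_mem (k := 1) t3 hm t2 a a23 b).1.2, (T.inf_mem (k := 1) t3 hm' t2 a' a23 b').1.2]
  · rw [inf_eq_left.2 a, inf_eq_left.2 a', hm.2, hm'.2]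
  · rw [p m a x (a12.trans a23), p m' a' x (a12.trans a23)]
  · rw [p m a l a23, p m' a' l a23]
  · rw [p m a E le_rfl, p m' a' E le_rfl]

/-- a non-zero totally singular subspace contains a point -/
theorem a3_pt {M : Submodule F V} (hM : P.TS M) (h : 1 ≤ finrank F M) : ∃ z ∈ T P 1, z ≤ M :=
  let ⟨z, hz, _, k⟩ := exists_mid (P := P) (U := M) (Y := ⊥) (j := 1) ⟨hM, rfl⟩ bot_le (by simp) h
  ⟨z, hz, k⟩

theorem inj3 {y : Submodule F V × Submodule F V × Submodule F V} (hy : y ∈ T3 P 1 2 3) {u : Submodule F V → ℂ}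
    (pos : PosInv P 2 y u) (pen : ∀ z ∈ T P 1, sm (thru (T P 2) z) u = 0)
    (eig : ∀ z ∈ T P 1, ∀ m ∈ T P 2, z ≤ m → u m = 0 → sm (ins (thru (T P 2) z) (P.perp m)) u = 0)
    (h1 : u y.2.1 = 0) (h2 : sm (ins (thru (T P 2) y.1) y.2.2) u = 0) (h3 : sm (ins (T P 2) y.2.2) u = 0) :
    ∀ m ∈ T P 2, u m = 0 := by
  obtain ⟨x, l, E⟩ := y
  have ⟨a12, a23, t1, t2, t3⟩ := hy
  dsimp only at a12 a23 t1 t2 t3 h1 h2 h3
  have A1 : ∀ m ∈ T P 2, m ≤ E → x ≤ m → u m = 0 := fun m hm a c => by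
    by_cases b : m = l
    · rwa [b]
    refine sm_zero h2 ⟨⟨hm, c⟩, a⟩ fun m' hm' => ?_
    by_cases b' : m' = l
    · exact Or.inl (by rwa [b'])
    · exact Or.inr (pos m' hm'.1.1 m hm (a3_same hy hm'.1.1 hm hm'.2 a b' b (iff_of_true hm'.1.2 c)))
  have A : ∀ m ∈ T P 2, m ≤ E → u m = 0 := fun m hm a => by
    by_cases c : x ≤ m
    · exact A1 m hm a c
    refine sm_zero h3 ⟨hm, a⟩ fun m' hm' => ?_
    by_cases c' : x ≤ m'
    · exact Or.inl (A1 m' hm'.1 hm'.2 c')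
    · exact Or.inr (pos m' hm'.1 m hm (a3_same hy hm'.1 hm hm'.2 a (fun k => c' (k ▸ a12))
        (fun k => c (k ▸ a12)) (iff_of_false c' c)))
  have loc : ∀ z ∈ T P 1, ∀ U, P.TS U → z ≤ U → 3 ≤ finrank F U → (∀ Z ∈ T P 2, z ≤ Z → Z ≤ U → u Z = 0) →
      (∀ Z ∈ Pt P z, ∀ Z' ∈ Pt P z, ¬ Z ≤ U → ¬ Z' ≤ U → P.perp Z ⊓ U = P.perp Z' ⊓ U →
        Z ⊓ E = Z' ⊓ E ∧ P.perp Z ⊓ E = P.perp Z' ⊓ E) → ∀ m ∈ T P 2, z ≤ m → u m = 0 := by
    intro z hz U hU a b c d m hm e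
    have k : Pt P z = thru (T P 2) z := pt_eq_thru hz.2
    refine loc_zero hU a (by rw [hz.2]; exact b) (by rw [k]; exact pen z hz)
      (fun Z hZ => c Z (cn_T hz hZ) hZ.2.1) (fun Z hZ f => ?_) (fun Z hZ Z' hZ' f f' g => ?_) m (k ▸ ⟨hm, e⟩)
    · rw [k]
      exact eig z hz Z (cn_T hz hZ) hZ.2.1 (c Z (cn_T hz hZ) hZ.2.1 f)
    · exact pos Z (cn_T hz hZ) Z' (cn_T hz hZ') (same1_of_inf a12 a23 (d Z hZ Z' hZ' f f' g).1 (d Z hZ Z' hZ' f f' g).2)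
  have B : ∀ z ∈ T P 1, z ≤ E → ∀ m ∈ T P 2, z ≤ m → u m = 0 := fun z hz a =>
    loc z hz E t3.1 a t3.2.ge (fun Z hZ _ b => A Z hZ b) fun Z hZ Z' hZ' f f' g =>
      ⟨by rw [cn_cov hZ a f, cn_cov hZ' a f'], g⟩
  intro m hm
  obtain ⟨w, hw, hwm⟩ := a3_pt hm.1 (by rw [hm.2]; norm_num)
  by_cases a : w ≤ E
  · exact B w hw a m hm hwm
  have wE : w ⊓ E = ⊥ := cn_cov (pt_bot P ▸ hw) bot_le a
  have d2 : 2 ≤ finrank F ↥(E ⊓ P.perp w) := by
    have := t3.2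
    by_cases k : E ≤ P.perp w
    · rw [inf_eq_left.2 k]; omega
    · have := finrank_inf_perp (E := E) (pt_bot P ▸ hw) (P.perp_bot ▸ le_top) k
      omega
  have dU : finrank F ↥(w ⊔ E ⊓ P.perp w) = finrank F ↥(E ⊓ P.perp w) + 1 := by
    have := Submodule.finrank_sup_add_finrank_inf_eq w (E ⊓ P.perp w)
    rw [← inf_assoc, wE, bot_inf_eq, finrank_bot, hw.2] at this
    omega
  have k1 : ∀ Z ∈ Pt P w, ¬ Z ≤ w ⊔ E ⊓ P.perp w → Z ⊓ E = ⊥ := fun Z hZ f => by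
    have e := cn_cov hZ le_sup_left f
    rw [← le_bot_iff, ← wE]
    refine le_inf (le_trans ?_ e.le) inf_le_right
    exact le_inf inf_le_left (le_sup_of_le_right (le_inf inf_le_right (inf_le_left.trans (cn_le hZ))))
  have k2 : ∀ Z ∈ Pt P w, P.perp Z ⊓ E = P.perp Z ⊓ (w ⊔ E ⊓ P.perp w) ⊓ E := fun Z hZ =>
    le_antisymm (le_inf (le_inf inf_le_left (le_sup_of_le_right
      (le_inf inf_le_right (inf_le_left.trans (P.perp_anti hZ.2.1))))) inf_le_right)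
      (inf_le_inf_right _ inf_le_left)
  refine loc w hw (w ⊔ E ⊓ P.perp w) (hw.1.sup (t3.1.mono inf_le_left) ?_) le_sup_left (by omega)
    (fun Z hZ b c => ?_) (fun Z hZ Z' hZ' f f' g => ⟨by rw [k1 Z hZ f, k1 Z' hZ' f'], by rw [k2 Z hZ, g, ← k2 Z' hZ']⟩)
    m hm hwm
  · exact inf_le_right
  · have e := Submodule.finrank_sup_add_finrank_inf_eq Z (E ⊓ P.perp w)
    have e' := Submodule.finrank_mono (sup_le c le_sup_right)
    have := hZ.2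
    obtain ⟨z, hz, k⟩ := a3_pt (hZ.1.mono (inf_le_left (b := E ⊓ P.perp w))) (by omega)
    exact B z hz (k.trans (inf_le_right.trans inf_le_left)) Z hZ (k.trans inf_le_left)

theorem aff3 (h : Lv P q K C) {h₁ h₂ : ℕ} (hC : Cl P C h₁ h₂) : Aff P K C := by
  intro hh hi
  obtain ⟨c₀, c₁, c₂, c₃, hc⟩ := (h.gs.one 2 1 2 3).q3 h.part (Q₁ := fun y => {y.2.1})
    (Q₂ := fun y => ins (thru (T P 2) y.1) y.2.2) (Q₃ := fun y => ins (T P 2) y.2.2)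
    (fun y hy => Set.singleton_subset_iff.2 hy.2.2.2.1) (fun _ _ _ k => k.1.1) (fun _ _ _ k => k.1)
    (eqI_single fun _ _ _ => rfl) (eqI_ins_thru P 2 (fun _ _ _ => rfl) fun _ _ _ => rfl)
    (eqI_ins P 2 fun _ _ _ => rfl) (fun y hy u hu h1 h2 h3 => by
      have e := hu.fam (Z := Submodule F V × Submodule F V) (Q := fun z => ins (thru (T P 2) z.1) (P.perp z.2))
        (eqI_ins_thru P 2 (fun _ _ _ => rfl) (eqv_perp P fun _ _ _ => rfl)) (pt := fun z => z.2)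
        (fun _ _ _ => rfl) (inv_T2 P 1 2) (fun _ _ _ k => k.1.1) (fun _ k => k.2.2) (c := h₂) (μ := h₁ - h₂)
        fun z hz => by
          rw [sm_ind, inter_ins_thru hC.sub, ← cnt_eq, ← eta]
          by_cases k : z.2 ∈ C
          · rw [hC.eta₁ hz.2.1 k hz.1, ind_mem k]; ring
          · rw [hC.eta₂ hz.2.1 hz.2.2 k hz.1, ind_not k]; ring
      refine inj3 hy (h.adm hu).1 (h.adm hu).2.1 (fun z hz m hm a b => ?_) (by rwa [sm_single] at h1) h2 h3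
      simpa [b] using e (z, m) ⟨a, hz, hm⟩) hh hi
  refine ⟨c₀, c₁, c₂, c₃, fun y hy => ?_⟩
  rw [hc y hy, ncard_inter_single', inter_ins_thru hC.sub, inter_ins hC.sub, cnt_eq, cnt_eq]

end CfsgLib.KP
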