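import Mathlib
import Cfsg.Agent.Lib.KP.Cnt

/-! KP: rank three (plans/KP.md, package PL). -/

set_option autoImplicit false
set_option linter.unusedSectionVars false

namespace CfsgLib.KP

open CfsgLib.CK CfsgLib.KL CfsgLib.Forms CfsgLib.RootMax CfsgLib.ClMax CfsgLib.Tech Module

variable {F : Type*} [Field F] [Finite F] {σ : F →+* F} {V : Type*} [AddCommGroup V] [Module F V] [Finite V]
  {P : PQ σ V} {q : ℕ} {K : Subgroup (V ≃ₗ[F] V)} {C : Set (Submodule F V)}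

section Aux

variable {x z z' l m m' p E H H' W : Submodule F V} {y : Submodule F V × Submodule F V × Submodule F V}
  {u : Submodule F V → ℂ}

theorem pl_eq (hz : z ∈ T P 1) (hl : l ∈ T P 2) (h1 : z ≤ l) (h2 : z ≤ W) (h3 : ¬ l ≤ W) : l ⊓ W = z := by
  have := Submodule.finrank_lt_finrank_of_lt (inf_lt_left.2 h3)
  exact (Submodule.eq_of_le_of_finrank_le (le_inf h1 h2) (by rw [hz.2]; rw [hl.2] at this; omega)).symm

theorem pl_ex (hW : P.TS W) (h0 : W ≠ ⊥) : ∃ z ∈ T P 1, z ≤ W := by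
  obtain ⟨z, hz, -, h⟩ := exists_mid (j := 1) (Y := ⊥) (⟨hW, rfl⟩ : W ∈ T P _) bot_le (by simp)
    (Submodule.one_le_finrank_iff.2 h0)
  exact ⟨z, hz, h⟩

theorem pl_hy0 (hH : H ≤ E) (d : finrank F H + 1 = finrank F E) (hW : W ≤ E) (e : ¬ W ≤ H) :
    finrank F ↥(H ⊓ W) + 1 = finrank F W := by
  have h1 := Submodule.finrank_lt_finrank_of_lt (left_lt_sup.2 e : H < H ⊔ W)
  have h2 := Submodule.finrank_mono (sup_le hH hW)
  have h3 := Submodule.finrank_sup_add_finrank_inf_eq H W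
  omega

theorem pl_hy (hH : H ≤ E) (hH' : H' ≤ E) (d : finrank F H + 1 = finrank F E) (d' : finrank F H' + 1 = finrank F E)
    (hW : W ≤ E) (e : W ≤ H ↔ W ≤ H') : finrank F ↥(H ⊓ W) = finrank F ↥(H' ⊓ W) := by
  by_cases k : W ≤ H
  · rw [inf_eq_right.2 k, inf_eq_right.2 (e.1 k)]
  · have := pl_hy0 hH d hW k
    have := pl_hy0 hH' d' hW (e.not.1 k)
    omega

theorem pl_p1 (hz : z ∈ T P 1) (hz' : z' ∈ T P 1) (e : z ≤ W ↔ z' ≤ W) :
    finrank F ↥(z ⊓ W) = finrank F ↥(z' ⊓ W) := by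
  by_cases k : z ≤ W
  · rw [inf_eq_left.2 k, inf_eq_left.2 (e.1 k), hz.2, hz'.2]
  · have h1 := Submodule.finrank_lt_finrank_of_lt (inf_lt_left.2 k)
    have h2 := Submodule.finrank_lt_finrank_of_lt (inf_lt_left.2 (e.not.1 k))
    rw [hz.2] at h1
    rw [hz'.2] at h2
    omega

theorem pl_dims (h1 : y.1 ≤ y.2.1) (h2 : y.2.1 ≤ y.2.2) (m : Submodule F V) : dims y m = dims y (m ⊓ y.2.2) :=
  dims_of_inf h1 h2 (by rw [inf_assoc, inf_idem])

/-- the position of a line of `E` -/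
theorem pl_in {a b : ℕ} (hy : y ∈ T3 P a b 3) (hm : m ∈ T P 2) (hm' : m' ∈ T P 2) (h : m ≤ y.2.2) (h' : m' ≤ y.2.2)
    (e1 : y.1 ≤ m ↔ y.1 ≤ m') (e2 : y.2.1 ≤ m ↔ y.2.1 ≤ m') : same1 P y m m' := by
  obtain ⟨h1, h2, -, -, hE⟩ := hy
  refine ⟨?_, dims_of_inf h1 h2 ?_⟩
  · have d : finrank F m + 1 = finrank F y.2.2 := by rw [hm.2, hE.2]
    have d' : finrank F m' + 1 = finrank F y.2.2 := by rw [hm'.2, hE.2]
    rw [dims, dims, pl_hy h h' d d' (h1.trans h2) e1, pl_hy h h' d d' h2 e2, inf_eq_left.2 h, inf_eq_left.2 h',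
      hm.2, hm'.2]
  · rw [inf_eq_right.2 (T.le_perp hE le_rfl h), inf_eq_right.2 (T.le_perp hE le_rfl h')]

variable (P) in
/-- `m` is a line which meets `E` in the point `z` -/
structure PlA (E m z : Submodule F V) : Prop where
  ln : m ∈ T P 2
  pt : z ∈ T P 1
  le : z ≤ m
  le' : z ≤ E
  out : ¬ m ≤ E

theorem pl_tr (h : P.Nondeg) (h6 : finrank F V = 6) (hE : E ∈ T P 3) (hm : m ∈ T P 2) :
    finrank F ↥(P.perp m ⊓ E) = finrank F ↥(m ⊓ E) + 1 := by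
  have := finrank_pair h m E
  rw [perp_eq_of_max h hE h6, hm.2, hE.2, inf_comm E] at this
  omega

theorem PlA.inf (a : PlA P E m z) : m ⊓ E = z := pl_eq a.pt a.ln a.le a.le' a.out

theorem PlA.tr (a : PlA P E m z) (h : P.Nondeg) (h6 : finrank F V = 6) (hE : E ∈ T P 3) : P.perp m ⊓ E ∈ T P 2 :=
  T.mono hE inf_le_right (by rw [pl_tr h h6 hE a.ln, a.inf, a.pt.2])

theorem PlA.perp (a : PlA P E m z) : z ≤ P.perp m := T.le_perp a.ln a.le le_rfl

/-- the position of a line meeting `E` in a point -/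
theorem pl_out (h : P.Nondeg) (h6 : finrank F V = 6) {a b : ℕ} (hy : y ∈ T3 P a b 3) (c : PlA P y.2.2 m z)
    (c' : PlA P y.2.2 m' z') (e1 : z ≤ y.1 ↔ z' ≤ y.1) (e2 : z ≤ y.2.1 ↔ z' ≤ y.2.1)
    (e3 : y.1 ≤ P.perp m ↔ y.1 ≤ P.perp m') (e4 : y.2.1 ≤ P.perp m ↔ y.2.1 ≤ P.perp m') : same1 P y m m' := by
  obtain ⟨h1, h2, -, -, hE⟩ := hy
  have d : finrank F ↥(P.perp m ⊓ y.2.2) + 1 = finrank F y.2.2 := by rw [(c.tr h h6 hE).2, hE.2]
  have d' : finrank F ↥(P.perp m' ⊓ y.2.2) + 1 = finrank F y.2.2 := by rw [(c'.tr h h6 hE).2, hE.2]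
  refine ⟨?_, ?_⟩
  · rw [pl_dims h1 h2 m, pl_dims h1 h2 m', c.inf, c'.inf, dims, dims, pl_p1 c.pt c'.pt e1, pl_p1 c.pt c'.pt e2,
      pl_p1 c.pt c'.pt (iff_of_true c.le' c'.le')]
  · rw [pl_dims h1 h2 (P.perp m), pl_dims h1 h2 (P.perp m'), dims, dims,
      pl_hy inf_le_right inf_le_right d d' (h1.trans h2) (by simp only [le_inf_iff, e3]),
      pl_hy inf_le_right inf_le_right d d' h2 (by simp only [le_inf_iff, e4]), inf_right_idem, inf_right_idem,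
      (c.tr h h6 hE).2, (c'.tr h h6 hE).2]

/-- the pencil at `z` -/
theorem pl_pen (h0 : ∀ m ∈ T P 2, m ≤ E → u m = 0) (c : PlA P E m z) {S : Set (Submodule F V)}
    (hS : S ⊆ thru (T P 2) z) (hm : m ∈ S) (pen : sm S u = 0)
    (hc : ∀ m' ∈ S, PlA P E m' z → u m' = 0 ∨ u m' = u m) : u m = 0 :=
  sm_zero pen hm fun m' hm' => by
    by_cases k : m' ≤ E
    · exact .inl (h0 m' (hS hm').1 k)
    · exact hc m' hm' ⟨(hS hm').1, c.pt, (hS hm').2, c.le', k⟩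

/-- the plane spanned by `m` and its trace -/
theorem pl_pla (h : P.Nondeg) (h6 : finrank F V = 6) (hE : E ∈ T P 3) (h0 : ∀ m ∈ T P 2, m ≤ E → u m = 0)
    (pla : ∀ E ∈ T P 3, sm (ins (T P 2) E) u = 0) (c : PlA P E m z)
    (hc : ∀ m' z', PlA P E m' z' → P.perp m' ⊓ E = P.perp m ⊓ E → u m' = 0 ∨ u m' = u m) : u m = 0 := by
  have hp := c.tr h h6 hE
  have h1 : m ≤ P.perp (P.perp m ⊓ E) := P.le_perp_comm.1 inf_le_left
  have hE' : P.perp m ⊓ E ⊔ m ∈ T P 3 := T.sup_pt hp (Y := z) ⟨c.ln.1, c.le, by rw [c.ln.2, c.pt.2]⟩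
    (le_inf c.perp c.le') h1 fun k => c.out (k.trans inf_le_right)
  refine sm_zero (pla _ hE') ⟨c.ln, le_sup_right⟩ fun m' hm' => ?_
  by_cases k : m' ≤ E
  · exact .inl (h0 m' hm'.1 k)
  have c' : PlA P E m' (m' ⊓ (P.perp m ⊓ E)) := ⟨hm'.1, (T.inf_mem hE' hm'.1 hp hm'.2 le_sup_left
    fun e => k (e.le.trans inf_le_right)).1, inf_le_left, inf_le_right.trans inf_le_right, k⟩
  exact hc m' _ c' (T.eq_of_le hp (c'.tr h h6 hE) (le_inf (T.le_perp hE' le_sup_left hm'.2) inf_le_right)).symm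

end Aux

theorem pl (h : Hyp P q K) (t1 : Tr K (T P 1)) (h7 : finrank F V ≤ 7) (n3 : ¬ Tr K (T P 3)) {l : Submodule F V}
    (hl : l ∈ T P 2) : Tr (Stab K l) (ins (T P 1) l) := by
  obtain ⟨O, hO⟩ := exists_part ((inv_T P 3).mono h.le') n3
  intro x hx x' hx'
  refine ((h.gs.one 3 1 2 2).orb hO (fun _ : Fin 1 => fun y => thru (T P 3) y.2.1)
    (fun _ _ _ _ k => k.1) (fun _ => eqI_thru P 3 fun _ _ _ => rfl) ?_ (y := (x, l, l)) (y' := (x', l, l))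
    ⟨hx.2, le_rfl, hx.1, hl, hl⟩ ⟨hx'.2, le_rfl, hx'.1, hl, hl⟩ fun _ => rfl).imp
    fun g ⟨hg, e⟩ => ⟨mem_Stab.2 ⟨hg, congrArg (·.2.1) e⟩, congrArg (·.1) e⟩
  rintro ⟨x, l, l'⟩ ⟨h1, h2, -, hl, hl'⟩ u hu h0
  dsimp only at h1 h2 hl hl' h0
  obtain rfl := T.eq_of_le hl hl' h2
  have tr : ∀ E ∈ T P 3, P.perp E ⊓ l = E ⊓ l := fun E hE => le_antisymm
    (le_inf (le_of_max h.pol hE (by omega) (hl.1.mono inf_le_right) inf_le_left) inf_le_right)
    (inf_le_inf_right _ (T.le_perp hE le_rfl le_rfl))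
  have key : ∀ E ∈ T P 3, ∀ E' ∈ T P 3, l ⊓ E = l ⊓ E' → u E = u E' := fun E hE E' hE' e =>
    hu.pos E hE E' hE' (same1_of_inf h1 h2 (by rw [inf_comm, e, inf_comm]) (by
      rw [tr E hE, tr E' hE', inf_comm, e, inf_comm]))
  have a : ∀ E ∈ T P 3, l ≤ E → u E = 0 := fun E hE k =>
    sm_zero (h0 0) ⟨hE, k⟩ fun E' k' => .inr (key _ k'.1 _ hE (by rw [inf_eq_left.2 k, inf_eq_left.2 k'.2]))
  have b : ∀ z ∈ T P 1, z ≤ l → ∀ E ∈ T P 3, z ≤ E → u E = 0 := fun z hz hzl E hE k => by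
    refine by_cases (a E hE) fun n => sm_zero (hu.tr h.le' (fun g hg E _ => ind_smul hO.inv hg E)
      (eqI_thru (a := fun z => z) P 3 fun _ _ _ => rfl) (inv_T P 1) t1 (fun _ _ _ k => k.1) z hz) ⟨hE, k⟩ fun E' k' => ?_
    exact by_cases (fun n' => .inl (a E' k'.1 n')) fun n' => .inr (key _ k'.1 _ hE
      (by rw [pl_eq hz hl hzl k n, pl_eq hz hl hzl k'.2 n']))
  have c : ∀ E ∈ T P 3, l ⊓ E ≠ ⊥ → u E = 0 := fun E hE k => by
    obtain ⟨z, hz, e⟩ := pl_ex (hl.1.mono inf_le_left) k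
    exact b z hz (e.trans inf_le_left) E hE (e.trans inf_le_right)
  intro E hE
  refine by_cases (fun n : l ⊓ E = ⊥ => sm_zero (hu.all (inv_T P 3)) hE fun E' k' => ?_) (c E hE)
  exact by_cases (fun n' : l ⊓ E' = ⊥ => .inr (key _ k' _ hE (n'.trans n.symm))) fun n' => .inl (c E' k' n')

theorem inj6 (h : Pol P q) (h6 : finrank F V = 6) {y : Submodule F V × Submodule F V × Submodule F V}
    (hy : y ∈ T3 P 1 2 3) {u : Submodule F V → ℂ} (pos : PosInv P 2 y u)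
    (pen : ∀ z ∈ T P 1, sm (thru (T P 2) z) u = 0) (pla : ∀ E ∈ T P 3, sm (ins (T P 2) E) u = 0) (h1 : u y.2.1 = 0)
    (h2 : sm (ins (thru (T P 2) y.1) y.2.2) u = 0) (h3 : sm (ins (thru (T P 2) y.1) (P.perp y.2.1)) u = 0) :
    ∀ m ∈ T P 2, u m = 0 := by
  obtain ⟨x, l, E⟩ := y
  obtain ⟨xl, lE, hx, hl, hE⟩ := id hy
  dsimp only at xl lE hx hl hE h1 h2 h3
  have a1 : ∀ m ∈ T P 2, x ≤ m → m ≤ E → u m = 0 := fun m hm k k' => by
    refine by_cases (fun e : l ≤ m => T.eq_of_le hl hm e ▸ h1) fun n => sm_zero h2 ⟨⟨hm, k⟩, k'⟩ fun m' hm' => ?_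
    exact by_cases (fun e : l ≤ m' => .inl (T.eq_of_le hl hm'.1.1 e ▸ h1)) fun n' =>
      .inr (pos _ hm'.1.1 _ hm (pl_in hy hm'.1.1 hm hm'.2 k' (iff_of_true hm'.1.2 k) (iff_of_false n' n)))
  have h0 : ∀ m ∈ T P 2, m ≤ E → u m = 0 := fun m hm k => by
    refine by_cases (fun e => a1 m hm e k) fun n => sm_zero (pla E hE) ⟨hm, k⟩ fun m' hm' => ?_
    exact by_cases (fun e => .inl (a1 m' hm'.1 e hm'.2)) fun n' => .inr (pos _ hm'.1 _ hm (pl_in hy hm'.1 hm hm'.2 k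
      (iff_of_false n' n) (iff_of_false (fun e => n' (xl.trans e)) fun e => n (xl.trans e))))
  have po : ∀ {m z m' z'}, PlA P E m z → PlA P E m' z' → (z ≤ x ↔ z' ≤ x) → (z ≤ l ↔ z' ≤ l) →
      (x ≤ P.perp m ↔ x ≤ P.perp m') → (l ≤ P.perp m ↔ l ≤ P.perp m') → u m = u m' :=
    fun c c' e1 e2 e3 e4 => pos _ c.ln _ c'.ln (pl_out h.nd h6 hy c c' e1 e2 e3 e4)
  have tr : ∀ {m m' W : Submodule F V}, P.perp m' ⊓ E = P.perp m ⊓ E → W ≤ E → (W ≤ P.perp m' ↔ W ≤ P.perp m) :=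
    fun e k => ⟨fun a => ((le_inf a k).trans e.le).trans inf_le_left, fun a => ((le_inf a k).trans e.ge).trans inf_le_left⟩
  have b1 : ∀ m, PlA P E m x → l ≤ P.perp m → u m = 0 := fun m c k =>
    pl_pen h0 c (fun _ k => k.1) (by exact ⟨⟨c.ln, c.le⟩, P.le_perp_comm.1 k⟩) h3 fun m' hm' c' =>
      .inr (po c' c Iff.rfl Iff.rfl (iff_of_true c'.perp c.perp) (iff_of_true (P.le_perp_comm.1 hm'.2) k))
  have b2 : ∀ m z, PlA P E m z → z ≤ x → u m = 0 := fun m z c k => by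
    obtain rfl := T.eq_of_le c.pt hx k
    refine by_cases (b1 m c) fun n => pl_pen h0 c subset_rfl ⟨c.ln, c.le⟩ (pen _ hx) fun m' _ c' => ?_
    exact by_cases (fun e => .inl (b1 m' c' e)) fun n' =>
      .inr (po c' c Iff.rfl Iff.rfl (iff_of_true c'.perp c.perp) (iff_of_false n' n))
  have zl : ∀ {m z}, PlA P E m z → l ≤ P.perp m → z ≤ l := fun c k =>
    (le_inf c.perp c.le').trans (T.eq_of_le hl (c.tr h.nd h6 hE) (le_inf k lE)).ge
  have b3 : ∀ m z, PlA P E m z → l ≤ P.perp m → u m = 0 := fun m z c k => by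
    refine by_cases (b2 m z c) fun n => pl_pla h.nd h6 hE h0 pla c fun m' z' c' e => ?_
    exact by_cases (fun e => .inl (b2 m' z' c' e)) fun n' => .inr (po c' c (iff_of_false n' n)
      (iff_of_true (zl c' ((tr e lE).2 k)) (zl c k)) (tr e (xl.trans lE)) (tr e lE))
  have b4 : ∀ m z, PlA P E m z → z ≤ l → u m = 0 := fun m z c k => by
    refine by_cases (b2 m z c) fun n0 => by_cases (b3 m z c) fun n =>
      pl_pen h0 c subset_rfl ⟨c.ln, c.le⟩ (pen _ c.pt) fun m' _ c' => ?_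
    have e : x ⊔ z = l := Submodule.eq_of_le_of_finrank_le (sup_le xl k) (by
      have := Submodule.finrank_lt_finrank_of_lt (left_lt_sup.2 n0)
      rw [hx.2] at this
      rw [hl.2]
      omega)
    exact by_cases (fun e => .inl (b3 m' z c' e)) fun n' => .inr (po c' c Iff.rfl Iff.rfl
      (iff_of_false (fun a => n' (e ▸ sup_le a c'.perp)) fun a => n (e ▸ sup_le a c.perp)) (iff_of_false n' n))
  have b5 : ∀ m z, PlA P E m z → x ≤ P.perp m → u m = 0 := fun m z c k => by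
    refine by_cases (b4 m z c) fun n => pl_pla h.nd h6 hE h0 pla c fun m' z' c' e => ?_
    exact by_cases (fun e => .inl (b4 m' z' c' e)) fun n' => .inr (po c' c (iff_of_false (fun a => n' (a.trans xl))
      fun a => n (a.trans xl)) (iff_of_false n' n) (tr e (xl.trans lE)) (tr e lE))
  have b6 : ∀ m z, PlA P E m z → u m = 0 := fun m z c => by
    refine by_cases (b5 m z c) fun n => pl_pen h0 c subset_rfl ⟨c.ln, c.le⟩ (pen _ c.pt) fun m' _ c' => ?_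
    exact by_cases (fun e => .inl (b5 m' z c' e)) fun n' => .inr (po c' c Iff.rfl Iff.rfl (iff_of_false n' n)
      (iff_of_false (fun a => n' (xl.trans a)) fun a => n (xl.trans a)))
  have b7 : ∀ m ∈ T P 2, m ⊓ E ≠ ⊥ → u m = 0 := fun m hm k => by
    obtain ⟨z, hz, e⟩ := pl_ex (hm.1.mono inf_le_left) k
    exact by_cases (h0 m hm) fun n => b6 m z ⟨hm, hz, e.trans inf_le_left, e.trans inf_le_right, n⟩
  have hz : ∀ m ∈ T P 2, m ⊓ E = ⊥ → P.perp m ⊓ E ∈ T P 1 := fun m hm k =>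
    T.mono hE inf_le_right (by rw [pl_tr h.nd h6 hE hm, k, finrank_bot])
  intro m hm
  refine by_cases (fun k : m ⊓ E = ⊥ => ?_) (b7 m hm)
  have hE' : m ⊔ P.perp m ⊓ E ∈ T P 3 := T.sup_pt hm (Y := ⊥) (pt_bot P ▸ hz m hm k) bot_le inf_le_left fun e => by
    have := (hz m hm k).2
    rw [le_bot_iff.1 ((le_inf e inf_le_right).trans k.le), finrank_bot] at this
    omega
  refine sm_zero (pla _ hE') ⟨hm, le_sup_left⟩ fun m' hm' => ?_
  refine by_cases (fun k' : m' ⊓ E = ⊥ => .inr (pos _ hm'.1 _ hm (same1_of_inf xl lE (k'.trans k.symm) ?_)))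
    fun k' => .inl (b7 m' hm'.1 k')
  exact (T.eq_of_le (hz m hm k) (hz m' hm'.1 k') (le_inf (T.le_perp hE' le_sup_right hm'.2) inf_le_right)).symm

end CfsgLib.KP
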