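import Mathlib
import Cfsg.Agent.Lib.KP.Pl
import Cfsg.Agent.Lib.KP.S12
import Cfsg.Agent.Lib.KP.Intr

/-! KP: the exceptional case of dimension six, structure (plans/KP.md, package B6A). -/

set_option autoImplicit false
set_option linter.unusedSectionVars false

namespace CfsgLib.KP

open CfsgLib.CK CfsgLib.KL CfsgLib.Forms CfsgLib.RootMax CfsgLib.ClMax CfsgLib.Tech Module

variable {F : Type*} [Field F] [Finite F] {σ : F →+* F} {V : Type*} [AddCommGroup V] [Module F V] [Finite V]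
  {P : PQ σ V} {q : ℕ} {K : Subgroup (V ≃ₗ[F] V)} {C : Set (Submodule F V)}

theorem b6_const {Y : Type*} {B : Set Y} {n : Y → ℕ} (h : ∀ y ∈ B, ∀ y' ∈ B, n y = n y') : ∃ k, ∀ y ∈ B, n y = k := by
  rcases B.eq_empty_or_nonempty with rfl | ⟨y, hy⟩
  · exact ⟨0, fun _ k => k.elim⟩
  · exact ⟨n y, fun y' hy' => h y' hy' y hy⟩

theorem b6_nle {a b : ℕ} {U W : Submodule F V} (hU : U ∈ T P a) (hW : W ∈ T P b) (h : b < a) : ¬ U ≤ W := fun e => by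
  have := Submodule.finrank_mono e
  rw [hU.2, hW.2] at this
  omega

theorem b6_eta (h : Lv P q K C) (hn : ¬ ∃ h₁ h₂, Cl P C h₁ h₂)
    (h1 : ∃ k, ∀ y ∈ T2 P 1 2, y.2 ∉ C → eta P C y.1 y.2 = k) :
    ∃ y ∈ T2 P 1 2, ∃ y' ∈ T2 P 1 2, y.2 ∈ C ∧ y'.2 ∈ C ∧ eta P C y.1 y.2 ≠ eta P C y'.1 y'.2 := by
  by_contra! e
  obtain ⟨k, hk⟩ := h1
  obtain ⟨k', hk'⟩ := b6_const (B := {y | y ∈ T2 P 1 2 ∧ y.2 ∈ C}) (n := fun y => eta P C y.1 y.2)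
    fun y hy y' hy' => e y hy.1 y' hy'.1 hy.2 hy'.2
  exact hn ⟨k', k, h.cl (fun y a b => hk' y ⟨a, b⟩) hk⟩

theorem b6_pla (h : Lv P q K C) (t3 : Tr K (T P 3)) {y : Submodule F V × Submodule F V × Submodule F V}
    {u : Submodule F V → ℂ} (hu : AdmF P.isom (T P 2) (ind C) (same1 P y) u) :
    ∀ E ∈ T P 3, sm (ins (T P 2) E) u = 0 :=
  hu.tr h.le' (fun _ hg E _ => ind_smul h.part.inv hg E) (eqI_ins (a := fun z => z) P 2 fun _ _ _ => rfl)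
    (inv_T P 3) t3 fun _ _ _ k => k.1

theorem b6_two (h : Lv P q K C) (h6 : finrank F V = 6) (t3 : Tr K (T P 3)) :
    ∃ a b, ∀ y ∈ T2 P 1 3, cnt (thru C y.1) y.2 = a ∨ cnt (thru C y.1) y.2 = b := by
  refine ((h.gs.one 2 1 3 3).q1 h.part (Q := fun y => ins (thru (T P 2) y.1) y.2.2) (fun _ _ _ k => k.1.1)
    (eqI_ins_thru P 2 (fun _ _ _ => rfl) fun _ _ _ => rfl) ?_ (fun y => (cnt (thru C y.1) y.2.2 : ℂ) ^ 2)
    fun g hg y _ => congrArg (fun n : ℕ => (n : ℂ) ^ 2) (cnt_thru_inv h.part.inv hg _ _)).elim fun c₀ ⟨c₁, e⟩ => ?_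
  · rintro ⟨x, E, E'⟩ hy u hu h0
    obtain ⟨xE, h2, hx, hE, hE'⟩ := id hy
    dsimp only at xE h2 hx hE hE' h0
    obtain rfl := T.eq_of_le hE hE' h2
    obtain ⟨pos, pen, -⟩ := h.adm hu
    have a1 : ∀ m ∈ T P 2, x ≤ m → m ≤ E → u m = 0 := fun m hm k k' => sm_zero h0 ⟨⟨hm, k⟩, k'⟩ fun m' hm' =>
      .inr (pos _ hm'.1.1 _ hm (pl_in hy hm'.1.1 hm hm'.2 k' (iff_of_true hm'.1.2 k)
        (iff_of_false (b6_nle hE hm'.1.1 (by omega)) (b6_nle hE hm (by omega)))))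
    have np : ∀ {m}, PlA P E m x → ¬ E ≤ P.perp m := fun c e =>
      b6_nle hE (c.tr h.pol.nd h6 hE) (by omega) (le_inf e le_rfl)
    have a2 : ∀ m ∈ T P 2, x ≤ m → u m = 0 := fun m hm k => by
      refine by_cases (a1 m hm k) fun n => sm_zero (pen x hx) ⟨hm, k⟩ fun m' hm' => ?_
      refine by_cases (fun e => .inl (a1 m' hm'.1 hm'.2 e)) fun n' => .inr ?_
      have c : PlA P E m x := ⟨hm, hx, k, xE, n⟩
      have c' : PlA P E m' x := ⟨hm'.1, hx, hm'.2, xE, n'⟩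
      exact pos _ hm'.1 _ hm (pl_out h.pol.nd h6 hy c' c Iff.rfl Iff.rfl (iff_of_true c'.perp c.perp)
        (iff_of_false (np c') (np c)))
    obtain ⟨l, hl, xl, lE⟩ := exists_mid (j := 2) hE xE (by rw [hx.2]; omega) (by omega)
    refine inj6 h.pol h6 (y := (x, l, E)) ⟨xl, lE, hx, hl, hE⟩ (fun m hm m' hm' s => pos m hm m' hm' ?_) pen
      (b6_pla h t3 hu) (a2 l hl xl) h0 (sm_eq_zero fun m hm => a2 m hm.1.1 hm.1.2)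
    simp only [same1, Same, dims, Prod.mk.injEq] at s ⊢
    exact ⟨⟨s.1.1, s.1.2.2, s.1.2.2⟩, s.2.1, s.2.2.2, s.2.2.2⟩
  · obtain ⟨a, b, e'⟩ := two_val (B := T3 P 1 3 3) (n := fun y => cnt (thru C y.1) y.2.2) fun y hy => by
      rw [e y hy, inter_ins_thru h.part.sub, cnt_eq]
    exact ⟨a, b, fun y hy => e' (y.1, y.2, y.2) ⟨hy.1, le_rfl, hy.2.1, hy.2.2, hy.2.2⟩⟩

theorem b6_orb (h : Lv P q K C) (h6 : finrank F V = 6) (t3 : Tr K (T P 3)) {y y' : Submodule F V × Submodule F V}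
    (hy : y ∈ T2 P 2 3) (hy' : y' ∈ T2 P 2 3) (e : y.1 ∈ C ↔ y'.1 ∈ C) : ∃ g ∈ K, g • y = y' := by
  refine ((h.gs.one 2 2 2 3).orb h.part (fun _ : Fin 1 => fun y => {y.1})
    (fun _ _ k _ k' => k' ▸ k.2.2.1) (fun _ => eqI_single fun _ _ _ => rfl) ?_ (y := (y.1, y.1, y.2))
    (y' := (y'.1, y'.1, y'.2)) ⟨le_rfl, hy.1, hy.2.1, hy.2.1, hy.2.2⟩ ⟨le_rfl, hy'.1, hy'.2.1, hy'.2.1, hy'.2.2⟩
    fun _ => ?_).imp fun g ⟨hg, e⟩ => ⟨hg, congrArg (·.2) e⟩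
  swap
  · classical
    simp only [ncard_inter_single, e]
  rintro ⟨l', l, E⟩ hy u hu h0
  obtain ⟨h1, lE, hl', hl, hE⟩ := id hy
  dsimp only at h1 lE hl' hl hE h0
  obtain rfl := T.eq_of_le hl' hl h1
  obtain ⟨pos, pen, -⟩ := h.adm hu
  have ul : u l' = 0 := (sm_single l' u).symm.trans (h0 0)
  have pla := b6_pla h t3 hu
  have a1 : ∀ m ∈ T P 2, m ≤ E → u m = 0 := fun m hm k => by
    refine by_cases (fun e : l' ≤ m => T.eq_of_le hl hm e ▸ ul) fun n => sm_zero (pla E hE) ⟨hm, k⟩ fun m' hm' => ?_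
    exact by_cases (fun e : l' ≤ m' => .inl (T.eq_of_le hl hm'.1 e ▸ ul)) fun n' =>
      .inr (pos _ hm'.1 _ hm (pl_in hy hm'.1 hm hm'.2 k (iff_of_false n' n) (iff_of_false n' n)))
  obtain ⟨x, hx, -, xl⟩ := exists_mid (j := 1) (Y := ⊥) hl bot_le (by simp) (by omega)
  refine inj6 h.pol h6 (y := (x, l', E)) ⟨xl, lE, hx, hl, hE⟩ (fun m hm m' hm' s => pos m hm m' hm' ?_) pen
    pla ul (sm_eq_zero fun m hm => a1 m hm.1.1 hm.2) (sm_eq_zero fun m hm => by_cases (a1 m hm.1.1) fun n => ?_)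
  · simp only [same1, Same, dims, Prod.mk.injEq] at s ⊢
    exact ⟨⟨s.1.2.1, s.1.2⟩, s.2.2.1, s.2.2⟩
  have c : PlA P E m x := ⟨hm.1.1, hx, hm.1.2, xl.trans lE, n⟩
  have k : l' ≤ P.perp m := P.le_perp_comm.1 hm.2
  have e0 := T.eq_of_le hl (c.tr h.pol.nd h6 hE) (le_inf k lE)
  refine pl_pla h.pol.nd h6 hE a1 pla c fun m' z' c' e => .inr ?_
  have zl : z' ≤ l' := (le_inf c'.perp c'.le').trans (e.trans e0.symm).le
  have k' : l' ≤ P.perp m' := (e0.trans e.symm).le.trans inf_le_left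
  exact pos _ c'.ln _ c.ln (pl_out h.pol.nd h6 hy c' c (iff_of_true zl xl) (iff_of_true zl xl) (iff_of_true k' k)
    (iff_of_true k' k))

theorem b6_t3 (h : Lv P q K C) (h6 : finrank F V = 6)
    (η₀ : ∃ y ∈ T2 P 1 2, ∃ y' ∈ T2 P 1 2, y.2 ∈ C ∧ y'.2 ∈ C ∧ eta P C y.1 y.2 ≠ eta P C y'.1 y'.2) : Tr K (T P 3) := by
  by_contra n3
  obtain ⟨⟨x, l⟩, hy, ⟨x', l'⟩, hy', c, c', e⟩ := η₀
  obtain ⟨g, hg, rfl⟩ : ∃ g ∈ K, g • l = l' := h.t0 _ c _ c'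
  obtain ⟨k, hk, rfl⟩ : ∃ k ∈ Stab K (g • l), k • g • x = x' := pl h.toHyp h.tr (by omega) n3 hy'.2.2 (g • x)
    ⟨(smul_T (h.le' hg)).2 hy.2.1, (smul_le g).2 hy.1⟩ x' ⟨hy'.2.1, hy'.1⟩
  refine e ?_
  rw [← eta_inv h.le' h.part.inv hg x l, ← eta_inv h.le' h.part.inv hk.1 (g • x) (g • l), (mem_Stab.1 hk).2]

theorem b6_ne (h : Lv P q K C)
    (η₀ : ∃ y ∈ T2 P 1 2, ∃ y' ∈ T2 P 1 2, y.2 ∈ C ∧ y'.2 ∈ C ∧ eta P C y.1 y.2 ≠ eta P C y'.1 y'.2) :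
    ∃ y ∈ T2 P 1 3, ∃ y' ∈ T2 P 1 3, cnt (thru C y.1) y.2 ≠ cnt (thru C y'.1) y'.2 := by
  by_contra! e
  obtain ⟨k, hk⟩ : ∃ k, ∀ y ∈ T2 P 1 3, cnt (thru C y.1) y.2 = k := b6_const e
  have : ∀ y ∈ T2 P 1 2, y.2 ∈ C → (eta P C y.1 y.2 : ℂ) = 1 + np (Nat.card F) q (finrank F V - 2 * 2) * (k - 1) :=
    fun y hy c => by
      have e1 : ∀ E ∈ Pt P y.2, (cnt (thru C y.1) E : ℂ) - 1 = k - 1 := fun E hE =>
        congrArg (fun n : ℕ => (n : ℂ) - 1) (hk (y.1, E) ⟨hy.1.trans hE.2.1, hy.2.1, cn_T hy.2.2 hE⟩)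
      rw [eta_sum h.part.sub hy.2.1 hy.2.2 hy.1, ind_mem c, sm_const e1, ncard_Pt h.pol hy.2.2]
  obtain ⟨y, hy, y', hy', c, c', e⟩ := η₀
  exact e (by exact_mod_cast (this y hy c).trans (this y' hy' c').symm)

theorem b6_aff (h : Lv P q K C) (h6 : finrank F V = 6) (t3 : Tr K (T P 3)) :
    ∃ c₀ c₁ c₂ c₃ : ℂ, ∀ y ∈ T3 P 1 2 3, ind C y.2.1 * cnt (thru C y.1) y.2.2 =
      c₀ + c₁ * ind C y.2.1 + c₂ * cnt (thru C y.1) y.2.2 + c₃ * eta P C y.1 y.2.1 := by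
  refine ((h.gs.one 2 1 2 3).q3 h.part (Q₁ := fun y => {y.2.1}) (Q₂ := fun y => ins (thru (T P 2) y.1) y.2.2)
    (Q₃ := fun y => ins (thru (T P 2) y.1) (P.perp y.2.1)) (fun _ k _ k' => k' ▸ k.2.2.2.1) (fun _ _ _ k => k.1.1)
    (fun _ _ _ k => k.1.1) (eqI_single fun _ _ _ => rfl) (eqI_ins_thru P 2 (fun _ _ _ => rfl) fun _ _ _ => rfl)
    (eqI_ins_thru P 2 (fun _ _ _ => rfl) (eqv_perp (a := fun y : Submodule F V × Submodule F V × Submodule F V => y.2.1) P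
      fun _ _ _ => rfl))
    (fun y hy u hu a1 a2 a3 => inj6 h.pol h6 hy (h.adm hu).1 (h.adm hu).2.1 (b6_pla h t3 hu)
      ((sm_single _ u).symm.trans a1) a2 a3)
    (fun y => ind C y.2.1 * cnt (thru C y.1) y.2.2) fun g hg y _ => ?_).imp fun c₀ => .imp fun c₁ =>
      .imp fun c₂ => .imp fun c₃ e y hy => ?_
  · exact congrArg₂ (· * ·) (ind_smul h.part.inv hg _) (congrArg _ (cnt_thru_inv h.part.inv hg _ _))
  · rw [e y hy, ncard_inter_single', inter_ins_thru h.part.sub, inter_ins_thru h.part.sub, eta, cnt_eq, cnt_eq]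

theorem b6a' (h : Lv P q K C) (h6 : finrank F V = 6) (hn : ¬ ∃ h₁ h₂, Cl P C h₁ h₂)
    (h1 : ∃ k, ∀ y ∈ T2 P 1 2, y.2 ∉ C → eta P C y.1 y.2 = k) : ∃ a₁ a₂, B6 P C a₁ a₂ := by
  have η₀ := b6_eta h hn h1
  have t3 := b6_t3 h h6 η₀
  obtain ⟨a, b, two⟩ := b6_two h h6 t3
  obtain ⟨y₁, hy₁, y₂, hy₂, ne⟩ := b6_ne h η₀
  have Q1 : ∀ a, EqI K fun y : Submodule F V × Submodule F V =>
      {x | x ∈ T P 1 ∧ x ≤ y.1 ∧ cnt (thru C x) y.2 = a} := fun a g hg y x =>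
    and_congr (smul_T (h.le' hg)) (and_congr (smul_le g) (by rw [Prod.smul_snd, cnt_thru_inv h.part.inv hg]))
  have Q2 : ∀ a, EqI K fun x : Submodule F V => {E | E ∈ T P 3 ∧ x ≤ E ∧ cnt (thru C x) E = a} := fun a g hg y x =>
    and_congr (smul_T (h.le' hg)) (and_congr (smul_le g) (by rw [cnt_thru_inv h.part.inv hg]))
  refine ⟨_, _, h.part.sub, ne, fun y hy => ?_, fun a => b6_const fun E hE E' hE' => ?_,
    fun a => b6_const fun x hx x' hx' => ?_, fun a => ?_, ⟨y₁, hy₁, rfl⟩, ⟨y₂, hy₂, rfl⟩, h1, η₀, ?_⟩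
  · have := two y hy
    have := two y₁ hy₁
    have := two y₂ hy₂
    omega
  · obtain ⟨g, hg, rfl⟩ := t3 E hE E' hE'
    exact ((Q1 a).ncard hg (E, E)).symm
  · obtain ⟨g, hg, rfl⟩ := h.tr x hx x' hx'
    exact ((Q2 a).ncard hg x).symm
  · have key : ∀ y ∈ T2 P 2 3, ∀ y' ∈ T2 P 2 3, (y.1 ∈ C ↔ y'.1 ∈ C) →
        {x | x ∈ T P 1 ∧ x ≤ y.1 ∧ cnt (thru C x) y.2 = a}.ncard =
          {x | x ∈ T P 1 ∧ x ≤ y'.1 ∧ cnt (thru C x) y'.2 = a}.ncard := fun y hy y' hy' e => by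
      obtain ⟨g, hg, rfl⟩ := b6_orb h h6 t3 hy hy' e
      exact ((Q1 a).ncard hg y).symm
    obtain ⟨b₀, e₀⟩ := b6_const (B := {y | y ∈ T2 P 2 3 ∧ y.1 ∈ C}) fun y hy y' hy' =>
      key y hy.1 y' hy'.1 (iff_of_true hy.2 hy'.2)
    obtain ⟨b₁, e₁⟩ := b6_const (B := {y | y ∈ T2 P 2 3 ∧ y.1 ∉ C}) fun y hy y' hy' =>
      key y hy.1 y' hy'.1 (iff_of_false hy.2 hy'.2)
    exact ⟨b₀, b₁, fun y hy => ⟨fun c => e₀ y ⟨hy, c⟩, fun c => e₁ y ⟨hy, c⟩⟩⟩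
  · exact b6_aff h h6 t3

theorem b6a (h : Lv P q K C) (h6 : finrank F V = 6) (hn : ¬ ∃ h₁ h₂, Cl P C h₁ h₂) :
    (∃ a₁ a₂, B6 P C a₁ a₂) ∨ ∃ a₁ a₂, B6 P (T P 2 \ C) a₁ a₂ := by
  refine (dich12 h).symm.imp (b6a' h h6 hn) fun ⟨k, hk⟩ => b6a' h.compl h6 (fun ⟨h₁, h₂, c⟩ => hn ?_)
    ⟨kk (Nat.card F) q (finrank F V - 2) - k, fun y hy c => ?_⟩
  · have := c.compl h.pol
    rwa [Set.diff_diff_cancel_left h.part.sub] at this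
  · have e := eta_compl h.pol h.part.sub hy.2.1 hy.2.2 hy.1
    rw [hk y hy (by_contra fun n => c ⟨hy.2.2, n⟩)] at e
    omega

end CfsgLib.KP
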