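import Mathlib
import Cfsg.Agent.Lib.KP.Base
import Cfsg.Agent.Lib.KL.Z
import Cfsg.Agent.Lib.KL.Ms

/-! KP: lines and planes (plans/KP.md, package LL). -/

set_option autoImplicit false
set_option linter.unusedSectionVars false

namespace CfsgLib.KP

open CfsgLib.CK CfsgLib.KL CfsgLib.Forms CfsgLib.RootMax CfsgLib.ClMax CfsgLib.Tech Module

variable {F : Type*} [Field F] [Finite F] {σ : F →+* F} {V : Type*} [AddCommGroup V] [Module F V] [Finite V]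
  {P : PQ σ V} {q : ℕ} {K : Subgroup (V ≃ₗ[F] V)} {C : Set (Submodule F V)}

theorem ll_vec {o t e : Submodule F V} (h : (lin F V).Pt o t e) : ∃ u, u ∉ o ∧ e = o ⊔ F ∙ u := by
  obtain ⟨u, hu, hn⟩ := SetLike.exists_of_lt h.lt
  have h1 : o ⊔ F ∙ u ≤ e := sup_le h.1 ((Submodule.span_singleton_le_iff_mem _ _).2 hu)
  refine ⟨u, hn, (((lin F V).eq_or_eq_of_rk le_sup_left h1 ((lin F V).pt_iff.1 h).2.2.le).resolve_left
    fun k => hn ?_).symm⟩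
  rw [← k]
  exact Submodule.mem_sup_right (Submodule.mem_span_singleton_self u)

theorem ll_mem {o : Submodule F V} {u z : V} : z ∈ o ⊔ F ∙ u ↔ ∃ c : F, z - c • u ∈ o := by
  rw [Submodule.mem_sup]
  constructor
  · rintro ⟨y, hy, w, hw, rfl⟩
    obtain ⟨c, rfl⟩ := Submodule.mem_span_singleton.1 hw
    exact ⟨c, by rwa [add_sub_cancel_right]⟩
  · rintro ⟨c, hc⟩
    exact ⟨_, hc, _, Submodule.mem_span_singleton.2 ⟨c, rfl⟩, sub_add_cancel _ _⟩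

theorem ll_three {o t : Submodule F V} (hd : finrank F t = finrank F o + 2) {g : V ≃ₗ[F] V} (ho : g • o = o)
    {a b c : Submodule F V} (ha : (lin F V).Pt o t a) (hb : (lin F V).Pt o t b) (hc : (lin F V).Pt o t c)
    (ab : a ≠ b) (ac : a ≠ c) (bc : b ≠ c) (fa : g • a = a) (fb : g • b = b) (fc : g • c = c)
    {x : Submodule F V} (hx : (lin F V).Pt o t x) : g • x = x := by
  have nl : ∀ {e e' : Submodule F V}, (lin F V).Pt o t e → (lin F V).Pt o t e' → e ≠ e' → ¬ e ≤ e' :=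
    fun h h' k j => k (h.eq_of_le h' j)
  have el : a ⊔ b = t := (lin F V).sup_eq_of_rk ha.2.1 hb.2.1 (nl hb ha ab.symm) (by
    rw [((lin F V).pt_iff.1 ha).2.2, lin_rk, lin_rk, hd])
  obtain ⟨u, -, rfl⟩ := ll_vec ha
  obtain ⟨v, -, rfl⟩ := ll_vec hb
  obtain ⟨w, -, rfl⟩ := ll_vec hc
  have self : ∀ z : V, z ∈ o ⊔ F ∙ z := fun z => Submodule.mem_sup_right (Submodule.mem_span_singleton_self z)
  obtain ⟨α, e1⟩ := ll_mem.1 (apply_mem_of_smul_eq fa (self u))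
  obtain ⟨β, e2⟩ := ll_mem.1 (apply_mem_of_smul_eq fb (self v))
  obtain ⟨γ, e3⟩ := ll_mem.1 (apply_mem_of_smul_eq fc (self w))
  have dec : ∀ z ∈ t, ∃ s r : F, ∃ y ∈ o, z = y + s • u + r • v := fun z hz => by
    rw [← el, ← sup_assoc, sup_right_comm o, sup_idem] at hz
    obtain ⟨r, h1⟩ := ll_mem.1 hz
    obtain ⟨s, h2⟩ := ll_mem.1 h1
    exact ⟨s, r, _, h2, by abel⟩
  have sp : ∀ {y z : V} {s r : F}, s ≠ 0 → s • y - r • z ∈ o → o ⊔ (F ∙ y) ≤ o ⊔ F ∙ z := fun {y z s r} h0 e =>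
    sup_le le_sup_left ((Submodule.span_singleton_le_iff_mem _ _).2 (ll_mem.2 ⟨s⁻¹ * r, by
      have := o.smul_mem s⁻¹ e
      rwa [smul_sub, inv_smul_smul₀ h0, ← mul_smul] at this⟩))
  obtain ⟨s, r, y, hy, rfl⟩ := dec w (hc.2.1 (self w))
  have s0 : s ≠ 0 := by
    rintro rfl
    exact nl hc hb bc.symm (sp (r := r) one_ne_zero (by simpa using hy))
  have r0 : r ≠ 0 := by
    rintro rfl
    exact nl hc ha ac.symm (sp (r := s) one_ne_zero (by simpa using hy))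
  have e4 : (s * (α - γ)) • u - (r * (γ - β)) • v ∈ o := by
    have := sub_mem (sub_mem (add_mem (sub_mem e3 (apply_mem_of_smul_eq ho hy)) (o.smul_mem γ hy))
      (o.smul_mem s e1)) (o.smul_mem r e2)
    convert this using 1
    simp only [map_add, map_smul]
    module
  have k1 : α = γ := by
    by_contra k
    exact nl ha hb ab (sp (mul_ne_zero s0 (sub_ne_zero.2 k)) e4)
  have k2 : γ = β := by
    by_contra k
    exact nl hb ha ab.symm (sp (mul_ne_zero r0 (sub_ne_zero.2 k)) (r := s * (α - γ))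
      (by simpa using neg_mem e4))
  subst k1 k2
  refine smul_eq_of_le fun z hz => ?_
  obtain ⟨s', r', y', hy', rfl⟩ := dec z (hx.2.1 hz)
  have := add_mem (x.smul_mem α hz) (hx.1 (add_mem (add_mem (sub_mem (apply_mem_of_smul_eq ho hy')
    (o.smul_mem α hy')) (o.smul_mem s' e1)) (o.smul_mem r' e2)))
  convert this using 1
  simp only [map_add, map_smul]
  module

section Abs

open Subgroup CfsgLib.KL.ZP

theorem ll_abs {G L : Type*} [Group G] [MulAction G L] [Finite G] [Finite L] {p q : ℕ} {Z : Subgroup G}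
    {X A : Set L} (h : Ln3 p q Z X) (hA : A ⊆ X) (hd : A.ncard ∣ q) (inv : Inv Z A) (t1 : Tr Z A)
    (t2 : Tr Z (X \ A)) : A.ncard = 1 ∨ A.ncard = 2 ∨ A.ncard = q := by
  have := Fact.mk h.pp
  have iB := inv_diff h.inv inv
  have cB : (X \ A).ncard = q + 1 - A.ncard := by rw [Set.ncard_sdiff hA, h.card]
  have q2 := h.two_le
  have le := Nat.le_of_dvd (by omega) hd
  by_cases b1 : A.ncard = 1
  · exact Or.inl b1
  by_cases bq : A.ncard = q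
  · exact Or.inr (Or.inr bq)
  obtain ⟨f, hf⟩ := h.qp
  obtain ⟨k, -, hk⟩ := (Nat.dvd_prime_pow h.pp).1 (hf ▸ hd)
  have pb : p ∣ A.ncard := hk ▸ dvd_pow_self p fun k0 => b1 (by rw [hk, k0, pow_zero])
  have b2 : 2 * A.ncard ≤ q := by
    obtain ⟨c, hc⟩ := hd
    rcases c with _ | _ | c
    · omega
    · omega
    · nlinarith
  have b0 : 0 < A.ncard := Nat.pos_of_dvd_of_pos hd (by omega)
  have pB : ¬ p ∣ (X \ A).ncard := by
    rw [cB, show q + 1 - A.ncard = q - A.ncard + 1 by omega]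
    exact fun k => h.pp.not_dvd_one ((Nat.dvd_add_right (Nat.dvd_sub h.dvd pb)).1 k)
  obtain ⟨S, hS⟩ := exists_isSylowIn p Z
  have tS := syl_tr h.pp hS t1 inv hk
  obtain ⟨y, hy, fy⟩ := exists_fx h.pp hS.pgroup (iB.mono hS.le) pB
  obtain ⟨a, ha⟩ := (Set.ncard_pos A.toFinite).1 b0
  have t3 : Tr (Stab Z a) (X \ A) := by
    have key : ∀ u ∈ X \ A, ∃ g ∈ Stab Z a, g • y = u := fun u hu => by
      obtain ⟨z, hz, e⟩ := t2 y hy u hu
      obtain ⟨s, hs, e'⟩ := tS a ha (z⁻¹ • a) (inv _ (inv_mem hz) a ha)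
      exact ⟨z * s, mem_Stab.2 ⟨mul_mem hz (hS.le hs), by
        rw [mul_smul, e', smul_inv_smul]⟩, by rw [mul_smul, fy s hs, e]⟩
    intro u hu v hv
    obtain ⟨g, hg, rfl⟩ := key u hu
    obtain ⟨g', hg', rfl⟩ := key v hv
    exact ⟨g' * g⁻¹, mul_mem hg' (inv_mem hg), by rw [mul_smul, inv_smul_smul]⟩
  have d1 := h.idx_dvd (Stab_le Z a) (hA ha) (fx_Stab Z a) fun g hg k e => by
    have hP := isPGroup_zpowers_of_pow e
    have hz : zpowers g ≤ Z := zpowers_le.2 hg.1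
    obtain ⟨u, hu, fu⟩ := exists_fx h.pp hP (iB.mono hz) pB
    exact (mem_fixingSubgroup_iff G).2 fun x hx => h.two_fix hP hz (hA ha) hu.1
      (fun k => hu.2 (k ▸ ha)) (fx_zpowers hg.2) fu x hx g (mem_zpowers g)
  have d2 : (X \ A).ncard ∣ (fixingSubgroup G X).relIndex (Stab Z a) := by
    rw [← t3.relIndex (iB.mono (Stab_le Z a)) hy, Stab, inf_relIndex_left]
    exact relIndex_dvd_of_le_left _ fun g hg => (mem_fixingSubgroup_iff G).1 hg y hy.1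
  have := d2.trans d1
  rw [cB, show q - 1 = q + 1 - A.ncard + (A.ncard - 2) by omega, Nat.dvd_add_right (dvd_refl _)] at this
  have := Nat.eq_zero_of_dvd_of_lt this (by omega)
  omega

end Abs

section Plane

open CfsgLib.KL.MsP

variable {G L : Type*} [Group G] [CompleteLattice L] [MulAction G L] [Finite L] {Pg : PG G L} {o t : L} {R : Set L}
  {a b : ℕ}

theorem ll_arc (h3 : Pg.d o t = 3) (hR : ∀ e ∈ R, Pg.Pt o t e) (hne : R.Nonempty) (hpr : ∃ e, Pg.Pt o t e ∧ e ∉ R)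
    (hb : ∀ l, Ln Pg o t l → cnt R l = 0 ∨ cnt R l = b) : b ∣ Pg.q ∧ cnt R t + Pg.q = (Pg.q + 1) * b ∧
      ∀ e, Pg.Pt o t e → e ∉ R → {m | Pg.Pt e t m ∧ cnt R m = 0}.ncard * b = Pg.q := by
  obtain ⟨x, hx⟩ := hne
  have px := hR x hx
  have hd := arc_dvd (px.1.trans px.2.1) h3 hR ⟨x, hx⟩ hpr hb
  obtain ⟨c, rfl⟩ : ∃ c, b = c + 1 := Nat.exists_eq_succ_of_ne_zero fun k => by
    rw [k, zero_dvd_iff] at hd
    exact Pg.q_pos.ne' hd
  have h1 := from_in hR hx px.2.1 hb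
  have d1 := d_pt px px.2.1
  rw [show Pg.d x t = 2 by omega, Pg.θ_two] at h1
  refine ⟨hd, by rw [h1]; ring, fun e he hn => ?_⟩
  have h2 := from_out hR he.1 he.2.1 (cnt_out hR he hn) fun m hm => hb m (ln_of he hm)
  have d2 := d_pt he he.2.1
  have h4 := Pg.ncard_pt he.2.1
  rw [show Pg.d e t = 2 by omega, Pg.θ_two, show {m | Pg.Pt e t m} =
    {m | Pg.Pt e t m ∧ cnt R m = 0} ∪ {m | Pg.Pt e t m ∧ cnt R m ≠ 0} by ext m; simp [← and_or_left, em],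
    Set.ncard_union_eq (Set.disjoint_left.2 fun m k j => j.2 k.2)] at h4
  zify at h1 h2 h4 ⊢
  linear_combination (c + 1 : ℤ) * h4 + h2 - h1

theorem ll_sum (h3 : Pg.d o t = 3) (hR : ∀ e ∈ R, Pg.Pt o t e) {x : L} (hx : Pg.Pt o t x)
    (hb : ∀ l, Ln Pg o t l → cnt R l = a ∨ cnt R l = b) :
    ∃ n : ℕ, (cnt R t : ℤ) = cnt R x + (Pg.q + 1) * (b - cnt R x) + n * (a - b) := by
  have h1 := sm_comm {m | Pg.Pt x t m} {e | e ∈ R ∧ e ≤ t ∧ ¬ e ≤ x} (fun m e => e ≤ m) fun _ => 1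
  have d1 := d_pt hx hx.2.1
  have h4 := Pg.ncard_pt hx.2.1
  rw [show Pg.d x t = 2 by omega, Pg.θ_two] at h4
  have h5 : {m | Pg.Pt x t m ∧ cnt R m = a} ⊆ {m | Pg.Pt x t m} := fun m k => k.1
  have h6 : ∀ m, Pg.Pt x t m → sm {e | e ∈ {e | e ∈ R ∧ e ≤ t ∧ ¬ e ≤ x} ∧ e ≤ m} (fun _ => 1) =
      (cnt R m : ℂ) - cnt R x := by
    intro m hm
    rw [sm_const (c := 1) (fun _ _ => rfl), mul_one, cnt_split R hm.1, Nat.cast_add, add_sub_cancel_left]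
    congr 2
    ext e
    exact ⟨fun k => ⟨k.1.1, k.2, k.1.2.2⟩, fun k => ⟨⟨k.1, k.2.1.trans hm.2.1, k.2.2⟩, k.2.1⟩⟩
  rw [sm_const (c := 1) (S := {e | e ∈ R ∧ e ≤ t ∧ ¬ e ≤ x}), mul_one, sm_diff h5,
    sm_const (c := (a : ℂ) - cnt R x) fun m k => by rw [h6 m k.1, k.2],
    sm_const (c := (b : ℂ) - cnt R x) fun m k => by
      rw [h6 m k.1, (hb m (ln_of hx k.1)).resolve_left fun j => k.2 ⟨k.1, j⟩]] at h1
  · have h7 := Set.ncard_sdiff_add_ncard_of_subset h5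
    refine ⟨{m | Pg.Pt x t m ∧ cnt R m = a}.ncard, ?_⟩
    rw [cnt_split R hx.2.1]
    rw [h4] at h7
    generalize ({m | Pg.Pt x t m} \ {m | Pg.Pt x t m ∧ cnt R m = a}).ncard = n₂ at h1 h7
    generalize {m | Pg.Pt x t m ∧ cnt R m = a}.ncard = n₁ at h1 h7 ⊢
    generalize {e | e ∈ R ∧ e ≤ t ∧ ¬ e ≤ x}.ncard = n₃ at h1 ⊢
    have h8 : (n₁ : ℤ) * ((a : ℤ) - cnt R x) + (n₂ : ℤ) * ((b : ℤ) - cnt R x) = n₃ := by
      exact_mod_cast h1
    zify at h7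
    push_cast
    linear_combination ((b : ℤ) - cnt R x) * h7 - h8
  · intro e he
    have k := ((hR e he.1).mono he.2.1).sup_pt hx.1 hx.2.1 he.2.2
    rw [show {m | m ∈ {m | Pg.Pt x t m} ∧ e ≤ m} = {x ⊔ e} from Set.eq_singleton_iff_unique_mem.2
      ⟨⟨k, le_sup_right⟩, fun m hm => (k.eq_of_le hm.1 (sup_le hm.1.1 hm.2)).symm⟩, Set.ncard_singleton,
      Nat.cast_one, mul_one]

theorem ll_two (h3 : Pg.d o t = 3) (hR : ∀ e ∈ R, Pg.Pt o t e) (hne : R.Nonempty) (hpr : ∃ e, Pg.Pt o t e ∧ e ∉ R)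
    (hb : ∀ l, Ln Pg o t l → cnt R l = a ∨ cnt R l = b) : (a : ℤ) - b ∣ Pg.q := by
  obtain ⟨x, hx⟩ := hne
  obtain ⟨e, he, hn⟩ := hpr
  obtain ⟨n, h1⟩ := ll_sum h3 hR (hR x hx) hb
  obtain ⟨n', h2⟩ := ll_sum h3 hR he hb
  rw [cnt_in hR hx] at h1
  rw [cnt_out hR he hn] at h2
  exact ⟨n - n', by push_cast at h1 h2; linear_combination h1 - h2⟩

end Plane

/-- a subgroup of `PGL₂(Q)` with two orbits on the projective line, one of length dividing `Q` -/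
theorem ll {o t : Submodule F V} (hd : finrank F t = finrank F o + 2) {Z : Subgroup (V ≃ₗ[F] V)} (ho : Fx Z o)
    (ht : Fx Z t) {A : Set (Submodule F V)} (hA : ∀ e ∈ A, (lin F V).Pt o t e) (hdv : A.ncard ∣ Nat.card F)
    (inv : Inv Z A) (t1 : Tr Z A) (t2 : Tr Z ({e | (lin F V).Pt o t e} \ A)) :
    A.ncard = 1 ∨ A.ncard = 2 ∨ A.ncard = Nat.card F := by
  obtain ⟨e, he⟩ := (Set.ncard_pos A.toFinite).1 (Nat.pos_of_dvd_of_pos hdv Nat.card_pos)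
  refine ll_abs (p := ringChar F) ⟨(lin F V).pp, (lin F V).qp, ?_, (lin F V).inv_pt ho ht,
    fun g hg a ha b hb c hc ab ac bc fa fb fc x hx => ll_three hd (ho g hg) ha hb hc ab ac bc fa fb fc hx⟩
    hA hdv inv t1 t2
  rw [(lin F V).ncard_pt ((hA e he).1.trans (hA e he).2.1), lin_d, hd, Nat.add_sub_cancel_left, PG.θ_two, lin_q]

variable {E : Submodule F V} {S : Set (Submodule F V)} {a b : ℕ}

theorem ll_cnt (S : Set (Submodule F V)) {l : Submodule F V} (h : l ≤ E) : cnt (ins S E) l = cnt S l := by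
  rw [cnt, cnt]
  congr 1
  ext x
  exact ⟨fun k => ⟨k.1.1, k.2⟩, fun k => ⟨⟨k.1, k.2.trans h⟩, k.2⟩⟩

theorem ll_dual (C : Set (Submodule F V)) (E x : Submodule F V) :
    cnt (L := (Submodule F V)ᵒᵈ) (ins C E) x = cnt (thru C x) E :=
  congrArg (Set.ncard (α := Submodule F V)) (Set.ext fun _ =>
    ⟨fun k => ⟨⟨k.1.1, k.2⟩, k.1.2⟩, fun k => ⟨⟨k.1.1, k.2⟩, k.1.2⟩⟩)

theorem ll_hy (hE : finrank F E = 3) {l : Submodule F V} :
    (lin F V).dual.Pt E (⊥ : Submodule F V) l ↔ l ≤ E ∧ finrank F l = 2 := by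
  show (lin F V).Hy ⊥ E l ↔ _
  rw [PG.hy_iff, lin_rk, lin_rk, hE]
  exact ⟨fun k => ⟨k.1, by omega⟩, fun k => ⟨k.1, bot_le, by omega⟩⟩

theorem ll_ln (hE : finrank F E = 3) {x : Submodule F V} (h : Ln (lin F V).dual E (⊥ : Submodule F V) x) :
    x ≤ E ∧ finrank F x = 1 := by
  have : finrank F E - finrank F x = 2 := h.2.2
  exact ⟨h.1, by omega⟩

theorem ll_d (hE : finrank F E = 3) : (lin F V).d ⊥ E = 3 := by rw [PG.d_bot, lin_rk, hE]

/-- maximal arcs -/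
theorem arc_pt (hE : finrank F E = 3) (hS : ∀ x ∈ S, finrank F x = 1) (h1 : ∃ x ∈ S, x ≤ E)
    (h2 : ∃ x ≤ E, finrank F x = 1 ∧ x ∉ S) (hb : ∀ l ≤ E, finrank F l = 2 → cnt S l = 0 ∨ cnt S l = b) :
    b ∣ Nat.card F ∧ cnt S E + Nat.card F = (Nat.card F + 1) * b ∧ ∀ x ≤ E, finrank F x = 1 → x ∉ S →
      {l | (lin F V).Pt x E l ∧ cnt S l = 0}.ncard * b = Nat.card F := by
  have hp : ∀ {x : Submodule F V}, (lin F V).Pt ⊥ E x ↔ x ≤ E ∧ finrank F x = 1 := by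
    intro x
    rw [PG.pt_bot, lin_rk]
  obtain ⟨a1, a2, a3⟩ := ll_arc (Pg := lin F V) (R := ins S E) (b := b) (ll_d hE)
    (fun x k => hp.2 ⟨k.2, hS x k.1⟩) h1 (let ⟨x, k, j, i⟩ := h2; ⟨x, hp.2 ⟨k, j⟩, fun k => i k.1⟩) fun l k => by
      rw [ll_cnt S k.2.1]
      exact hb l k.2.1 (by simpa [lin_d] using k.2.2)
  rw [ll_cnt S le_rfl] at a2
  refine ⟨a1, a2, fun x k j i => Eq.trans ?_ (a3 x (hp.2 ⟨k, j⟩) fun k => i k.1)⟩
  congr 2
  ext l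
  exact and_congr_right fun k => by rw [ll_cnt S k.2.1]

/-- dual maximal arcs -/
theorem arc_ln (hE : finrank F E = 3) (hC : ∀ l ∈ C, finrank F l = 2) (h1 : ∃ l ∈ C, l ≤ E)
    (h2 : ∃ l ≤ E, finrank F l = 2 ∧ l ∉ C)
    (hb : ∀ x ≤ E, finrank F x = 1 → cnt (thru C x) E = 0 ∨ cnt (thru C x) E = b) :
    b ∣ Nat.card F ∧ cnt C E + Nat.card F = (Nat.card F + 1) * b ∧ ∀ l ≤ E, finrank F l = 2 → l ∉ C →
      {x | (lin F V).Pt ⊥ l x ∧ cnt (thru C x) E = 0}.ncard * b = Nat.card F := by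
  obtain ⟨a1, a2, a3⟩ := ll_arc (Pg := (lin F V).dual) (o := E) (t := (⊥ : Submodule F V)) (R := ins C E) (b := b)
    (ll_d hE) (fun l k => (ll_hy hE).2 ⟨k.2, hC l k.1⟩) h1
    (let ⟨l, k, j, i⟩ := h2; ⟨l, (ll_hy hE).2 ⟨k, j⟩, fun k => i k.1⟩) fun x k =>
      (hb x (ll_ln hE k).1 (ll_ln hE k).2).imp (ll_dual C E x).trans (ll_dual C E x).trans
  have a4 := ll_dual C E ⊥
  rw [show thru C ⊥ = C by simp [thru]] at a4
  refine ⟨a1, a4 ▸ a2, fun l k j i => Eq.trans ?_ (a3 l ((ll_hy hE).2 ⟨k, j⟩) fun k => i k.1)⟩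
  congr 2
  ext x
  refine and_congr ?_ (Eq.congr_left (ll_dual C E x).symm)
  show _ ↔ (lin F V).Hy ⊥ l x
  rw [PG.hy_iff, PG.pt_bot, lin_rk, lin_rk, j]
  exact ⟨fun k => ⟨k.1, bot_le, by omega⟩, fun k => ⟨k.1, by omega⟩⟩

/-- dual two-intersection sets -/
theorem two_ln (hE : finrank F E = 3) (hC : ∀ l ∈ C, finrank F l = 2) (h1 : ∃ l ∈ C, l ≤ E)
    (h2 : ∃ l ≤ E, finrank F l = 2 ∧ l ∉ C)
    (hb : ∀ x ≤ E, finrank F x = 1 → cnt (thru C x) E = a ∨ cnt (thru C x) E = b) :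
    (a : ℤ) - b ∣ Nat.card F :=
  ll_two (Pg := (lin F V).dual) (o := E) (t := (⊥ : Submodule F V)) (R := ins C E)
    (ll_d hE) (fun l k => (ll_hy hE).2 ⟨k.2, hC l k.1⟩) h1
    (let ⟨l, k, j, i⟩ := h2; ⟨l, (ll_hy hE).2 ⟨k, j⟩, fun k => i k.1⟩) fun x k =>
      (hb x (ll_ln hE k).1 (ll_ln hE k).2).imp (ll_dual C E x).trans (ll_dual C E x).trans

end CfsgLib.KP
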