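import Mathlib
import Cfsg.Agent.Lib.KP.Cnt
import Cfsg.Agent.Lib.KP.Ll

/-! KP: the exceptional case of dimension six, contradiction (plans/KP.md, package B6B). -/

set_option autoImplicit false
set_option linter.unusedSectionVars false

namespace CfsgLib.KP

open CfsgLib.CK CfsgLib.KL CfsgLib.Forms CfsgLib.RootMax CfsgLib.ClMax CfsgLib.Tech Module

variable {F : Type*} [Field F] [Finite F] {σ : F →+* F} {V : Type*} [AddCommGroup V] [Module F V] [Finite V]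
  {P : PQ σ V} {q : ℕ} {K : Subgroup (V ≃ₗ[F] V)} {C : Set (Submodule F V)}

theorem b6b_dc {α β : Type*} [Finite α] [Finite β] (A : Set α) (B : Set β) (r : α → β → Prop) {m n : ℕ}
    (hm : ∀ a ∈ A, {b | b ∈ B ∧ r a b}.ncard = m) (hn : ∀ b ∈ B, {a | a ∈ A ∧ r a b}.ncard = n) :
    A.ncard * m = B.ncard * n := by
  classical
  rw [Set.ncard_eq_toFinset_card A, Set.ncard_eq_toFinset_card B]
  refine Finset.card_mul_eq_card_mul r (fun a ha => ?_) fun b hb => ?_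
  · rw [← hm a (by simpa using ha), ← Set.ncard_coe_finset]
    congr 1
    ext b
    simp
  · rw [← hn b (by simpa using hb), ← Set.ncard_coe_finset]
    congr 1
    ext a
    simp

variable {a a₁ a₂ : ℕ} {x l E : Submodule F V}

theorem b6b_symm (hB : B6 P C a₁ a₂) : B6 P C a₂ a₁ :=
  ⟨hB.sub, hB.ne.symm, fun y hy => (hB.two y hy).symm, hB.o, hB.e, hB.b, hB.ex₂, hB.ex₁, hB.η₁, hB.η₀, hB.aff⟩

theorem b6b_pl (h : Pol P q) (h6 : finrank F V = 6) (hl : l ∈ T P 2) : (Pt P l).ncard = q + 1 := by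
  rw [ncard_Pt h hl, h6]
  simp [np, add_comm]

theorem b6b_ln (hx : x ∈ T P 1) (hE : E ∈ T P 3) (hxE : x ≤ E) : cnt (thru (T P 2) x) E = Nat.card F + 1 := by
  rw [cnt_hy (k := 2) hE hxE, hx.2, cn_th2]

theorem b6b_in (h0 : cnt (thru C x) E ≠ 0) : ∃ l ∈ C, x ≤ l ∧ l ≤ E := by
  obtain ⟨l, hl⟩ := Set.nonempty_of_ncard_ne_zero h0
  exact ⟨l, hl.1.1, hl.1.2, hl.2⟩

theorem b6b_pos (hl : l ∈ C) (h1 : x ≤ l) (h2 : l ≤ E) : 0 < cnt (thru C x) E :=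
  (Set.ncard_pos (Set.toFinite _)).2 ⟨l, by exact ⟨⟨hl, h1⟩, h2⟩⟩

theorem b6b_out (hC : C ⊆ T P 2) (hx : x ∈ T P 1) (hE : E ∈ T P 3) (hxE : x ≤ E)
    (h0 : cnt (thru C x) E ≠ Nat.card F + 1) : ∃ l ∈ T P 2, l ∉ C ∧ x ≤ l ∧ l ≤ E := by
  have e := cnt_compl hC x E
  rw [b6b_ln hx hE hxE] at e
  obtain ⟨l, h1, h2⟩ := b6b_in (C := T P 2 \ C) (x := x) (E := E) (by omega)
  exact ⟨l, h1.1, h1.2, h2⟩

theorem b6b_mem (hl : l ∈ T P 2) : E ∈ Pt P l ↔ E ∈ T P 3 ∧ l ≤ E := by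
  rw [pt_eq_thru hl.2]; rfl

/-- the number of points of a given type in a plane -/
theorem b6b_o (h : Pol P q) (k : P.IsHerm) (h6 : finrank F V = 6) (hB : B6 P C a₁ a₂)
    (ha : ∃ y ∈ T2 P 1 3, cnt (thru C y.1) y.2 = a) : ∃ o, 0 < o ∧ q ^ 2 + q + 1 ∣ o ∧
      ∀ E ∈ T P 3, {x | x ∈ T P 1 ∧ x ≤ E ∧ cnt (thru C x) E = a}.ncard = o := by
  obtain ⟨o, ho⟩ := hB.o a
  obtain ⟨e, he⟩ := hB.e a
  obtain ⟨y, hy, ey⟩ := ha
  refine ⟨o, ?_, ?_, ho⟩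
  · rw [← ho y.2 hy.2.2]
    exact (Set.ncard_pos (Set.toFinite _)).2 ⟨y.1, hy.2.1, hy.1, ey⟩
  have hQ := h.card_herm k
  have h3 := h.three
  have e1 := b6b_dc (T P 1) (T P 3) (fun x E => x ≤ E ∧ cnt (thru C x) E = a) he ho
  have e2 := b6b_dc (T P 1) (T P 3) (fun x E => x ≤ E) (m := (q + 1) * (q ^ 3 + 1)) (n := th (q ^ 2) 3)
    (fun x hx => by
      have a1 := ncard_two h hx
      rw [h6, hQ] at a1
      refine Nat.eq_of_mul_eq_mul_right (m := q ^ 2 + 1) (by positivity) (a1.trans ?_)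
      simp only [np]
      ring) fun E hE => hQ ▸ cnt_T1 hE
  have hN : 0 < (T P 1).ncard := (Set.ncard_pos (Set.toFinite _)).2 ⟨y.1, hy.2.1⟩
  have e3 : e * th (q ^ 2) 3 = (q + 1) * (q ^ 3 + 1) * o := by
    refine Nat.eq_of_mul_eq_mul_left hN ?_
    rw [← mul_assoc, e1, ← mul_assoc _ _ o, e2]
    ring
  obtain ⟨r, rfl⟩ : ∃ r, q = r + 1 := ⟨q - 1, by omega⟩
  have e4 : e * ((r + 1) ^ 2 + (r + 1) + 1) = (r + 2) ^ 2 * o := by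
    refine Nat.eq_of_mul_eq_mul_right (m := r ^ 2 + r + 1) (by positivity) ?_
    have : th ((r + 1) ^ 2) 3 = ((r + 1) ^ 2 + (r + 1) + 1) * (r ^ 2 + r + 1) := by
      simp only [th, Finset.sum_range_succ, Finset.sum_range_zero]
      ring
    rw [mul_assoc, ← this, e3]
    ring
  refine Nat.Coprime.dvd_of_dvd_mul_left (Nat.Coprime.pow_right 2 ?_) ⟨e, e4.symm.trans (mul_comm _ _)⟩
  rw [show (r + 1) ^ 2 + (r + 1) + 1 = 1 + (r + 2) * (r + 1) by ring]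
  simp

/-- `η` in terms of a constant type -/
theorem b6b_eta (h : Pol P q) (h6 : finrank F V = 6) (hC : C ⊆ T P 2) (hx : x ∈ T P 1) (hl : l ∈ T P 2)
    (hxl : x ≤ l) {c : ℂ} (hc : ∀ E ∈ T P 3, l ≤ E → (cnt (thru C x) E : ℂ) = c) :
    (eta P C x l : ℂ) = ind C l + (q + 1) * (c - ind C l) := by
  rw [eta_sum hC hx hl hxl, sm_const (c := c - ind C l), b6b_pl h h6 hl]
  · push_cast; rfl
  · intro E hE
    rw [hc E ((b6b_mem hl).1 hE).1 hE.2.1]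

theorem b6b_ne0 (h : Pol P q) (h6 : finrank F V = 6) (hB : B6 P C a₁ a₂) : a₁ ≠ 0 := by
  rintro rfl
  have key : ∀ y ∈ T2 P 1 2, y.2 ∈ C → (eta P C y.1 y.2 : ℂ) = 1 + (q + 1) * (a₂ - 1) := fun y hy hc => by
    rw [b6b_eta h h6 hB.sub hy.2.1 hy.2.2 hy.1 (c := a₂), ind_mem hc]
    intro E hE hl
    rcases hB.two (y.1, E) ⟨hy.1.trans hl, hy.2.1, hE⟩ with e | e
    · exact absurd e (b6b_pos hc hy.1 hl).ne'
    · exact congrArg _ e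
  obtain ⟨y, hy, y', hy', c, c', n⟩ := hB.η₀
  exact n (Nat.cast_injective (R := ℂ) ((key y hy c).trans (key y' hy' c').symm))

theorem b6b_neQ (h : Pol P q) (k : P.IsHerm) (h6 : finrank F V = 6) (hB : B6 P C a₁ a₂) :
    a₁ ≠ Nat.card F + 1 := by
  rintro rfl
  obtain ⟨o, o1, o2, ho⟩ := b6b_o h k h6 hB hB.ex₂
  obtain ⟨b₀, b₁, hb⟩ := hB.b a₂
  obtain ⟨⟨x, E⟩, ⟨hxE, hx, hE⟩, ey⟩ := hB.ex₁
  simp only at hxE hx hE ey
  have hQ := h.card_herm k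
  have h3 := h.three
  have allC : ∀ l ∈ ins (thru (T P 2) x) E, l ∈ C := fun l hl => by
    by_contra hn
    have e := cnt_compl hB.sub x E
    rw [b6b_ln hx hE hxE, ey] at e
    have := b6b_pos (C := T P 2 \ C) ⟨hl.1.1, hn⟩ hl.1.2 hl.2
    omega
  have hb' : ∀ l ∈ ins (thru (T P 2) x) E,
      {z | z ∈ {z | z ∈ T P 1 ∧ z ≤ E ∧ cnt (thru C z) E = a₂} ∧ z ≤ l}.ncard = b₀ := fun l hl => by
    rw [← (hb (l, E) ⟨hl.2, hl.1.1, hE⟩).1 (allC l hl)]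
    congr 1
    ext z
    exact ⟨fun a => ⟨a.1.1, a.2, a.1.2.2⟩, fun a => ⟨⟨a.1, a.2.1.trans hl.2, a.2.2⟩, a.2.1⟩⟩
  have e1 := b6b_dc (ins (thru (T P 2) x) E) {z | z ∈ T P 1 ∧ z ≤ E ∧ cnt (thru C z) E = a₂} (fun l z => z ≤ l)
    hb' (n := 1) fun z hz => by
      have a1 : x ≠ z := fun e => hB.ne (ey.symm.trans (e ▸ hz.2.2))
      have a2 := Pt.sup (Y := ⊥) (k := 0) ⟨P.ts_bot, finrank_bot F V⟩ (pt_bot P ▸ hx) (pt_bot P ▸ hz.1)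
        (T.le_perp hE hz.2.1 hxE) a1
      refine Set.ncard_eq_one.2 ⟨x ⊔ z, Set.eq_singleton_iff_unique_mem.2
        ⟨⟨⟨⟨a2, le_sup_left⟩, sup_le hxE hz.2.1⟩, le_sup_right⟩, fun l hl => ?_⟩⟩
      exact (T.eq_of_le a2 hl.1.1.1 (sup_le hl.1.1.2 hl.2)).symm
  rw [← cnt_eq, b6b_ln hx hE hxE, ho E hE, mul_one, hQ] at e1
  obtain ⟨l, hl⟩ : (ins (thru (T P 2) x) E).Nonempty := Set.nonempty_of_ncard_ne_zero (by
    rw [← cnt_eq, b6b_ln hx hE hxE]; omega)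
  have e2 : b₀ ≤ q ^ 2 + 1 := by
    rw [← hb' l hl, ← hQ, ← cn_th2, ← cnt_T1 hl.1.1]
    exact Set.ncard_le_ncard (fun z hz => ⟨hz.1.1, hz.2⟩) (Set.toFinite _)
  have e3 : q ^ 2 + q + 1 ∣ b₀ := by
    refine Nat.Coprime.dvd_of_dvd_mul_left ?_ (e1 ▸ o2)
    rw [show q ^ 2 + q + 1 = q + (q ^ 2 + 1) by ring, Nat.coprime_add_self_left, sq]
    simp
  have e4 := Nat.eq_zero_of_dvd_of_lt e3 (by omega)
  rw [e4] at e1
  omega

/-- chambers with a line outside `C`, of both types -/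
theorem b6b_ch (h : Pol P q) (k : P.IsHerm) (h6 : finrank F V = 6) (hB : B6 P C a₁ a₂) :
    ∃ x ∈ T P 1, ∃ l ∈ T P 2, ∃ E ∈ T P 3, x ≤ l ∧ l ≤ E ∧ l ∉ C ∧ cnt (thru C x) E = a₁ := by
  obtain ⟨⟨x, E⟩, ⟨hxE, hx, hE⟩, ey⟩ := hB.ex₁
  obtain ⟨l, h1, h2, h3, h4⟩ := b6b_out hB.sub hx hE hxE (ey.trans_ne (b6b_neQ h k h6 hB))
  exact ⟨x, hx, l, h1, E, hE, h3, h4, h2, ey⟩

theorem b6b_type (h : Pol P q) (k : P.IsHerm) (h6 : finrank F V = 6) (hB : B6 P C a₁ a₂) (hx : x ∈ T P 1)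
    (hl : l ∈ C) (hxl : x ≤ l) {E' : Submodule F V} (hE : E ∈ T P 3) (hE' : E' ∈ T P 3) (h1 : l ≤ E) (h2 : l ≤ E') :
    cnt (thru C x) E = cnt (thru C x) E' := by
  obtain ⟨c₀, c₁, c₂, c₃, hc⟩ := hB.aff
  obtain ⟨η, hη⟩ := hB.η₁
  obtain ⟨x₁, a1, l₁, a2, E₁, a3, a4, a5, a6, a7⟩ := b6b_ch h k h6 hB
  obtain ⟨x₂, b1, l₂, b2, E₂, b3, b4, b5, b6, b7⟩ := b6b_ch h k h6 (b6b_symm hB)
  have e1 := hc (x₁, l₁, E₁) ⟨a4, a5, a1, a2, a3⟩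
  have e2 := hc (x₂, l₂, E₂) ⟨b4, b5, b1, b2, b3⟩
  have e3 := hc (x, l, E) ⟨hxl, h1, hx, hB.sub hl, hE⟩
  have e4 := hc (x, l, E') ⟨hxl, h2, hx, hB.sub hl, hE'⟩
  have f1 := hη (x₁, l₁) ⟨a4, a1, a2⟩ a6
  have f2 := hη (x₂, l₂) ⟨b4, b1, b2⟩ b6
  simp only at e1 e2 e3 e4 f1 f2
  rw [ind_not a6, a7, f1] at e1
  rw [ind_not b6, b7, f2] at e2
  rw [ind_mem hl] at e3 e4
  have e5 : c₂ = 0 := by
    have : c₂ * ((a₁ : ℂ) - a₂) = 0 := by linear_combination e2 - e1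
    exact (mul_eq_zero.1 this).resolve_right (sub_ne_zero.2 (Nat.cast_injective.ne hB.ne))
  rw [e5] at e3 e4
  exact Nat.cast_injective (R := ℂ) (by linear_combination e3 - e4)

variable (P C) in
/-- the planes of type `a` at `x` -/
def b6O (a : ℕ) (x : Submodule F V) : Set (Submodule F V) := {E | E ∈ T P 3 ∧ x ≤ E ∧ cnt (thru C x) E = a}

theorem b6b_y (h : Pol P q) (k : P.IsHerm) (h6 : finrank F V = 6) (hB : B6 P C a₁ a₂) :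
    ∃ y, 1 ≤ y ∧ y ≤ q ∧ ∀ x ∈ T P 1, ∀ l ∈ T P 2, x ≤ l → l ∉ C → (thru (b6O P C a₁ x) l).ncard = y := by
  obtain ⟨η, hη⟩ := hB.η₁
  have sub : ∀ x, ∀ l ∈ T P 2, thru (b6O P C a₁ x) l ⊆ Pt P l := fun x l hl E hE => (b6b_mem hl).2 ⟨hE.1.1, hE.2⟩
  have key : ∀ x ∈ T P 1, ∀ l ∈ T P 2, x ≤ l → l ∉ C →
      (η : ℂ) = (q + 1) * a₂ + (thru (b6O P C a₁ x) l).ncard * ((a₁ : ℂ) - a₂) := fun x hx l hl hxl hn => by
    have e1 := eta_sum hB.sub hx hl hxl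
    have e2 := Set.ncard_sdiff_add_ncard_of_subset (sub x l hl)
    rw [b6b_pl h h6 hl] at e2
    have e3 := congrArg (Nat.cast : ℕ → ℂ) e2
    push_cast at e3
    rw [show eta P C x l = η from hη (x, l) ⟨hxl, hx, hl⟩ hn, ind_not hn, sm_diff (sub x l hl),
      sm_const (c := (a₁ : ℂ)), sm_const (c := (a₂ : ℂ))] at e1
    · rw [e1, ← e3]; ring
    · rintro E ⟨hE, hE'⟩
      rcases hB.two (x, E) ⟨hxl.trans hE.2.1, hx, ((b6b_mem hl).1 hE).1⟩ with e | e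
      · exact absurd ⟨⟨((b6b_mem hl).1 hE).1, hxl.trans hE.2.1, e⟩, hE.2.1⟩ hE'
      · rw [sub_zero]; exact congrArg _ e
    · intro E hE
      rw [sub_zero]; exact congrArg _ hE.1.2.2
  obtain ⟨x₁, a1, l₁, a2, E₁, a3, a4, a5, a6, a7⟩ := b6b_ch h k h6 hB
  obtain ⟨x₂, b1, l₂, b2, E₂, b3, b4, b5, b6, b7⟩ := b6b_ch h k h6 (b6b_symm hB)
  have cst : ∀ x ∈ T P 1, ∀ l ∈ T P 2, x ≤ l → l ∉ C →
      (thru (b6O P C a₁ x) l).ncard = (thru (b6O P C a₁ x₁) l₁).ncard := fun x hx l hl hxl hn =>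
    Nat.cast_injective (R := ℂ) (mul_right_cancel₀ (sub_ne_zero.2 (Nat.cast_injective.ne hB.ne))
      (add_left_cancel ((key x hx l hl hxl hn).symm.trans (key x₁ a1 l₁ a2 a4 a6))))
  refine ⟨_, (Set.ncard_pos (Set.toFinite _)).2 ⟨E₁, by exact ⟨⟨a3, a4.trans a5, a7⟩, a5⟩⟩, ?_, cst⟩
  rw [← cst x₂ b1 l₂ b2 b4 b6, ← Nat.lt_succ_iff, Nat.succ_eq_add_one, ← b6b_pl h h6 b2]
  exact Set.ncard_lt_ncard ⟨sub x₂ l₂ b2, fun e =>
    hB.ne ((e ((b6b_mem b2).2 ⟨b3, b5⟩)).1.2.2.symm.trans b7)⟩ (Set.toFinite _)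

/-- counting planes on a point from a line -/
theorem b6b_cnt (h : Pol P q) (h6 : finrank F V = 6) (hx : x ∈ T P 1) (hl : l ∈ T P 2) (hxl : x ≤ l)
    {O : Set (Submodule F V)} (hO : ∀ E ∈ O, E ∈ T P 3 ∧ x ≤ E) :
    sm (ins (thru (T P 2) x) (P.perp l)) (fun m => ((thru O m).ncard : ℂ)) =
      O.ncard + Nat.card F * (thru O l).ncard := by
  have e1 := sm_comm (ins (thru (T P 2) x) (P.perp l)) O (fun m E => m ≤ E) fun _ => 1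
  have e2 := Set.ncard_sdiff_add_ncard_of_subset (s := thru O l) (t := O) fun _ a => a.1
  have e3 := congrArg (Nat.cast : ℕ → ℂ) e2
  push_cast at e3
  rw [sm_diff (S := O) (S' := thru O l) (fun _ a => a.1), sm_const (S := thru O l) (c := Nat.card F + 1),
    sm_const (S := O \ thru O l) (c := 1)] at e1
  · rw [← e3]
    refine Eq.trans (sm_congr fun m _ => ?_) (e1.trans (by ring))
    rw [sm_const (c := 1) (fun _ _ => rfl), mul_one]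
    rfl
  · rintro E ⟨h1, h2⟩
    obtain ⟨hE, hxE⟩ := hO E h1
    have a1 : ¬ E ≤ P.perp l := fun e =>
      h2 ⟨h1, le_of_max h hE (by omega) hl.1 (P.le_perp_comm.1 e)⟩
    have a2 := gq (Y := x) (Z := l) ⟨hl.1, hxl, by rw [hl.2, hx.2]⟩ hE.1 hxE (by rw [hE.2, hx.2]) a1
    have a3 := cn_T hx a2
    rw [mul_one, Nat.cast_eq_one]
    refine Set.ncard_eq_one.2 ⟨E ⊓ P.perp l, Set.eq_singleton_iff_unique_mem.2
      ⟨⟨⟨⟨a3, a2.2.1⟩, inf_le_right⟩, inf_le_left⟩, fun m hm => T.eq_of_le hm.1.1.1 a3 (le_inf hm.2 hm.1.2)⟩⟩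
  · rintro E ⟨h1, h2⟩
    obtain ⟨hE, hxE⟩ := hO E h1
    rw [mul_one, ← Nat.cast_succ, Nat.cast_inj, Nat.succ_eq_add_one, ← b6b_ln hx hE hxE, cnt]
    congr 1
    ext m
    exact ⟨fun a => ⟨a.1.1, a.2⟩, fun a => ⟨⟨a.1, T.le_perp hE a.2 h2⟩, a.2⟩⟩

theorem b6b (h : Pol P q) (k : P.IsHerm) (h6 : finrank F V = 6) {a₁ a₂ : ℕ} (hB : B6 P C a₁ a₂) : False := by
  obtain ⟨y, y1, y2, hy⟩ := b6b_y h k h6 hB
  obtain ⟨e, he⟩ := hB.e a₁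
  have hQ := h.card_herm k
  -- the general count
  have key : ∀ x ∈ T P 1, ∀ l ∈ C, ∀ E ∈ T P 3, x ≤ l → l ≤ E → ∀ a : ℕ, cnt (thru C x) E = a →
      ∀ t : ℂ, t = (if a = a₁ then 1 else 0) →
      (e : ℂ) + q ^ 2 * ((q + 1) * t) = (q + 1) * t * (1 + (q + 1) * (a - 1)) + y * ((q + 1) * (q ^ 2 + 1 - a)) := by
    intro x hx l hl E hE hxl hlE a ha t ht
    have hl2 := hB.sub hl
    have ty : ∀ E' ∈ T P 3, l ≤ E' → cnt (thru C x) E' = a := fun E' a1 a2 =>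
      (b6b_type h k h6 hB hx hl hxl a1 hE a2 hlE).trans ha
    have n1 : ∀ m ∈ C, ∀ E' ∈ T P 3, x ≤ m → m ≤ E' → cnt (thru C x) E' = a →
        ((thru (b6O P C a₁ x) m).ncard : ℂ) = (q + 1) * t := fun m hm E' a1 a2 a3 a4 => by
      have a5 : ∀ E'' ∈ T P 3, m ≤ E'' → cnt (thru C x) E'' = a := fun E'' b1 b2 =>
        (b6b_type h k h6 hB hx hm a2 b1 a1 b2 a3).trans a4
      split_ifs at ht with c
      · rw [ht, mul_one, ← Nat.cast_succ, Nat.cast_inj, Nat.succ_eq_add_one, ← b6b_pl h h6 (hB.sub hm)]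
        congr 1
        ext E''
        rw [b6b_mem (hB.sub hm)]
        exact ⟨fun b => ⟨b.1.1, b.2⟩, fun b => ⟨⟨b.1, a2.trans b.2, (a5 E'' b.1 b.2).trans c⟩, b.2⟩⟩
      · rw [ht, mul_zero, Nat.cast_eq_zero, Set.ncard_eq_zero]
        exact Set.eq_empty_of_forall_notMem fun E'' b => c ((a5 E'' b.1.1 b.2).symm.trans b.1.2.2)
    have e1 := b6b_cnt h h6 hx hl2 hxl (O := b6O P C a₁ x) fun E hE => ⟨hE.1, hE.2.1⟩
    have e2 := b6b_eta h h6 hB.sub hx hl2 hxl (c := a) fun E' a1 a2 => congrArg _ (ty E' a1 a2)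
    have e3 := b6b_eta h h6 (C := T P 2 \ C) (fun _ a => a.1) hx hl2 hxl (c := q ^ 2 + 1 - a) fun E' a1 a2 => by
      have := cnt_compl hB.sub x E'
      rw [b6b_ln hx a1 (hxl.trans a2), ty E' a1 a2, hQ] at this
      have := congrArg (Nat.cast : ℕ → ℂ) this
      push_cast at this
      linear_combination this
    rw [ind_mem hl] at e2
    rw [ind_not (fun a => a.2 hl), zero_add, sub_zero] at e3
    have e4 : ins (thru (T P 2) x) (P.perp l) \ ins (thru C x) (P.perp l) = ins (thru (T P 2 \ C) x) (P.perp l) := by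
      ext m
      exact ⟨fun a => ⟨⟨⟨a.1.1.1, fun b => a.2 ⟨⟨b, a.1.1.2⟩, a.1.2⟩⟩, a.1.1.2⟩, a.1.2⟩,
        fun a => ⟨⟨⟨a.1.1.1, a.1.2⟩, a.2⟩, fun b => a.1.1.2 b.1.1⟩⟩
    rw [sm_diff (S' := ins (thru C x) (P.perp l)) (fun m a => by exact ⟨⟨hB.sub a.1.1, a.1.2⟩, a.2⟩), e4,
      sm_const (c := (q + 1) * t), sm_const (c := (y : ℂ)), ← cnt_eq, ← cnt_eq, n1 l hl E hE hxl hlE ha,
      show (b6O P C a₁ x).ncard = e from he x hx, hQ] at e1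
    · rw [eta] at e2 e3
      rw [e2, e3] at e1
      push_cast at e1
      linear_combination -e1
    · intro m hm
      exact congrArg _ (hy x hx m hm.1.1.1 hm.1.2 hm.1.1.2)
    · intro m hm
      by_cases c : m ≤ l
      · exact n1 m hm.1.1 E hE hm.1.2 (c.trans hlE) ha
      · have a1 := T.sup_pt hl2 (Y := x) (Z := m)
          ⟨(hB.sub hm.1.1).1, hm.1.2, by rw [(hB.sub hm.1.1).2, hx.2]⟩ hxl hm.2 c
        exact n1 m hm.1.1 _ a1 hm.1.2 le_sup_right (ty _ a1 le_sup_left)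
  obtain ⟨⟨x₁, E₁⟩, ⟨a1, a2, a3⟩, a4⟩ := hB.ex₁
  obtain ⟨⟨x₂, E₂⟩, ⟨b1, b2, b3⟩, b4⟩ := hB.ex₂
  simp only at a1 a2 a3 a4 b1 b2 b3 b4
  obtain ⟨l₁, a5, a6, a7⟩ := b6b_in (a4.trans_ne (b6b_ne0 h h6 hB))
  obtain ⟨l₂, b5, b6, b7⟩ := b6b_in (b4.trans_ne (b6b_ne0 h h6 (b6b_symm hB)))
  obtain ⟨l₃, c1, c2, c3, c4⟩ := b6b_out hB.sub a2 a3 a1 (a4.trans_ne (b6b_neQ h k h6 hB))
  have e1 := key x₁ a2 l₁ a5 E₁ a3 a6 a7 a₁ a4 1 (if_pos rfl).symm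
  have e2 := key x₂ b2 l₂ b5 E₂ b3 b6 b7 a₂ b4 0 (if_neg hB.ne.symm).symm
  have e3 : (y : ℤ) * (a₁ - a₂) = (q + 1) * (a₁ - q) := by
    have q0 : (q : ℂ) + 1 ≠ 0 := Nat.cast_add_one_ne_zero q
    refine Int.cast_injective (α := ℂ) (mul_left_cancel₀ q0 ?_)
    push_cast
    linear_combination e1 - e2
  have e4 := two_ln a3.2 (fun l hl => (hB.sub hl).2) ⟨l₁, a5, a7⟩ ⟨l₃, c4, c1.2, c2⟩ (a := a₁) (b := a₂)
    fun x a b => hB.two (x, E₁) ⟨a, T.mono a3 a b, a3⟩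
  rw [hQ] at e4
  have e5 : IsCoprime ((q : ℤ) + 1) ((a₁ : ℤ) - a₂) := by
    refine IsCoprime.of_isCoprime_of_dvd_right ?_ e4
    exact ⟨1 - q, 1, by push_cast; ring⟩
  have e6 : (q : ℤ) + 1 ∣ y := e5.dvd_of_dvd_mul_right ⟨_, e3⟩
  have := Int.le_of_dvd (by exact_mod_cast y1) e6
  omega

end CfsgLib.KP
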