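import Mathlib
import Cfsg.Agent.Lib.KP.Cnt

/-! KP: Sylow subgroups of a point stabiliser (plans/KP.md, package SYL). -/

set_option autoImplicit false
set_option linter.unusedSectionVars false

namespace CfsgLib.KP

open CfsgLib.CK CfsgLib.KL CfsgLib.Forms CfsgLib.RootMax CfsgLib.ClMax CfsgLib.Tech Module

variable {F : Type*} [Field F] [Finite F] {σ : F →+* F} {V : Type*} [AddCommGroup V] [Module F V] [Finite V]
  {P : PQ σ V} {q : ℕ} {K : Subgroup (V ≃ₗ[F] V)} {C : Set (Submodule F V)}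

variable {r : ℕ} {R : Subgroup (V ≃ₗ[F] V)} {W x : Submodule F V} {g : V ≃ₗ[F] V}

theorem sy_cast (hr : r.Prime) (hQ : ¬ r ∣ Nat.card F) : (r : F) ≠ 0 := fun h => by
  have := Fintype.ofFinite F
  have k : IsCoprime (r : F) (Nat.card F : F) := ((Nat.Prime.coprime_iff_not_dvd hr).2 hQ).cast
  rw [h, Nat.card_eq_fintype_card, FiniteField.cast_card_eq_zero] at k
  exact not_isCoprime_zero_zero k

theorem sy_fx {v : V} : Fx R v ↔ v ∈ fixV R := Iff.rfl

theorem fix_nd (h : P.Nondeg) (hr : r.Prime) (hQ : ¬ r ∣ Nat.card F) (hR : IsPGroup r R) (le : R ≤ P.isom) :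
    ND P (fixV R) := by
  have := Fact.mk hr
  have := Fintype.ofFinite R
  refine P.disjoint_perp_iff.2 fun x hx h0 => h x fun w => ?_
  have m : ∑ g : R, g.1 w ∈ fixV R := fun k hk => by
    rw [map_sum]
    exact Fintype.sum_equiv (Equiv.mulLeft (⟨k, hk⟩ : R)) _ _ fun g => rfl
  have e := h0 _ m
  rw [map_sum, Finset.sum_congr rfl fun (g : R) _ => show P.B x (g.1 w) = P.B x w by
    rw [← (le g.2).B_eq x w, hx g.1 g.2], Finset.sum_const, Finset.card_univ, nsmul_eq_mul] at e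
  obtain ⟨n, hn⟩ := hR.exists_card_eq
  rw [← Nat.card_eq_fintype_card, hn, Nat.cast_pow] at e
  exact (mul_eq_zero.1 e).resolve_left (pow_ne_zero _ (sy_cast hr hQ))

theorem fx_fixV (hg : g ∈ Subgroup.normalizer (R : Set (V ≃ₗ[F] V))) : g • fixV R = fixV R :=
  smul_eq_of_le fun v hv k hk => by
    have := hv _ (conj_mem_of_mem_normalizer' hg hk)
    calc k (g v) = (g * (g⁻¹ * k * g)) v := by rw [← mul_assoc, mul_inv_cancel_left]; rfl
      _ = g v := by rw [LinearEquiv.mul_apply, this]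

theorem dim_lin (hr : r.Prime) (hR : IsPGroup r R) (hW : Fx R W) (h0 : Disjoint W (fixV R)) :
    Nat.card F ^ finrank F W ≡ 1 [MOD r] := by
  have := ncard_fx_modEq hr hR (X := (W : Set V)) fun g hg v hv => apply_mem_of_smul_eq (hW g hg) hv
  rwa [cn_sub, show {a | a ∈ (W : Set V) ∧ Fx R a} = {0} from Set.eq_singleton_iff_unique_mem.2
    ⟨⟨W.zero_mem, (fixV R).zero_mem⟩, fun v hv => Submodule.disjoint_def.1 h0 v hv.1 hv.2⟩,
    Set.ncard_singleton] at this

theorem dim_np (h : Pol P q) (hr : r.Prime) (hQ : ¬ r ∣ Nat.card F - 1) (hR : IsPGroup r R) (le : R ≤ P.isom)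
    (hW : Fx R W) (nd : ND P W) (h0 : Disjoint W (fixV R)) : r ∣ np (Nat.card F) q (finrank F W) := by
  have := ncard_fx_modEq hr hR (X := {v | v ∈ W ∧ P.Sing v}) fun g hg v hv =>
    ⟨apply_mem_of_smul_eq (hW g hg) hv.1, (le hg).sing.2 hv.2⟩
  rw [ncard_sing_nd h nd, show {a | a ∈ {v | v ∈ W ∧ P.Sing v} ∧ Fx R a} = {0} from
    Set.eq_singleton_iff_unique_mem.2 ⟨⟨⟨W.zero_mem, P.sing_zero⟩, (fixV R).zero_mem⟩,
      fun v hv => Submodule.disjoint_def.1 h0 v hv.1.1 hv.2⟩, Set.ncard_singleton] at this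
  have k := (Nat.modEq_iff_dvd' (Nat.le_add_right _ _)).1 this.symm
  rw [Nat.add_sub_cancel_left] at k
  exact (hr.dvd_mul.1 k).resolve_left hQ

theorem le_fixV (hr : r.Prime) (hQ : ¬ r ∣ Nat.card F - 1) (hR : IsPGroup r R) (hx : finrank F x = 1) (h : Fx R x) :
    x ≤ fixV R := by
  obtain ⟨v, hv, k⟩ := exists_fx hr hR (X := (x : Set V) \ {0}) (fun g hg v hv =>
    ⟨apply_mem_of_smul_eq (h g hg) hv.1, fun e => hv.2 (g.map_eq_zero_iff.1 e)⟩) (by
      rwa [Set.ncard_sdiff_singleton_of_mem x.zero_mem, cn_sub, hx, pow_one])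
  rw [← Submodule.eq_of_le_of_finrank_eq ((Submodule.span_singleton_le_iff_mem v x).2 hv.1)
    (by rw [finrank_span_singleton hv.2, hx])]
  exact (Submodule.span_singleton_le_iff_mem v _).2 k

/-- Witt: the normaliser of a Sylow subgroup of a point stabiliser is transitive on the fixed points -/
theorem syl (_hK : K ≤ P.isom) (tr : Tr K (T P 1)) (hr : r.Prime) (hx : x ∈ T P 1) (hR : IsSylowIn r R (Stab K x)) :
    Tr (K ⊓ Subgroup.normalizer (R : Set (V ≃ₗ[F] V))) (ins (T P 1) (fixV R)) := by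
  have := Fact.mk hr
  have key : ∀ a ∈ ins (T P 1) (fixV R),
      ∃ n ∈ K ⊓ Subgroup.normalizer (R : Set (V ≃ₗ[F] V)), n • a = x := fun a ha => by
    obtain ⟨g, hg, e1⟩ := tr a ha.1 x hx
    have fa : Fx R a := fun k hk => smul_eq_of_le fun v hv => by rwa [ha.2 hv k hk]
    obtain ⟨k, hk, e⟩ := hR.exists_cj_le (isPGroup_cj g hR.pgroup) (le_Stab ((cj_mono g (hR.le.trans
      (Stab_le _ _))).trans (cj_eq_of_mem hg).le) (e1 ▸ fa.cj g))
    exact ⟨k * g, ⟨mul_mem hk.1 hg, mem_normalizer_of_cj_le (by rwa [cj_mul])⟩, by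
      rw [mul_smul, e1]; exact hk.2⟩
  intro a ha b hb
  obtain ⟨n, hn, e1⟩ := key a ha
  obtain ⟨n', hn', e2⟩ := key b hb
  exact ⟨n'⁻¹ * n, mul_mem (inv_mem hn') hn, by rw [mul_smul, e1, ← e2, inv_smul_smul]⟩

/-- a fixed-point-free `r`-group has a characteristic subgroup of order `r` -/
theorem cyc (hr : r.Prime) (hQ : ¬ r ∣ Nat.card F) (hR : IsPGroup r R) (h1 : R ≠ ⊥) (hW : Fx R W) (h0 : W ≠ ⊥)
    (fpf : ∀ g ∈ R, g ≠ 1 → ∀ w ∈ W, g w = w → w = 0) :
    ∃ g ∈ R, orderOf g = r ∧ ∀ k ∈ Subgroup.normalizer (R : Set (V ≃ₗ[F] V)), k * g * k⁻¹ ∈ Subgroup.zpowers g := by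
  have := Fact.mk hr
  have := (Subgroup.nontrivial_iff_ne_bot R).2 h1
  have := hR.center_nontrivial
  obtain ⟨n, hn, e⟩ := (hR.to_subgroup (Subgroup.center R)).nontrivial_iff_card.1 this
  obtain ⟨z, hz⟩ := exists_prime_orderOf_dvd_card' (G := Subgroup.center R) r
    (e ▸ dvd_pow_self r hn.ne')
  have oz : orderOf z.1.1 = r := by rw [Subgroup.orderOf_coe, Subgroup.orderOf_coe, hz]
  refine ⟨z.1.1, z.1.2, oz, fun k hk => by_contra fun hb => h0 (eq_bot_iff.2 fun w hw => ?_)⟩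
  have mb := conj_mem_of_mem_normalizer hk z.1.2
  have ob : (k * z.1.1 * k⁻¹) ^ r = 1 := by rw [conj_pow, ← oz, pow_orderOf_eq_one]; group
  have c : Commute z.1.1 (k * z.1.1 * k⁻¹) :=
    (congrArg Subtype.val (Subgroup.mem_center_iff.1 z.2 ⟨_, mb⟩)).symm
  have ma := z.1.2
  generalize k * z.1.1 * k⁻¹ = b at hb mb ob c
  generalize z.1.1 = a at oz hb c ma
  have oa : a ^ r = 1 := oz ▸ pow_orderOf_eq_one a
  have nz : ∀ y ∈ R, y ≠ 1 → y ^ r = 1 → ∑ j ∈ Finset.range r, (y ^ j) w = 0 := fun y hy y1 yr => by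
    refine fpf y hy y1 _ (W.sum_mem fun j _ => apply_mem_of_smul_eq (hW _ (pow_mem hy j)) hw) ?_
    have e1 := Finset.sum_range_succ (fun j => (y ^ j) w) r
    rw [Finset.sum_range_succ', yr, pow_zero, add_left_inj] at e1
    rw [map_sum, ← e1]
    exact Finset.sum_congr rfl fun j _ => by rw [pow_succ']; rfl
  have s1 : ∑ i ∈ Finset.range r, ∑ j ∈ Finset.range r, ((b * a ^ i) ^ j) w = 0 :=
    Finset.sum_eq_zero fun i _ => nz _ (mul_mem mb (pow_mem ma i))
      (fun e => hb (by rw [eq_inv_of_mul_eq_one_left e]; exact inv_mem (Subgroup.npow_mem_zpowers a i)))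
      (by rw [(c.symm.pow_right i).mul_pow, ob, ← pow_mul, mul_comm, pow_mul, oa, one_pow, one_mul])
  rw [Finset.sum_comm, Finset.sum_eq_single_of_mem 0 (Finset.mem_range.2 hr.pos) fun j hj j0 => by
    have := nz (a ^ j) (pow_mem ma j) (pow_ne_one_of_lt_orderOf j0 (oz ▸ Finset.mem_range.1 hj))
      (by rw [← pow_mul, mul_comm, pow_mul, oa, one_pow])
    rw [← map_zero (b ^ j), ← this, map_sum]
    exact Finset.sum_congr rfl fun i _ => by
      rw [(c.symm.pow_right i).mul_pow, ← pow_mul, mul_comm i, pow_mul]; rfl] at s1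
  simp only [pow_zero, LinearEquiv.coe_one, id, Finset.sum_const, Finset.card_range] at s1
  rw [← Nat.cast_smul_eq_nsmul F] at s1
  exact (smul_eq_zero.1 s1).resolve_left (sy_cast hr hQ)

/-- the orbits of a Sylow subgroup of a transitive group -/
theorem orb_dvd {G X : Type*} [Group G] [Finite G] [MulAction G X] [Finite X] (hr : r.Prime) {S Y : Subgroup G}
    (hS : IsSylowIn r S Y) {A : Set X} (tr : Tr Y A) (inv : Inv Y A) {k : ℕ} (hk : r ^ k ∣ A.ncard) {a : X}
    (ha : a ∈ A) : r ^ k ∣ (orb S a).ncard := by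
  have e1 := Subgroup.relIndex_mul_relIndex (Stab S a) S Y (Stab_le _ _) hS.le
  have e2 := Subgroup.relIndex_mul_relIndex (Stab S a) (Stab Y a) Y
    (le_Stab ((Stab_le _ _).trans hS.le) (fx_Stab _ _)) (Stab_le _ _)
  rw [tr.relIndex inv ha, ← e1] at e2
  rw [ncard_orb]
  exact (((Nat.Prime.coprime_iff_not_dvd hr).2 hS.not_dvd).pow_left k).dvd_of_dvd_mul_right
    (e2 ▸ hk.mul_left _)

theorem sy_hom {G : Type*} [Group G] [Finite G] {g : G} (ho : orderOf g = r) {S : Subgroup G}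
    (hS : ∀ k ∈ S, k * g * k⁻¹ ∈ Subgroup.zpowers g) :
    ∃ φ : S →* (ZMod r)ˣ, ∀ k, φ k = 1 → Commute k.1 g := by
  have le : S ≤ Subgroup.normalizer (Subgroup.zpowers g : Set G) := fun k hk =>
    mem_normalizer_of_cj_le (by rw [cj_zpowers]; exact Subgroup.zpowers_le.2 (hS k hk))
  have e := IsCyclic.mulAutMulEquiv (Subgroup.zpowers g)
  rw [Nat.card_zpowers, ho] at e
  refine ⟨(e.toMonoidHom.comp (Subgroup.zpowers g).normalizerMonoidHom).comp (Subgroup.inclusion le),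
    fun k hk => ?_⟩
  have m : Subgroup.inclusion le k ∈ (Subgroup.zpowers g).normalizerMonoidHom.ker :=
    e.injective (hk.trans (map_one e).symm)
  rw [Subgroup.normalizerMonoidHom_ker] at m
  exact (m g (Subgroup.mem_zpowers g)).symm

/-- the normaliser of a group of prime order modulo the centraliser is cyclic -/
theorem exists_gen {G : Type*} [Group G] [Finite G] (hr : r.Prime) {g : G} (ho : orderOf g = r) {S : Subgroup G}
    (hS : ∀ k ∈ S, k * g * k⁻¹ ∈ Subgroup.zpowers g) :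
    ∃ s ∈ S, ∀ k ∈ S, ∃ j : ℕ, Commute (k * (s ^ j)⁻¹) g := by
  have := Fact.mk hr
  obtain ⟨φ, hφ⟩ := sy_hom ho hS
  obtain ⟨⟨_, s, rfl⟩, hs⟩ := IsCyclic.exists_monoid_generator (α := φ.range)
  refine ⟨s, s.2, fun k hk => ?_⟩
  obtain ⟨j, hj⟩ := hs ⟨_, ⟨k, hk⟩, rfl⟩
  have e : φ s ^ j = φ ⟨k, hk⟩ := congrArg Subtype.val hj
  exact ⟨j, hφ (⟨k, hk⟩ * (s ^ j)⁻¹) (by rw [map_mul, map_inv, map_pow, e, mul_inv_cancel])⟩

theorem comm_cent {G : Type*} [Group G] [Finite G] (_hr : r.Prime) {g : G} (ho : orderOf g = r) {S : Subgroup G}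
    (hS : ∀ k ∈ S, k * g * k⁻¹ ∈ Subgroup.zpowers g) : ⁅S, S⁆ ≤ Subgroup.centralizer {g} := by
  obtain ⟨φ, hφ⟩ := sy_hom ho hS
  refine Subgroup.commutator_le.2 fun a ha b hb => Subgroup.mem_centralizer_singleton_iff.2 ?_
  exact hφ (⟨a, ha⟩ * ⟨b, hb⟩ * (⟨a, ha⟩ : S)⁻¹ * (⟨b, hb⟩ : S)⁻¹) (by
    rw [map_mul, map_mul, map_mul, map_inv, map_inv, mul_inv_cancel_comm, mul_inv_cancel])

/-- an element whose order divides `Q - 1` fixes a point of every invariant interval -/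
theorem exists_eig {o t : Submodule F V} (hot : o < t) (ho : g • o = o) (ht : g • t = t)
    (h : ∀ v ∈ t, (g ^ (Nat.card F - 1)) v - v ∈ o) : ∃ e, (lin F V).Pt o t e ∧ g • e = e := by
  have := Fintype.ofFinite F
  have key : ∀ s : Multiset F, ∀ v ∈ t, v ∉ o → Polynomial.aeval (g : Module.End F V)
      (s.map fun c => Polynomial.X - Polynomial.C c).prod v ∈ o →
      ∃ v ∈ t, v ∉ o ∧ ∃ c : F, g v - c • v ∈ o := fun s => by
    induction s using Multiset.induction_on with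
    | empty => intro v _ h1 h2; exact absurd (by simpa using h2) h1
    | cons c s ih =>
      intro v hv h1 h2
      by_cases h3 : g v - c • v ∈ o
      · exact ⟨v, hv, h1, c, h3⟩
      refine ih _ (sub_mem (apply_mem_of_smul_eq ht hv) (t.smul_mem c hv)) h3 ?_
      rw [Multiset.map_cons, Multiset.prod_cons, mul_comm, map_mul] at h2
      simpa using h2
  obtain ⟨v, hv, h1⟩ := SetLike.exists_of_lt hot
  have Q1 : 1 < Fintype.card F := Fintype.one_lt_card
  obtain ⟨v, hv, h1, c, h2⟩ := key (Polynomial.X ^ Fintype.card F - Polynomial.X : Polynomial F).roots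
    v hv h1 (by
    rw [Polynomial.prod_multiset_X_sub_C_of_monic_of_roots_card_eq
      (Polynomial.monic_X_pow_sub (by rw [Polynomial.degree_X]; exact_mod_cast Q1))
      (by rw [FiniteField.roots_X_pow_card_sub_X, FiniteField.X_pow_card_sub_X_natDegree_eq F Q1]; rfl)]
    have := apply_mem_of_smul_eq ho (h v hv)
    rw [map_sub, ← LinearEquiv.mul_apply, ← pow_succ', Nat.card_eq_fintype_card,
      Nat.sub_add_cancel Q1.le] at this
    simpa [Module.End.pow_apply, LinearEquiv.pow_apply] using this)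
  refine ⟨o ⊔ F ∙ v, ⟨le_sup_left, sup_le hot.le ((Submodule.span_singleton_le_iff_mem v t).2 hv), ?_⟩,
    smul_eq_of_le fun w hw => ?_⟩
  · rw [lin_d, Submodule.finrank_sup_span_singleton h1, Nat.add_sub_cancel_left]
  obtain ⟨y, hy, z, hz, rfl⟩ := Submodule.mem_sup.1 hw
  obtain ⟨d, rfl⟩ := Submodule.mem_span_singleton.1 hz
  rw [map_add, map_smul, ← sub_add_cancel (g v) (c • v)]
  exact add_mem (Submodule.mem_sup_left (apply_mem_of_smul_eq ho hy)) (Submodule.smul_mem _ d (add_mem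
    (Submodule.mem_sup_left h2) (Submodule.mem_sup_right (Submodule.smul_mem _ c
      (Submodule.mem_span_singleton_self v)))))

end CfsgLib.KP
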