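import Mathlib
import Cfsg.Agent.Lib.KP.Syl

/-! KP: 2-elements centralising a fixed-point-free element (plans/KP.md, package CQ). -/

set_option autoImplicit false
set_option linter.unusedSectionVars false

namespace CfsgLib.KP

open CfsgLib.CK CfsgLib.KL CfsgLib.Forms CfsgLib.RootMax CfsgLib.ClMax CfsgLib.Tech Module

variable {F : Type*} [Field F] [Finite F] {σ : F →+* F} {V : Type*} [AddCommGroup V] [Module F V] [Finite V]
  {P : PQ σ V} {q : ℕ} {K : Subgroup (V ≃ₗ[F] V)} {C : Set (Submodule F V)}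

namespace Cq

theorem aniso (h : ¬ IsSquare (-1 : F)) {a b : F} (e : a ^ 2 + b ^ 2 = 0) : a = 0 ∧ b = 0 := by
  by_cases hb : b = 0
  · rw [hb, zero_pow two_ne_zero, add_zero] at e
    exact ⟨pow_eq_zero_iff two_ne_zero |>.1 e, hb⟩
  · exact absurd ⟨a / b, by field_simp; linear_combination -e⟩ h

theorem exists_sq (ho : Odd (Nat.card F)) (u : F) : ∃ a b : F, a ^ 2 + b ^ 2 = u := by
  have := Fintype.ofFinite F
  obtain ⟨a, b, e⟩ := FiniteField.exists_root_sum_quadratic (f := (Polynomial.X ^ 2 : Polynomial F))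
    (g := Polynomial.X ^ 2 - Polynomial.C u) (Polynomial.degree_X_pow 2)
    (Polynomial.degree_X_pow_sub_C (by norm_num) u) (by rwa [← Nat.card_eq_fintype_card, ← Nat.odd_iff])
  simp only [Polynomial.eval_pow, Polynomial.eval_X, Polynomial.eval_sub, Polynomial.eval_C] at e
  exact ⟨a, b, by linear_combination e⟩

theorem lev_le (ho : Odd (Nat.card F)) {s : F} (hs : s ≠ 0) (t : F) :
    {p : F × F | p.1 ^ 2 + p.2 ^ 2 = t}.ncard ≤ {p : F × F | p.1 ^ 2 + p.2 ^ 2 = s * t}.ncard := by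
  obtain ⟨a, b, rfl⟩ := exists_sq ho s
  refine Set.ncard_le_ncard_of_injOn (fun p => (a * p.1 - b * p.2, a * p.2 + b * p.1)) (fun p hp => ?_)
    fun p _ p' _ e => ?_
  · rw [Set.mem_ofPred_eq] at hp ⊢
    rw [← hp]
    ring
  · obtain ⟨e1, e2⟩ := Prod.ext_iff.1 e
    dsimp only at e1 e2
    exact Prod.ext (mul_left_cancel₀ hs (by linear_combination a * e1 + b * e2))
      (mul_left_cancel₀ hs (by linear_combination a * e2 - b * e1))

/-- the level sets of the anisotropic plane -/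
theorem lev (ho : Odd (Nat.card F)) (h : ¬ IsSquare (-1 : F)) {t : F} (ht : t ≠ 0) :
    {p : F × F | p.1 ^ 2 + p.2 ^ 2 = t}.ncard = Nat.card F + 1 := by
  have d := dc_eq ({0}ᶜ : Set (F × F)) ({0}ᶜ : Set F) (fun p s => p.1 ^ 2 + p.2 ^ 2 = s) (m := 1)
    (k := {p : F × F | p.1 ^ 2 + p.2 ^ 2 = t}.ncard)
    (fun p hp => Set.ncard_eq_one.2 ⟨p.1 ^ 2 + p.2 ^ 2, Set.ext fun s => ⟨fun e => e.2.symm, by
      rintro rfl
      exact ⟨fun k => hp (Prod.ext (aniso h k).1 (aniso h k).2), rfl⟩⟩⟩) fun s hs => by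
    have h1 := lev_le ho (div_ne_zero hs ht) t
    have h2 := lev_le ho (div_ne_zero ht hs) s
    rw [div_mul_cancel₀ _ ht] at h1
    rw [div_mul_cancel₀ _ hs] at h2
    rw [← h2.antisymm h1]
    congr 1
    exact Set.ext fun p => and_iff_right_of_imp fun e k => hs (by rw [← e, k]; simp)
  have h1 := Set.ncard_add_ncard_compl ({0} : Set (F × F))
  have h2 := Set.ncard_add_ncard_compl ({0} : Set F)
  have h3 : 1 < Nat.card F := Finite.one_lt_card
  rw [Set.ncard_singleton] at h1 h2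
  have h4 : 0 < ({0}ᶜ : Set F).ncard := by omega
  rw [Nat.card_prod, ← h2] at h1
  refine Nat.eq_of_mul_eq_mul_left h4 ?_
  rw [← d, ← h2]
  nlinarith

theorem fib {X Y : Type*} [Finite X] [Finite Y] (S : Set Y) (r : X → Y → Prop) {k : ℕ}
    (h : ∀ y ∈ S, {p | r p y}.ncard = k) : {z : X × Y | z.2 ∈ S ∧ r z.1 z.2}.ncard = S.ncard * k := by
  rw [← dc_eq {z : X × Y | z.2 ∈ S ∧ r z.1 z.2} S (fun z y => z.2 = y) (m := 1)
    (fun z hz => Set.ncard_eq_one.2 ⟨z.2, Set.ext fun y => ⟨fun e => e.2.symm, by rintro rfl; exact ⟨hz.1, rfl⟩⟩⟩)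
    fun y hy => ?_, mul_one]
  rw [← h y hy, ← Set.ncard_image_of_injective {p | r p y} (Prod.mk_left_injective y)]
  congr 1
  ext z
  exact ⟨by rintro ⟨⟨-, e⟩, rfl⟩; exact ⟨z.1, e, rfl⟩, by rintro ⟨p, e, rfl⟩; exact ⟨⟨hy, e⟩, rfl⟩⟩

variable {W U : Submodule F V} {c g : V ≃ₗ[F] V}

theorem alt (k : IsSp P) (v w : V) : P.B w v = -P.B v w := by rw [P.symm, k.ε_eq, k.σ_eq, neg_one_mul]

/-- the zeros of `v ↦ B v (c v)` -/
theorem zeros (h : Pol P q) (k : IsSp P) (hs : ¬ IsSquare (-1 : F)) (hc : c ∈ P.isom) (n : ℕ) :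
    ∀ U, ND P U → finrank F U = 2 * n → (∀ w ∈ U, c w ∈ U) → (∀ w ∈ U, c (c w) = -w) →
      (q : ℤ) * {v | v ∈ U ∧ P.B v (c v) = 0}.ncard = q ^ (2 * n) + (q - 1) * (-q) ^ n := by
  induction n with
  | zero =>
    intro U _ h0 _ _
    rw [Submodule.finrank_eq_zero.1 h0, show {v | v ∈ (⊥ : Submodule F V) ∧ P.B v (c v) = 0} = {0} from
      Set.ext fun v => ⟨fun e => e.1, fun e => by rw [e]; simp⟩, Set.ncard_singleton]
    simp
  | succ n ih =>
    intro U hU hd c1 c2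
    have sym : ∀ v ∈ U, ∀ w, P.B w (c v) = P.B v (c w) := fun v hv w => by
      rw [← hc.B_eq w, c2 v hv, map_neg, alt k, neg_neg]
    obtain ⟨v, hv, hδ⟩ : ∃ v ∈ U, P.B v (c v) ≠ 0 := by
      by_contra! h0
      obtain ⟨w, hw, w0⟩ := (Submodule.ne_bot_iff U).1 (by rintro rfl; simp at hd)
      refine w0 (c.map_eq_zero_iff.1 (Submodule.disjoint_def.1 hU _ (c1 w hw) fun v hv => ?_))
      have := h0 _ (add_mem hv hw)
      rw [map_add c, P.B_add_left, P.B_add_right, P.B_add_right, h0 v hv, h0 w hw, sym v hv w] at this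
      exact (mul_eq_zero.1 (by linear_combination this)).resolve_left k.two
    have b0 : ∀ x, P.B x x = 0 := fun x => (k.sing h x).self_eq
    let L := Submodule.span F {v, c v}
    have LU : L ≤ U := Submodule.span_le.2 (Set.insert_subset hv (Set.singleton_subset_iff.2 (c1 v hv)))
    have mp : ∀ y, y ∈ P.perp L ↔ P.B v y = 0 ∧ P.B (c v) y = 0 := fun y => by simp [L, P.mem_perp_span]
    have co : ∀ a b : F, ∀ y ∈ P.perp L, P.B v (a • v + b • c v + y) = b * P.B v (c v) ∧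
        P.B (c v) (a • v + b • c v + y) = -a * P.B v (c v) := fun a b y hy => by
      simp only [P.B_add_right, P.B_smul_right, b0, ((mp y).1 hy).1, ((mp y).1 hy).2, alt k v (c v)]
      constructor <;> ring
    have nL : ND P L := Submodule.disjoint_def.2 fun x hx hx' => by
      obtain ⟨a, b, rfl⟩ := Submodule.mem_span_pair.1 hx
      have := co a b 0 (zero_mem _)
      rw [add_zero, ((mp _).1 hx').1, ((mp _).1 hx').2] at this
      rw [(mul_eq_zero.1 this.1.symm).resolve_right hδ, neg_eq_zero.1 ((mul_eq_zero.1 this.2.symm).resolve_right hδ)]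
      simp
    have dL : finrank F L = 2 := le_antisymm (finrank_span_pair_le v (c v))
      (two_le_of_sing nL (Submodule.subset_span (Set.mem_insert _ _)) (k.sing h v) fun e => hδ (by simp [e]))
    obtain ⟨n1, n2, n3⟩ := ND.inf_perp h.nd hU nL LU
    have cp : ∀ y ∈ U ⊓ P.perp L, c y ∈ U ⊓ P.perp L := fun y hy => ⟨c1 y hy.1, (mp _).2
      ⟨by rw [← sym v hv, alt k, ((mp y).1 hy.2).2, neg_zero], by rw [hc.B_eq, ((mp y).1 hy.2).1]⟩⟩
    have i := ih _ n1 (by omega) cp fun w hw => c2 w hw.1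
    have be : ∀ a b : F, ∀ y ∈ U ⊓ P.perp L, P.B (a • v + b • c v + y) (c (a • v + b • c v + y)) =
        (a ^ 2 + b ^ 2) * P.B v (c v) + P.B y (c y) := fun a b y hy => by
      have e1 := co (-b) a _ (cp y hy).2
      have e2 : c (a • v + b • c v + y) = -b • v + a • c v + c y := by
        rw [map_add, map_add, map_smul, map_smul, c2 v hv]
        module
      rw [e2, P.B_add_left, P.B_add_left, P.B_smul_left, P.B_smul_left, e1.1, e1.2, k.σ_eq, k.σ_eq, P.B_add_right,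
        P.B_add_right, P.B_smul_right, P.B_smul_right, alt k v y, alt k (c v) y, ((mp y).1 hy.2).1, ((mp y).1 hy.2).2]
      ring
    set Z := {y | y ∈ U ⊓ P.perp L ∧ P.B y (c y) = 0}
    have f1 := fib Z (fun (p : F × F) y => (p.1 ^ 2 + p.2 ^ 2) * P.B v (c v) + P.B y (c y) = 0) (k := 1) fun y hy =>
      Set.ncard_eq_one.2 ⟨0, Set.ext fun p => ⟨fun e => by
        rw [Set.mem_ofPred_eq, hy.2, add_zero] at e
        have := aniso hs ((mul_eq_zero.1 e).resolve_right hδ)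
        exact Prod.ext this.1 this.2, fun e => by rw [e]; simp [hy.2]⟩⟩
    have f2 := fib (↑(U ⊓ P.perp L) \ Z) (fun (p : F × F) y => (p.1 ^ 2 + p.2 ^ 2) * P.B v (c v) + P.B y (c y) = 0)
      (k := q + 1) fun y hy => by
        rw [← h.card_sp k, ← lev (by rw [h.card_sp k]; exact h.odd k) hs
          (t := -P.B y (c y) / P.B v (c v)) (div_ne_zero (neg_ne_zero.2 fun e => hy.2 ⟨hy.1, e⟩) hδ)]
        congr 1
        exact Set.ext fun p => by simp only [Set.mem_ofPred_eq, eq_div_iff hδ, eq_neg_iff_add_eq_zero]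
    have f3 := Set.ncard_sdiff_add_ncard_of_subset (s := Z) (t := ↑(U ⊓ P.perp L)) fun y hy => hy.1
    rw [cn_sub, h.card_sp k, show finrank F ↥(U ⊓ P.perp L) = 2 * n by omega] at f3
    have f4 : {v | v ∈ U ∧ P.B v (c v) = 0}.ncard = Z.ncard * 1 + (↑(U ⊓ P.perp L) \ Z).ncard * (q + 1) := by
      rw [← f1, ← f2, ← Set.ncard_union_eq (Set.disjoint_left.2 fun z a b => b.1.2 a.1)]
      symm
      refine Set.ncard_congr (fun z _ => z.1.1 • v + z.1.2 • c v + z.2) ?_ ?_ ?_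
      · rintro ⟨⟨a, b⟩, y⟩ hz
        have hy : y ∈ U ⊓ P.perp L := hz.elim (·.1.1) (·.1.1)
        exact ⟨add_mem (add_mem (U.smul_mem a hv) (U.smul_mem b (c1 v hv))) hy.1,
          (be a b y hy).trans (hz.elim (·.2) (·.2))⟩
      · rintro ⟨⟨a, b⟩, y⟩ ⟨⟨a', b'⟩, y'⟩ hz hz' e
        have e1 := co a b y (hz.elim (·.1.1) (·.1.1) : y ∈ U ⊓ P.perp L).2
        have e2 := co a' b' y' (hz'.elim (·.1.1) (·.1.1) : y' ∈ U ⊓ P.perp L).2
        dsimp only at e
        rw [e] at e1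
        obtain rfl := mul_right_cancel₀ hδ (e1.1.symm.trans e2.1)
        obtain rfl := neg_injective (mul_right_cancel₀ hδ (e1.2.symm.trans e2.2))
        rw [add_left_cancel e]
      · rintro x ⟨hx, e⟩
        obtain ⟨l, hl, y, hy, rfl⟩ := Submodule.mem_sup.1 (n3.ge hx)
        obtain ⟨a, b, rfl⟩ := Submodule.mem_span_pair.1 hl
        rw [be a b y hy] at e
        refine ⟨((a, b), y), ?_, rfl⟩
        by_cases hz : y ∈ Z
        exacts [Or.inl ⟨hz, e⟩, Or.inr ⟨⟨hy, hz⟩, e⟩]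
    have f5 : ((↑(U ⊓ P.perp L) \ Z).ncard : ℤ) + Z.ncard = q ^ (2 * n) := by exact_mod_cast f3
    rw [f4]
    push_cast
    linear_combination (q : ℤ) * (q + 1) * f5 - q * i

/-- eigenspaces inside `W` -/
def Eg (W : Submodule F V) (c : V ≃ₗ[F] V) (μ : F) : Submodule F V := W ⊓ End.eigenspace (c : End F V) μ

theorem mem_Eg {μ : F} {v : V} : v ∈ Eg W c μ ↔ v ∈ W ∧ c v = μ • v :=
  and_congr_right fun _ => End.mem_eigenspace_iff

theorem smul_Eg (gW : g • W = W) (hcg : Commute c g) (μ : F) : g • Eg W c μ = Eg W c μ :=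
  smul_eq_of_le fun v hv => mem_Eg.2 ⟨apply_mem_of_smul_eq gW hv.1, by
    rw [← map_smul, ← (mem_Eg.1 hv).2]
    exact DFunLike.congr_fun hcg.eq v⟩

theorem Eg_dich {m : ℕ} (hm : finrank F W = 2 * m) {μ : F} (h : 2 * m ∣ finrank F (Eg W c μ)) :
    (∀ w ∈ W, c w = μ • w) ∨ ∀ w ∈ W, c w = μ • w → w = 0 := by
  have h1 : finrank F (Eg W c μ) ≤ finrank F W := Submodule.finrank_mono inf_le_left
  by_cases h0 : finrank F (Eg W c μ) = 0
  · exact Or.inr fun w hw e => (Submodule.finrank_eq_zero.1 h0).le (mem_Eg.2 ⟨hw, e⟩)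
  · have := Nat.le_of_dvd (Nat.pos_of_ne_zero h0) h
    exact Or.inl fun w hw => (mem_Eg.1 ((Submodule.eq_of_le_of_finrank_le (inf_le_left : Eg W c μ ≤ W)
      (hm.le.trans this)).ge hw)).2

end Cq

open Cq in
theorem cq (h : Pol P q) (k : IsSp P) {W : Submodule F V} (hW : ND P W) {m e u : ℕ} (hm : finrank F W = 2 * m)
    (h2 : 2 ≤ m) (hu : Od u q e) (he : (e = 2 * m ∧ (q % 4 = 1 ∨ Even m)) ∨ (e = m ∧ Odd m ∧ q % 4 = 3))
    {g c : V ≃ₗ[F] V} (hg : g ∈ P.isom) (ho : orderOf g = u) (gW : g • W = W) (fpf : ∀ w ∈ W, g w = w → w = 0)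
    (hc : c ∈ P.isom) (cW : c • W = W) {j : ℕ} (h2c : c ^ 2 ^ j = 1) (hcg : Commute c g) :
    (∀ w ∈ W, c w = w) ∨ ∀ w ∈ W, c w = -w := by
  have := Fact.mk hu.1
  have hq : 0 < q := by have := h.three; omega
  have hR : IsPGroup u (Subgroup.zpowers g) := IsPGroup.of_card (n := 1) (by rw [Nat.card_zpowers, ho, pow_one])
  have dm : ∀ U ≤ W, g • U = U → e ∣ finrank F U := fun U hU gU => by
    have := dim_lin hu.1 hR (W := U) (Subgroup.zpowers_le_of_mem (show g ∈ MulAction.stabilizer _ U from gU) :)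
      (Submodule.disjoint_def.2 fun w hw e => fpf w (hU hw) (e g (Subgroup.mem_zpowers g)))
    rwa [h.card_sp k, hu.modEq hq] at this
  induction j generalizing c with
  | zero => exact Or.inl fun w _ => by rw [pow_zero, pow_one] at h2c; rw [h2c]; rfl
  | succ j ih =>
  have c1 : ∀ w ∈ W, c w ∈ W := fun w => apply_mem_of_smul_eq cW
  have dE := fun μ => dm (Eg W c μ) inf_le_left (smul_Eg gW hcg μ)
  rcases ih (c := c * c) (mul_mem hc hc) (by rw [mul_smul, cW, cW]) (by rw [← sq, ← pow_mul, ← pow_succ', h2c])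
    (hcg.mul_left hcg) with c2 | c2 <;> simp only [LinearEquiv.mul_apply] at c2
  · have m1 : ∀ w ∈ W, w + c w ∈ Eg W c 1 := fun w hw =>
      mem_Eg.2 ⟨add_mem hw (c1 w hw), by rw [map_add, c2 w hw, one_smul, add_comm]⟩
    have nd : ND P (Eg W c 1) := P.disjoint_perp_iff.2 fun v hv h0 => P.disjoint_perp_iff.1 hW v hv.1 fun w hw => by
      have e1 := h0 _ (m1 w hw)
      have e2 := hc.B_eq v w
      rw [(mem_Eg.1 hv).2, one_smul] at e2
      rw [P.B_add_right, e2] at e1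
      exact (mul_eq_zero.1 (by linear_combination e1)).resolve_left k.two
    refine (Eg_dich hm (μ := 1) ?_).imp (fun e w hw => by rw [e w hw, one_smul]) fun e w hw =>
      eq_neg_of_add_eq_zero_right (e _ (m1 w hw).1 (mem_Eg.1 (m1 w hw)).2)
    rcases he with ⟨rfl, -⟩ | ⟨rfl, o, -⟩
    · exact dE 1
    · exact Nat.Coprime.mul_dvd_of_dvd_of_dvd (Nat.coprime_two_left.2 o) (even_nd h k nd).two_dvd (dE 1)
  exfalso
  by_cases hs : IsSquare (-1 : F)
  · obtain ⟨i, hi⟩ := hs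
    have := Fintype.ofFinite F
    have q3 := FiniteField.isSquare_neg_one_iff.1 ⟨i, hi⟩
    rw [← Nat.card_eq_fintype_card, h.card_sp k] at q3
    obtain rfl : e = 2 * m := he.elim (·.1) fun e => absurd e.2.2 q3
    have ns : ∀ μ : F, μ * μ = -1 → ¬ ∀ w ∈ W, c w = μ • w := fun μ hμ e => by
      obtain ⟨w, hw, w0⟩ := (Submodule.ne_bot_iff W).1 (by rintro rfl; simp at hm; omega)
      refine w0 (P.disjoint_perp_iff.1 hW w hw fun v hv => ?_)
      have := hc.B_eq w v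
      rw [e w hw, e v hv, P.B_smul_left, P.B_smul_right, k.σ_eq, ← mul_assoc, hμ] at this
      exact (mul_eq_zero.1 (by linear_combination -this)).resolve_left k.two
    refine ns (-i) (by rw [neg_mul_neg, hi]) fun w hw => ?_
    rw [neg_smul]
    refine eq_neg_of_add_eq_zero_left ((Eg_dich hm (dE i)).resolve_left (ns i hi.symm) _
      (add_mem (c1 w hw) (W.smul_mem i hw)) ?_)
    rw [map_add, map_smul, c2 w hw, smul_add, smul_smul, ← hi, neg_one_smul, add_comm]
  have z := zeros h k hs hc m W hW hm c1 c2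
  have z1 := ncard_fx_modEq hu.1 hR (X := {v | v ∈ W ∧ P.B v (c v) = 0}) fun x hx v hv => by
    have hx' := Subgroup.zpowers_le_of_mem (show g ∈ MulAction.stabilizer _ W ⊓ P.isom ⊓ Subgroup.centralizer {c} from
      ⟨⟨gW, hg⟩, Subgroup.mem_centralizer_singleton_iff.2 hcg.symm.eq⟩) hx
    refine ⟨apply_mem_of_smul_eq hx'.1.1 hv.1, ?_⟩
    rw [← hv.2, ← hx'.1.2.B_eq v]
    exact congrArg _ (DFunLike.congr_fun (Subgroup.mem_centralizer_singleton_iff.1 hx'.2) v).symm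
  rw [show {a | a ∈ {v | v ∈ W ∧ P.B v (c v) = 0} ∧ Fx (Subgroup.zpowers g) a} = {0} from Set.ext fun v =>
    ⟨fun e => fpf v e.1.1 (e.2 g (Subgroup.mem_zpowers g)), fun e => by
      rw [e]; exact ⟨⟨zero_mem _, by simp⟩, fun x _ => smul_zero x⟩⟩, Set.ncard_singleton,
    ← ZMod.natCast_eq_natCast_iff] at z1
  have z2 := congrArg (Int.cast : ℤ → ZMod u) z
  push_cast at z2 z1
  have e2 : 2 ≤ e := by omega
  rw [z1, (hu.nat_iff _).2 (he.elim (fun e => e.1 ▸ dvd_rfl) fun e => e.1 ▸ dvd_mul_left _ _)] at z2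
  have z3 : (-q : ZMod u) ^ m = 1 := sub_eq_zero.1 ((mul_eq_zero.1 (by linear_combination -z2)).resolve_left
    (sub_ne_zero.2 fun e1 : (q : ZMod u) = 1 => absurd (Nat.le_of_dvd one_pos ((hu.nat_iff 1).1 (by rwa [pow_one])))
      (by omega)))
  rcases he with ⟨rfl, q1 | ev⟩ | ⟨rfl, o, -⟩
  · have := Fintype.ofFinite F
    exact hs (FiniteField.isSquare_neg_one_iff.2 (by rw [← Nat.card_eq_fintype_card, h.card_sp k]; omega))
  · rw [ev.neg_pow, hu.nat_iff] at z3
    have := Nat.le_of_dvd (by omega) z3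
    omega
  · rw [o.neg_pow, (hu.nat_iff _).2 dvd_rfl] at z3
    have z4 := (ZMod.natCast_eq_zero_iff 2 u).1 (by push_cast; linear_combination -z3)
    have z5 := hu.dvd_pred (by omega)
    rw [(Nat.prime_dvd_prime_iff_eq hu.1 Nat.prime_two).1 z4] at z5
    have := Nat.le_of_dvd one_pos z5
    omega

end CfsgLib.KP
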