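import Mathlib
import Cfsg.Agent.Lib.KP.S12
import Cfsg.Agent.Lib.KP.Intr

/-! KP: the dichotomy for two line orbits (plans/KP.md, package DICH2). -/

set_option autoImplicit false
set_option linter.unusedSectionVars false

namespace CfsgLib.KP

open CfsgLib.CK CfsgLib.KL CfsgLib.Forms CfsgLib.RootMax CfsgLib.ClMax CfsgLib.Tech Module

variable {F : Type*} [Field F] [Finite F] {σ : F →+* F} {V : Type*} [AddCommGroup V] [Module F V] [Finite V]
  {P : PQ σ V} {q : ℕ} {K : Subgroup (V ≃ₗ[F] V)} {C : Set (Submodule F V)}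

section Abs

variable {X Z : Type*} [Finite X] [Finite Z]

theorem d2_comm (S : Set Z) (A : Set X) (r : Z → X → Prop) (u : Z → X → ℂ) :
    sm S (fun z => sm {x | x ∈ A ∧ r z x} (u z)) = sm A fun x => sm {z | z ∈ S ∧ r z x} fun z => u z x := by
  classical
  have h1 : ∀ z, sm {x | x ∈ A ∧ r z x} (u z) = ∑ x ∈ A.toFinite.toFinset, if r z x then u z x else 0 := fun z => by
    rw [sm_eq_sum, ← Finset.sum_filter]
    congr 1
    ext x
    simp
  have h2 : ∀ x, sm {z | z ∈ S ∧ r z x} (fun z => u z x) =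
      ∑ z ∈ S.toFinite.toFinset, if r z x then u z x else 0 := fun x => by
    rw [sm_eq_sum, ← Finset.sum_filter]
    congr 1
    ext z
    simp
  simp only [h1, h2]
  rw [sm_eq_sum, sm_eq_sum, Finset.sum_comm]

theorem d2_one (S : Set X) : sm S (fun _ => 1) = S.ncard := by rw [sm_const (c := 1) fun _ _ => rfl, mul_one]

theorem d2_aff (S O : Set X) (a b : ℂ) : sm S (fun x => a + b * ind O x) = S.ncard * a + b * (O ∩ S).ncard := by
  rw [in_add, in_mul, sm_ind, sm_const (c := a) fun _ _ => rfl]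

theorem d2_cst {S : Set X} {n : X → ℕ} {a b : ℂ} (ha : a ≠ 0) (h : ∀ x ∈ S, a * n x = b) : ∃ k, ∀ x ∈ S, n x = k := by
  obtain h0 | ⟨x, hx⟩ := S.eq_empty_or_nonempty
  · exact ⟨0, by simp [h0]⟩
  · exact ⟨n x, fun x' hx' => by exact_mod_cast mul_left_cancel₀ ha ((h x' hx').trans (h x hx).symm)⟩

end Abs

/-- the sum of `η` over the points of a line -/
noncomputable def d2e (P : PQ σ V) (C : Set (Submodule F V)) (m : Submodule F V) : ℂ :=
  sm (ins (T P 1) m) fun z => (eta P C z m : ℂ)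

theorem d2e_inv (hK : K ≤ P.isom) (hC : Inv K C) {g : V ≃ₗ[F] V} (hg : g ∈ K) (m : Submodule F V) :
    d2e P C (g • m) = d2e P C m := by
  have e := (eqI_ins (Z := Submodule F V) (a := fun z => z) P 1 fun _ _ _ => rfl).sm (hK hg) m
    fun z => (eta P C z (g • m) : ℂ)
  simp only [eta_inv hK hC hg] at e
  exact e.symm

theorem d2e_nat (m : Submodule F V) : ∃ a : ℕ, d2e P C m = a :=
  ⟨∑ z ∈ (ins (T P 1) m).toFinite.toFinset, eta P C z m, by rw [d2e, sm_eq_sum, Nat.cast_sum]⟩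

variable {x l : Submodule F V}

/-- split off the point `x` -/
theorem d2e_split (hC : C ⊆ T P 2) (hx : x ∈ T P 1) {m : Submodule F V} (hm : m ∈ Pt P x) :
    d2e P C m = eta P C x m +
      sm {z | z ∈ T P 1 \ {x} ∧ z ≤ m} fun z => (cnt (thru C z) (P.perp x) : ℂ) := by
  rw [d2e, sm_diff (S := ins (T P 1) m) (S' := {x}) (Set.singleton_subset_iff.2 ⟨hx, hm.2.1⟩), sm_single,
    show ins (T P 1) m \ {x} = {z | z ∈ T P 1 \ {x} ∧ z ≤ m} from
      Set.ext fun z => ⟨fun k => ⟨⟨k.1.1, k.2⟩, k.1.2⟩, fun k => ⟨⟨k.1.1, k.2⟩, k.1.2⟩⟩]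
  congr 1
  refine sm_congr fun z hz => ?_
  have e := (T.inf_mem (k := 0) (cn_T hx hm) hz.1.1 hx hz.2 hm.2.1 hz.1.2).2
  rw [eta, cnt, cnt, ← e, P.perp_sup]
  congr 2
  ext m'
  exact ⟨fun k => ⟨k.1, k.2.trans inf_le_right⟩,
    fun k => ⟨k.1, le_inf (T.le_perp (hC k.1.1) le_rfl k.1.2) k.2⟩⟩

/-- the points other than `x` are distributed over the lines through `x` -/
theorem d2_pts (hx : x ∈ T P 1) (hxl : x ≤ l) (hl : P.TS l) (g : Submodule F V → ℂ) :
    sm (ins (Pt P x) (P.perp l)) (fun m => sm {z | z ∈ T P 1 \ {x} ∧ z ≤ m} g) =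
      sm (ins (T P 1) (P.perp l) \ {x}) g := by
  rw [sm_comm, sm_sub (S := T P 1 \ {x}) (S' := ins (T P 1) (P.perp l) \ {x}) (fun z k => ⟨k.1.1, k.2⟩)
    fun z hz k => ?_]
  · refine sm_congr fun z hz => ?_
    have b1 : ¬ z ≤ x := fun k => hz.2 (T.eq_of_le hz.1.1 hx k)
    have b2 := T.sup_pt hx (pt_bot P ▸ hz.1.1) bot_le (hz.1.2.trans (P.perp_anti hxl)) b1
    have b3 : x ⊔ z ∈ Pt P x := ⟨b2.1, le_sup_left, by rw [b2.2, hx.2]⟩
    have b4 : {m | m ∈ ins (Pt P x) (P.perp l) ∧ z ≤ m} = {x ⊔ z} := by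
      ext m
      exact ⟨fun k => (Pt.eq_of_le b3 k.1.1 (sup_le k.1.1.2.1 k.2)).symm, fun k => by
        rw [k]; exact ⟨⟨b3, sup_le (hxl.trans hl.2) hz.1.2⟩, le_sup_right⟩⟩
    rw [b4, Set.ncard_singleton, Nat.cast_one, one_mul]
  · have : {m | m ∈ ins (Pt P x) (P.perp l) ∧ z ≤ m} = ∅ :=
      Set.eq_empty_of_forall_notMem fun m k' => k ⟨⟨hz.1, k'.2.trans k'.1.2⟩, hz.2⟩
    rw [this, Set.ncard_empty, Nat.cast_zero, zero_mul]

/-- the count of the pairs `z ≤ m'` -/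
theorem d2_pairs (hC : C ⊆ T P 2) (hx : x ∈ T P 1) (hl : l ∈ Pt P x) :
    sm (ins (T P 1) (P.perp l) \ {x}) (fun z => (cnt (thru C z) (P.perp x) : ℂ)) =
      cnt C (P.perp x) + Nat.card F * cnt C (P.perp l) - (thru C x).ncard := by
  have a := sm_comm (ins (T P 1) (P.perp l) \ {x}) (ins C (P.perp x)) (fun z m => z ≤ m) fun _ => 1
  have b : ∀ m ∈ ins C (P.perp x), ({z | z ∈ ins (T P 1) (P.perp l) \ {x} ∧ z ≤ m}.ncard : ℂ) * 1 =
      (1 + Nat.card F * ind (ins C (P.perp l)) m) + (-1) * ind (thru C x) m := fun m hm => by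
    have h2 := (hC hm.1).2
    have c1 := cn_split (C := ins (T P 1) (m ⊓ P.perp l)) (l := x) _ Iff.rfl
    have c2 : ind (ins (T P 1) (m ⊓ P.perp l)) x = ind (thru C x) m := by
      by_cases k : x ≤ m
      · rw [ind_mem (O := ins _ _) ⟨hx, le_inf k (ij_le hl)⟩, ind_mem (O := thru _ _) ⟨hm.1, k⟩]
      · rw [ind_not fun k' => k (k'.2.trans inf_le_left), ind_not fun k' => k k'.2]
    have c3 : ((ins (T P 1) (m ⊓ P.perp l)).ncard : ℂ) = 1 + Nat.card F * ind (ins C (P.perp l)) m := by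
      rw [← cnt_eq, cnt_T1 ⟨(hC hm.1).1.mono inf_le_left, rfl⟩]
      by_cases k : m ≤ P.perp l
      · rw [inf_eq_left.2 k, h2, cn_th2, ind_mem (O := ins _ _) ⟨hm.1, k⟩]
        push_cast
        ring
      · have := finrank_inf_perp hl hm.2 k
        rw [show finrank F ↥(m ⊓ P.perp l) = 1 by omega, cn_th1, ind_not fun k' => k k'.2]
        simp
    rw [show {z | z ∈ ins (T P 1) (P.perp l) \ {x} ∧ z ≤ m} = ins (T P 1) (m ⊓ P.perp l) \ {x} from
      Set.ext fun z => ⟨fun k => ⟨⟨k.1.1.1, le_inf k.2 k.1.1.2⟩, k.1.2⟩,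
        fun k => ⟨⟨⟨k.1.1, k.1.2.trans inf_le_right⟩, k.2⟩, k.1.2.trans inf_le_left⟩⟩]
    linear_combination c3 - c1 - c2
  have e1 : ins C (P.perp l) ∩ ins C (P.perp x) = ins C (P.perp l) :=
    Set.inter_eq_left.2 fun _ k => ⟨k.1, k.2.trans (P.perp_anti hl.2.1)⟩
  have e2 : thru C x ∩ ins C (P.perp x) = thru C x :=
    Set.inter_eq_left.2 fun _ k => ⟨k.1, T.le_perp (hC k.1) le_rfl k.2⟩
  rw [sm_congr b, in_add, d2_aff, in_mul, sm_ind, e1, e2] at a
  rw [cnt_eq C, cnt_eq C]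
  refine Eq.trans (sm_congr fun z _ => ?_) (a.trans (by ring))
  rw [d2_one, cnt]
  congr 2
  ext m
  exact ⟨fun k => ⟨⟨k.1.1, k.2⟩, k.1.2⟩, fun k => ⟨⟨k.1.1, k.2⟩, k.1.2⟩⟩

/-- the sum of `η` over the lines through a point -/
theorem d2_pen (h : Pol P q) (hC : C ⊆ T P 2) (hx : x ∈ T P 1) :
    sm {m | m ∈ T P 2 ∧ x ≤ m} (fun m => (eta P C x m : ℂ)) =
      (thru C x).ncard * kk (Nat.card F) q (finrank F V - 2) := by
  have k : Pt P x = {m | m ∈ T P 2 ∧ x ≤ m} := pt_eq_thru hx.2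
  have a := sm_comm (Pt P x) (thru C x) (fun m m' => m' ≤ P.perp m) fun _ => 1
  simp only [d2_one] at a
  rw [← k]
  refine a.trans (sm_const fun m hm => ?_)
  rw [mul_one, ← cnt_perp_pt h hx (Z := m) (k ▸ ⟨hC hm.1, hm.2⟩), cnt]
  simp only [P.le_perp_comm (W := m)]

theorem dich2 (h : Lv P q K C) : (∃ h₁ h₂, Cl P C h₁ h₂) ∨ ∀ x ∈ T P 1,
    (np (Nat.card F) q (finrank F V - 2) : ℤ) ∣ (thru C x).ncard *
      (((Nat.card F : ℤ) + 1) * kk (Nat.card F) q (finrank F V - 2) - ss (Nat.card F) q (finrank F V - 2)) := by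
  have hC := h.part.sub
  have six := h.six
  obtain ⟨n₀, hn⟩ := h.ncard_thru
  obtain ⟨α, β, he⟩ := aff_of_two hC h.t0 h.t1 (hh := d2e P C) fun g hg m _ => d2e_inv h.le' h.part.inv hg m
  obtain ⟨a, b, hF⟩ := aff_of_two hC h.t0 h.t1 (hh := fun l => (cnt C (P.perp l) : ℂ)) fun g hg m _ => by
    rw [← smul_perp (h.le' hg), cnt_inv h.part.inv hg]
  obtain ⟨c, hc⟩ := ij_const subset_rfl h.tr (hh := fun x => (cnt C (P.perp x) : ℂ)) fun g hg m _ => by
    rw [← smul_perp (h.le' hg), cnt_inv h.part.inv hg]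
  by_cases hβ : β - (ss (Nat.card F) q (finrank F V - 2) : ℤ) = 0
  · refine Or.inr fun x hx => ?_
    obtain ⟨m₀, hm₀, hn₀⟩ := h.part.ne'
    obtain ⟨α', hα⟩ := d2e_nat (P := P) (C := C) m₀
    rw [he m₀ hm₀, ind_not hn₀, mul_zero, add_zero] at hα
    have s1 := d2_comm (T P 2) (T P 1) (fun m z => z ≤ m) fun m z => (eta P C z m : ℂ)
    rw [sm_const (S := T P 1) fun z hz => (d2_pen h.pol hC hz).trans (by rw [hn z hz]), ncard_T1 h.pol] at s1
    have s2 : sm (T P 2) (d2e P C) = _ := s1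
    rw [sm_congr he, d2_aff, Set.inter_eq_left.2 hC] at s2
    have s3 : ((T P 2).ncard : ℂ) * (Nat.card F + 1) =
        np (Nat.card F) q (finrank F V) * np (Nat.card F) q (finrank F V - 2) := by exact_mod_cast ncard_T2 h.pol
    have s4 := sm_comm (T P 1) C (fun z m => z ≤ m) fun _ => 1
    simp only [d2_one] at s4
    rw [sm_const (c := n₀) (u := fun z => ({m | m ∈ C ∧ z ≤ m}.ncard : ℂ))
      fun z hz => congrArg Nat.cast (hn z hz), ncard_T1 h.pol,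
      sm_const (c := Nat.card F + 1) fun m hm => by
        rw [mul_one, ← cnt, cnt_T1 (hC hm), cn_th2, Nat.cast_add, Nat.cast_one]] at s4
    have N0 : (np (Nat.card F) q (finrank F V) : ℂ) ≠ 0 := Nat.cast_ne_zero.2 (np_pos _ _ (by omega)).ne'
    refine ⟨α', ?_⟩
    rw [hn x hx]
    have s5 : (n₀ : ℂ) * ((Nat.card F + 1) * kk (Nat.card F) q (finrank F V - 2) -
        (ss (Nat.card F) q (finrank F V - 2) : ℤ)) = np (Nat.card F) q (finrank F V - 2) * α' :=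
      mul_left_cancel₀ N0 (by
        linear_combination (-((Nat.card F : ℂ) + 1)) * s2 + α * s3 - β * s4 +
          np (Nat.card F) q (finrank F V) * n₀ * hβ +
          np (Nat.card F) q (finrank F V) * np (Nat.card F) q (finrank F V - 2) * hα)
    exact_mod_cast s5
  obtain ⟨c₀, c₁, key⟩ : ∃ c₀ c₁ : ℂ, ∀ y ∈ T2 P 1 2,
      (β - (ss (Nat.card F) q (finrank F V - 2) : ℤ)) * eta P C y.1 y.2 = c₀ + c₁ * ind C y.2 := by
    refine ⟨np (Nat.card F) q (finrank F V - 2 - 2) * n₀ + c + Nat.card F * a - n₀ -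
      kk (Nat.card F) q (finrank F V - 2) * α, (Nat.card F ^ ((finrank F V - 2) / 2 - 1) *
      Nat.card F ^ ((finrank F V - 2) / 2 - 2) * tt (Nat.card F) q (finrank F V - 2) : ℕ) + Nat.card F * b, ?_⟩
    rintro ⟨x, l⟩ ⟨hxl, hx, hl⟩
    dsimp only at hxl hx hl ⊢
    have k : Pt P x = thru (T P 2) x := pt_eq_thru hx.2
    have hl' : l ∈ Pt P x := k ▸ ⟨hl, hxl⟩
    have r1 := sq_rel h.pol hx (R := thru C x) (k ▸ fun m hm => ⟨hC hm.1, hm.2⟩) (d := finrank F V - 2)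
      (by omega) (by omega) hl'
    have r2 : ind (thru C x) l = ind C l := by
      by_cases t : l ∈ C
      · rw [ind_mem t, ind_mem (O := thru _ _) ⟨t, hxl⟩]
      · rw [ind_not t, ind_not fun t' => t t'.1]
    have r3 : sm (ins (Pt P x) (P.perp l)) (d2e P C) =
        kk (Nat.card F) q (finrank F V - 2) * α + β * eta P C x l := by
      rw [sm_congr fun m hm => he m (cn_T hx hm.1), d2_aff, ← cnt_eq, cnt_perp_pt h.pol hx hl', k,
        inter_ins_thru hC, ← cnt_eq, eta]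
    rw [sm_congr fun m hm => d2e_split hC hx hm.1, in_add, d2_pts hx hxl hl.1, d2_pairs hC hx hl', hc x hx,
      hF l hl, hn x hx] at r3
    rw [r2, hn x hx, ← eta] at r1
    have r4 : sm (ins (Pt P x) (P.perp l)) (fun m => (eta P C x m : ℂ)) = _ := r1
    linear_combination r4 - r3
  obtain ⟨h₁, e₁⟩ := d2_cst (S := {y | y ∈ T2 P 1 2 ∧ y.2 ∈ C}) (n := fun y => eta P C y.1 y.2) hβ
    fun y hy => (key y hy.1).trans (by rw [ind_mem hy.2])
  obtain ⟨h₂, e₂⟩ := d2_cst (S := {y | y ∈ T2 P 1 2 ∧ y.2 ∉ C}) (n := fun y => eta P C y.1 y.2) hβ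
    fun y hy => (key y hy.1).trans (by rw [ind_not hy.2])
  exact Or.inl ⟨h₁, h₂, h.cl (fun y a b => e₁ y ⟨a, b⟩) fun y a b => e₂ y ⟨a, b⟩⟩

end CfsgLib.KP
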