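import Mathlib
import Cfsg.Agent.Lib.KP.Geo

/-! KP: closed sets of singular vectors (plans/KP.md, package GEN). -/

set_option autoImplicit false
set_option linter.unusedSectionVars false

namespace CfsgLib.KP

open CfsgLib.CK CfsgLib.KL CfsgLib.Forms CfsgLib.RootMax CfsgLib.ClMax CfsgLib.Tech Module

variable {F : Type*} [Field F] [Finite F] {σ : F →+* F} {V : Type*} [AddCommGroup V] [Module F V] [Finite V]
  {P : PQ σ V} {q : ℕ} {K : Subgroup (V ≃ₗ[F] V)} {C : Set (Submodule F V)}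

variable {O : Set V} {D : Submodule F V}

section Hcl

variable {R : Set (Submodule F V)}

theorem GH.sing (hR : GH P ⊥ R) {v : V} (hv : v = 0 ∨ (F ∙ v) ∈ R) : P.Sing v := by
  rcases hv with rfl | hv
  · exact P.sing_zero
  · exact (hR.sub hv).1.1 v (Submodule.mem_span_singleton_self v)

theorem gh_smul {v : V} (hv : v = 0 ∨ (F ∙ v) ∈ R) (c : F) : c • v = 0 ∨ (F ∙ c • v) ∈ R := by
  by_cases hc : c = 0
  · exact Or.inl (by rw [hc, zero_smul])
  · rw [Submodule.span_singleton_smul_eq (IsUnit.mk0 c hc)]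
    exact hv.imp_left fun e => by rw [e, smul_zero]

theorem GH.add0 (hR : GH P ⊥ R) {u v : V} (hu : u = 0 ∨ (F ∙ u) ∈ R) (hv : v = 0 ∨ (F ∙ v) ∈ R)
    (h0 : P.B u v = 0) : u + v = 0 ∨ (F ∙ (u + v)) ∈ R := by
  have hs := (hR.sing hu).add (hR.sing hv) h0
  rcases hu with rfl | hu
  · rwa [zero_add]
  rcases hv with rfl | hv
  · exact Or.inr (by rwa [add_zero])
  by_cases e : (F ∙ u) = F ∙ v
  · obtain ⟨c, rfl⟩ := Submodule.mem_span_singleton.1 (e.ge (Submodule.mem_span_singleton_self v))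
    simpa [add_smul] using gh_smul (Or.inr hu) (1 + c)
  refine or_iff_not_imp_left.2 fun h1 => hR.cl _ hu _ hv e
    ((Submodule.span_singleton_le_iff_mem _ _).2 ((P.mem_perp_span_singleton).2 h0)) _
    (by rw [pt_bot]; exact span_mem_T hs h1) ((Submodule.span_singleton_le_iff_mem _ _).2
      (Submodule.add_mem_sup (Submodule.mem_span_singleton_self u) (Submodule.mem_span_singleton_self v)))

theorem GH.meetv (hR : GH P ⊥ R) {x y x' y' : V} (hx : P.Sing x) (hy : P.Sing y) (h0 : P.B x y = 0)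
    (h1 : P.B x' x ≠ 0) (h2 : P.B y' x = 0) (h3 : P.B y' y ≠ 0) :
    ∃ a b : F, (a ≠ 0 ∨ b ≠ 0) ∧ (a • x + b • y = 0 ∨ (F ∙ (a • x + b • y)) ∈ R) := by
  obtain ⟨Z, hZ, h4⟩ := hR.meet ((F ∙ x) ⊔ F ∙ y) ((P.ts_span_singleton hx).sup (P.ts_span_singleton hy)
    ((Submodule.span_singleton_le_iff_mem _ _).2 ((P.mem_perp_span_singleton).2 h0))) bot_le (by
      rw [Submodule.finrank_sup_span_singleton, finrank_span_singleton, finrank_bot]
      · rintro rfl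
        simp at h1
      · intro k
        obtain ⟨c, rfl⟩ := Submodule.mem_span_singleton.1 k
        simp [h2] at h3)
  obtain ⟨v, -, v0, rfl⟩ := T.exists_vec (P := P) (x := Z) (by rw [← pt_bot]; exact hR.sub hZ)
  obtain ⟨s, hs, t, ht, rfl⟩ := Submodule.mem_sup.1 (h4 (Submodule.mem_span_singleton_self v))
  obtain ⟨a, rfl⟩ := Submodule.mem_span_singleton.1 hs
  obtain ⟨b, rfl⟩ := Submodule.mem_span_singleton.1 ht
  refine ⟨a, b, ?_, Or.inr hZ⟩
  by_contra! k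
  simp [k.1, k.2] at v0

theorem GH.nonorth (h : Pol P q) (hR : GH P ⊥ R) {W : Submodule F V} (hW : ND P W) (h4 : 4 ≤ finrank F W) :
    ∃ w₁ ∈ W, ∃ w₂ ∈ W, (w₁ = 0 ∨ (F ∙ w₁) ∈ R) ∧ (w₂ = 0 ∨ (F ∙ w₂) ∈ R) ∧ P.B w₁ w₂ ≠ 0 := by
  obtain ⟨e, f, he, hf, ee, ff, fe⟩ := exists_hyp (k := 2) h hW h4
  have ef : ∀ i j, P.B (e i) (f j) = if i = j then P.ε else 0 := fun i j => by
    rw [P.symm, fe]
    by_cases k : i = j
    · simp [k]
    · simp [k, Ne.symm k]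
  have ε := P.ε_ne
  have se : ∀ i, P.Sing (e i) := fun i => h.sing_iff.2 (ee i i)
  have sf : ∀ i, P.Sing (f i) := fun i => h.sing_iff.2 (ff i i)
  obtain ⟨a0, a1, ha, ha'⟩ := hR.meetv (x' := f 0) (y' := f 1) (se 0) (se 1) (ee 0 1) (by simp [fe]) (by simp [fe])
    (by simp [fe])
  obtain ⟨b0, b1, hb, hb'⟩ := hR.meetv (x' := e 0) (y' := e 1) (sf 0) (sf 1) (ff 0 1) (by simp [ef, ε])
    (by simp [ef]) (by simp [ef, ε])
  obtain ⟨c0, c1, hc, hc'⟩ := hR.meetv (x' := f 0) (y' := e 1) (se 0) (sf 1) (by simp [ef]) (by simp [fe])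
    (ee _ _) (by simp [ef, ε])
  obtain ⟨d0, d1, hd, hd'⟩ := hR.meetv (x' := e 0) (y' := f 1) (sf 0) (se 1) (by simp [fe]) (by simp [ef, ε])
    (ff _ _) (by simp [fe])
  have m : ∀ {x y : V} (a b : F), x ∈ W → y ∈ W → a • x + b • y ∈ W := fun a b hx hy =>
    W.add_mem (W.smul_mem a hx) (W.smul_mem b hy)
  by_contra! k
  have k1 := k _ (m b0 b1 (hf 0) (hf 1)) _ (m a0 a1 (he 0) (he 1)) hb' ha'
  have k2 := k _ (m c0 c1 (he 0) (hf 1)) _ (m a0 a1 (he 0) (he 1)) hc' ha'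
  have k3 := k _ (m d0 d1 (hf 0) (he 1)) _ (m a0 a1 (he 0) (he 1)) hd' ha'
  have k4 := k _ (m b0 b1 (hf 0) (hf 1)) _ (m c0 c1 (he 0) (hf 1)) hb' hc'
  have k5 := k _ (m b0 b1 (hf 0) (hf 1)) _ (m d0 d1 (hf 0) (he 1)) hb' hd'
  simp [ee, ff, fe] at k1 k2 k3 k4 k5
  by_cases h0 : a0 = 0 <;> by_cases h1 : a1 = 0 <;> simp_all

end Hcl

theorem hcl (h : Pol P q) (h6 : 6 ≤ finrank F V) {R : Set (Submodule F V)} (hR : GH P ⊥ R) :
    Clo P {v | v = 0 ∨ (F ∙ v) ∈ R} := by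
  refine ⟨fun v hv => hR.sing hv, fun v hv c => gh_smul hv c, fun u hu v hv hs => ?_⟩
  by_cases h0 : P.B u v = 0
  · exact hR.add0 hu hv h0
  have su := (hR.sing hu).self_eq
  have sv := (hR.sing hv).self_eq
  have hn : P.B ((σ (P.B u v)⁻¹) • u) v = 1 := by rw [P.B_smul_left, P.σσ, inv_mul_cancel₀ h0]
  have hn' : P.B ((σ (P.B u v)⁻¹) • u) ((σ (P.B u v)⁻¹) • u) = 0 := by rw [P.B_smul_left, P.B_smul_right, su]; simp
  have hd := P.finrank_perp h.nd (Submodule.span F {v, (σ (P.B u v)⁻¹) • u})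
  rw [P.finrank_span_pair sv hn] at hd
  obtain ⟨w₁, h1, w, h2, h3, h4, h5⟩ := hR.nonorth h (ND.perp h.nd (P.disjoint_perp_pair sv hn' hn)) (by omega)
  have k : ∀ x ∈ P.perp (Submodule.span F {v, (σ (P.B u v)⁻¹) • u}), P.B u x = 0 ∧ P.B v x = 0 := fun x hx => by
    have := P.mem_perp_span.1 hx
    have h6 := this _ (Set.mem_insert_of_mem _ rfl)
    rw [P.B_smul_left, P.σσ, mul_eq_zero] at h6
    exact ⟨h6.resolve_left (inv_ne_zero h0), this _ (Set.mem_insert _ _)⟩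
  obtain ⟨u1, v1⟩ := k _ h1
  obtain ⟨w₂, h6, h7, h8⟩ : ∃ w₂ ∈ P.perp (Submodule.span F {v, (σ (P.B u v)⁻¹) • u}),
      (w₂ = 0 ∨ (F ∙ w₂) ∈ R) ∧ P.B w₁ w₂ = -P.B u v :=
    ⟨(-P.B u v / P.B w₁ w) • w, Submodule.smul_mem _ _ h2, gh_smul h4 _, by
      rw [P.B_smul_right, div_mul_cancel₀ _ h5]⟩
  obtain ⟨u2, v2⟩ := k _ h6
  have key : ∀ l : F, σ l * l = 1 → u + v + l • (w₁ + w₂) = 0 ∨ (F ∙ (u + v + l • (w₁ + w₂))) ∈ R := fun l hl => by
    have := hR.add0 (hR.add0 hu (gh_smul h3 l) (by rw [P.B_smul_right, u1, mul_zero]))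
      (hR.add0 hv (gh_smul h7 l) (by rw [P.B_smul_right, v2, mul_zero])) (by
        simp only [P.B_add_left, P.B_add_right, P.B_smul_left, P.B_smul_right, u2, P.B_eq_zero_comm.1 v1, h8]
        linear_combination (-P.B u v) * hl)
    rwa [show u + l • w₁ + (v + l • w₂) = u + v + l • (w₁ + w₂) by module] at this
  obtain ⟨z, z1, z2⟩ : ∃ z : F, z ≠ 1 ∧ σ z * z = 1 := by
    rcases h.kind with k | k
    · exact ⟨-1, fun e => k.1.two (by linear_combination -e), by simp⟩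
    · exact k.1.exists_norm_one_ne_one
  have s1 : P.B (u + v) (w₁ + w₂) = 0 := by simp only [P.B_add_left, P.B_add_right, u1, u2, v1, v2, add_zero]
  have s2 := P.B_eq_zero_comm.1 s1
  have s3 := hs.self_eq
  have a1 := key 1 (by simp)
  have s4 := (hR.sing a1).self_eq
  generalize u + v = s at *
  generalize w₁ + w₂ = t at *
  rw [one_smul, P.B_add_left, P.B_add_right, P.B_add_right, s1, s2, s3, zero_add, zero_add, zero_add] at s4
  have := gh_smul (hR.add0 (gh_smul a1 z) (gh_smul (key z z2) (-1)) (by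
    simp only [P.B_add_left, P.B_add_right, P.B_smul_left, P.B_smul_right, s1, s2, s3, s4]
    ring)) (z - 1)⁻¹
  rwa [show z • (s + (1 : F) • t) + (-1 : F) • (s + z • t) = (z - 1) • s by module, smul_smul,
    inv_mul_cancel₀ (sub_ne_zero.2 z1), one_smul] at this

theorem gen1 (h : Pol P q) (hH : P.IsHerm) (hO : Clo P O) (hD : ND P D) (h3 : 3 ≤ finrank F D)
    (h1 : ∀ v ∈ D, P.Sing v → v ∈ O) {w a d : V} (hw : w ∈ P.perp D) (ha : a ∈ D) (hy : w + a ∈ O) (κ : ¬ P.Sing a)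
    (hd : d ∈ D) (hd' : d ∉ F ∙ a) (hs : P.Sing (w + a + d)) : w + a + d ∈ O := by
  obtain ⟨k1, k2, k3⟩ := hD.inf_perp h.nd (nd_span h κ) ((Submodule.span_singleton_le_iff_mem _ _).2 ha)
  rw [finrank_span_singleton fun e : a = 0 => κ (e ▸ P.sing_zero)] at k2
  obtain ⟨s, s1, s2, s3⟩ := exists_sing_not (U := P.perp (F ∙ d)) h k1 (by omega) fun k => by
    obtain ⟨x, hx, y, hy, rfl⟩ := Submodule.mem_sup.1 (k3.ge hd)
    rw [P.disjoint_perp_iff.1 k1 y hy fun z hz => ?_, add_zero] at hd'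
    · exact hd' hx
    · have := P.mem_perp_span_singleton.1 (k hz)
      rwa [P.B_add_left, hz.2 x hx, zero_add] at this
  have s4 : P.B d s ≠ 0 := fun e => s3 (P.mem_perp_span_singleton.2 e)
  obtain ⟨θ, hθ⟩ := hH.exists_trace_one
  set d₁ := (θ * P.B d d / P.B d s) • s with hd₁
  have t1 : d₁ ∈ D ⊓ P.perp (F ∙ a) := Submodule.smul_mem _ _ s1
  have t2 : P.Sing d₁ := s2.smul _
  have t3 : P.B d d₁ = θ * P.B d d := by rw [hd₁, P.B_smul_right, div_mul_cancel₀ _ s4]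
  have t4 : P.Sing (d - d₁) := h.sing_iff.2 (by
    rw [P.B_sub_left, P.B_sub_right, P.B_sub_right, t2.self_eq, ← hH.conj d d₁, t3, map_mul, hH.conj]
    linear_combination (-P.B d d) * hθ)
  have t5 := hO.add _ hy _ (h1 _ t1.1 t2) ((hO.sing _ hy).add t2 (by
    rw [P.B_add_left, P.B_eq_zero_comm.1 (hw _ t1.1), P.mem_perp_span_singleton.1 t1.2, add_zero]))
  have e : w + a + d₁ + (d - d₁) = w + a + d := by abel
  exact e ▸ hO.add _ t5 _ (h1 _ (D.sub_mem hd t1.1) t4) (e.symm ▸ hs)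

theorem gen2 (h : Pol P q) (hO : Clo P O) (hD : ND P D) (h3 : 3 ≤ finrank F D) (h1 : ∀ v ∈ D, P.Sing v → v ∈ O)
    {y d : V} (hy : y ∈ O) (hd : d ∈ D) (hs : P.Sing (y + d)) : y + d ∈ O := by
  rcases h.kind with k | k
  · exact hO.add _ hy _ (h1 _ hd (k.1.sing h d)) hs
  obtain ⟨w, hw, a, ha, rfl⟩ := exists_decomp h.nd hD y
  have q1 : ∀ b ∈ D, P.B (w + b) (w + b) = P.B w w + P.B b b := fun b hb => by
    rw [P.B_add_left, P.B_add_right, P.B_add_right, hw b hb, P.B_eq_zero_comm.1 (hw b hb), add_zero, zero_add]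
  have e1 := (hO.sing _ hy).self_eq
  have e2 := hs.self_eq
  rw [add_assoc, q1 _ (D.add_mem ha hd)] at e2
  rw [q1 a ha] at e1
  by_cases κ : P.Sing a
  · have := κ.self_eq
    have h2 := hO.add _ hy _ (hO.smul _ (h1 a ha κ) (-1)) (h.sing_iff.2 (by
      rw [neg_one_smul, add_neg_cancel_right]
      linear_combination e1 - this))
    rw [neg_one_smul, add_neg_cancel_right] at h2
    rw [add_assoc] at hs ⊢
    exact hO.add _ h2 _ (h1 _ (D.add_mem ha hd) (h.sing_iff.2 (by linear_combination e2 - e1 + this))) hs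
  by_cases hd' : d ∈ F ∙ a
  swap
  · exact gen1 h k.1 hO hD h3 h1 hw ha hy κ hd hd' hs
  obtain ⟨t, rfl⟩ := Submodule.mem_span_singleton.1 hd'
  obtain ⟨k1, k2, -⟩ := hD.inf_perp h.nd (nd_span h κ) ((Submodule.span_singleton_le_iff_mem _ _).2 ha)
  rw [finrank_span_singleton fun e : a = 0 => κ (e ▸ P.sing_zero)] at k2
  obtain ⟨s, s1, s2, s3⟩ := exists_sing h k1 (by omega)
  have s4 := P.mem_perp_span_singleton.1 s1.2
  have s5 := hO.add _ hy _ (h1 _ s1.1 s2) ((hO.sing _ hy).add s2 (by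
    rw [P.B_add_left, P.B_eq_zero_comm.1 (hw _ s1.1), s4, add_zero]))
  have κ' : P.B a a ≠ 0 := fun e => κ (h.sing_iff.2 e)
  have e : w + (a + s) + (t • a - s) = w + a + t • a := by abel
  refine e ▸ gen1 h k.1 hO hD h3 h1 hw (D.add_mem ha s1.1) (add_assoc w a s ▸ s5) (fun k => κ' ?_)
    (D.sub_mem hd s1.1) (fun k => ?_) (e.symm ▸ hs)
  · have := k.self_eq
    rwa [P.B_add_left, P.B_add_right, P.B_add_right, s4, P.B_eq_zero_comm.1 s4, s2.self_eq, add_zero, add_zero,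
      add_zero] at this
  · obtain ⟨μ, hμ⟩ := Submodule.mem_span_singleton.1 k
    have h4 := congrArg (P.B a) hμ
    rw [P.B_smul_right, P.B_add_right, P.B_sub_right, P.B_smul_right, s4, add_zero, sub_zero] at h4
    obtain rfl := mul_right_cancel₀ κ' h4
    have h5 : (μ + 1) • s = 0 := by linear_combination (norm := module) hμ
    obtain rfl : μ = -1 := eq_neg_of_add_eq_zero_left ((smul_eq_zero.1 h5).resolve_right s3)
    rw [neg_one_smul, add_neg_cancel] at e2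
    exact κ' (by simpa [show P.B w w = 0 by simpa using e2] using e1)

theorem gen (h : Pol P q) (hO : Clo P O) (hD : ND P D) (h3 : 3 ≤ finrank F D) (h1 : ∀ v ∈ D, P.Sing v → v ∈ O)
    {y : V} (hy : y ∈ O) : ∀ v ∈ D ⊔ F ∙ y, P.Sing v → v ∈ O := by
  intro v hv hs
  obtain ⟨d, hd, z, hz, rfl⟩ := Submodule.mem_sup.1 hv
  obtain ⟨t, rfl⟩ := Submodule.mem_span_singleton.1 hz
  rw [add_comm] at hs ⊢
  exact gen2 h hO hD h3 h1 (hO.smul _ hy t) hd hs

theorem Clo.span (h : Pol P q) (hO : Clo P O) {ι : Type*} {e : ι → V} (he : ∀ i j, P.B (e i) (e j) = 0)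
    (h1 : ∀ i, e i ∈ O) (h0 : (0 : V) ∈ O) : ∀ v ∈ Submodule.span F (Set.range e), v ∈ O := by
  have ts : P.TS (Submodule.span F (Set.range e)) := P.ts_span (by rintro _ ⟨i, rfl⟩; exact h.sing_iff.2 (he i i))
    (by rintro _ ⟨i, rfl⟩ _ ⟨j, rfl⟩; exact he i j)
  intro v hv
  induction hv using Submodule.span_induction with
  | mem x hx => obtain ⟨i, rfl⟩ := hx; exact h1 i
  | zero => exact h0
  | add x y hx hy ix iy => exact hO.add _ ix _ iy (ts.1 _ (Submodule.add_mem _ hx hy))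
  | smul c x _ ix => exact hO.smul _ ix c

theorem ext_lin {s : Set V} (hs : LinearIndepOn F id s) (ψ : V → F) : ∃ ψ₀ : V →ₗ[F] F, ∀ v ∈ s, ψ₀ v = ψ v :=
  ⟨(Basis.extend hs).constr F fun i => ψ i, fun v hv => by
    have := (Basis.extend hs).constr_basis F (fun i => ψ i) ⟨v, hs.subset_extend _ hv⟩
    rwa [Basis.extend_apply_self] at this⟩

/-- a basis of singular vectors generating all singular vectors -/
theorem gen_all (h : Pol P q) (hD : ND P D) (h4 : 4 ≤ finrank F D) : ∃ s : Set V, (∀ v ∈ s, v ∈ D ∧ P.Sing v ∧ v ≠ 0) ∧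
    (∀ ψ : V → F, ∃ ψ₀ : V →ₗ[F] F, ∀ v ∈ s, ψ₀ v = ψ v) ∧
      ∀ O, Clo P O → s ⊆ O → ∀ v ∈ D, P.Sing v → v ∈ O := by
  obtain ⟨e, f, he, hf, ee, ff, fe⟩ := exists_hyp (k := finrank F D / 2) h hD (by omega)
  have li := P.linearIndependent_hyperbolic e f ee ff fe
  have nd : ND P _ := P.disjoint_perp_hyperbolic e f ee ff fe
  have dim := finrank_span_eq_card li
  rw [Fintype.card_sum, Fintype.card_fin] at dim
  set s := Set.range (Sum.elim e f) with hs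
  have s1 : ∀ v ∈ s, v ∈ D ∧ P.Sing v ∧ v ≠ 0 := by
    rintro _ ⟨i, rfl⟩
    refine ⟨?_, ?_, li.ne_zero i⟩ <;> rcases i with i | i
    exacts [he i, hf i, h.sing_iff.2 (ee i i), h.sing_iff.2 (ff i i)]
  have le : Submodule.span F s ≤ D := Submodule.span_le.2 fun v hv => (s1 v hv).1
  have s2 : ∀ O, Clo P O → s ⊆ O → ∀ v ∈ Submodule.span F s, P.Sing v → v ∈ O := fun O hO h1 v hv h2 => by
    have h0 : (0 : V) ∈ O := by simpa using hO.smul _ (h1 ⟨Sum.inl ⟨0, by omega⟩, rfl⟩) 0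
    rw [hs, Set.Sum.elim_range, Submodule.span_union] at hv
    obtain ⟨x, hx, y, hy, rfl⟩ := Submodule.mem_sup.1 hv
    exact hO.add _ (hO.span h ee (fun i => h1 ⟨Sum.inl i, rfl⟩) h0 x hx) _
      (hO.span h ff (fun i => h1 ⟨Sum.inr i, rfl⟩) h0 y hy) h2
  by_cases k : D ≤ Submodule.span F s
  · exact ⟨s, s1, ext_lin li.linearIndepOn_id, fun O hO h1 v hv => s2 O hO h1 v (k hv)⟩
  obtain ⟨y, y1, y2, y3⟩ := exists_sing_not h hD (by omega) k
  refine ⟨insert y s, ?_, ext_lin (li.linearIndepOn_id.id_insert y3), fun O hO h1 v hv => ?_⟩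
  · rintro v (rfl | hv)
    exacts [⟨y1, y2, fun e => y3 (e ▸ Submodule.zero_mem _)⟩, s1 v hv]
  · have e : Submodule.span F s ⊔ F ∙ y = D := Submodule.eq_of_le_of_finrank_le
      (sup_le le ((Submodule.span_singleton_le_iff_mem _ _).2 y1)) (by
        rw [Submodule.finrank_sup_span_singleton y3]
        omega)
    exact gen h hO nd (by omega) (s2 O hO ((Set.subset_insert _ _).trans h1)) (h1 (Set.mem_insert _ _)) v (e.ge hv)

end CfsgLib.KP
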