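import Mathlib
import Cfsg.Agent.Lib.KP.Gen

/-! KP: geometric hyperplanes (plans/KP.md, package HYP). -/

set_option autoImplicit false
set_option linter.unusedSectionVars false

namespace CfsgLib.KP

open CfsgLib.CK CfsgLib.KL CfsgLib.Forms CfsgLib.RootMax CfsgLib.ClMax CfsgLib.Tech Module

variable {F : Type*} [Field F] [Finite F] {σ : F →+* F} {V : Type*} [AddCommGroup V] [Module F V] [Finite V]
  {P : PQ σ V} {q : ℕ} {K : Subgroup (V ≃ₗ[F] V)} {C : Set (Submodule F V)}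

variable {R : Set (Submodule F V)}

/-- `GH.meet` for vectors -/
theorem hyp_meet (hR : GH P ⊥ R) (hO : Clo P {v | v = 0 ∨ (F ∙ v) ∈ R}) {u w : V} (su : P.Sing u) (sw : P.Sing w)
    (uw : P.B u w = 0) (hu : u ∉ {v | v = 0 ∨ (F ∙ v) ∈ R}) (hw : w ∉ F ∙ u) :
    ∃ t : F, w + t • u ∈ {v | v = 0 ∨ (F ∙ v) ∈ R} := by
  have u0 : u ≠ 0 := fun e => hu (Or.inl e)
  have hp := sup_mem_Pt (P.ts_span_singleton su) sw (P.mem_perp_span_singleton.2 uw) hw
  obtain ⟨Z, hZ, hle⟩ := hR.meet _ hp.1 bot_le (by rw [hp.2.2, finrank_span_singleton u0, finrank_bot])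
  obtain ⟨z, -, z0, rfl⟩ := T.exists_vec (pt_bot P ▸ hR.sub hZ)
  obtain ⟨_, ha, _, hb, e⟩ := Submodule.mem_sup.1 (hle (Submodule.mem_span_singleton_self z))
  obtain ⟨α, rfl⟩ := Submodule.mem_span_singleton.1 ha
  obtain ⟨β, rfl⟩ := Submodule.mem_span_singleton.1 hb
  have β0 : β ≠ 0 := fun e0 => by
    rw [e0, zero_smul, add_zero] at e
    have α0 : α ≠ 0 := fun e1 => z0 (by rw [← e, e1, zero_smul])
    have := hO.smul z (Or.inr hZ) α⁻¹
    rw [← e, inv_smul_smul₀ α0] at this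
    exact hu this
  have := hO.smul z (Or.inr hZ) β⁻¹
  rw [← e, smul_add, inv_smul_smul₀ β0, smul_smul, add_comm] at this
  exact ⟨_, this⟩

theorem hyp_uniq {O : Set V} (hO : Clo P O) {x d : V} (sx : P.Sing x) (hx : x ∉ O) {t t' : F} (h1 : d + t • x ∈ O)
    (h2 : d + t' • x ∈ O) : t = t' := by
  by_contra hne
  have e : d + t • x + (-1 : F) • (d + t' • x) = (t - t') • x := by
    rw [neg_one_smul, sub_smul]; abel
  have := hO.smul _ (hO.add _ h1 _ (hO.smul _ h2 (-1)) (e ▸ sx.smul _)) (t - t')⁻¹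
  rw [e, inv_smul_smul₀ (sub_ne_zero.2 hne)] at this
  exact hx this

/-- two generating vectors outside `D` generate too much -/
theorem hyp_top (h : Pol P q) {O : Set V} (hO : Clo P O) {D : Submodule F V} (hD : ND P D) (h3 : 3 ≤ finrank F D)
    (h1 : ∀ v ∈ D, P.Sing v → v ∈ O) {y y' x : V} (hy : y ∈ O) (hy' : y' ∈ O) (sx : P.Sing x)
    (hx : x ∈ P.perp D) (hm : x ∈ (D ⊔ F ∙ y) ⊔ F ∙ y') : x ∈ O := by
  obtain ⟨u, hu, u', hu', rfl⟩ := Submodule.mem_sup.1 hm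
  obtain ⟨e, he, se, e0⟩ := exists_sing h hD (by omega)
  have xe : P.B (u + u') e = 0 := P.mem_perp'.1 hx e he
  obtain ⟨d, hd, h2⟩ : ∃ d ∈ D, P.B (u + d) e ≠ 0 := by
    by_cases h2 : P.B u e = 0
    · by_contra! h4
      exact e0 (P.disjoint_perp_iff.1 hD e he fun d hd => P.B_eq_zero_comm.1 (by
        have := h4 d hd
        rwa [P.B_add_left, h2, zero_add] at this))
    · exact ⟨0, D.zero_mem, by rwa [add_zero]⟩
  have h4 : P.B (u' - d) e ≠ 0 := fun e1 => h2 (by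
    rw [P.B_sub_left] at e1
    rw [P.B_add_left] at xe ⊢
    linear_combination xe - e1)
  have a1 := sing_add_smul se h2
  have a2 := sing_add_smul se h4
  generalize -(P.N (u + d) / P.B (u + d) e) = s at a1
  generalize -(P.N (u' - d) / P.B (u' - d) e) = s' at a2
  have b1 := gen h hO hD h3 h1 hy _ (add_mem (add_mem hu (Submodule.mem_sup_left hd))
    (Submodule.mem_sup_left (D.smul_mem s he))) a1
  have b2 := gen h hO hD h3 h1 hy' _ (add_mem (sub_mem (Submodule.mem_sup_right hu') (Submodule.mem_sup_left hd))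
    (Submodule.mem_sup_left (D.smul_mem s' he))) a2
  have e1 : u + d + s • e + (u' - d + s' • e) = u + u' + (s + s') • e := by rw [add_smul]; abel
  have b3 := hO.add _ b1 _ b2 (e1 ▸ sx.add (se.smul _) (by rw [P.B_smul_right, xe, mul_zero]))
  have e2 : u + d + s • e + (u' - d + s' • e) + (-(s + s')) • e = u + u' := by rw [e1, neg_smul]; abel
  exact e2 ▸ hO.add _ b3 _ (hO.smul _ (h1 e he se) _) (e2.symm ▸ sx)

theorem hyp0 (h : Pol P q) (h6 : 6 ≤ finrank F V) (hR : GH P ⊥ R) :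
    ∃ a : V, a ≠ 0 ∧ ∀ Z ∈ T P 1, (Z ∈ R ↔ Z ≤ P.perp (F ∙ a)) := by
  have hO := hcl h h6 hR
  obtain ⟨Z, hZ, hZR⟩ := hR.ne'
  obtain ⟨x, sx, x0, rfl⟩ := T.exists_vec (pt_bot P ▸ hZ)
  have hx : x ∉ {v | v = 0 ∨ (F ∙ v) ∈ R} := fun e => e.elim x0 hZR
  obtain ⟨x', sx', xx, -⟩ := P.exists_partner h.nd ⊥ sx (by simpa using x0) (by simp)
  have n1 : ND P (P.perp (Submodule.span F {x, x'})) :=
    ND.perp h.nd (P.disjoint_perp_pair sx.self_eq sx'.self_eq xx)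
  have d1 := P.finrank_perp h.nd (Submodule.span F {x, x'})
  rw [P.finrank_span_pair sx.self_eq xx] at d1
  have m1 : ∀ d ∈ P.perp (Submodule.span F {x, x'}), P.B x d = 0 ∧ P.B x' d = 0 := fun d hd => by
    simpa using P.mem_perp_span.1 hd
  generalize P.perp (Submodule.span F {x, x'}) = W at n1 d1 m1
  have m2 : ∀ d ∈ W, d ∈ (F ∙ x) → d = 0 := fun d hd e => by
    obtain ⟨μ, rfl⟩ := Submodule.mem_span_singleton.1 e
    have := (m1 _ hd).2
    rw [P.B_smul_right, xx, mul_one] at this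
    rw [this, zero_smul]
  have h1 : ∀ d ∈ W, P.Sing d → d ≠ 0 → ∃ t : F, d + t • x ∈ {v | v = 0 ∨ (F ∙ v) ∈ R} := fun d hd sd d0 =>
    hyp_meet hR hO sx sd (m1 d hd).1 hx fun e => d0 (m2 d hd e)
  choose! ψ hψ using h1
  obtain ⟨s, s1, s2, s3⟩ := gen_all h n1 (by omega)
  obtain ⟨ψ₀, e₀⟩ := s2 ψ
  have sg : ∀ d ∈ W, P.Sing d → ∀ t : F, P.Sing (d + t • x) := fun d hd sd t =>
    sd.add (sx.smul t) (by rw [P.B_smul_right, P.B_eq_zero_comm.1 (m1 d hd).1, mul_zero])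
  have h2 : ∀ d ∈ W, P.Sing d → d + ψ₀ d • x ∈ {v | v = 0 ∨ (F ∙ v) ∈ R} := fun d hd sd =>
    (s3 {d | d ∈ W ∧ P.Sing d ∧ d + ψ₀ d • x ∈ {v | v = 0 ∨ (F ∙ v) ∈ R}}
      ⟨fun _ hv => hv.2.1, fun v hv c => ⟨W.smul_mem c hv.1, hv.2.1.smul c, by
        have := hO.smul _ hv.2.2 c
        rwa [smul_add, smul_smul, ← smul_eq_mul, ← map_smul] at this⟩, fun v hv w hw sv => ⟨add_mem hv.1 hw.1, sv, by
        have e : v + ψ₀ v • x + (w + ψ₀ w • x) = v + w + ψ₀ (v + w) • x := by rw [map_add, add_smul]; abel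
        exact e ▸ hO.add _ hv.2.2 _ hw.2.2 (e ▸ sg _ (add_mem hv.1 hw.1) sv _)⟩⟩
      (fun v hv => ⟨(s1 v hv).1, (s1 v hv).2.1, e₀ v hv ▸ hψ v (s1 v hv).1 (s1 v hv).2.1 (s1 v hv).2.2⟩) d hd sd).2.2
  let f : V →ₗ[F] V := LinearMap.id + ψ₀.smulRight x
  have hf : ∀ d, f d = d + ψ₀ d • x := fun _ => rfl
  have fB : ∀ d ∈ W, ∀ d' ∈ W, P.B (f d) (f d') = P.B d d' := fun d hd d' hd' => by
    simp only [hf, P.B_add_left, P.B_add_right, P.B_smul_left, P.B_smul_right, (m1 d' hd').1, sx.self_eq,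
      P.B_eq_zero_comm.1 (m1 d hd).1, mul_zero, add_zero]
  have f0 : ∀ d ∈ W, (∀ d' ∈ W, P.B (f d) (f d') = 0) → d = 0 := fun d hd e =>
    P.disjoint_perp_iff.1 n1 d hd fun d' hd' => (fB d hd d' hd').symm.trans (e d' hd')
  have n2 : ND P (W.map f) := P.disjoint_perp_iff.2 (by
    rintro _ ⟨d, hd, rfl⟩ e
    rw [f0 d hd fun d' hd' => e _ ⟨d', hd', rfl⟩, map_zero])
  have d2 : finrank F (W.map f) = finrank F W := by
    rw [← LinearMap.range_domRestrict]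
    exact LinearMap.finrank_range_of_inj ((injective_iff_map_eq_zero _).2 fun d e =>
      Subtype.ext (f0 d d.2 fun d' _ => by rw [show f d = 0 from e]; simp))
  have h3 : ∀ v ∈ W.map f, P.Sing v → v ∈ {v | v = 0 ∨ (F ∙ v) ∈ R} := by
    rintro _ ⟨d, hd, rfl⟩ sv
    exact h2 d hd (h.sing_iff.2 ((fB d hd d hd).symm.trans sv.self_eq))
  have xD : x ∈ P.perp (W.map f) := P.mem_perp'.2 (by
    rintro _ ⟨d, hd, rfl⟩
    rw [hf, P.B_add_right, P.B_smul_right, (m1 d hd).1, sx.self_eq, mul_zero, add_zero])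
  obtain ⟨y, hy, yx⟩ : ∃ y ∈ {v | v = 0 ∨ (F ∙ v) ∈ R}, P.B y x = 1 := by
    obtain ⟨d, hd, sd, d0⟩ := exists_sing h n1 (by omega)
    have xu : P.B x (d + (ψ₀ d + 1) • x) = 0 := by
      rw [P.B_add_right, P.B_smul_right, (m1 d hd).1, sx.self_eq, mul_zero, add_zero]
    have ux := P.B_eq_zero_comm.1 xu
    obtain ⟨w, sw, wx, wu⟩ := P.exists_partner h.nd (F ∙ (d + (ψ₀ d + 1) • x)) sx (fun e => by
      obtain ⟨μ, e⟩ := Submodule.mem_span_singleton.1 e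
      have μ0 : μ ≠ 0 := fun e0 => x0 (by rw [← e, e0, zero_smul])
      refine d0 (m2 d hd (Submodule.mem_span_singleton.2 ⟨μ⁻¹ - (ψ₀ d + 1), ?_⟩))
      rw [sub_smul, sub_eq_iff_eq_add]
      nth_rw 1 [← e]
      rw [inv_smul_smul₀ μ0]) (fun v hv => by
      obtain ⟨μ, rfl⟩ := Submodule.mem_span_singleton.1 hv
      rw [P.B_smul_right, xu, mul_zero])
    obtain ⟨t, ht⟩ := hyp_meet hR hO (sg d hd sd (ψ₀ d + 1)) sw
      (P.B_eq_zero_comm.1 (wu _ (Submodule.mem_span_singleton_self _)))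
      (fun e => by simpa using hyp_uniq hO sx hx e (h2 d hd sd)) (fun e => by
        obtain ⟨μ, rfl⟩ := Submodule.mem_span_singleton.1 e
        rw [P.B_smul_left, ux, mul_zero] at wx
        exact zero_ne_one wx)
    exact ⟨_, ht, by rw [P.B_add_left, P.B_smul_left, ux, wx, mul_zero, add_zero]⟩
  have yD : y ∉ W.map f := fun e => by
    rw [xD y e] at yx
    exact zero_ne_one yx
  have d3 := Submodule.finrank_sup_span_singleton yD
  have d4 := P.finrank_perp h.nd (W.map f ⊔ F ∙ y)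
  obtain ⟨a, a0, ha⟩ := exists_of_rk (F := F) (V := V) (x := P.perp (W.map f ⊔ F ∙ y)) ((lin_rk _).trans (by omega))
  refine ⟨a, a0, fun Z hZ => ?_⟩
  obtain ⟨v, sv, v0, rfl⟩ := T.exists_vec hZ
  rw [← ha, P.perp_perp h.nd, Submodule.span_singleton_le_iff_mem]
  refine ⟨fun hv => ?_, fun hv => (gen h hO n2 (by omega) h3 hy v hv sv).resolve_left v0⟩
  by_contra hn
  refine hx (hyp_top h hO n2 (by omega) h3 hy (Or.inr hv) sx xD ?_)
  rw [Submodule.eq_top_of_finrank_eq (S := (W.map f ⊔ F ∙ y) ⊔ F ∙ v)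
    (by rw [Submodule.finrank_sup_span_singleton hn]; omega)]
  trivial

theorem hyp (h : Pol P q) {Y : Submodule F V} (h6 : 2 * finrank F Y + 6 ≤ finrank F V) (hR : GH P Y R) :
    ∃ a ∈ P.perp Y, a ∉ Y ∧ ∀ Z ∈ Pt P Y, (Z ∈ R ↔ Z ≤ P.perp (F ∙ a)) := by
  obtain ⟨r⟩ := exists_res hR.ts
  obtain ⟨a, a0, ha⟩ := hyp0 (r.pol h) (by have := r.finrank_D h.nd; omega) (r.gh hR)
  refine ⟨a, r.D_le a.2, fun e => a0 (Subtype.ext (r.dis.le_bot ⟨e, a.2⟩)), fun Z hZ => ?_⟩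
  obtain ⟨Z, rfl⟩ := r.exists_up hZ.1 hZ.2.1
  refine (ha Z (r.up_mem_Pt'.1 hZ)).trans ?_
  rw [← r.up_le_up, r.up_perp, r.up_span, P.perp_sup, le_inf_iff, and_iff_right (r.up_le_perp Z)]

end CfsgLib.KP
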