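import Mathlib
import Cfsg.Agent.Lib.KP.Cnt

/-! KP: root elements (plans/KP.md, package RT). -/

set_option autoImplicit false
set_option linter.unusedSectionVars false

namespace CfsgLib.KP

open CfsgLib.CK CfsgLib.KL CfsgLib.Forms CfsgLib.RootMax CfsgLib.ClMax CfsgLib.Tech Module

variable {F : Type*} [Field F] [Finite F] {σ : F →+* F} {V : Type*} [AddCommGroup V] [Module F V] [Finite V]
  {P : PQ σ V} {q : ℕ} {K : Subgroup (V ≃ₗ[F] V)} {C : Set (Submodule F V)}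

variable {x a : V} {g : V ≃ₗ[F] V}

theorem rt_mem_span (h : P.Nondeg) (h1 : ∀ v, P.B x v = 0 → P.B a v = 0) : a ∈ F ∙ x := by
  rw [← P.perp_perp h (F ∙ x), P.mem_perp']
  exact fun v hv => h1 v (P.mem_perp_span_singleton.1 hv)

theorem rt_shift (P : PQ σ V) (x a : V) (s c : F) (v : V) :
    rt P x (a + s • x) c v = rt P x a (c - σ s + P.ε * s) v := by
  simp only [rt_def, P.B_add_left, P.B_smul_left]
  module

theorem exists_rt_eq (h : Pol P q) (hg : g ∈ P.isom) (hx : P.Sing x) (h0 : x ≠ 0) (h1 : g x = x)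
    (h2 : ∀ v, P.B x v = 0 → g v - v ∈ F ∙ x) :
    ∃ a c, P.B x a = 0 ∧ c - σ (P.N a) ∈ P.Λ ∧ ∀ v, g v = rt P x a c v := by
  obtain ⟨y, hy, hyx, -⟩ := P.exists_partner h.nd ⊥ hx (by simpa using h0) (by simp)
  have hB := PQ.IsIso.B_eq hg
  have hxy : P.B x y = P.ε := by rw [P.symm y x, hyx, map_one, mul_one]
  obtain ⟨a, ha⟩ : ∃ a, g y = y - a := ⟨y - g y, by abel⟩
  have xa : P.B x a = 0 := by
    have := hB x y
    rw [h1, ha, P.B_sub_right] at this
    linear_combination -this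
  have ax := P.B_eq_zero_comm.1 xa
  refine ⟨a, P.ε * P.B a y, xa, h.mx _ ?_, fun v => ?_⟩
  · have e1 := hB y y
    rw [ha, P.B_sub_left, P.B_sub_right, P.B_sub_right, P.symm a y, P.self a] at e1
    rw [map_sub, map_mul, P.σσ, P.σε]
    linear_combination (-P.ε) * e1 + σ (P.N a) * P.εε
  · obtain ⟨w, hw, t, rfl⟩ : ∃ w, P.B x w = 0 ∧ ∃ t : F, v = w + t • y :=
      ⟨v - (P.ε * P.B x v) • y, by
        rw [P.B_sub_right, P.B_smul_right, hxy]
        linear_combination (-P.B x v) * P.εε, _, (sub_add_cancel _ _).symm⟩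
    obtain ⟨s, hs⟩ := Submodule.mem_span_singleton.1 (h2 w hw)
    have e1 := hB y w
    rw [ha, ← sub_add_cancel (g w) w, ← hs, P.B_sub_left, P.B_add_right, P.B_add_right, P.B_smul_right,
      P.B_smul_right, hyx, ax] at e1
    have e2 : s = P.B a w := by linear_combination e1
    rw [map_add, map_smul, ha, ← sub_add_cancel (g w) w, ← hs, e2, rt_def, P.B_add_right, P.B_add_right,
      P.B_smul_right, P.B_smul_right, hw, hxy]
    linear_combination (norm := module) (t * P.B a y * P.εε) • x + (t * P.εε) • a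

theorem mem_lam (hx : P.Sing x) (ha : P.B a x = 0) (hg : g ∈ K) (h1 : ∀ v, P.B x v = 0 → g v = v + P.B a v • x) :
    a ∈ Lam P K x := by
  have e : g x = x := by rw [h1 x hx.self_eq, ha, zero_smul, add_zero]
  refine ⟨ha, g, hg, e, h1, fun v hv => g.injective ?_⟩
  rw [map_sub, map_smul, e, h1 v hv, add_sub_cancel_right]
  exact g.apply_symm_apply v

theorem smul_mem_lam (hx : P.Sing x) (t : F) : t • x ∈ Lam P K x :=
  mem_lam hx (by rw [P.B_smul_left, hx.self_eq, mul_zero]) (one_mem K) fun v hv => by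
    simp [hv]

theorem Lam.orth (h : a ∈ Lam P K x) : P.B x a = 0 := P.B_eq_zero_comm.1 h.1

theorem lam_conj (hK : K ≤ P.isom) (hg : g ∈ K) (h : a ∈ Lam P K x) : g a ∈ Lam P K (g x) := by
  obtain ⟨h0, k, hk, k1, k2, k3⟩ := h
  have hB := PQ.IsIso.B_eq (hK hg)
  have i : ∀ w, g⁻¹ (g w) = w := g.symm_apply_apply
  refine ⟨by rw [hB, h0], g * k * g⁻¹, mul_mem (mul_mem hg hk) (inv_mem hg), ?_, fun v hv => ?_, fun v hv => ?_⟩
  · rw [LinearEquiv.mul_apply, LinearEquiv.mul_apply, i, k1]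
  · obtain ⟨w, rfl⟩ := g.surjective v
    rw [hB] at hv
    rw [LinearEquiv.mul_apply, LinearEquiv.mul_apply, i, k2 w hv, map_add, map_smul, hB]
  · obtain ⟨w, rfl⟩ := g.surjective v
    rw [hB] at hv
    rw [mul_inv_rev, mul_inv_rev, inv_inv, LinearEquiv.mul_apply, LinearEquiv.mul_apply, i, k3 w hv, map_sub,
      map_smul, hB]

theorem lam_smul {t : F} (ht : t ≠ 0) : a ∈ Lam P K (t • x) ↔ σ t • a ∈ Lam P K x := by
  have hs : σ t ≠ 0 := (map_ne_zero σ).2 ht
  have e : ∀ (k : V ≃ₗ[F] V), k (t • x) = t • x ↔ k x = x := fun k => by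
    rw [map_smul, (smul_right_injective V ht).eq_iff]
  show _ ∧ _ ↔ _ ∧ _
  simp only [P.B_smul_left, P.B_smul_right, P.σσ, e, mul_eq_zero, ht, hs, false_or, smul_smul, mul_comm t]

theorem noLx_iff (h : P.Nondeg) (hx : P.Sing x) (h0 : x ≠ 0) : NoLx P K x ↔ ∀ a ∈ Lam P K x, a ∈ F ∙ x := by
  constructor
  · rintro h1 a ⟨-, g, hg, g1, g2, -⟩
    refine rt_mem_span h fun v hv => ?_
    have := h1 g hg g1 (fun w hw => by
      rw [g2 w hw, add_sub_cancel_left]
      exact Submodule.smul_mem _ _ (Submodule.mem_span_singleton_self x)) v hv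
    rw [g2 v hv, add_eq_left, smul_eq_zero] at this
    exact this.resolve_right h0
  · intro h1 g hg g1 g2 v hv
    obtain ⟨y, hy, -⟩ := P.exists_dual_vec h ⊥ (u := x) (by simpa using h0)
    obtain ⟨a, ha⟩ := P.exists_B_eq h ((P.B y).comp ((g : V →ₗ[F] V) - LinearMap.id))
    have e : ∀ w, P.B x w = 0 → g w = w + P.B a w • x := fun w hw => by
      obtain ⟨s, hs⟩ := Submodule.mem_span_singleton.1 (g2 w hw)
      have : P.B a w = P.B y (g w - w) := by rw [ha]; rfl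
      rw [this, ← hs, P.B_smul_right, hy, mul_one, hs, add_sub_cancel]
    have ax : P.B a x = 0 := by
      have : P.B a x = P.B y (g x - x) := by rw [ha]; rfl
      rw [this, g1, sub_self, map_zero]
    obtain ⟨s, rfl⟩ := Submodule.mem_span_singleton.1 (h1 a (mem_lam hx ax hg e))
    rw [e v hv, P.B_smul_left, hv, mul_zero, zero_smul, add_zero]

theorem Tb.exists_move (h : Tb P q K) {y : V} (hx : P.Sing x) (h0 : x ≠ 0) (hy : P.Sing y) (h1 : y ≠ 0) :
    ∃ g ∈ K, ∃ t : F, t ≠ 0 ∧ g x = t • y := by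
  obtain ⟨g, hg, e⟩ := h.tr _ (span_mem_T hx h0) _ (span_mem_T hy h1)
  rw [smul_span] at e
  obtain ⟨t, ht⟩ := Submodule.mem_span_singleton.1 (e ▸ Submodule.mem_span_singleton_self (g x) : g x ∈ F ∙ y)
  refine ⟨g, hg, t, fun h2 => h0 (g.injective ?_), ht.symm⟩
  rw [← ht, h2, zero_smul, map_zero]

theorem Tb.noL (h : Tb P q K) (hx : P.Sing x) (h0 : x ≠ 0) (h1 : NoLx P K x) : NoL P K := fun y hy y0 => by
  rw [noLx_iff h.pol.nd hy y0]
  intro a ha
  obtain ⟨g, hg, t, ht, e⟩ := h.exists_move hy y0 hx h0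
  have h2 := lam_conj h.le' hg ha
  rw [e, lam_smul ht] at h2
  have h3 := (noLx_iff h.pol.nd hx h0).1 h1 _ h2
  rw [Submodule.smul_mem_iff _ ((map_ne_zero σ).2 ht), ← Submodule.span_singleton_smul_eq ht.isUnit, ← e,
    ← smul_span] at h3
  exact apply_mem_smul.1 h3

theorem le_of_trv (h : Pol P q) (h4 : 4 ≤ finrank F V) (hK : K ≤ G0 P)
    (ht : ∀ x, P.Sing x → ∀ d ∈ P.Λ, ∃ g ∈ K, ∀ v, g v = v + (d * P.B x v) • x) : G0 P ≤ K := fun g hg => by
  have key : ∀ (g : V ≃ₗ[F] V) x d, P.B x x = 0 → d ∈ P.Λ → (∀ v, g v = v + (d * P.B x v) • x) → g ∈ K :=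
    fun g x d hx hd e => by
      obtain ⟨k, hk, e'⟩ := ht x (h.sing_iff.2 hx) d hd
      rwa [show g = k from LinearEquiv.ext fun v => by rw [e, e']]
  rcases h.kind with ⟨k, -⟩ | ⟨k, -⟩
  · obtain rfl : σ = RingHom.id F := RingHom.ext k.σ_eq
    have hA : LinearMap.BilinForm.IsAlt P.B := fun v => (k.sing h v).self_eq
    exact alt_mem_of_transvections P.B hA ⟨h.nd, h.nd.right⟩ K
      (fun t ht => ⟨PQ.IsIso.B_eq (P := P) (hK ht).1, fun _ => trivial⟩)
      (fun g x d e => key g x d (hA x) (h.mx _ (by rw [k.ε_eq]; simp)) e) g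
      ⟨PQ.IsIso.B_eq (P := P) hg.1, fun _ => trivial⟩
  · exact k.mem_of_transvections h.nd (fun g x d hx hd e => key g x d hx ((k.mem_Λ d).2 hd) e) (Or.inl h4)
      (fun t ht => ⟨(hK ht).1, mem_SLV.1 (hK ht).2⟩) g hg.1 (mem_SLV.1 hg.2)

theorem rootGroup (h : Pol P q) (h4 : 4 ≤ finrank F V) : RootGroup P (G0 P) := by
  refine ⟨G0_le P, allFull_isom_inf_SLV P, fun X _ hX => (le_of_trv (K := G0 P ⊓ X) h h4 inf_le_left
    fun x hx d hd => ?_).trans inf_le_right⟩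
  obtain ⟨k, hk, e⟩ := (hX x hx 0 (by simp)).2 (-d) (P.Λ.sub_mem (P.Λ.neg_mem hd) (σ_mem P P.sing_zero))
  have e' : ∀ v, k v = v + (d * P.B x v) • x := fun v => by rw [e]; simp [rt_def]
  exact ⟨k, ⟨(allFull_isom_inf_SLV P).transvection hx hd e', hk⟩, e'⟩

theorem lam_rt (h : Pol P q) (hK : K ≤ P.isom) (hx : P.Sing x) (h0 : x ≠ 0) (ha : a ∈ Lam P K x) :
    ∃ c, Rt P K x a c := by
  obtain ⟨-, g, hg, g1, g2, -⟩ := ha
  obtain ⟨b, c, -, -, e⟩ := exists_rt_eq h (hK hg) hx h0 g1 fun w hw => by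
    rw [g2 w hw, add_sub_cancel_left]
    exact Submodule.smul_mem _ _ (Submodule.mem_span_singleton_self x)
  obtain ⟨s, hs⟩ := Submodule.mem_span_singleton.1 (rt_mem_span h.nd (x := x) (a := b - a) fun v hv => by
    have := e v
    rw [g2 v hv, rt_of_orth_left P b c hv, add_right_inj, (smul_left_injective F h0).eq_iff] at this
    rw [P.B_sub_left, this, sub_self])
  obtain rfl : b = a + s • x := by rw [hs, add_sub_cancel]
  exact ⟨_, g, hg, fun v => (e v).trans (rt_shift P x a s c v)⟩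

theorem lam_trv (h : Pol P q) (hK : K ≤ P.isom) (hx : P.Sing x) (h0 : x ≠ 0) (ha : a ∈ Lam P K x) {b : V}
    (hb : b ∈ Lam P K x) : ∃ g ∈ K, ∀ v, g v = v + (P.ε * (P.B b a - P.B a b) * P.B x v) • x := by
  obtain ⟨c, h1⟩ := lam_rt h hK hx h0 ha
  obtain ⟨c', h2⟩ := lam_rt h hK hx h0 hb
  have xx := hx.self_eq
  have s1 := Lam.orth (add_mem ha hb)
  have s2 := Lam.orth (add_mem hb ha)
  obtain ⟨g, hg, e⟩ := (h1.mul h2 xx (Lam.orth ha) (Lam.orth hb)).mul
    ((h2.mul h1 xx (Lam.orth hb) (Lam.orth ha)).inv xx s2) xx s1 (Lam.orth (neg_mem (add_mem hb ha)))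
  refine ⟨g, hg, fun v => ?_⟩
  rw [e, add_comm b a, add_neg_cancel, rt_def]
  simp only [map_zero, LinearMap.zero_apply, map_neg, smul_zero]
  module

theorem trv_move (hK : K ≤ P.isom) (hg : g ∈ K) {y : V} {t d : F} (e : g x = t • y)
    (h : ∃ k ∈ K, ∀ v, k v = v + (d * P.B x v) • x) : ∃ k ∈ K, ∀ v, k v = v + (σ t * t * d * P.B y v) • y := by
  obtain ⟨k, hk, h⟩ := h
  refine ⟨g * k * g⁻¹, mul_mem (mul_mem hg hk) (inv_mem hg), fun v => ?_⟩
  obtain ⟨w, rfl⟩ := g.surjective v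
  rw [LinearEquiv.mul_apply, LinearEquiv.mul_apply, show g⁻¹ (g w) = w from g.symm_apply_apply w, h, map_add,
    map_smul, ← PQ.IsIso.B_eq (hK hg), e, P.B_smul_left]
  module

theorem Tb.not_lam (h : Tb P q K) (hx : P.Sing x) (h0 : x ≠ 0) {W : Submodule F V} (hW : ND P W) (hW0 : W ≠ ⊥)
    (h1 : ∀ w ∈ W, w ∈ Lam P K x) : False := by
  have key : ∀ d ∈ P.Λ, ∃ a ∈ W, ∃ b ∈ W, P.ε * (P.B b a - P.B a b) = d := fun d hd => by
    rcases h.pol.kind with ⟨k, -⟩ | ⟨k, -⟩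
    · obtain ⟨a, ha, a0⟩ := (Submodule.ne_bot_iff W).1 hW0
      obtain ⟨b, hb⟩ : ∃ b ∈ W, P.B a b ≠ 0 := by
        by_contra! e
        exact a0 (P.disjoint_perp_iff.1 hW a ha e)
      refine ⟨a, ha, (d / (2 * P.B a b)) • b, W.smul_mem _ hb.1, ?_⟩
      rw [P.symm a, P.B_smul_right, k.σ_eq, k.ε_eq]
      have := k.two
      have := hb.2
      field_simp
      ring
    · obtain ⟨a, ha, e⟩ := k.exists_norm_eq hW hW0 (map_one σ)
      obtain ⟨θ, hθ⟩ := k.exists_trace_one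
      refine ⟨a, ha, (-(θ * d)) • a, W.smul_mem _ ha, ?_⟩
      rw [P.B_smul_left, P.B_smul_right, e, k.ε_eq, map_neg, map_mul]
      linear_combination d * hθ - σ θ * (k.mem_Λ d).1 hd
  refine h.ne (le_of_trv h.pol (by have := h.six; omega) h.le fun y hy d hd => ?_)
  by_cases y0 : y = 0
  · exact ⟨1, one_mem K, fun v => by simp [y0]⟩
  obtain ⟨g, hg, t, ht, e⟩ := h.exists_move hx h0 hy y0
  obtain ⟨a, ha, b, hb, e'⟩ := key _ (P.Λ_smul t⁻¹ d hd)
  have := trv_move h.le' hg e (lam_trv h.pol h.le' hx h0 (h1 a ha) (h1 b hb))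
  have hs : σ t ≠ 0 := (map_ne_zero σ).2 ht
  rwa [e', show σ t * t * (σ t⁻¹ * t⁻¹ * d) = d by rw [map_inv₀]; field_simp] at this

theorem Tb.noT (h : Tb P q K) (h1 : NoL P K) : NoT P K := fun x hx h0 g hg g1 => by
  by_contra g0
  obtain ⟨a, c, -, hc, e⟩ := exists_rt_eq h.pol (h.le' hg) hx h0 (g1 x hx.self_eq) fun w hw => by
    rw [g1 w hw, sub_self]
    exact zero_mem _
  obtain ⟨s, rfl⟩ := Submodule.mem_span_singleton.1 (rt_mem_span h.pol.nd (x := x) (a := a) fun v hv => by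
    have := e v
    rw [g1 v hv, rt_of_orth_left P a c hv, left_eq_add, smul_eq_zero] at this
    exact this.resolve_right h0)
  obtain ⟨d, hd, e1⟩ : ∃ d ∈ P.Λ, ∀ v, g v = v + (d * P.B x v) • x := by
    refine ⟨-(c - σ s + P.ε * s), neg_mem ?_, fun v => ?_⟩
    · have := add_mem (add_mem hc (σ_mem P (hx.smul s))) (ε_sub_σ_mem P s)
      convert this using 1
      ring
    · rw [e, ← zero_add (s • x), rt_shift]
      simp [rt_def, add_mul, sub_mul]
  have d0 : d ≠ 0 := fun d0 => g0 (LinearEquiv.ext fun v => by simp [e1, d0])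
  have all : ∀ y, P.Sing y → y ≠ 0 → ∃ d : P.Λ, d ≠ 0 ∧ ∃ k ∈ K, ∀ v, k v = v + (d * P.B y v) • y :=
    fun y hy y0 => by
      obtain ⟨k, hk, t, ht, e2⟩ := h.exists_move hx h0 hy y0
      exact ⟨⟨_, P.Λ_smul t d hd⟩, fun e3 => mul_ne_zero (mul_ne_zero ((map_ne_zero σ).2 ht) ht) d0
        (congrArg Subtype.val e3), trv_move h.le' hk e2 ⟨g, hg, e1⟩⟩
  obtain ⟨Z, hZ, xZ, dZ⟩ : (Pt P (F ∙ x)).Nonempty := Set.nonempty_of_ncard_ne_zero (by
    obtain ⟨n, hn⟩ : ∃ n, finrank F V - 2 * 1 = n + 2 := ⟨finrank F V - 4, by have := h.six; omega⟩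
    rw [ncard_Pt h.pol (span_mem_T hx h0), hn, np]
    omega)
  obtain ⟨z, hz, zx⟩ := SetLike.exists_of_lt (lt_of_le_of_ne xZ fun e => by rw [← e] at dZ; omega)
  have xZ' := xZ (Submodule.mem_span_singleton_self x)
  have bz := hZ.B_eq hz xZ'
  choose f f0 k hk ek using fun l : F => all (z + l • x) (hZ.1 _ (Z.add_mem hz (Z.smul_mem l xZ'))) fun e => zx (by
    rw [eq_neg_of_add_eq_zero_left e]
    exact neg_mem (Submodule.smul_mem _ _ (Submodule.mem_span_singleton_self x)))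
  obtain ⟨l, l', hf, hl⟩ : ∃ l l', f l = f l' ∧ l ≠ l' := by
    by_contra! hi
    have := Nat.card_le_card_of_injective (fun o : Option F => o.elim 0 f) (by
      rintro (_ | l) (_ | l') e
      · rfl
      · exact (f0 l' e.symm).elim
      · exact (f0 l e).elim
      · exact congrArg some (hi l l' e))
    rw [Finite.card_option, h.pol.cq] at this
    have := h.pol.q_le
    omega
  have e2 : ∀ v, P.B x v = 0 → ((k l)⁻¹ * k l') v = v + (f l * P.B z v * (l' - l)) • x := fun v hv =>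
    (k l).injective (by
      rw [LinearEquiv.mul_apply, show ∀ w, k l ((k l)⁻¹ w) = w from (k l).apply_symm_apply, ek, ek, ← hf]
      simp only [P.B_add_left, P.B_add_right, P.B_smul_left, P.B_smul_right, hv, bz, hx.self_eq]
      module)
  refine zx (rt_mem_span h.pol.nd fun v hv => ?_)
  have := h1 x hx h0 _ (mul_mem (inv_mem (hk l)) (hk l')) (by rw [e2 x hx.self_eq, bz]; simp) (fun w hw => by
    rw [e2 w hw, add_sub_cancel_left]
    exact Submodule.smul_mem _ _ (Submodule.mem_span_singleton_self x)) v hv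
  rw [e2 v hv, add_eq_left, smul_eq_zero, mul_eq_zero, mul_eq_zero] at this
  rcases this with ((e3 | e3) | e3) | e3
  · exact (f0 l (Subtype.ext e3)).elim
  · exact e3
  · exact (hl (sub_eq_zero.1 e3).symm).elim
  · exact (h0 e3).elim

end CfsgLib.KP
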