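import Mathlib
import Cfsg.Agent.Lib.KP.Cnt
import Cfsg.Agent.Lib.KP.Rt

/-! KP: no spread of hyperbolic lines (plans/KP.md, package SPR). -/

set_option autoImplicit false
set_option linter.unusedSectionVars false

namespace CfsgLib.KP

open CfsgLib.CK CfsgLib.KL CfsgLib.Forms CfsgLib.RootMax CfsgLib.ClMax CfsgLib.Tech Module

variable {F : Type*} [Field F] [Finite F] {σ : F →+* F} {V : Type*} [AddCommGroup V] [Module F V] [Finite V]
  {P : PQ σ V} {q : ℕ} {K : Subgroup (V ≃ₗ[F] V)} {C : Set (Submodule F V)}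

namespace SprP

theorem card_zero : (Nat.card F : F) = 0 := by
  have := Fintype.ofFinite F
  rw [Nat.card_eq_fintype_card]
  exact FiniteField.cast_card_eq_zero F

/-- the number of singular vectors of a subspace of dimension at least two is divisible by the characteristic -/
theorem sing_zero (h : Pol P q) {W : Submodule F V} (h2 : 2 ≤ finrank F W) :
    (({v | v ∈ W ∧ P.Sing v}.ncard : ℕ) : F) = 0 := by
  have h1 := cn_vec (P := P) (Y := ⊥) (W := W) P.ts_bot bot_le (by rw [P.perp_bot]; exact le_top)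
  have h3 := cnt_rad h (Y := ⊥) (W := W) P.ts_bot bot_le (by rw [P.perp_bot]; exact le_top)
  have hq : (q : F) = 0 := (CharP.cast_eq_zero_iff F (ringChar F) q).2 h.p_dvd
  have hQ : (Nat.card F : F) = 0 := card_zero
  have h4 : (cnt (Pt P ⊥) W : F) = 1 := by
    rw [h3, finrank_bot, Nat.sub_zero]
    rcases finrank F ↥(W ⊓ P.perp W) with _ | k
    · obtain ⟨d, hd⟩ : ∃ d, finrank F W = d + 2 := ⟨finrank F W - 2, by omega⟩
      rw [hd, Nat.sub_zero, np_add_two, cn_th0]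
      push_cast
      rw [hq, hQ]
      ring
    · rw [th_succ, pow_succ]
      push_cast
      rw [hQ]
      ring
  rw [h1, finrank_bot, pow_zero, zero_add, pow_one, Nat.cast_add, Nat.cast_mul, h4,
    Nat.cast_sub (show 1 ≤ Nat.card F from Nat.card_pos), hQ]
  simp

theorem dec (h : P.Nondeg) {U : Submodule F V} (hU : ND P U) (v : V) : ∃ a ∈ U, ∃ b ∈ P.perp U, a + b = v :=
  Submodule.mem_sup.1 ((P.isCompl_perp h hU).sup_eq_top ▸ Submodule.mem_top)

theorem inl {U : Submodule F V} (hd : finrank F U = 2) (hU : ND P U) {x a : V} (hx : x ∈ U) (hs : P.Sing x)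
    (h0 : x ≠ 0) (ha : a ∈ U) (hxa : P.B x a = 0) : a ∈ F ∙ x := by
  have h1 : (F ∙ x) ≤ U ⊓ P.perp (F ∙ x) :=
    (Submodule.span_singleton_le_iff_mem _ _).2 ⟨hx, P.mem_perp_span_singleton.2 hs.self_eq⟩
  have h2 : U ⊓ P.perp (F ∙ x) < U := lt_of_le_of_ne inf_le_left fun e =>
    h0 (P.disjoint_perp_iff.1 hU x hx fun y hy => P.mem_perp_span_singleton.1 (inf_eq_left.1 e hy))
  have h3 := Submodule.finrank_lt_finrank_of_lt h2
  rw [Submodule.eq_of_le_of_finrank_le h1 (by rw [finrank_span_singleton h0]; omega)]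
  exact ⟨ha, P.mem_perp_span_singleton.2 hxa⟩

variable (P K) in
/-- the hyperbolic lines whose involution lies in `K` -/
def HH (U : Submodule F V) : Prop := finrank F U = 2 ∧ ND P U ∧ Zh P K U

theorem HH.smul (hK : K ≤ P.isom) {U : Submodule F V} (h : HH P K U) {g : V ≃ₗ[F] V} (hg : g ∈ K) :
    HH P K (g • U) := by
  obtain ⟨h1, h2, z, hz, z1, z2⟩ := h
  have i : ∀ w, g⁻¹ (g w) = w := g.symm_apply_apply
  refine ⟨by rw [finrank_smul, h1], ?_, g * z * g⁻¹, mul_mem (mul_mem hg hz) (inv_mem hg), fun v hv => ?_,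
    fun v hv => ?_⟩
  · rw [ND, ← smul_perp (hK hg), disjoint_iff, ← smul_inf'', h2.eq_bot, smul_bot'']
  · obtain ⟨w, rfl⟩ := g.surjective v
    rw [LinearEquiv.mul_apply, LinearEquiv.mul_apply, i, z1 w (apply_mem_smul.1 hv), map_neg]
  · obtain ⟨w, rfl⟩ := g.surjective v
    rw [← smul_perp (hK hg)] at hv
    rw [LinearEquiv.mul_apply, LinearEquiv.mul_apply, i, z2 w (apply_mem_smul.1 hv)]

theorem uniq_le (h : P.Nondeg) (h2 : (2 : F) ≠ 0) (hL : NoL P K) {U U' : Submodule F V} (hU : HH P K U)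
    (hU' : HH P K U') {x : V} (hs : P.Sing x) (h0 : x ≠ 0) (hx : x ∈ U) (hx' : x ∈ U') : P.perp U' ≤ P.perp U := by
  have key : ∀ {U : Submodule F V}, finrank F U = 2 → ND P U → x ∈ U → ∀ z : V ≃ₗ[F] V, (∀ v ∈ U, z v = -v) →
      (∀ v ∈ P.perp U, z v = v) → ∀ v, P.B x v = 0 → ∃ t : F, z v = v + t • x := fun hd hU hx z z1 z2 v hv => by
    obtain ⟨a, ha, b, hb, rfl⟩ := dec h hU v
    rw [P.B_add_right, hb x hx, add_zero] at hv
    obtain ⟨t, rfl⟩ := Submodule.mem_span_singleton.1 (inl hd hU hx hs h0 ha hv)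
    exact ⟨-2 * t, by rw [map_add, z1 _ ha, z2 _ hb]; module⟩
  obtain ⟨d, n, z, hz, z1, z2⟩ := hU
  obtain ⟨d', n', z', hz', z1', z2'⟩ := hU'
  have e := hL x hs h0 (z * z') (mul_mem hz hz') (by rw [LinearEquiv.mul_apply, z1' x hx', map_neg, z1 x hx, neg_neg])
    fun v hv => by
      obtain ⟨t, ht⟩ := key d' n' hx' z' z1' z2' v hv
      obtain ⟨s, hs'⟩ := key d n hx z z1 z2 v hv
      rw [LinearEquiv.mul_apply, ht, map_add, map_smul, hs', z1 x hx]
      exact Submodule.mem_span_singleton.2 ⟨s - t, by module⟩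
  intro v hv
  have e1 := e v (hv x hx')
  rw [LinearEquiv.mul_apply, z2' v hv] at e1
  obtain ⟨a, ha, b, hb, rfl⟩ := dec h n v
  rw [map_add, z1 a ha, z2 b hb, add_left_inj] at e1
  have : (2 : F) • a = 0 := by rw [two_smul]; nth_rw 1 [← e1]; exact neg_add_cancel a
  rw [(smul_eq_zero.1 this).resolve_left h2, zero_add]
  exact hb

theorem uniq (h : P.Nondeg) (h2 : (2 : F) ≠ 0) (hL : NoL P K) {U U' : Submodule F V} (hU : HH P K U)
    (hU' : HH P K U') {x : V} (hs : P.Sing x) (h0 : x ≠ 0) (hx : x ∈ U) (hx' : x ∈ U') : U = U' :=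
  P.perp_injective h ((uniq_le h h2 hL hU' hU hs h0 hx' hx).antisymm (uniq_le h h2 hL hU hU' hs h0 hx hx'))

theorem symm (h : P.Nondeg) (hK : K ≤ P.isom) (h2 : (2 : F) ≠ 0) (hL : NoL P K) {U U' : Submodule F V}
    (hU : HH P K U) (hU' : HH P K U') {y : V} (hs : P.Sing y) (h0 : y ≠ 0) (hy : y ∈ U') (hy' : y ∈ P.perp U) :
    U ≤ P.perp U' := by
  obtain ⟨-, n, z, hz, z1, z2⟩ := hU
  have e : z • U' = U' := uniq h h2 hL (hU'.smul hK hz) hU' hs h0 (by
    rw [← z2 y hy']; exact apply_mem_smul.2 hy) hy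
  refine P.le_perp_comm.1 fun w hw => ?_
  have h1 := apply_mem_of_smul_eq e hw
  obtain ⟨a, ha, b, hb, rfl⟩ := dec h n w
  rw [map_add, z1 a ha, z2 b hb] at h1
  have h3 : a ∈ U' := by
    have := U'.smul_mem (2 : F)⁻¹ (U'.sub_mem hw h1)
    rwa [show a + b - (-a + b) = (2 : F) • a by module, smul_smul, inv_mul_cancel₀ h2, one_smul] at this
  obtain ⟨t, rfl⟩ := Submodule.mem_span_singleton.1 (inl hU'.1 hU'.2.1 hy hs h0 h3 (P.B_eq_zero_comm.1 (hy' a ha)))
  exact add_mem (Submodule.smul_mem _ t hy') hb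

end SprP

open SprP in
theorem spr (h : Tb P q K) (h2 : (2 : F) ≠ 0) (hL : NoL P K) {U : Submodule F V} (hd : finrank F U = 2)
    (hU : ND P U) (hz : Zh P K U) : False := by
  classical
  have nd := h.pol.nd
  obtain ⟨x₀, hx₀, s₀, n₀⟩ := exists_sing h.pol hU hd.ge
  have ex : ∀ y, P.Sing y → y ≠ 0 → ∃ W, HH P K W ∧ y ∈ W := fun y hy y0 => by
    obtain ⟨g, hg, t, ht, e⟩ := h.exists_move s₀ n₀ hy y0
    refine ⟨g • U, HH.smul h.le' ⟨hd, hU, hz⟩ hg, (Submodule.smul_mem_iff _ ht).1 ?_⟩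
    rw [← e]
    exact apply_mem_smul.2 hx₀
  choose! f₀ hf₀ using ex
  let f : V → Submodule F V := fun x => if x = 0 then ⊥ else f₀ x
  have f0 : f 0 = ⊥ := if_pos rfl
  have hf : ∀ y, P.Sing y → y ≠ 0 → HH P K (f y) ∧ y ∈ f y := fun y hy y0 => by
    simp only [f, if_neg y0]; exact hf₀ y hy y0
  have fd : ∀ y, P.Sing y → finrank F (f y) ≤ 2 := fun y hy => by
    by_cases y0 : y = 0
    · rw [y0, f0, finrank_bot]; omega
    · exact (hf y hy y0).1.1.le
  have hs : ∀ x y, P.Sing x → P.Sing y → y ∈ P.perp (f x) → x ∈ P.perp (f y) := fun x y hx hy e => by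
    by_cases x0 : x = 0
    · rw [x0]; exact zero_mem _
    by_cases y0 : y = 0
    · rw [y0, f0, P.perp_bot]; trivial
    exact symm nd h.le' h2 hL (hf x hx x0).1 (hf y hy y0).1 hy y0 (hf y hy y0).2 e (hf x hx x0).2
  have := Fintype.ofFinite V
  let B : Matrix {v // P.Sing v} {v // P.Sing v} F := fun x y => if y.1 ∈ P.perp (f x.1) then 1 else 0
  have hB : B ^ 2 = 0 := by
    ext x y
    have hW : 2 ≤ finrank F (P.perp (f x.1 ⊔ f y.1)) := by
      have a1 := P.finrank_perp nd (f x.1 ⊔ f y.1)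
      have a2 := Submodule.finrank_sup_add_finrank_inf_eq (f x.1) (f y.1)
      have a3 := fd _ x.2
      have a4 := fd _ y.2
      have := h.six
      omega
    rw [pow_two, Matrix.mul_apply, Matrix.zero_apply, ← sing_zero h.pol hW]
    have e : ∀ z : {v // P.Sing v}, B x z * B z y = if z.1 ∈ P.perp (f x.1 ⊔ f y.1) then 1 else 0 := fun z => by
      have : y.1 ∈ P.perp (f z.1) ↔ z.1 ∈ P.perp (f y.1) := ⟨hs _ _ z.2 y.2, hs _ _ y.2 z.2⟩
      simp only [B, this, P.perp_sup, Submodule.mem_inf]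
      by_cases a : z.1 ∈ P.perp (f x.1) <;> by_cases b : z.1 ∈ P.perp (f y.1) <;> simp [a, b]
    simp only [e]
    rw [Finset.sum_boole, ← Set.ncard_coe_finset]
    congr 1
    refine Set.ncard_congr (fun z _ => z.1) (fun z hz => ⟨by simpa using hz, z.2⟩)
      (fun _ _ _ _ e => Subtype.ext e) fun v hv => ⟨⟨v, hv.2⟩, by simpa using hv.1, rfl⟩
  have h4 := (Matrix.isNilpotent_trace_of_isNilpotent ⟨2, hB⟩).eq_zero
  rw [Matrix.trace, Finset.sum_eq_single (f := B.diag) ⟨0, P.sing_zero⟩ (fun x _ hx => if_neg fun e => by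
    have x0 : x.1 ≠ 0 := fun e => hx (Subtype.ext e)
    exact x0 (Submodule.disjoint_def.1 (hf _ x.2 x0).1.2.1 _ (hf _ x.2 x0).2 e)) (by simp)] at h4
  exact one_ne_zero ((if_pos (zero_mem _)).symm.trans h4)

end CfsgLib.KP
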