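import Mathlib
import Cfsg.Agent.Lib.KP.Syl
import Cfsg.Agent.Lib.KP.Rt
import Cfsg.Agent.Lib.KP.Spr

/-! KP: no root elements (plans/KP.md, package LAM). -/

set_option autoImplicit false
set_option linter.unusedSectionVars false

namespace CfsgLib.KP

open CfsgLib.CK CfsgLib.KL CfsgLib.Forms CfsgLib.RootMax CfsgLib.ClMax CfsgLib.Tech Module

variable {F : Type*} [Field F] [Finite F] {σ : F →+* F} {V : Type*} [AddCommGroup V] [Module F V] [Finite V]
  {P : PQ σ V} {q : ℕ} {K : Subgroup (V ≃ₗ[F] V)} {C : Set (Submodule F V)}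

variable {r e : ℕ} {x a : V} {g : V ≃ₗ[F] V}

namespace LamP

theorem card_pow (F : Type*) [Field F] [Finite F] : (ringChar F).Prime ∧ ∃ f, 0 < f ∧ Nat.card F = ringChar F ^ f := by
  have := Fintype.ofFinite F
  obtain ⟨n, hp, hn⟩ := FiniteField.card F (ringChar F)
  exact ⟨hp, n, n.2, by rw [Nat.card_eq_fintype_card, hn]⟩

theorem pg (ho : orderOf g = r) : IsPGroup r (Subgroup.zpowers g) :=
  IsPGroup.of_card (n := 1) (by rw [Nat.card_zpowers, ho, pow_one])

theorem mem_fix {v : V} : v ∈ fixV (Subgroup.zpowers g) ↔ g v = v :=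
  ⟨fun h => h g (Subgroup.mem_zpowers g), fun h k hk =>
    (Subgroup.zpowers_le (H := MulAction.stabilizer (V ≃ₗ[F] V) v)).2 h hk⟩

theorem fx_perp {R : Subgroup (V ≃ₗ[F] V)} (le : R ≤ P.isom) : Fx R (P.perp (fixV R)) := fun k hk => by
  rw [smul_perp (le hk)]
  congr 1
  ext v
  obtain ⟨w, rfl⟩ := k.surjective v
  rw [apply_mem_smul]
  exact ⟨fun h => by rw [h k hk]; exact h, fun h => by
    have := h k hk
    rwa [k.injective this] at h⟩

variable (P K) in
/-- `Lam K y` is contained in `<y, c>` -/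
def Gd (y c : V) : Prop := c ∈ Lam P K y ∧ P.B c c ≠ 0 ∧ ∀ b ∈ Lam P K y, ∃ s t : F, b = s • y + t • c

theorem Gd.ex (h : Tb P q K) (hx : P.Sing x) (h0 : x ≠ 0) (ha : Gd P K x a) {y : V} (hy : P.Sing y) (y0 : y ≠ 0) :
    ∃ c, Gd P K y c := by
  obtain ⟨g, hg, t, ht, e⟩ := h.exists_move hx h0 hy y0
  have hs : σ t ≠ 0 := (map_ne_zero σ).2 ht
  have h1 := lam_conj h.le' hg ha.1
  rw [e, lam_smul ht] at h1
  refine ⟨_, h1, ?_, fun d hd => ?_⟩
  · rw [P.B_smul_left, P.B_smul_right, PQ.IsIso.B_eq (h.le' hg), P.σσ]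
    exact mul_ne_zero ht (mul_ne_zero hs ha.2.1)
  · have h2 : (σ t)⁻¹ • d ∈ Lam P K (g x) := by rw [e, lam_smul ht, smul_inv_smul₀ hs]; exact hd
    have h3 := lam_conj h.le' (inv_mem hg) h2
    rw [show g⁻¹ (g x) = x from g.symm_apply_apply x] at h3
    obtain ⟨s, u, h4⟩ := ha.2.2 _ h3
    have h5 := congrArg g h4
    rw [show ∀ w, g (g⁻¹ w) = w from g.apply_symm_apply, map_add, map_smul, map_smul, e] at h5
    refine ⟨σ t * s * t, u, ?_⟩
    rw [← smul_inv_smul₀ hs d, h5]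
    module

theorem Gd.s (h : Tb P q K) (hx : P.Sing x) (h0 : x ≠ 0) (ha : Gd P K x a) {z c : V} (hc : Gd P K z c)
    (xz : P.B x z = 0) (az : P.B a z = 0) (zx : z ∉ F ∙ x) : P.B x c = 0 ∧ P.B a c = 0 := by
  obtain ⟨c₀, ρ, hρ, e⟩ := lam_rt h.pol h.le' hx h0 ha.1
  have h1 := lam_conj h.le' hρ hc.1
  rw [e z, rt_of_orth P c₀ xz az] at h1
  obtain ⟨γ, δ, h2⟩ := hc.2.2 _ (sub_mem h1 hc.1)
  rw [e, rt_def] at h2
  have h3 : (P.B a c - c₀ * P.B x c) • x - (P.ε * P.B x c) • a = γ • z + δ • c := by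
    rw [← h2]; abel
  have xa := Lam.orth ha.1
  have b1 := congrArg (P.B x) h3
  have b2 := congrArg (P.B a) h3
  have b3 := congrArg (P.B c) h3
  simp only [P.B_sub_right, P.B_add_right, P.B_smul_right, hx.self_eq, xa, xz, az, ha.1.1, hc.1.1] at b1 b2 b3
  have xc : P.B x c = 0 := by
    by_contra n
    have d0 : δ = 0 := (mul_eq_zero.1 (by linear_combination -b1)).resolve_right n
    rw [d0] at b2
    exact mul_ne_zero (mul_ne_zero P.ε_ne n) ha.2.1 (by linear_combination -b2)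
  have cx := P.B_eq_zero_comm.1 xc
  rw [xc, cx] at b3
  have d0 : δ = 0 := (mul_eq_zero.1 (by linear_combination -b3)).resolve_right hc.2.1
  refine ⟨xc, ?_⟩
  rw [xc, d0] at h3
  simp only [mul_zero, sub_zero, zero_smul, add_zero] at h3
  by_cases g0 : γ = 0
  · rw [g0, zero_smul] at h3
    exact (smul_eq_zero.1 h3).resolve_right h0
  · exact (zx (Submodule.mem_span_singleton.2 ⟨γ⁻¹ * P.B a c, by rw [mul_smul, h3, inv_smul_smul₀ g0]⟩)).elim

theorem Gd.false (h : Tb P q K) (k : P.IsHerm) (hx : P.Sing x) (h0 : x ≠ 0) (ha : Gd P K x a) : False := by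
  have sy := @P.B_eq_zero_comm
  have xa := Lam.orth ha.1
  obtain ⟨Z, hZ, Za⟩ : (ins (Pt P (F ∙ x)) (P.perp (F ∙ a))).Nonempty := Set.nonempty_of_ncard_ne_zero (by
    rw [← cnt_eq, cnt_nonsing h.pol (span_mem_T hx h0) (P.mem_perp_span_singleton.2 xa)
      fun e => ha.2.1 e.self_eq]
    exact (np_pos _ _ (by have := h.six; omega)).ne')
  obtain ⟨z, hz, xz, zx, rfl⟩ := Pt.exists_vec hZ
  rw [P.mem_perp_span_singleton] at xz
  have az : P.B a z = 0 := P.mem_perp_span_singleton.1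
    (Za (Submodule.mem_sup_right (Submodule.mem_span_singleton_self z)))
  have z0 : z ≠ 0 := fun e => zx (e ▸ zero_mem _)
  obtain ⟨c, hc⟩ := ha.ex h hx h0 hz z0
  obtain ⟨xc, ac⟩ := ha.s h hx h0 hc xz az zx
  obtain ⟨μ, hμ⟩ := k.exists_smul_norm_eq hc.2.1 (c := -P.B a a) (by rw [map_neg, k.conj])
  have zc := Lam.orth hc.1
  have aw : P.B a (a + μ • c) = P.B a a := by rw [P.B_add_right, P.B_smul_right, ac, mul_zero, add_zero]
  have wa : P.B (a + μ • c) a = P.B a a := by rw [P.B_add_left, P.B_smul_left, sy.1 ac, mul_zero, add_zero]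
  have hw : P.Sing (a + μ • c) := h.pol.sing_iff.2 (by
    rw [P.B_add_right, wa, P.B_add_left, hμ, P.B_smul_right, ac]; ring)
  have w0 : a + μ • c ≠ 0 := fun e => ha.2.1 (by rw [← aw, e, map_zero])
  obtain ⟨d, hd⟩ := ha.ex h hx h0 hw w0
  have key : ∀ l : F, l ≠ 0 → P.B (x + l • z) d = 0 := fun l hl => by
    have hy : P.Sing (x + l • z) := hx.add (hz.smul l) (by rw [P.B_smul_right, xz, mul_zero])
    have yx : x + l • z ∉ F ∙ x := fun e => zx ((Submodule.smul_mem_iff _ hl).1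
      ((Submodule.add_mem_iff_right _ (Submodule.mem_span_singleton_self x)).1 e))
    have yz : x + l • z ∉ F ∙ z := fun e => by
      obtain ⟨t, ht⟩ := Submodule.mem_span_singleton.1 ((Submodule.add_mem_iff_left _
        (Submodule.smul_mem _ l (Submodule.mem_span_singleton_self z))).1 e)
      have t0 : t ≠ 0 := fun e => h0 (by rw [← ht, e, zero_smul])
      exact zx (Submodule.mem_span_singleton.2 ⟨t⁻¹, by rw [← ht, inv_smul_smul₀ t0]⟩)
    have y0 : x + l • z ≠ 0 := fun e => yx (e ▸ zero_mem _)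
    obtain ⟨b, hb⟩ := ha.ex h hx h0 hy y0
    have ay : P.B a (x + l • z) = 0 := by rw [P.B_add_right, P.B_smul_right, ha.1.1, az]; ring
    have cy : P.B c (x + l • z) = 0 := by rw [P.B_add_right, P.B_smul_right, sy.1 xc, hc.1.1]; ring
    have ab := (ha.s h hx h0 hb (by rw [P.B_add_right, P.B_smul_right, hx.self_eq, xz]; ring) ay yx).2
    have cb := (hc.s h hz z0 hb (by rw [P.B_add_right, P.B_smul_right, hz.self_eq, sy.1 xz]; ring) cy yz).2
    refine (hb.s h hy y0 hd ?_ ?_ fun e => ?_).1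
    · rw [P.B_add_right, P.B_smul_right, sy.1 ay, sy.1 cy]; ring
    · rw [P.B_add_right, P.B_smul_right, sy.1 ab, sy.1 cb]; ring
    · obtain ⟨t, ht⟩ := Submodule.mem_span_singleton.1 e
      exact ha.2.1 (by rw [← aw, ← ht, P.B_smul_right, ay, mul_zero])
  obtain ⟨l, l0, l1⟩ : ∃ l : F, l ≠ 0 ∧ l ≠ 1 := by
    by_contra! hh
    have := (Nat.card_eq_two_iff' (0 : F)).2 ⟨1, one_ne_zero, fun y hy => hh y hy⟩
    have := h.pol.three_le
    omega
  have k1 := key 1 one_ne_zero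
  have k2 := key l l0
  rw [P.B_add_left, P.B_smul_left] at k1 k2
  have xd : P.B x d = 0 := (mul_eq_zero.1 (show σ (l - 1) * P.B x d = 0 by
    rw [map_sub]; linear_combination σ l * k1 - σ 1 * k2)).resolve_left ((map_ne_zero σ).2 (sub_ne_zero.2 l1))
  refine ha.2.1 (wa.symm.trans (hd.s h hw w0 ha ?_ (sy.1 xd) fun e => ?_).1)
  · rw [P.B_add_left, P.B_smul_left, ha.1.1, sy.1 xc]; ring
  · obtain ⟨t, ht⟩ := Submodule.mem_span_singleton.1 e
    have := ha.1.1
    rw [← ht, P.B_smul_right, aw] at this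
    exact h0 (by rw [← ht, (mul_eq_zero.1 this).resolve_right ha.2.1, zero_smul])

end LamP

open LamP

theorem lam_le (h : Pol P q) (hK : K ≤ P.isom) (hr : r.Prime) (hQ : ¬ r ∣ Nat.card F) (hg : g ∈ K)
    (ho : orderOf g = r) (hgx : g x = x)
    (hp : Pp r (ringChar F) (Nat.card F ^ finrank F (P.perp (fixV (Subgroup.zpowers g))))) :
    (∀ a ∈ Lam P K x, g a = a) ∨ ∀ w ∈ P.perp (fixV (Subgroup.zpowers g)), w ∈ Lam P K x := by
  have le : Subgroup.zpowers g ≤ K := (Subgroup.zpowers_le).2 hg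
  have nd := fix_nd h.nd hr hQ (pg ho) (le.trans hK)
  have fx := fx_perp (le.trans hK)
  set U := fixV (Subgroup.zpowers g) with hU
  let M := Lam P K x ⊓ (P.perp U).toAddSubgroup
  have inv : Inv (Subgroup.zpowers g) (M : Set V) := fun k hk v hv =>
    ⟨by rw [← mem_fix.2 hgx k hk]; exact lam_conj hK (le hk) hv.1, apply_mem_of_smul_eq (fx k hk) hv.2⟩
  have h1 := ncard_fx_modEq hr (pg ho) inv
  rw [show {a | a ∈ (M : Set V) ∧ Fx (Subgroup.zpowers g) a} = {0} from Set.eq_singleton_iff_unique_mem.2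
    ⟨⟨zero_mem M, fun k _ => map_zero k⟩, fun v hv => Submodule.disjoint_def.1 nd v hv.2 hv.1.2⟩,
    Set.ncard_singleton] at h1
  obtain ⟨hp', f, -, hf⟩ := card_pow F
  have h2 : Nat.card M ∣ ringChar F ^ (f * finrank F V) := by
    rw [pow_mul, ← hf, ← Module.natCard_eq_pow_finrank]
    exact M.card_addSubgroup_dvd_card
  obtain ⟨j, -, hj⟩ := (Nat.dvd_prime_pow hp').1 h2
  have h3 : (M : Set V).ncard = ringChar F ^ j := hj
  rcases j.eq_zero_or_pos with j0 | j0
  · left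
    rw [j0, pow_zero, AddSubgroup.card_eq_one] at hj
    intro a ha
    obtain ⟨u, hu, w, hw, rfl⟩ := SprP.dec h.nd nd a
    have h4 : g (u + w) - (u + w) ∈ M := AddSubgroup.mem_inf.2
      ⟨sub_mem (by simpa only [hgx] using lam_conj hK hg ha) ha, by
        rw [map_add, mem_fix.1 hu, add_sub_add_left_eq_sub]
        exact sub_mem (apply_mem_of_smul_eq (fx g (Subgroup.mem_zpowers g)) hw) hw⟩
    rw [hj] at h4
    exact sub_eq_zero.1 h4
  · right
    have h4 := hp j j0 (h3 ▸ h1)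
    rw [← h3, ← cn_sub] at h4
    have h5 := Set.eq_of_subset_of_ncard_le (s := (M : Set V)) (t := P.perp U) (fun v hv => hv.2) h4
    intro w hw
    exact (show w ∈ (M : Set V) by rw [h5]; exact hw).1

theorem lam1 (h : Tb P q K) (k : P.IsHerm) (hx : P.Sing x) (h0 : x ≠ 0) (ha : ¬ P.Sing a)
    (hL : ∀ b ∈ Lam P K x, b ∈ Submodule.span F {x, a}) : NoLx P K x := by
  rw [noLx_iff h.pol.nd hx h0]
  intro b hb
  obtain ⟨s, t, e⟩ := Submodule.mem_span_pair.1 (hL b hb)
  by_cases t0 : t = 0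
  · exact Submodule.mem_span_singleton.2 ⟨s, by rw [← e, t0, zero_smul, add_zero]⟩
  have xb := Lam.orth hb
  have xa : P.B x a = 0 := by
    rw [← e, P.B_add_right, P.B_smul_right, P.B_smul_right, hx.self_eq, mul_zero, zero_add] at xb
    exact (mul_eq_zero.1 xb).resolve_left t0
  refine (Gd.false h k hx h0 (a := b) ⟨hb, fun e1 => ?_, fun d hd => ?_⟩).elim
  · rw [← e] at e1
    simp only [P.B_add_left, P.B_add_right, P.B_smul_left, P.B_smul_right, hx.self_eq, xa,
      P.B_eq_zero_comm.1 xa, mul_zero, zero_add, mul_eq_zero, t0, (map_ne_zero σ).2 t0, false_or] at e1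
    exact ha (h.pol.sing_iff.2 e1)
  · obtain ⟨s', t', e'⟩ := Submodule.mem_span_pair.1 (hL d hd)
    refine ⟨s' - t' * t⁻¹ * s, t' * t⁻¹, ?_⟩
    rw [← e, ← e']
    match_scalars
    · ring
    · field_simp

theorem lam (h : Tb P q K) (hr : r.Prime) (hQ : ¬ r ∣ Nat.card F) (hQ' : ¬ r ∣ Nat.card F - 1) {y : Submodule F V}
    (hy : y ∈ T P 1) (hd : r ∣ Nat.card (Stab K y)) (hp : Pp r (ringChar F) (Nat.card F ^ e))
    (he : Nat.card F ^ e ≡ 1 [MOD r]) (hn : finrank F V = e + 2 ∨ (finrank F V = e + 3 ∧ P.IsHerm)) :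
    NoL P K := by
  have := Fact.mk hr
  obtain ⟨⟨g, hg, gy⟩, ho⟩ := exists_prime_orderOf_dvd_card' r hd
  replace ho : orderOf g = r := (Subgroup.orderOf_mk _ _).symm.trans ho
  have le : Subgroup.zpowers g ≤ P.isom := (Subgroup.zpowers_le).2 (h.le' hg)
  have nd := fix_nd h.pol.nd hr hQ (pg ho) le
  have fx := fx_perp le
  have yU := le_fixV hr hQ' (pg ho) hy.2 (fun k hk => (Subgroup.zpowers_le (H := MulAction.stabilizer _ y)).2 gy hk)
  obtain ⟨x, hx, h0, rfl⟩ := T.exists_vec hy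
  have xU := (Submodule.span_singleton_le_iff_mem _ _).1 yU
  have d1 := dim_lin hr (pg ho) fx nd.symm
  have d2 := two_le_of_sing nd xU hx h0
  have d3 := P.finrank_perp h.pol.nd (fixV (Subgroup.zpowers g))
  have W0 : P.perp (fixV (Subgroup.zpowers g)) ≠ ⊥ := fun e => by
    have e1 := P.perp_perp h.pol.nd (fixV (Subgroup.zpowers g))
    rw [e, P.perp_bot] at e1
    have : g = 1 := LinearEquiv.ext fun v => mem_fix.1 (e1 ▸ Submodule.mem_top)
    rw [this, orderOf_one] at ho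
    exact hr.one_lt.ne ho
  have q1 : 1 < Nat.card F := Finite.one_lt_card
  have d4 : e ≤ finrank F (P.perp (fixV (Subgroup.zpowers g))) := by
    obtain ⟨-, f, f0, hf⟩ := card_pow F
    have := hp (f * finrank F (P.perp (fixV (Subgroup.zpowers g))))
      (Nat.mul_pos f0 (Nat.pos_of_ne_zero fun e => W0 (Submodule.finrank_eq_zero.1 e))) (by rw [pow_mul, ← hf]; exact d1)
    rw [pow_mul, ← hf] at this
    exact (Nat.pow_le_pow_iff_right q1).1 this
  have d5 : finrank F (P.perp (fixV (Subgroup.zpowers g))) ≠ e + 1 := fun e1 => by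
    rw [e1, pow_succ] at d1
    have := (he.mul_right (Nat.card F)).symm.trans d1
    rw [one_mul] at this
    exact hQ' ((Nat.modEq_iff_dvd' q1.le).1 this.symm)
  have d6 : finrank F (P.perp (fixV (Subgroup.zpowers g))) = e := by omega
  have hL := (lam_le h.pol h.le' hr hQ hg ho (mem_fix.1 xU) (d6 ▸ hp)).resolve_right
    (h.not_lam hx h0 (nd.perp h.pol.nd) W0)
  refine h.noL hx h0 ?_
  by_contra hN
  obtain ⟨a, ha, ax⟩ : ∃ a ∈ Lam P K x, a ∉ F ∙ x := by
    by_contra! hh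
    exact hN ((noLx_iff h.pol.nd hx h0).2 hh)
  set U := fixV (Subgroup.zpowers g) with hU
  have l1 : Submodule.span F {x, a} ≤ U ⊓ P.perp (F ∙ x) := Submodule.span_le.2 (by
    rintro _ (rfl | rfl)
    · exact ⟨xU, P.mem_perp_span_singleton.2 hx.self_eq⟩
    · exact ⟨mem_fix.2 (hL _ ha), P.mem_perp_span_singleton.2 (Lam.orth ha)⟩)
  have l2 : (F ∙ x) < Submodule.span F {x, a} := lt_of_le_of_ne (Submodule.span_mono (by simp)) fun e =>
    ax (e ▸ Submodule.subset_span (by simp))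
  have l3 := Submodule.finrank_lt_finrank_of_lt l2
  have l4 := finrank_pair h.pol.nd (F ∙ x) U
  rw [(nd.mono_left yU).eq_bot, finrank_bot] at l4
  rw [finrank_span_singleton h0] at l3 l4
  have l5 := Submodule.eq_of_le_of_finrank_le l1 (by omega)
  have ns : ¬ P.Sing a := fun hs => by
    have ts : P.TS (Submodule.span F {x, a}) := P.ts_span (by rintro _ (rfl | rfl) <;> assumption) (by
      rintro _ (rfl | rfl) _ (rfl | rfl)
      exacts [hx.self_eq, Lam.orth ha, ha.1, hs.self_eq])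
    have l6 := finrank_pair h.pol.nd (Submodule.span F {x, a}) U
    have l7 := Submodule.finrank_mono (le_inf (l1.trans inf_le_left) ts.2)
    rw [(nd.mono_left (l1.trans inf_le_left)).eq_bot, finrank_bot] at l6
    omega
  exact hN (lam1 h (herm_of_not_sing h.pol ns) hx h0 ns fun b hb =>
    l5 ▸ ⟨mem_fix.2 (hL _ hb), P.mem_perp_span_singleton.2 (Lam.orth hb)⟩)

end CfsgLib.KP
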