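import Mathlib
import Cfsg.Agent.Lib.KP.Lam

/-! KP: ovoids in dimension six, root elements (plans/KP.md, package OV6A). -/

set_option autoImplicit false
set_option linter.unusedSectionVars false

namespace CfsgLib.KP

open CfsgLib.CK CfsgLib.KL CfsgLib.Forms CfsgLib.RootMax CfsgLib.ClMax CfsgLib.Tech Module

variable {F : Type*} [Field F] [Finite F] {σ : F →+* F} {V : Type*} [AddCommGroup V] [Module F V] [Finite V]
  {P : PQ σ V} {q : ℕ} {K : Subgroup (V ≃ₗ[F] V)} {C : Set (Submodule F V)}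

/-- singular directions of root elements -/
theorem ov_sing (h : Pol P q) (k : P.IsHerm) (h6 : finrank F V = 6) {S : Set (Submodule F V)} (hS : Ov P K S) {v : V}
    (hs : P.Sing v) (v0 : v ≠ 0) (hv : (F ∙ v) ∈ S) {a : V} (ha : a ∈ Lam P K v) (sa : P.Sing a) : a ∈ F ∙ v := by
  by_contra hn
  obtain ⟨c, g, hg, e⟩ := lam_rt h hS.le hs v0 ha
  have va : P.B v a = 0 := Lam.orth ha
  have av : P.B a v = 0 := P.B_eq_zero_comm.1 va
  have vv := hs.self_eq
  have aa := sa.self_eq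
  have e1 : ∀ s, P.B v s = 1 → g s = s + (P.B a s - c) • v - a := fun s h1 => by
    rw [e, rt_def, h1, k.ε_eq, mul_one, mul_one, one_smul]
  have hc : c + σ c = 0 := by
    obtain ⟨u, su, uv, -⟩ := P.exists_partner h.nd ⊥ hs (by simpa using v0) (by simp)
    have vu : P.B v u = 1 := by rw [← k.conj, uv, map_one]
    have := (hS.le hg).B_eq u u
    rw [e1 u vu] at this
    simp only [P.B_sub_left, P.B_sub_right, P.B_add_left, P.B_add_right, P.B_smul_left, P.B_smul_right, uv, vu,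
      va, av, vv, aa] at this
    rw [map_sub σ, k.conj] at this
    linear_combination -this
  obtain ⟨θ, hθ⟩ := k.exists_trace_one
  obtain ⟨t, ht⟩ : ∃ t, t - σ t = c := ⟨c * θ, by rw [map_mul]; linear_combination c * hθ - σ θ * hc⟩
  have sb : P.Sing (a + t • v) := sa.add (hs.smul t) (by rw [P.B_smul_right, av, mul_zero])
  have vb : P.B v (a + t • v) = 0 := by rw [P.B_add_right, P.B_smul_right, va, vv, mul_zero, add_zero]
  obtain ⟨u, su, uv, ub⟩ := P.exists_partner h.nd (F ∙ (a + t • v)) hs (fun hm => by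
    obtain ⟨μ, hμ⟩ := Submodule.mem_span_singleton.1 hm
    have μ0 : μ ≠ 0 := fun e => v0 (by rw [← hμ, e, zero_smul])
    refine hn (Submodule.mem_span_singleton.2 ⟨μ⁻¹ - t, ?_⟩)
    rw [sub_smul, sub_eq_iff_eq_add]
    nth_rw 1 [← hμ]
    rw [smul_smul, inv_mul_cancel₀ μ0, one_smul]) (fun w hw => by
    obtain ⟨μ, rfl⟩ := Submodule.mem_span_singleton.1 hw
    rw [P.B_smul_right, vb, mul_zero])
  have hU : P.TS ((F ∙ (a + t • v)) ⊔ F ∙ u) := (P.ts_span_singleton sb).sup (P.ts_span_singleton su)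
    ((Submodule.span_singleton_le_iff_mem _ _).2 (P.mem_perp'.2 ub))
  obtain ⟨M, hM, hle⟩ := exists_ext h (k := 3) ⟨hU, rfl⟩ (by have := hU.two_mul_finrank_le h.nd; omega) (by omega)
  have bM : a + t • v ∈ M := hle (Submodule.mem_sup_left (Submodule.mem_span_singleton_self _))
  have uM : u ∈ M := hle (Submodule.mem_sup_right (Submodule.mem_span_singleton_self _))
  obtain ⟨x', hx', hxM⟩ := hS.meet M hM
  obtain ⟨s₀, -, -, rfl⟩ := T.exists_vec (hS.sub hx')
  have n0 : P.B v s₀ ≠ 0 := fun e0 => by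
    have := hS.opp _ hv _ hx' ((Submodule.span_singleton_le_iff_mem _ _).2 (P.mem_perp_span_singleton.2 e0))
    have h1 := hM.1.B_eq uM (hxM (this.ge (Submodule.mem_span_singleton_self v)))
    rw [uv] at h1
    exact one_ne_zero h1
  rw [← Submodule.span_singleton_smul_eq (inv_ne_zero n0).isUnit] at hx' hxM
  have vs : P.B v ((P.B v s₀)⁻¹ • s₀) = 1 := by rw [P.B_smul_right, inv_mul_cancel₀ n0]
  generalize (P.B v s₀)⁻¹ • s₀ = s at hx' hxM vs
  have sM := hxM (Submodule.mem_span_singleton_self s)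
  have sv : P.B s v = 1 := by rw [← k.conj, vs, map_one]
  have b1 := hM.1.B_eq bM sM
  have b2 := hM.1.B_eq sM bM
  rw [P.B_add_left, P.B_smul_left, vs] at b1
  rw [P.B_add_right, P.B_smul_right, sv] at b2
  have := hS.opp _ hx' _ (hS.inv g hg _ hx') (by
    rw [smul_span, Submodule.span_singleton_le_iff_mem, P.mem_perp_span_singleton, e1 s vs, P.B_sub_right,
      P.B_add_right, P.B_smul_right, sv, hM.1.B_eq sM sM]
    linear_combination b1 - b2 + ht)
  rw [smul_span] at this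
  obtain ⟨μ, hμ⟩ := Submodule.mem_span_singleton.1 (this.le (Submodule.mem_span_singleton_self _))
  rw [e1 s vs] at hμ
  have m1 := congrArg (P.B v) hμ
  rw [P.B_smul_right, P.B_sub_right, P.B_add_right, P.B_smul_right, vs, vv, va, mul_one, mul_zero, add_zero,
    sub_zero] at m1
  rw [m1, one_smul, add_sub_assoc, left_eq_add, sub_eq_zero] at hμ
  exact hn (Submodule.mem_span_singleton.2 ⟨_, hμ⟩)

theorem ov_noL (h : Pol P q) (k : P.IsHerm) (h6 : finrank F V = 6) {S : Set (Submodule F V)} (hS : Ov P K S) {v : V}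
    (hv : (F ∙ v) ∈ S) : NoLx P K v := by
  have hx := hS.sub hv
  have hs : P.Sing v := hx.1.1 v (Submodule.mem_span_singleton_self v)
  have v0 : v ≠ 0 := fun e => by
    have := hx.2
    rw [e, Submodule.span_zero_singleton, finrank_bot] at this
    omega
  refine (noLx_iff h.nd hs v0).2 fun a ha => ?_
  by_contra hn
  obtain ⟨f, -, hf⟩ := h.exists_pow
  have hQ := h.card_herm k
  have q3 := h.three
  obtain ⟨r, hr, hp⟩ := prime_odd (f := f) (e := 3) (CharP.char_is_prime F (ringChar F)) (hf ▸ q3) le_rfl (by decide)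
  rw [← hf] at hr hp
  rw [← hQ] at hp
  have rp := hr.1
  have := Fact.mk rp
  have n1 : ¬ r ∣ Nat.card F := fun e => hr.not_dvd (by omega) (rp.dvd_of_dvd_pow (hQ ▸ e))
  have n2 : ¬ r ∣ Nat.card F - 1 := hQ ▸ hr.not_dvd_sub (by omega) le_rfl
  obtain ⟨l₂, hl₂, hne⟩ := exists_pt_not h hx (by omega) (W := P.perp (F ∙ a))
    ((Submodule.span_singleton_le_iff_mem _ _).2 (P.mem_perp_span_singleton.2 (P.B_eq_zero_comm.1 (Lam.orth ha))))
    fun e => hn (rt_mem_span h.nd fun w hw => P.mem_perp_span_singleton.1 (e (P.mem_perp_span_singleton.2 hw)))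
  obtain ⟨g, hg, ho⟩ : ∃ g ∈ Stab K (F ∙ v), orderOf g = r := by
    obtain ⟨R, hR⟩ := exists_isSylowIn r (Stab K (F ∙ v))
    have h1 := orb_dvd rp hR (hS.tr₂ _ hv) (inv_Pt ((Stab_le _ _).trans hS.le) (fx_Stab _ _)) (k := 1) (by
      rw [pow_one, ncard_Pt h hx, h6, hQ]
      exact (hr.dvd_np (by omega) le_rfl 3).2 (Or.inr dvd_rfl)) hl₂
    have h2 : R ≠ ⊥ := fun e => by
      have : orb R l₂ = {l₂} := Set.eq_singleton_iff_unique_mem.2 ⟨⟨1, one_mem R, one_smul _ _⟩, by
        rintro _ ⟨g, hg, rfl⟩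
        rw [Subgroup.mem_bot.1 (e.le hg), one_smul]⟩
      rw [this, Set.ncard_singleton, pow_one] at h1
      exact rp.one_lt.ne' (Nat.dvd_one.1 h1)
    obtain ⟨n, n0, hn⟩ := hR.pgroup.nontrivial_iff_card.1 ((Subgroup.nontrivial_iff_ne_bot R).2 h2)
    obtain ⟨g, hg⟩ := exists_prime_orderOf_dvd_card' (G := R) r (hn ▸ dvd_pow_self r n0.ne')
    exact ⟨g, hR.le g.2, by rwa [Subgroup.orderOf_coe]⟩
  have hz : IsPGroup r (Subgroup.zpowers g) := isPGroup_zpowers_iff.2 ⟨1, by rw [ho, pow_one]⟩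
  have hzl : Subgroup.zpowers g ≤ Stab K (F ∙ v) := (Subgroup.zpowers_le).2 hg
  have hzi : Subgroup.zpowers g ≤ P.isom := hzl.trans ((Stab_le _ _).trans hS.le)
  have vU : v ∈ fixV (Subgroup.zpowers g) :=
    le_fixV rp n2 hz hx.2 ((fx_Stab _ _).mono hzl) (Submodule.mem_span_singleton_self v)
  have nd := fix_nd h.nd rp n1 hz hzi
  have nd' := nd.perp h.nd
  have dW : finrank F (P.perp (fixV (Subgroup.zpowers g))) = 3 := by
    have e1 := dim_lin rp hz (W := P.perp (fixV (Subgroup.zpowers g)))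
      (fun k hk => by rw [smul_perp (hzi hk), fx_fixV (Subgroup.le_normalizer hk)]) nd.symm
    rw [hQ, hr.modEq_sq (by omega)] at e1
    have e2 := P.finrank_perp h.nd (fixV (Subgroup.zpowers g))
    have e3 := two_le_of_sing nd vU hs v0
    have e4 : finrank F (fixV (Subgroup.zpowers g)) ≠ 6 := fun e => by
      have : g = 1 := LinearEquiv.ext fun w =>
        (Submodule.eq_top_of_finrank_eq (e.trans h6.symm)).ge Submodule.mem_top g (Subgroup.mem_zpowers g)
      rw [this, orderOf_one] at ho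
      exact rp.one_lt.ne ho
    omega
  obtain ⟨w, hw, sw, w0⟩ := exists_sing h nd' (by omega)
  have wv : w ∉ F ∙ v := fun e =>
    w0 (nd.le_bot ⟨(Submodule.span_singleton_le_iff_mem _ _).2 vU e, hw⟩)
  rcases lam_le h hS.le rp n1 hg.1 ho (vU g (Subgroup.mem_zpowers g)) (dW ▸ hp) with e | e
  swap
  · exact wv (ov_sing h k h6 hS hs v0 hv (e w hw) sw)
  obtain ⟨c, hc, rfl⟩ := hS.tr₂ _ hv _ (sup_mem_Pt hx.1 sw (P.mem_perp_span_singleton.2 (hw v vU)) wv) _ hl₂
  obtain ⟨t, ht⟩ : ∃ t : F, t • v = c⁻¹ v := Submodule.mem_span_singleton.1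
    ((mem_Stab.1 (inv_mem hc)).2.le ⟨v, Submodule.mem_span_singleton_self v, rfl⟩)
  have t0 : t ≠ 0 := fun e0 => v0 (c⁻¹.map_eq_zero_iff.1 (by rw [← ht, e0, zero_smul]))
  have hb := lam_conj hS.le (inv_mem hc.1) ha
  rw [← ht, lam_smul t0] at hb
  have s0 : σ t ≠ 0 := (map_ne_zero σ).2 t0
  have bU : c⁻¹ a ∈ fixV (Subgroup.zpowers g) := by
    refine (Submodule.smul_mem_iff _ s0).1 fun k hk => ?_
    exact (Subgroup.zpowers_le (H := MulAction.stabilizer (V ≃ₗ[F] V) (σ t • c⁻¹ a))).2 (e _ hb) hk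
  have bv := Lam.orth hb
  rw [P.B_smul_right, mul_eq_zero, or_iff_right s0] at bv
  refine hne ?_
  rw [show (F ∙ a) = c • (F ∙ (c⁻¹ a)) by rw [smul_span, ← LinearEquiv.mul_apply, mul_inv_cancel]; rfl,
    smul_le_perp (hS.le hc.1)]
  exact sup_le ((Submodule.span_singleton_le_iff_mem _ _).2 (P.mem_perp_span_singleton.2 (P.B_eq_zero_comm.1 bv)))
    ((Submodule.span_singleton_le_iff_mem _ _).2 (P.mem_perp_span_singleton.2 (hw _ bU)))

end CfsgLib.KP
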