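import Mathlib
import Cfsg.Agent.Lib.KP.Ov6a

/-! KP: ovoids in dimension six (plans/KP.md, package OV6B). -/

set_option autoImplicit false
set_option Elab.async false
set_option linter.unusedSectionVars false

namespace CfsgLib.KP

open CfsgLib.CK CfsgLib.KL CfsgLib.Forms CfsgLib.RootMax CfsgLib.ClMax CfsgLib.Tech Module

variable {F : Type*} [Field F] [Finite F] {σ : F →+* F} {V : Type*} [AddCommGroup V] [Module F V] [Finite V]
  {P : PQ σ V} {q : ℕ} {K : Subgroup (V ≃ₗ[F] V)} {C : Set (Submodule F V)}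

theorem ov_unip {u : V ≃ₗ[F] V} {k : ℕ} (hu : u ^ ringChar F ^ k = 1) {o t : Submodule F V} (ho : u • o = o)
    (ht : u • t = t) {w : V} (hw : w ∉ o) (e : t = o ⊔ F ∙ w) : u w - w ∈ o := by
  haveI : Fact (ringChar F).Prime := ⟨CharP.char_is_prime F _⟩
  obtain ⟨y, hy, _, hz, e1⟩ := Submodule.mem_sup.1
    (e ▸ apply_mem_of_smul_eq ht (e ▸ Submodule.mem_sup_right (Submodule.mem_span_singleton_self w)))
  obtain ⟨c, rfl⟩ := Submodule.mem_span_singleton.1 hz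
  have k1 : ∀ n : ℕ, (u ^ n) w - c ^ n • w ∈ o := fun n => by
    induction n with
    | zero => simp
    | succ n ih =>
      have := o.add_mem (apply_mem_of_smul_eq ho ih) (o.smul_mem (c ^ n) hy)
      rwa [map_sub, map_smul, ← e1, ← LinearEquiv.mul_apply, ← pow_succ', smul_add, smul_smul, ← pow_succ,
        sub_add_eq_sub_sub, sub_add_eq_add_sub, sub_add_cancel] at this
  have k2 := k1 (ringChar F ^ k)
  rw [hu, LinearEquiv.coe_one, id, ← neg_sub, neg_mem_iff] at k2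
  nth_rewrite 2 [← one_smul F w] at k2
  rw [← sub_smul, ← one_pow (ringChar F ^ k), ← sub_pow_char_pow] at k2
  obtain rfl : c = 1 := by_contra fun n => hw ((o.smul_mem_iff (pow_ne_zero _ (sub_ne_zero.2 n))).1 k2)
  rwa [← e1, one_smul, add_sub_cancel_right]

theorem ov_arith {p n i c : ℕ} (hp : p.Prime) (hn : 0 < n) (h1 : c ∣ p ^ n) (h2 : 1 < c)
    (e : p ^ i - 1 = (p ^ n + 1) * (c - 1)) : c = p ^ n := by
  obtain ⟨j, hj, rfl⟩ := (Nat.dvd_prime_pow hp).1 h1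
  by_contra ne
  obtain ⟨d, rfl⟩ := Nat.exists_eq_add_of_lt (hj.lt_of_ne fun e => ne (e ▸ rfl))
  have p1 := Nat.one_le_pow i p hp.pos
  have e2 : p ^ i + p ^ (j + d + 1) = p ^ (j + d + 1) * p ^ j + p ^ j := by
    zify [p1, h2.le] at e ⊢
    linear_combination e
  have lt : p ^ j < p ^ i := by
    have := Nat.mul_le_mul_left (p ^ (j + d + 1)) h2
    have := Nat.pow_pos (n := j + d + 1) hp.pos
    omega
  have d1 : p ^ (j + 1) ∣ p ^ (j + d + 1) := pow_dvd_pow p (by omega)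
  have d2 : p ^ (j + 1) ∣ p ^ j := (Nat.dvd_add_right (d1.mul_right _)).1
    (e2 ▸ dvd_add (pow_dvd_pow p ((Nat.pow_lt_pow_iff_right hp.one_lt).1 lt)) d1)
  exact absurd ((Nat.pow_dvd_pow_iff_le_right hp.one_lt).1 d2) (by omega)

/-- the forms on `M` of the induced elations -/
def ovT (K : Subgroup (V ≃ₗ[F] V)) {M : Submodule F V} (v : M) : AddSubgroup (Dual F M) where
  carrier := {φ | φ v = 0 ∧ ∃ g ∈ K, ∀ w : M, g w = w + φ w • (v : V)}
  zero_mem' := ⟨rfl, 1, one_mem K, fun _ => by simp⟩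
  add_mem' := by
    rintro φ ψ ⟨h1, g, hg, e1⟩ ⟨h2, k, hk, e2⟩
    exact ⟨by simp [h1, h2], g * k, mul_mem hg hk, fun w => by
      simp [LinearEquiv.mul_apply, e1, e2, h1, add_smul, add_assoc]⟩
  neg_mem' := by
    rintro φ ⟨h1, g, hg, e1⟩
    exact ⟨by simp [h1], g⁻¹, inv_mem hg, fun w => g.injective (by
      rw [← LinearEquiv.mul_apply, mul_inv_cancel]; simp [e1, h1])⟩

section
variable {S : Set (Submodule F V)} (hS : Ov P K S) {M : Submodule F V} (hM : M ∈ T P 3) {v : M}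
  (hv : (F ∙ (v : V)) ∈ S)
include hS hM hv

theorem ov_fix {g : V ≃ₗ[F] V} (hg : g ∈ Stab K M) : g • (F ∙ (v : V)) = F ∙ (v : V) := by
  have := (Submodule.span_singleton_le_iff_mem _ _).2 v.2
  exact hS.opp _ hv _ (hS.inv g hg.1 _ hv) (T.le_perp hM (((smul_le g).2 this).trans_eq hg.2) this)

omit hM in
theorem ov_ne : (v : V) ≠ 0 := fun e => by
  have := (hS.sub hv).2
  rw [e, Submodule.span_zero_singleton] at this
  simp at this

theorem ov_cnt : {l | l ∈ T P 2 ∧ l ≤ M ∧ (F ∙ (v : V)) ≤ l}.ncard = Nat.card F + 1 := by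
  have := cnt_hy hM ((Submodule.span_singleton_le_iff_mem _ _).2 v.2)
  rw [(hS.sub hv).2, cn_th2] at this
  exact (congrArg _ (Set.ext fun l => by simp only [thru, Set.mem_setOf_eq]; tauto)).trans this

theorem ov_ex : ∃ φ ∈ ovT K v, φ ≠ 0 := by
  have pp := CharP.char_is_prime F (ringChar F)
  haveI := Fact.mk pp
  haveI := Fintype.ofFinite F
  obtain ⟨n, -, hn⟩ := FiniteField.card F (ringChar F)
  rw [← Nat.card_eq_fintype_card] at hn
  have q2 : 1 < Nat.card F := Finite.one_lt_card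
  obtain ⟨U, hU⟩ := exists_isSylowIn (ringChar F) (Stab K M)
  have iv : ∀ {g l}, g ∈ Stab K M → l ∈ T P 2 ∧ l ≤ M → g • l ∈ T P 2 ∧ g • l ≤ M := fun hg hl =>
    ⟨(smul_T (hS.le hg.1)).2 hl.1, ((smul_le _).2 hl.2).trans_eq hg.2⟩
  have iv' : ∀ {g l}, g ∈ Stab K M → ((F ∙ (v : V)) ≤ g • l ↔ (F ∙ (v : V)) ≤ l) := fun {g l} hg => by
    rw [← smul_le g (W := l), ov_fix hS hM hv hg]
  have c1 := ov_cnt hS hM hv
  have c0 : {l | l ∈ T P 2 ∧ l ≤ M ∧ ¬ (F ∙ (v : V)) ≤ l}.ncard = Nat.card F ^ 2 := by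
    have := cnt_hy' hM
    rw [cnt, ← Set.ncard_inter_add_ncard_diff_eq_ncard _ {l | (F ∙ (v : V)) ≤ l}] at this
    change {l | (l ∈ T P 2 ∧ l ≤ M) ∧ _}.ncard + {l | (l ∈ T P 2 ∧ l ≤ M) ∧ ¬ (F ∙ (v : V)) ≤ l}.ncard = _ at this
    simp only [th, Finset.sum_range_succ, Set.mem_setOf_eq, and_assoc, Finset.range_zero, Finset.sum_empty,
      pow_zero, pow_one] at this
    change {l | l ∈ T P 2 ∧ l ≤ M ∧ (F ∙ (v : V)) ≤ l}.ncard + _ = _ at this
    omega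
  have tr := syl_tr pp hU (hS.tr₀ M hM _ hv ((Submodule.span_singleton_le_iff_mem _ _).2 v.2))
    (fun g hg l hl => ⟨(iv hg ⟨hl.1, hl.2.1⟩).1, (iv hg ⟨hl.1, hl.2.1⟩).2, mt (iv' hg).1 hl.2.2⟩)
    (by rw [c0, hn, ← pow_mul])
  obtain ⟨l₀, h0, f0⟩ := exists_fx pp hU.pgroup (X := {l | l ∈ T P 2 ∧ l ≤ M ∧ (F ∙ (v : V)) ≤ l})
    (fun g hg l hl => ⟨(iv (hU.le hg) ⟨hl.1, hl.2.1⟩).1, (iv (hU.le hg) ⟨hl.1, hl.2.1⟩).2,
      (iv' (hU.le hg)).2 hl.2.2⟩)
    (by rw [c1, hn]; exact fun k => pp.not_dvd_one ((Nat.dvd_add_right (dvd_pow_self _ n.ne_zero)).1 k))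
  have v1 := hS.sub hv
  obtain ⟨a, -, -, a1, ea⟩ := Pt.exists_vec (Z := l₀) ⟨h0.1.1, h0.2.2, by rw [h0.1.2, v1.2]⟩
  obtain ⟨b, -, -, b1, eb⟩ := Pt.exists_vec (Z := M) ⟨hM.1, h0.2.1, by rw [h0.1.2, hM.2]⟩
  have un : ∀ u ∈ U, u v = v ∧ u a - a ∈ (F ∙ (v : V)) ∧ ∃ β : F, u b - b - β • a ∈ (F ∙ (v : V)) := fun u hu => by
    obtain ⟨k, hk⟩ := isPGroup_iff_mem.1 hU.pgroup u hu
    have f1 := ov_fix hS hM hv (hU.le hu)
    refine ⟨sub_eq_zero.1 (ov_unip hk (smul_bot'' u) f1 (ov_ne hS hv) (bot_sup_eq _).symm),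
      ov_unip hk f1 (f0 u hu) a1 ea, ?_⟩
    obtain ⟨y, hy, _, hz, e1⟩ := Submodule.mem_sup.1 (ea ▸ ov_unip hk (f0 u hu) (hU.le hu).2 b1 eb)
    obtain ⟨c, rfl⟩ := Submodule.mem_span_singleton.1 hz
    exact ⟨c, by rwa [← e1, add_sub_cancel_right]⟩
  obtain ⟨l₁, h1⟩ := Set.nonempty_of_ncard_ne_zero (c0.trans_ne (by positivity))
  choose! u hu eu using tr l₁ h1
  choose! β hβ using fun u hu => (un u hu).2.2
  obtain ⟨l, hl, l', hl', ne, e⟩ := Set.exists_ne_map_eq_of_ncard_lt_of_maps_to (t := Set.univ)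
    (by rw [c0, Set.ncard_univ]; nlinarith) (f := fun l => β (u l)) fun _ _ => Set.mem_univ _
  have hg := mul_mem (inv_mem (hu l hl)) (hu l' hl')
  have gb : ((u l)⁻¹ * u l') b - b ∈ (F ∙ (v : V)) := by
    have := apply_mem_of_smul_eq (ov_fix hS hM hv (hU.le (inv_mem (hu l hl))))
      (sub_mem (hβ _ (hu l' hl')) (hβ _ (hu l hl)))
    rwa [show β (u l) = β (u l') from e, sub_sub_sub_cancel_right, sub_sub_sub_cancel_right, map_sub,
      ← LinearEquiv.mul_apply (u l)⁻¹ (u l), inv_mul_cancel] at this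
  have gl : ((u l)⁻¹ * u l') • l₁ ≠ l₁ := fun k => ne (by
    rw [mul_smul, inv_smul_eq_iff, eu l hl, eu l' hl'] at k
    exact k.symm)
  generalize (u l)⁻¹ * u l' = g at hg gb gl
  have gM : ∀ w ∈ M, g w - w ∈ (F ∙ (v : V)) := by
    have : M ≤ (F ∙ (v : V)).comap ((g : V →ₗ[F] V) - LinearMap.id) := by
      conv_lhs => rw [eb, ea]
      simp only [sup_le_iff, Submodule.span_singleton_le_iff_mem]
      exact ⟨⟨by simp [(un g hg).1], (un g hg).2.1⟩, gb⟩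
    exact this
  let φ : Dual F M := (LinearEquiv.coord F V v (ov_ne hS hv)).toLinearMap ∘ₗ
    (((g : V →ₗ[F] V) - LinearMap.id) ∘ₗ M.subtype).codRestrict _ fun w => gM w w.2
  have eφ : ∀ w : M, g w = w + φ w • (v : V) := fun w =>
    eq_add_of_sub_eq' (LinearEquiv.coord_apply_smul F V v (ov_ne hS hv) ⟨_, gM w w.2⟩).symm
  refine ⟨φ, ⟨?_, g, (hU.le hg).1, eφ⟩, fun k => gl (smul_eq_of_le fun w hw => ?_)⟩
  · simpa [(un g hg).1, ov_ne hS hv] using eφ v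
  · simpa [k, hw] using (eφ ⟨w, h1.2.1 hw⟩).symm ▸ by simpa [k] using hw

omit hS hv in
theorem ov_ker {φ : Dual F M} (h0 : φ ≠ 0) : (LinearMap.ker φ).map M.subtype ∈ T P 2 :=
  T.mono hM (M.map_subtype_le _) (by
    have := Module.Dual.finrank_ker_add_one_of_ne_zero h0
    rw [Submodule.finrank_map_subtype_eq]
    exact Nat.succ_injective (this.trans hM.2))

theorem ov_le {l l' : Submodule F V} (hl : l ∈ T P 2 ∧ l ≤ M ∧ (F ∙ (v : V)) ≤ l)
    (hl' : l' ∈ T P 2 ∧ l' ≤ M ∧ (F ∙ (v : V)) ≤ l') :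
    {φ | φ ∈ (ovT K v : Set (Dual F M)) \ {0} ∧ ∀ w : M, (w : V) ∈ l → φ w = 0}.ncard ≤
      {φ | φ ∈ (ovT K v : Set (Dual F M)) \ {0} ∧ ∀ w : M, (w : V) ∈ l' → φ w = 0}.ncard := by
  obtain ⟨g, hg, rfl⟩ := hS.tr₁ M hM _ hv ((Submodule.span_singleton_le_iff_mem _ _).2 v.2) l hl l' hl'
  obtain ⟨μ, hμ⟩ := Submodule.mem_span_singleton.1
    (apply_mem_of_smul_eq (ov_fix hS hM hv hg) (Submodule.mem_span_singleton_self _))
  have μ0 : μ ≠ 0 := fun e => ov_ne hS hv (by simpa [e] using hμ.symm)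
  have m1 : ∀ w ∈ M, g w ∈ M := fun w => apply_mem_of_smul_eq hg.2
  have m2 : ∀ w ∈ M, (g⁻¹ : V ≃ₗ[F] V) w ∈ M := fun w => apply_mem_of_smul_eq (inv_mem hg).2
  have inj : Function.Injective fun φ : Dual F M => μ • φ ∘ₗ ((g⁻¹ : V ≃ₗ[F] V) : V →ₗ[F] V).restrict m2 :=
    fun φ ψ e => LinearMap.ext fun w => by
      simpa [μ0, LinearMap.restrict_apply] using congrArg (· ⟨g w, m1 w w.2⟩) e
  refine Set.ncard_le_ncard_of_injOn _ ?_ inj.injOn
  rintro φ ⟨⟨⟨h1, k, hk, e⟩, h0⟩, h2⟩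
  have h3 : ∀ w : M, (w : V) ∈ g • l → (μ • φ ∘ₗ ((g⁻¹ : V ≃ₗ[F] V) : V →ₗ[F] V).restrict m2) w = 0 :=
    fun w hw => by simp [h2 (((g⁻¹ : V ≃ₗ[F] V) : V →ₗ[F] V).restrict m2 w) (mem_smul.1 hw)]
  refine ⟨⟨⟨h3 v (hl'.2.2 (Submodule.mem_span_singleton_self _)), g * k * g⁻¹,
    mul_mem (mul_mem hg.1 hk) (inv_mem hg.1), fun w => ?_⟩, fun e => h0 (inj (e.trans (by simp)))⟩, h3⟩
  have := congrArg g (e ⟨_, m2 w w.2⟩)
  rw [map_add, map_smul, ← hμ, smul_smul, mul_comm] at this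
  simpa [LinearEquiv.mul_apply, LinearMap.restrict_apply] using this

theorem ov_all {φ : Dual F M} (h1 : φ v = 0) : φ ∈ ovT K v := by
  by_cases h0 : φ = 0
  · exact h0 ▸ zero_mem _
  have pp := CharP.char_is_prime F (ringChar F)
  haveI := Fintype.ofFinite F
  obtain ⟨n, -, hn⟩ := FiniteField.card F (ringChar F)
  rw [← Nat.card_eq_fintype_card] at hn
  have mk : ∀ {ψ : Dual F M}, ψ ≠ 0 → ψ v = 0 → (LinearMap.ker ψ).map M.subtype ∈ T P 2 ∧
      (LinearMap.ker ψ).map M.subtype ≤ M ∧ (F ∙ (v : V)) ≤ (LinearMap.ker ψ).map M.subtype := fun k0 k1 =>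
    ⟨ov_ker hM k0, M.map_subtype_le _, (Submodule.span_singleton_le_iff_mem _ _).2 ⟨v, k1, rfl⟩⟩
  let A : AddSubgroup F := (ovT K v).comap (LinearMap.toSpanSingleton F _ φ).toAddMonoidHom
  have eA : {ψ | ψ ∈ (ovT K v : Set (Dual F M)) \ {0} ∧
      ∀ w : M, (w : V) ∈ (LinearMap.ker φ).map M.subtype → ψ w = 0}.ncard = Nat.card A - 1 := by
    rw [← SetLike.coe_sort_coe A, Nat.card_coe_set_eq, ← Set.ncard_diff_singleton_of_mem (zero_mem A)]
    refine (Set.ncard_congr (fun s _ => s • φ) ?_ (fun s t _ _ e => smul_left_injective F h0 e) ?_).symm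
    · rintro s ⟨k1, k2⟩
      exact ⟨⟨k1, smul_ne_zero k2 h0⟩, fun w hw => by simpa using .inr (by simpa using hw)⟩
    · rintro ψ ⟨⟨k1, k2⟩, k3⟩
      obtain ⟨s, rfl⟩ := Submodule.mem_span_singleton.1 (Set.range_const (ι := Unit) (c := φ) ▸
        mem_span_of_iInf_ker_le_ker (L := fun _ : Unit => φ) (K := ψ) fun w hw => k3 w ⟨w, by simpa using hw, rfl⟩)
      exact ⟨s, ⟨k1, fun e => k2 (by simp [show s = 0 from e])⟩, rfl⟩
  have e := dc_eq ((ovT K v : Set (Dual F M)) \ {0}) {l | l ∈ T P 2 ∧ l ≤ M ∧ (F ∙ (v : V)) ≤ l}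
    (fun ψ l => ∀ w : M, (w : V) ∈ l → ψ w = 0) (m := 1) (k := Nat.card A - 1)
    (fun ψ k => Set.ncard_eq_one.2 ⟨_, Set.eq_singleton_iff_unique_mem.2
      ⟨⟨mk k.2 k.1.1, fun w hw => by simpa using hw⟩, fun l hl => T.eq_of_le hl.1.1 (ov_ker hM k.2)
        fun w hw => ⟨⟨w, hl.1.2.1 hw⟩, hl.2 _ hw, rfl⟩⟩⟩)
    fun l hl => eA ▸ (ov_le hS hM hv hl (mk h0 h1)).antisymm (ov_le hS hM hv (mk h0 h1) hl)
  obtain ⟨ψ, k1, k2⟩ := ov_ex hS hM hv
  have pos := (Set.ncard_pos (s := (ovT K v : Set (Dual F M)) \ {0})).2 ⟨ψ, k1, k2⟩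
  obtain ⟨i, -, hi⟩ := (Nat.dvd_prime_pow pp (m := n * finrank F (Dual F M)) (i := Nat.card (ovT K v))).1 (by
    rw [pow_mul, ← hn, ← Module.natCard_eq_pow_finrank]; exact (ovT K v).card_addSubgroup_dvd_card)
  rw [mul_one, ov_cnt hS hM hv] at e
  have lt : 1 < Nat.card A := by_contra fun k => by simp [e, Nat.sub_eq_zero_of_le (not_lt.1 k)] at pos
  rw [Set.ncard_diff_singleton_of_mem (zero_mem _), ← Nat.card_coe_set_eq, SetLike.coe_sort_coe, hi, hn] at e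
  have := A.eq_top_of_card_eq ((ov_arith pp n.pos (hn ▸ A.card_addSubgroup_dvd_card) lt e).trans hn.symm)
  simpa [A] using show (1 : F) ∈ A from this ▸ trivial

end

/-- all elations with centre in the ovoid are induced -/
theorem ov_el (h : Pol P q) (h6 : finrank F V = 6) {S : Set (Submodule F V)} (hS : Ov P K S) {v : V}
    (hv : (F ∙ v) ∈ S) {M : Submodule F V} (hM : M ∈ T P 3) (hvM : v ∈ M) (φ : Dual F V) (hφ : φ v = 0) :
    ∃ g ∈ K, ∀ w ∈ M, g w = w + φ w • v :=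
  (ov_all hS hM (v := ⟨v, hvM⟩) hv (φ := φ ∘ₗ M.subtype) hφ).2.imp fun _ k => ⟨k.1, fun w hw => k.2 ⟨w, hw⟩⟩

theorem ov6 (h : Pol P q) (k : P.IsHerm) (h6 : finrank F V = 6) {S : Set (Submodule F V)} (hS : Ov P K S) : False := by
  obtain ⟨M, hM⟩ := exists_T (k := 3) h h6.ge
  obtain ⟨_, hv, hvM⟩ := hS.meet M hM
  obtain ⟨v, -, v0, rfl⟩ := T.exists_vec (hS.sub hv)
  have N := ov_noL h k h6 hS hv
  replace hvM := (Submodule.span_singleton_le_iff_mem _ _).1 hvM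
  have pM := perp_eq_of_max h.nd hM h6
  have oM : ∀ {a b}, a ∈ M → b ∈ M → P.B a b = 0 := fun ha hb => P.mem_perp.1 (pM.ge hb) _ ha
  choose! g hg eg using ov_el h h6 hS hv hM hvM
  have gv : ∀ {φ}, φ v = 0 → g φ v = v := fun h0 => by simp [eg _ h0 v hvM, h0]
  have iso : ∀ {φ}, φ v = 0 → ∀ a b, P.B (g φ a) (g φ b) = P.B a b := fun h0 => (hS.le (hg _ h0)).B_eq
  have dM : ∀ {φ w}, φ v = 0 → P.B v w = 0 → g φ w - w ∈ M := fun {φ w} h0 hw => pM.le (P.mem_perp.2 fun m hm => by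
    have e1 := iso h0 m w
    have e2 := iso h0 v w
    rw [gv h0] at e2
    rw [eg _ h0 m hm, P.B_add_left, P.B_smul_left, e2, hw, mul_zero, add_zero] at e1
    rw [P.B_sub_right, e1, sub_self])
  have cm : ∀ {φ ψ : Dual F V} {w}, φ v = 0 → ψ v = 0 → P.B v w = 0 → φ (g ψ w - w) = ψ (g φ w - w) := fun {φ ψ w} h1 h2 hw => by
    have fx : (g ψ * g φ)⁻¹ v = v := by
      rw [← LinearEquiv.eq_symm_apply, eq_comm]
      exact (congrArg (g ψ) (gv h1)).trans (gv h2)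
    have e : ∀ w, P.B v w = 0 → ((g ψ * g φ)⁻¹ * (g φ * g ψ)) w - w = (φ (g ψ w - w) - ψ (g φ w - w)) • v :=
      fun w hw => (g ψ * g φ).injective (by
        have e1 := eg _ h1 _ (dM h2 hw)
        have e2 := eg _ h2 _ (dM h1 hw)
        rw [map_sub] at e1 e2
        rw [map_sub, ← LinearEquiv.mul_apply, mul_inv_cancel_left, map_smul]
        simp only [LinearEquiv.mul_apply, gv h1, gv h2]
        linear_combination (norm := module) e1 - e2)
    have := N _ (mul_mem (inv_mem (mul_mem (hg _ h2) (hg _ h1))) (mul_mem (hg _ h1) (hg _ h2)))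
      (by rw [LinearEquiv.mul_apply, LinearEquiv.mul_apply (g φ), gv h2, gv h1, fx])
      (fun w hw => e w hw ▸ Submodule.smul_mem _ _ (Submodule.mem_span_singleton_self v)) w hw
    have e3 := e w hw
    rw [this, sub_self, eq_comm, smul_eq_zero, sub_eq_zero] at e3
    exact e3.resolve_right v0
  obtain ⟨a, ha, a1⟩ : ∃ a ∈ M, a ∉ (F ∙ v) := SetLike.not_le_iff_exists.1 fun e => by
    have := Submodule.finrank_mono e
    rw [hM.2, (hS.sub hv).2] at this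
    omega
  obtain ⟨c, c1, c2⟩ := P.exists_dual_vec h.nd _ a1
  have h1 : P.B c v = 0 := c2 v (Submodule.mem_span_singleton_self v)
  generalize P.B c = φ at c1 h1
  obtain ⟨l, hl⟩ : ∃ l, σ l ≠ l := not_forall.1 fun e => k.σ_ne (RingHom.ext e)
  have h2 : (l • φ) v = 0 := by simp [h1]
  have sp : ∀ {w}, P.B v w = 0 → ∃ s : F, g (l • φ) w = w + l • (g φ w - w) + s • v := fun {w} hw => by
    have : g (l • φ) w - w - l • (g φ w - w) ∈ (F ∙ v) := by_contra fun n => by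
      obtain ⟨c, c1, c2⟩ := P.exists_dual_vec h.nd _ n
      have h3 := c2 v (Submodule.mem_span_singleton_self v)
      rw [map_sub, map_smul, cm h3 h1 hw, cm h3 h2 hw] at c1
      simp at c1
    obtain ⟨s, hs⟩ := Submodule.mem_span_singleton.1 this
    exact ⟨s, by rw [hs]; abel⟩
  have := N _ (hg _ h1) (gv h1) (fun w' hw' => rt_mem_span h.nd fun w hw => by
    obtain ⟨s, hs⟩ := sp hw
    obtain ⟨s', hs'⟩ := sp hw'
    have e1 := iso h1 w' w
    have e2 := iso h2 w' w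
    have d := dM h1 hw
    have d' := dM h1 hw'
    rw [hs, hs'] at e2
    rw [← add_sub_cancel w (g φ w), ← add_sub_cancel w' (g φ w')] at e1
    generalize g φ w - w = y at *
    generalize g φ w' - w' = y' at *
    simp only [P.B_add_left, P.B_add_right, P.B_smul_left, P.B_smul_right, oM d' d, oM d' hvM, oM hvM d,
      oM hvM hvM, hw, P.B_eq_zero_comm.1 hw'] at e1 e2
    exact (mul_eq_zero.1 (show (σ l - l) * P.B y' w = 0 by linear_combination e2 - l * e1)).resolve_left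
      (sub_ne_zero.2 hl)) a (oM hvM ha)
  simp [eg _ h1 a ha, c1, v0] at this

end CfsgLib.KP
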