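import Mathlib
import Cfsg.Agent.Lib.KP.Ov6b
import Cfsg.Agent.Lib.KP.Intr

/-! KP: ovoids, unitary case of even dimension (plans/KP.md, package L1E). -/

set_option autoImplicit false
set_option linter.unusedSectionVars false

namespace CfsgLib.KP

open CfsgLib.CK CfsgLib.KL CfsgLib.Forms CfsgLib.RootMax CfsgLib.ClMax CfsgLib.Tech Module

variable {F : Type*} [Field F] [Finite F] {σ : F →+* F} {V : Type*} [AddCommGroup V] [Module F V] [Finite V]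
  {P : PQ σ V} {q : ℕ} {K : Subgroup (V ≃ₗ[F] V)} {C : Set (Submodule F V)}

theorem l1e_dc {α β : Type*} [Finite α] [Finite β] (A : Set α) (B : Set β) (r : α → β → Prop) {m n : ℕ}
    (hm : ∀ a ∈ A, {b | b ∈ B ∧ r a b}.ncard = m) (hn : ∀ b ∈ B, {a | a ∈ A ∧ r a b}.ncard = n) :
    A.ncard * m = B.ncard * n := by
  classical
  rw [Set.ncard_eq_toFinset_card A, Set.ncard_eq_toFinset_card B]
  refine Finset.card_mul_eq_card_mul r (fun a ha => ?_) fun b hb => ?_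
  · rw [← hm a (by simpa using ha), ← Set.ncard_coe_finset]
    congr 1
    ext b
    simp
  · rw [← hn b (by simpa using hb), ← Set.ncard_coe_finset]
    congr 1
    ext a
    simp

variable {S : Set (Submodule F V)} {h₂ : ℕ}

/-- every generator meets the ovoid -/
theorem l1e_meet (h : Pol P q) {m : ℕ} (hm : finrank F V = 2 * (m + 2)) (hS : Intr P ⊥ S 1 h₂)
    {M : Submodule F V} (hM : M ∈ T P (m + 2)) : ∃ s ∈ S, s ≤ M := by
  by_contra! hn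
  obtain ⟨e1, e2⟩ := intr_ov h hS (d := 2 * (m + 2)) (by rw [hm, finrank_bot]; omega) (by omega)
  have e3 := l1e_dc (ins (T P 1) M) S (fun y s => s ≤ P.perp y) (m := h₂) (n := th (Nat.card F) (m + 1))
    (fun y hy => hS.h2 y (pt_bot P ▸ hy.1) fun e => hn y e hy.2) fun s hs => by
      have a1 : ¬ M ≤ P.perp s := fun e => hn s hs ((P.le_perp_comm.1 e).trans (perp_eq_of_max h.nd hM hm).le)
      have a2 := finrank_inf_perp (hS.sub hs) (E := M) (by rw [P.perp_bot]; exact le_top) a1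
      rw [← cnt_T1 (T.mono hM (inf_le_left (b := P.perp s)) (by have := hM.2; omega)), cnt]
      congr 1
      ext y
      simp only [ins, Set.mem_ofPred_eq, le_inf_iff, and_assoc, P.le_perp_comm (W := s)]
  rw [← cnt_eq, cnt_T1 hM, e1, e2, Nat.mul_div_cancel_left _ two_pos, tt, Nat.mul_mod_right, pow_zero, mul_one,
    Nat.add_sub_cancel, show m + 2 - 1 = m + 1 from rfl] at e3
  have a1 := th_succ (Nat.card F) (m + 1)
  have a2 := th_succ' (Nat.card F) (m + 1)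
  have a3 : 0 < Nat.card F ^ (m + 1) := pow_pos Nat.card_pos _
  rw [mul_add, mul_one] at e3
  nth_rw 1 [a1] at e3
  rw [a2, pow_succ] at e3
  rw [pow_succ] at a3
  nlinarith [Nat.zero_le (Nat.card F ^ m * q)]

theorem l1e_one (hS : Intr P ⊥ S 1 h₂) {U s : Submodule F V} (hU : P.TS U) (hs : s ∈ S) (h1 : s ≤ U) :
    cnt S U = 1 := Set.ncard_eq_one.2 ⟨s, Set.eq_singleton_iff_unique_mem.2 ⟨⟨hs, h1⟩, fun _ hs' =>
      hS.opp hs hs'.1 (hs'.2.trans (hU.2.trans (P.perp_anti h1)))⟩⟩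

theorem l1e_zero (hS : Intr P ⊥ S 1 h₂) {U W s : Submodule F V} (hU : P.TS U) (hs : s ∈ S) (h1 : s ≤ U)
    (hW : W ≤ U) (h2 : ¬ s ≤ W) : cnt S W = 0 :=
  (Set.ncard_eq_zero (Set.toFinite _)).2 (Set.eq_empty_of_forall_notMem fun _ hs' =>
    h2 (hS.opp hs hs'.1 ((hs'.2.trans hW).trans (hU.2.trans (P.perp_anti h1))) ▸ hs'.2))

theorem l1e (h : Pol P q) (k : P.IsHerm) (h6 : 6 ≤ finrank F V) (he : Even (finrank F V)) (hK : K ≤ P.isom)
    {S : Set (Submodule F V)} (inv : Inv K S) {h₂ : ℕ} (hS : Intr P ⊥ S 1 h₂) (ho : Orb3 P K S) : False := by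
  obtain ⟨m, hm⟩ : ∃ m, finrank F V = 2 * (m + 3) := by
    obtain ⟨a, ha⟩ := he
    exact ⟨a - 3, by omega⟩
  have sT : ∀ s ∈ S, s ∈ T P 1 := fun s hs => pt_bot P ▸ hS.sub hs
  obtain ⟨Y, hY, hY0⟩ : ∃ Y ∈ T P m, ∀ s ∈ S, ¬ s ≤ Y := by
    obtain ⟨x, hx⟩ := hS.ne
    obtain ⟨M, hM, hxM⟩ := exists_ext h (sT x hx) (k := m + 1) (by omega) (by omega)
    obtain ⟨Z, hZ⟩ := Submodule.exists_isCompl x
    have e1 := Submodule.finrank_sup_add_finrank_inf_eq M Z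
    have e2 := Submodule.finrank_add_eq_of_isCompl hZ
    rw [eq_top_iff.2 (hZ.sup_eq_top.ge.trans (sup_le_sup_right hxM Z)), finrank_top, hM.2] at e1
    rw [(sT x hx).2] at e2
    refine ⟨M ⊓ Z, T.mono hM inf_le_left (by omega), fun s hs e => ?_⟩
    rw [hS.opp hx hs (T.le_perp hM (e.trans inf_le_left) hxM)] at e
    have := (sT x hx).2
    rw [eq_bot_iff.2 ((le_inf le_rfl (e.trans inf_le_right)).trans hZ.inf_eq_bot.le), finrank_bot] at this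
    omega
  obtain ⟨r⟩ := exists_res hY.1
  obtain ⟨φ, f1, -, f3⟩ := r.exists_hom ((Stab_le K Y).trans hK) (fx_Stab K Y)
  have uT : ∀ {j : ℕ} {Z : Submodule F r.D}, Z ∈ T r.P' j → r.up Z ∈ T P (m + j) := fun hZ =>
    hY.2 ▸ r.up_mem_T.2 hZ
  have mv : ∀ {a b : ℕ} {A A' B B' : Submodule F r.D}, A ∈ T r.P' a → A' ∈ T r.P' a → B ∈ T r.P' b →
      B' ∈ T r.P' b → A ≤ B → A' ≤ B' → cnt S (r.up A) = cnt S (r.up A') → cnt S (r.up B) = cnt S (r.up B') →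
      ∃ g ∈ φ.range, g • A = A' ∧ g • B = B' := by
    intro a b A A' B B' hA hA' hB hB' l1 l2 c1 c2
    obtain ⟨g, hg, e⟩ := ho m (m + a) (m + b) (Y, r.up A, r.up B) ⟨r.le_up A, r.up_le_up.2 l1, hY, uT hA, uT hB⟩
      (Y, r.up A', r.up B') ⟨r.le_up A', r.up_le_up.2 l2, hY, uT hA', uT hB'⟩ rfl c1 c2
    exact ⟨φ ⟨g, hg, congrArg Prod.fst e⟩, ⟨_, rfl⟩, r.up_inj ((f3 _ _).trans (congrArg (·.2.1) e)),
      r.up_inj ((f3 _ _).trans (congrArg (·.2.2) e))⟩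
  have sub : ∀ Z, (∃ s ∈ S, r.up Z = Y ⊔ s) → Z ∈ T r.P' 1 := by
    rintro Z ⟨s, hs, e⟩
    refine r.up_mem_T.1 ?_
    rw [e, hY.2]
    exact T.sup_pt hY (hS.sub hs) bot_le ((le_sup_right.trans e.ge).trans (r.up_le_perp Z)) (hY0 s hs)
  refine ov6 (r.pol h) (r.herm k) (K := φ.range) (by have := r.finrank_D h.nd; rw [hY.2] at this; omega)
    (S := {Z | ∃ s ∈ S, r.up Z = Y ⊔ s}) ⟨?_, sub, ?_, ?_, ?_, ?_, ?_, ?_⟩
  · rintro _ ⟨g, rfl⟩
    exact f1 g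
  · rintro _ ⟨g, rfl⟩ Z ⟨s, hs, e⟩
    exact ⟨g.1 • s, inv g.1 g.2.1 s hs, by rw [f3, e, smul_sup', (mem_Stab.1 g.2).2]⟩
  · rintro Z ⟨s, hs, e⟩ Z' ⟨s', hs', e'⟩ hle
    have := r.up_le_up.2 hle
    rw [r.up_perp, e, e'] at this
    rw [hS.opp hs hs' ((le_sup_right.trans this).trans (P.perp_anti le_sup_right)), ← e] at e'
    exact r.up_inj e'
  · intro M hM
    obtain ⟨s, hs, e⟩ := l1e_meet h (m := m + 1) hm hS (uT hM)
    have e1 : Y ⊔ s ≤ r.up M := sup_le (r.le_up M) e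
    have e2 := r.up_dn (U := Y ⊔ s) le_sup_left (e1.trans (r.up_le_perp M))
    exact ⟨_, ⟨s, hs, e2⟩, r.up_le_up.1 (e2.le.trans e1)⟩
  · rintro M hM x ⟨s, hs, e⟩ hxM l hl l' hl'
    have a1 : s ≤ r.up M := (le_sup_right.trans e.ge).trans (r.up_le_up.2 hxM)
    have a2 : ∀ l, l ≤ M → ¬ x ≤ l → cnt S (r.up l) = 0 := fun l h1 h2 =>
      l1e_zero hS (uT hM).1 hs a1 (r.up_le_up.2 h1) fun h3 => h2 (r.up_le_up.1 (e.le.trans (sup_le (r.le_up l) h3)))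
    obtain ⟨g, hg, e1, e2⟩ := mv hl.1 hl'.1 hM hM hl.2.1 hl'.2.1
      ((a2 l hl.2.1 hl.2.2).trans (a2 l' hl'.2.1 hl'.2.2).symm) rfl
    exact ⟨g, ⟨hg, e2⟩, e1⟩
  · rintro M hM x ⟨s, hs, e⟩ - l hl l' hl'
    have a2 : ∀ l ∈ T r.P' 2, x ≤ l → cnt S (r.up l) = 1 := fun l h1 h2 =>
      l1e_one hS (uT h1).1 hs ((le_sup_right.trans e.ge).trans (r.up_le_up.2 h2))
    obtain ⟨g, hg, e1, e2⟩ := mv hl.1 hl'.1 hM hM hl.2.1 hl'.2.1
      ((a2 l hl.1 hl.2.2).trans (a2 l' hl'.1 hl'.2.2).symm) rfl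
    exact ⟨g, ⟨hg, e2⟩, e1⟩
  · rintro x hx l hl l' hl'
    have hx' := sub x hx
    obtain ⟨s, hs, e⟩ := hx
    have a2 : ∀ l ∈ T r.P' 2, x ≤ l → cnt S (r.up l) = 1 := fun l h1 h2 =>
      l1e_one hS (uT h1).1 hs ((le_sup_right.trans e.ge).trans (r.up_le_up.2 h2))
    obtain ⟨g, hg, e1, e2⟩ := mv hx' hx' (cn_T hx' hl) (cn_T hx' hl') hl.2.1 hl'.2.1 rfl
      ((a2 l (cn_T hx' hl) hl.2.1).trans (a2 l' (cn_T hx' hl') hl'.2.1).symm)
    exact ⟨g, ⟨hg, e1⟩, e2⟩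

end CfsgLib.KP
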