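import Mathlib
import Cfsg.Agent.Lib.KP.Base
import Cfsg.Agent.Lib.KL.Pf
import Cfsg.Agent.Lib.Forms.Normal
import Cfsg.Agent.Lib.Forms.SpGen
import Cfsg.Agent.Lib.Unitary.Simple

/-! KP: Witt's theorem for flags (plans/KP.md, package WIT). -/

set_option autoImplicit false
set_option linter.unusedSectionVars false

namespace CfsgLib.KP

open CfsgLib.CK CfsgLib.KL CfsgLib.Forms CfsgLib.RootMax CfsgLib.ClMax CfsgLib.Tech Module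

variable {F : Type*} [Field F] [Finite F] {σ : F →+* F} {V : Type*} [AddCommGroup V] [Module F V] [Finite V]
  {P : PQ σ V} {q : ℕ} {K : Subgroup (V ≃ₗ[F] V)} {C : Set (Submodule F V)}

variable {y y' x : Submodule F V × Submodule F V × Submodule F V} {E E' m m' : Submodule F V} {a b c d : ℕ}

namespace WitP

theorem smul_fix {g : V ≃ₗ[F] V} {U : Submodule F V} (h : ∀ v ∈ U, g v ∈ U) : g • U = U :=
  Submodule.eq_of_le_of_finrank_eq (by rintro _ ⟨v, hv, rfl⟩; exact h v hv) (finrank_smul g U)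

/-- a pair of vectors with the same pairing with `E` -/
theorem half (h : P.Nondeg) (h2 : P.perp m ⊓ E = P.perp m' ⊓ E) (hn : ¬ m ≤ m') :
    (∃ u ∈ m, u ∉ m' ∧ ∃ u' ∈ m', u' ∉ m ∧ u - u' ∈ P.perp E) ∨ ∃ u ∈ m, u ∉ m' ∧ u ∈ P.perp E := by
  obtain ⟨u, hu, h3⟩ := SetLike.not_le_iff_exists.1 hn
  have h4 := congrArg P.perp h2
  rw [P.perp_inf h, P.perp_inf h, P.perp_perp h, P.perp_perp h] at h4
  obtain ⟨u', hu', z, hz, e⟩ := Submodule.mem_sup.1 (h4 ▸ Submodule.mem_sup_left hu : u ∈ m' ⊔ P.perp E)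
  have e1 : u - u' = z := by rw [← e, add_sub_cancel_left]
  by_cases k : u' ∈ m
  · exact Or.inr ⟨u - u', sub_mem hu k, fun k' => h3 (by simpa using add_mem k' hu'), e1 ▸ hz⟩
  · exact Or.inl ⟨u, hu, h3, u', hu', k, e1 ▸ hz⟩

theorem wg0 (h : P.Nondeg) (hm' : P.TS m') (k : ℕ) : ∀ m : Submodule F V, P.TS m → finrank F m = finrank F m' →
    m ⊓ E = m' ⊓ E → P.perp m ⊓ E = P.perp m' ⊓ E → finrank F m ≤ finrank F ↥(m ⊓ m') + k →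
    ∃ g ∈ P.isom, (∀ v ∈ E, g v = v) ∧ g • m = m' := by
  induction k with
  | zero =>
    intro m _ hd _ _ hk
    exact ⟨1, one_mem _, fun _ _ => rfl, (one_smul _ m).trans (Submodule.eq_of_le_of_finrank_eq
      (inf_eq_left.1 (Submodule.eq_of_le_of_finrank_le inf_le_left hk)) hd)⟩
  | succ k ih =>
    intro m hm hd h1 h2 hk
    by_cases e : m = m'
    · exact ⟨1, one_mem _, fun _ _ => rfl, (one_smul _ m).trans e⟩
    obtain ⟨u, hu, a1, u', hu', a2, a3⟩ : ∃ u ∈ m, u ∉ m' ∧ ∃ u' ∈ m', u' ∉ m ∧ u - u' ∈ P.perp E := by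
      rcases half h h2 fun k => e (Submodule.eq_of_le_of_finrank_eq k hd) with k | ⟨u, hu, a1, a2⟩
      · exact k
      rcases half h h2.symm fun k => e (Submodule.eq_of_le_of_finrank_eq k hd.symm).symm with
        ⟨u', hu', b1, u, hu, b2, b3⟩ | ⟨u', hu', b1, b2⟩
      · exact ⟨u, hu, b2, u', hu', b1, neg_sub u' u ▸ neg_mem b3⟩
      · exact ⟨u, hu, a1, u', hu', b1, sub_mem a2 b2⟩
    have nm : ∀ {m m' : Submodule F V} {u : V}, m ⊓ E = m' ⊓ E → u ∈ m → u ∉ m' → u ∉ E ⊔ m ⊓ m' :=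
      fun {m m' u} h1 hu a1 k => by
        obtain ⟨v, hv, z, hz, rfl⟩ := Submodule.mem_sup.1 k
        have : v ∈ m ⊓ E := ⟨by simpa using sub_mem hu hz.1, hv⟩
        exact a1 (add_mem (h1 ▸ this : v ∈ m' ⊓ E).1 hz.2)
    obtain ⟨g, hg, g1, g2⟩ := P.witt_step h (E ⊔ m ⊓ m') (nm h1 hu a1) (inf_comm m' m ▸ nm h1.symm hu' a2)
      (fun v0 hv0 => by
        obtain ⟨v, hv, z, hz, rfl⟩ := Submodule.mem_sup.1 hv0
        have := a3 v hv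
        rw [P.B_sub_right, sub_eq_zero] at this
        rw [P.B_add_left, P.B_add_left, this, hm.B_eq hz.1 hu, hm'.B_eq hz.2 hu'])
      (sub_mem (hm'.1 u' hu') (hm.1 u hu))
    have fx : ∀ U ≤ E, g • U = U := fun U hU => smul_fix fun v hv => by rwa [g1 v (Submodule.mem_sup_left (hU hv))]
    have k1 : ∀ U, g • U ⊓ E = g • (U ⊓ E) := fun U => by rw [smul_inf'', fx E le_rfl]
    obtain ⟨g', hg', c1, c2⟩ := ih (g • m) ((ts_smul hg).2 hm) (by rw [finrank_smul, hd])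
      (by rw [k1, fx _ inf_le_right, h1]) (by rw [← smul_perp hg, k1, fx _ inf_le_right, h2]) (by
        have : m ⊓ m' < g • m ⊓ m' := lt_of_le_of_ne (fun v hv => ⟨⟨v, hv.1, g1 v (Submodule.mem_sup_right hv)⟩, hv.2⟩)
          fun k => a2 (k ▸ (⟨⟨u, hu, g2⟩, hu'⟩ : u' ∈ g • m ⊓ m') : u' ∈ m ⊓ m').1
        have := Submodule.finrank_lt_finrank_of_lt this
        rw [finrank_smul]
        omega)
    exact ⟨g' * g, mul_mem hg' hg, fun v hv => by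
      rw [LinearEquiv.mul_apply, g1 v (Submodule.mem_sup_left hv), c1 v hv], by rw [mul_smul, c2]⟩

variable (P) in
/-- the condition of `det_pair` -/
def Gd (e f : V) (U : Submodule F V) : Prop := (e ∈ U ∨ ∀ u ∈ U, P.B f u = 0) ∧ (f ∈ U ∨ ∀ u ∈ U, P.B e u = 0)

variable (P) in
/-- the condition of `det_pair` for a flag -/
def Gd3 (e f : V) (y : Submodule F V × Submodule F V × Submodule F V) : Prop :=
  Gd P e f y.1 ∧ Gd P e f y.2.1 ∧ Gd P e f y.2.2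

theorem chain (hy : y ∈ T3 P a b c) (p : Submodule F V → Prop) (hp : p y.2.2) :
    ∃ U ≤ y.2.2, p U ∧ (U ≤ y.1 ∨ ¬ p y.1) ∧ (U ≤ y.2.1 ∨ ¬ p y.2.1) := by
  by_cases h1 : p y.1
  · exact ⟨_, hy.1.trans hy.2.1, h1, .inl le_rfl, .inl hy.1⟩
  by_cases h2 : p y.2.1
  · exact ⟨_, hy.2.1, h2, .inr h1, .inl le_rfl⟩
  exact ⟨_, le_rfl, hp, .inr h1, .inr h2⟩

theorem chain' (hy : y ∈ T3 P a b c) {U : Submodule F V} (hU : U ≠ ⊥) : ∃ e ∈ U, ∃ H ≤ y.2.2, e ∉ H ∧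
    (e ∈ y.1 ∨ y.1 ≤ H) ∧ (e ∈ y.2.1 ∨ y.2.1 ≤ H) ∧ (e ∈ y.2.2 ∨ y.2.2 ≤ H) := by
  obtain ⟨e, he, h0⟩ := (Submodule.ne_bot_iff U).1 hU
  by_cases h1 : e ∈ y.1
  · exact ⟨e, he, ⊥, bot_le, h0, .inl h1, .inl (hy.1 h1), .inl (hy.2.1 (hy.1 h1))⟩
  by_cases h2 : e ∈ y.2.1
  · exact ⟨e, he, _, hy.1.trans hy.2.1, h1, .inr le_rfl, .inl h2, .inl (hy.2.1 h2)⟩
  by_cases h3 : e ∈ y.2.2
  · exact ⟨e, he, _, hy.2.1, h2, .inr hy.1, .inr le_rfl, .inl h3⟩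
  exact ⟨e, he, _, le_rfl, h3, .inr (hy.1.trans hy.2.1), .inr hy.2.1, .inr le_rfl⟩

theorem pair_perp (h : P.Nondeg) {a' b' c' : ℕ} (hy : y ∈ T3 P a b c) (hx : x ∈ T3 P a' b' c')
    (h1 : y.2.2 ≤ P.perp x.2.2) (h0 : y.2.2 ≠ ⊥) :
    ∃ e f, P.Sing e ∧ P.Sing f ∧ P.B f e = 1 ∧ Gd3 P e f y ∧ Gd3 P e f x := by
  obtain ⟨U, hU, U0, u1, u2⟩ := chain hy (· ≠ ⊥) h0
  obtain ⟨e, he, H, hH, eH, v1, v2, v3⟩ := chain' hx U0
  have ty := hy.2.2.2.2.1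
  have ex : ∀ u ∈ x.2.2, P.B e u = 0 := P.mem_perp'.1 (h1 (hU he))
  obtain ⟨f, hf, fe, fH⟩ := P.exists_partner h H (ty.1 e (hU he)) eH fun v hv => ex v (hH hv)
  have k1 : ∀ W ≤ y.2.2, U ≤ W ∨ ¬ W ≠ ⊥ → Gd P e f W := fun W hW k =>
    ⟨k.imp (fun k => k he) fun k u hu => by rw [not_not.1 k, Submodule.mem_bot] at hu; simp [hu],
      .inr fun u hu => ty.B_eq (hU he) (hW hu)⟩
  have k2 : ∀ W ≤ x.2.2, e ∈ W ∨ W ≤ H → Gd P e f W := fun W hW k =>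
    ⟨k.imp id fun k u hu => fH u (k hu), .inr fun u hu => ex u (hW hu)⟩
  exact ⟨e, f, ty.1 e (hU he), hf, fe, ⟨k1 _ (hy.1.trans hy.2.1) u1, k1 _ hy.2.1 u2, k1 _ le_rfl (.inl hU)⟩,
    k2 _ (hx.1.trans hx.2.1) v1, k2 _ hx.2.1 v2, k2 _ le_rfl v3⟩

theorem pair_opp {a' b' c' : ℕ} (hy : y ∈ T3 P a b c) (hx : x ∈ T3 P a' b' c') (h1 : ¬ y.2.2 ≤ P.perp x.2.2) :
    ∃ e f, P.Sing e ∧ P.Sing f ∧ P.B f e = 1 ∧ Gd3 P e f y ∧ Gd3 P e f x := by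
  obtain ⟨U, hU, U0, u1, u2⟩ := chain hy (¬ · ≤ P.perp x.2.2) h1
  obtain ⟨W, hW, W0, w1, w2⟩ := chain hx (¬ U ≤ P.perp ·) U0
  obtain ⟨e, he, h2⟩ := SetLike.not_le_iff_exists.1 W0
  rw [P.mem_perp] at h2
  push Not at h2
  obtain ⟨f, hf, h2⟩ := h2
  have ty := hy.2.2.2.2.1
  have tx := hx.2.2.2.2.1
  have hf' := W.smul_mem (σ (P.B f e)⁻¹) hf
  have k1 : ∀ Z ≤ y.2.2, U ≤ Z ∨ ¬ ¬ Z ≤ P.perp x.2.2 → Gd P e (σ (P.B f e)⁻¹ • f) Z := fun Z hZ k =>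
    ⟨k.imp (fun k => k he) fun k u hu => (not_not.1 k : Z ≤ P.perp x.2.2) hu _ (hW hf'), .inr fun u hu => ty.B_eq (hU he) (hZ hu)⟩
  have k2 : ∀ Z ≤ x.2.2, W ≤ Z ∨ ¬ ¬ U ≤ P.perp Z → Gd P e (σ (P.B f e)⁻¹ • f) Z := fun Z hZ k =>
    ⟨.inr fun u hu => tx.B_eq (hW hf') (hZ hu), k.imp (fun k => k hf') fun k => P.mem_perp'.1 ((not_not.1 k : U ≤ P.perp Z) he)⟩
  exact ⟨e, _, ty.1 e (hU he), tx.1 _ (hW hf'), by rw [P.B_smul_left, P.σσ, inv_mul_cancel₀ h2],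
    ⟨k1 _ (hy.1.trans hy.2.1) u1, k1 _ hy.2.1 u2, k1 _ le_rfl (.inl hU)⟩,
    k2 _ (hx.1.trans hx.2.1) w1, k2 _ hx.2.1 w2, k2 _ le_rfl (.inl hW)⟩

theorem bot3 (hy : y ∈ T3 P a b c) (h0 : y.2.2 = ⊥) (g : V ≃ₗ[F] V) : g • y = y := by
  have h1 : y.2.1 = ⊥ := le_bot_iff.1 (h0 ▸ hy.2.1)
  have h2 : y.1 = ⊥ := le_bot_iff.1 (h1 ▸ hy.1)
  exact Prod.ext (by rw [Prod.smul_fst, h2, smul_bot'']) (Prod.ext (by rw [Prod.smul_snd, Prod.smul_fst, h1, smul_bot''])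
    (by rw [Prod.smul_snd, Prod.smul_snd, h0, smul_bot'']))

end WitP

open WitP

theorem wg (h : P.Nondeg) (hE : P.TS E) (hE' : P.TS E') (hm : P.TS m) (hm' : P.TS m')
    (hd : finrank F m = finrank F m') (α : V ≃ₗ[F] V) (h1 : α • E = E') (h2 : α • (m ⊓ E) = m' ⊓ E')
    (h3 : α • (P.perp m ⊓ E) = P.perp m' ⊓ E') : ∃ g ∈ P.isom, (∀ v ∈ E, g v = α v) ∧ g • m = m' := by
  obtain ⟨g, hg, e1⟩ := hE.witt h hE' ((α : V →ₗ[F] V).restrict fun v hv => h1 ▸ ⟨v, hv, rfl⟩)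
    fun v w e => Subtype.ext (α.injective (congrArg Subtype.val e))
  have e2 : ∀ U ≤ E, g • U = α • U := fun U hU => Submodule.ext fun v =>
    ⟨fun ⟨w, hw, e⟩ => ⟨w, hw, (e1 ⟨w, hU hw⟩).symm.trans e⟩, fun ⟨w, hw, e⟩ => ⟨w, hw, (e1 ⟨w, hU hw⟩).trans e⟩⟩
  have e3 : g • E = E' := (e2 E le_rfl).trans h1
  obtain ⟨g', hg', c1, c2⟩ := wg0 (E := E') h hm' _ (g • m) ((ts_smul hg).2 hm) (by rw [finrank_smul, hd])
    (by rw [← h2, ← e2 _ inf_le_right, smul_inf'', e3]) (by rw [← h3, ← e2 _ inf_le_right, smul_inf'', e3, smul_perp hg])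
    (Nat.le_add_left _ _)
  exact ⟨g' * g, mul_mem hg' hg, fun v hv => by
    rw [LinearEquiv.mul_apply, c1 _ (e3 ▸ ⟨v, hv, rfl⟩)]; exact e1 ⟨v, hv⟩, by rw [mul_smul, c2]⟩

theorem isom_le_sp (h : Pol P q) (k : IsSp P) : P.isom ≤ SLV F V := by
  obtain rfl : σ = RingHom.id F := RingHom.ext k.σ_eq
  have hA : LinearMap.IsAlt P.B := fun v => (k.sing h v).self_eq
  intro g hg
  refine (alt_mem_of_transvections P.B hA ⟨h.nd, h.nd.right⟩ ((ofAlt P.B hA).isom ⊓ SLV F V) inf_le_left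
    (fun t v d ht => (allFull_isom_inf_SLV (ofAlt P.B hA)).transvection (ofAlt_sing _ _ v) (ofAlt_mem _ _ d) ht) g
    ((ofAlt_isIso _ _ _).2 (PQ.IsIso.B_eq hg))).2

theorem norm_det (h : Pol P q) {g : V ≃ₗ[F] V} (hg : g ∈ P.isom) :
    σ (LinearMap.det (g : V →ₗ[F] V)) * LinearMap.det (g : V →ₗ[F] V) = 1 := by
  exact Unitary.conj_det_mul_det h.nd hg

/-- correcting the determinant by a dilation of a hyperbolic pair -/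
theorem det_pair (h : Pol P q) {g : V ≃ₗ[F] V} (hg : g ∈ P.isom) {e f : V} (he : P.Sing e) (hf : P.Sing f)
    (hfe : P.B f e = 1) : ∃ g' ∈ G0 P, ∀ U : Submodule F V, (e ∈ U ∨ ∀ u ∈ U, P.B f u = 0) →
      (f ∈ U ∨ ∀ u ∈ U, P.B e u = 0) → g' • U = g • U := by
  rcases h.kind with k | k
  · exact ⟨g, ⟨hg, isom_le_sp h k.1 hg⟩, fun _ _ _ => rfl⟩
  obtain ⟨s, s0, hs⟩ := Unitary.exists_div_conj_eq k.1 (norm_det h (inv_mem hg))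
  have hd := P.dil_isIso he hf hfe s0
  refine ⟨g * hd.toEquiv h.nd, ⟨mul_mem hg (hd.toEquiv_isIso h.nd), mem_SLV.2 ?_⟩, fun U h1 h2 => ?_⟩
  · rw [← mem_SLV.1 (one_mem (SLV F V)), ← mul_inv_cancel g, LinearEquiv.coe_toLinearMap_mul,
      LinearEquiv.coe_toLinearMap_mul, map_mul, map_mul, ← hs, ← P.det_dil hf hfe s]
    congr 2
  · rw [mul_smul, smul_fix (g := hd.toEquiv h.nd) fun v hv => ?_]
    rw [hd.toEquiv_apply, P.dil_apply]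
    refine add_mem (add_mem hv ?_) ?_
    · exact h1.elim (U.smul_mem _) fun k => by simp [k v hv]
    · exact h2.elim (U.smul_mem _) fun k => by simp [k v hv]

theorem det_fix (h : Pol P q) {a' b' c' : ℕ} (hy : y ∈ T3 P a b c) (hx : x ∈ T3 P a' b' c') {g : V ≃ₗ[F] V}
    (hg : g ∈ P.isom) : ∃ g' ∈ G0 P, g' • y = g • y ∧ g' • x = g • x := by
  have key : (∃ e f, P.Sing e ∧ P.Sing f ∧ P.B f e = 1 ∧ Gd3 P e f y ∧ Gd3 P e f x) →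
      ∃ g' ∈ G0 P, g' • y = g • y ∧ g' • x = g • x := fun ⟨e, f, he, hf, fe, k1, k2⟩ => by
    obtain ⟨g', hg', k⟩ := det_pair h hg he hf fe
    exact ⟨g', hg', Prod.ext (k _ k1.1.1 k1.1.2) (Prod.ext (k _ k1.2.1.1 k1.2.1.2) (k _ k1.2.2.1 k1.2.2.2)),
      Prod.ext (k _ k2.1.1 k2.1.2) (Prod.ext (k _ k2.2.1.1 k2.2.1.2) (k _ k2.2.2.1 k2.2.2.2))⟩
  by_cases h1 : y.2.2 ≤ P.perp x.2.2
  swap
  · exact key (pair_opp hy hx h1)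
  by_cases h2 : y.2.2 = ⊥
  swap
  · exact key (pair_perp h.nd hy hx h1 h2)
  by_cases h3 : x.2.2 = ⊥
  · exact ⟨1, one_mem _, by rw [bot3 hy h2, bot3 hy h2], by rw [bot3 hx h3, bot3 hx h3]⟩
  obtain ⟨e, f, he, hf, fe, k1, k2⟩ := pair_perp h.nd hx hy (P.le_perp_comm.1 h1) h3
  exact key ⟨e, f, he, hf, fe, k2, k1⟩

theorem wit (h : Pol P q) (hy : y ∈ T3 P b c d) (hy' : y' ∈ T3 P b c d) (hm : m ∈ T P a) (hm' : m' ∈ T P a)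
    (hs : Same P y y' m m') : ∃ g ∈ G0 P, g • y = y' ∧ g • m = m' := by
  have f3 : ∀ {y : Submodule F V × Submodule F V × Submodule F V}, y ∈ T3 P b c d → y ∈ F3 (lin F V) b c d :=
    fun hy => ⟨hy.1, hy.2.1, (lin_rk _).trans hy.2.2.1.2, (lin_rk _).trans hy.2.2.2.1.2, (lin_rk _).trans hy.2.2.2.2.2⟩
  have ps : ∀ {y : Submodule F V × Submodule F V × Submodule F V}, y ∈ T3 P b c d → ∀ m,
      pos (lin F V) y (m ⊓ y.2.2) = dims y m := fun {y} hy m => by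
    rw [← dims_of_inf hy.1 hy.2.1 (m := m ⊓ y.2.2) (by rw [inf_assoc, inf_idem])]
    simp only [pos, dims, lin_rk]
  have pt : ∀ {y : Submodule F V × Submodule F V × Submodule F V}, y ∈ T3 P b c d →
      pos (lin F V) y y.2.2 = (b, c, d) := fun {y} hy => by
    simp only [pos, lin_rk, inf_eq_right.2 (hy.1.trans hy.2.1), inf_eq_right.2 hy.2.1, inf_idem, hy.2.2.1.2,
      hy.2.2.2.1.2, hy.2.2.2.2.2]
  obtain ⟨α, -, e1, e2⟩ := pf (x := (m ⊓ y.2.2, P.perp m ⊓ y.2.2, y.2.2))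
    (x' := (m' ⊓ y'.2.2, P.perp m' ⊓ y'.2.2, y'.2.2))
    ⟨inf_le_inf_right _ hm.1.2, inf_le_right, lin_rk _, lin_rk _, (lin_rk _).trans hy.2.2.2.2.2⟩
    ⟨inf_le_inf_right _ hm'.1.2, inf_le_right, (lin_rk _).trans (congrArg (·.2.2) hs.1).symm,
      (lin_rk _).trans (congrArg (·.2.2) hs.2).symm, (lin_rk _).trans hy'.2.2.2.2.2⟩ (f3 hy) (f3 hy')
    (by rw [ps hy, ps hy', hs.1]) (by rw [ps hy, ps hy', hs.2]) (by rw [pt hy, pt hy'])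
  obtain ⟨g, hg, c1, c2⟩ := wg h.nd hy.2.2.2.2.1 hy'.2.2.2.2.1 hm.1 hm'.1 (hm.2.trans hm'.2.symm) α
    (congrArg (·.2.2) e1) (congrArg (·.1) e1) (congrArg (·.2.1) e1)
  have e3 : ∀ U ≤ y.2.2, g • U = α • U := fun U hU => Submodule.ext fun v =>
    ⟨fun ⟨w, hw, e⟩ => ⟨w, hw, (c1 w (hU hw)).symm.trans e⟩, fun ⟨w, hw, e⟩ => ⟨w, hw, (c1 w (hU hw)).trans e⟩⟩
  obtain ⟨g', hg', d1, d2⟩ := det_fix h hy (x := (m, m, m)) ⟨le_rfl, le_rfl, hm, hm, hm⟩ hg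
  exact ⟨g', hg', d1.trans ((Prod.ext (e3 _ (hy.1.trans hy.2.1)) (Prod.ext (e3 _ hy.2.1) (e3 _ le_rfl))).trans e2),
    (congrArg (·.1) d2).trans c2⟩

theorem tr_T3 (h : Pol P q) (a b c : ℕ) : Tr (G0 P) (T3 P a b c) := by
  intro y hy y' hy'
  have b0 : (⊥ : Submodule F V) ∈ T P 0 := ⟨P.ts_bot, finrank_bot F V⟩
  have k0 : ∀ y : Submodule F V × Submodule F V × Submodule F V, dims y ⊥ = (0, 0, 0) := fun y => by
    rw [dims, bot_inf_eq, bot_inf_eq, bot_inf_eq, finrank_bot]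
  have k1 : ∀ y ∈ T3 P a b c, dims y (P.perp ⊥) = (a, b, c) := fun y hy => by
    rw [dims, P.perp_bot, top_inf_eq, top_inf_eq, top_inf_eq, hy.2.2.1.2, hy.2.2.2.1.2, hy.2.2.2.2.2]
  obtain ⟨g, hg, e, -⟩ := wit h hy hy' b0 b0 ⟨by rw [k0, k0], by rw [k1 y hy, k1 y' hy']⟩
  exact ⟨g, hg, e⟩

theorem tr_T (h : Pol P q) (a : ℕ) : Tr (G0 P) (T P a) := by
  intro m hm m' hm'
  obtain ⟨g, hg, e⟩ := tr_T3 h a a a (m, m, m) ⟨le_rfl, le_rfl, hm, hm, hm⟩ (m', m', m') ⟨le_rfl, le_rfl, hm', hm', hm'⟩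
  exact ⟨g, hg, congrArg (·.1) e⟩

theorem tr_T2 (h : Pol P q) (a b : ℕ) : Tr (G0 P) (T2 P a b) := by
  intro m hm m' hm'
  obtain ⟨g, hg, e⟩ := tr_T3 h a b b (m.1, m.2, m.2) ⟨hm.1, le_rfl, hm.2.1, hm.2.2, hm.2.2⟩ (m'.1, m'.2, m'.2)
    ⟨hm'.1, le_rfl, hm'.2.1, hm'.2.2, hm'.2.2⟩
  exact ⟨g, hg, Prod.ext (congrArg (·.1) e) (congrArg (·.2.1) e)⟩

end CfsgLib.KP
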