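import Mathlib
import Cfsg.Agent.Lib.KP.Inj
import Cfsg.Agent.Lib.KP.Inj12
import Cfsg.Agent.Lib.KP.Wit

/-! KP: two orbits (plans/KP.md, package ORB). -/

set_option autoImplicit false
set_option linter.unusedSectionVars false

namespace CfsgLib.KP

open CfsgLib.CK CfsgLib.KL CfsgLib.Forms CfsgLib.RootMax CfsgLib.ClMax CfsgLib.Tech Module

variable {F : Type*} [Field F] [Finite F] {σ : F →+* F} {V : Type*} [AddCommGroup V] [Module F V] [Finite V]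
  {P : PQ σ V} {q : ℕ} {K : Subgroup (V ≃ₗ[F] V)} {C : Set (Submodule F V)}

variable {S : Set (Submodule F V)}

theorem orb_ins_self {x : Submodule F V} {k : ℕ} (hx : x ∈ T P k) : ins (T P k) x = {x} :=
  Set.ext fun _ => ⟨fun e => T.eq_of_le e.1 hx e.2, by rintro rfl; exact ⟨hx, le_rfl⟩⟩

theorem orb_eqI (P : PQ σ V) : EqI P.isom fun x => ins (T P 1) (P.perp x) :=
  eqI_ins P 1 fun _ hg x => (smul_perp hg x).symm

theorem orb_pt (h : Hyp P q K) (hS : Part K (T P 1) S) : Tr K S := by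
  obtain ⟨f, c, μ, f1, f2, f3⟩ := exists_eigen h.le' (inv_T P 1) (fun _ _ _ k => k.1) (orb_eqI P) hS
  refine tr_of_aff hS (f := f) fun hh hi => ?_
  obtain ⟨c₀, c₁, hc⟩ := h.gs.one 1 1 1 1 f f1 f2 1 (fun _ y => {y.1})
    (fun _ y hy => Set.singleton_subset_iff.2 hy.2.2.1) (fun _ => eqI_single fun _ _ _ => rfl) (by
      rintro ⟨x, x', x''⟩ hy u hu h0
      obtain rfl : x = x' := T.eq_of_le hy.2.2.1 hy.2.2.2.1 hy.1
      obtain rfl : x = x'' := T.eq_of_le hy.2.2.1 hy.2.2.2.2 hy.2.1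
      have h1 : sm (ins (T P 1) x) u = 0 := by rw [orb_ins_self hy.2.2.1]; exact h0 0
      exact inj1 hy hu.pos (hu.all (inv_T P 1)) (hu.fam (orb_eqI P) (pt := id) (fun _ _ _ => rfl) (inv_T P 1)
        (fun _ _ _ k => k.1) (fun _ k => k) f3) h1 h1 h1) (fun y => hh y.1) fun g hg y hy => hi g hg _ hy.2.2.1
  exact ⟨c₀, c₁ 0, fun x hx => by simpa [sm_single] using hc (x, x, x) ⟨le_rfl, le_rfl, hx, hx, hx⟩⟩

theorem orb_pt' (h : Hyp P q K) (hS : Part K (T P 1) S) : Tr K (T P 1 \ S) :=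
  orb_pt h (hS.compl ((inv_T P 1).mono h.le'))

theorem intr1 (h : Hyp P q K) (hS : Part K (T P 1) S) : ∃ h₁ h₂, Intr P ⊥ S h₁ h₂ := by
  obtain ⟨x, hx⟩ := hS.ne
  obtain ⟨x', hx', hn⟩ := hS.ne'
  refine ⟨cnt S (P.perp x), cnt S (P.perp x'), P.ts_bot, pt_bot P ▸ hS.sub, ⟨x, hx⟩, ⟨x', pt_bot P ▸ hx', hn⟩,
    fun Z hZ => ?_, fun Z hZ hZ' => ?_⟩
  · obtain ⟨g, hg, rfl⟩ := orb_pt h hS x hx Z hZ
    rw [← smul_perp (h.le' hg), cnt_inv hS.inv hg]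
  · obtain ⟨g, hg, rfl⟩ := orb_pt' h hS x' ⟨hx', hn⟩ Z ⟨pt_bot P ▸ hZ, hZ'⟩
    rw [← smul_perp (h.le' hg), cnt_inv hS.inv hg]

theorem orb_inj1 (h : Hyp P q K) (hS : Part K (T P 1) S) {b c d : ℕ} {y : Submodule F V × Submodule F V × Submodule F V}
    (hy : y ∈ T3 P b c d) {u : Submodule F V → ℂ} (hu : AdmF P.isom (T P 1) (ind S) (same1 P y) u)
    (h1 : sm (ins (T P 1) y.1) u = 0) (h2 : sm (ins (T P 1) y.2.1) u = 0) (h3 : sm (ins (T P 1) y.2.2) u = 0) :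
    ∀ x ∈ T P 1, u x = 0 := by
  obtain ⟨c, μ, hc⟩ := aff_of_two hS.sub (orb_pt h hS) (orb_pt' h hS)
    (hh := fun x => sm (ins (T P 1) (P.perp x)) (ind S)) fun g hg x _ =>
      (orb_eqI P).sm_inv (h.le' hg) fun x _ => ind_smul hS.inv hg x
  exact inj1 hy hu.pos (hu.all (inv_T P 1)) (hu.fam (orb_eqI P) (pt := id) (fun _ _ _ => rfl) (inv_T P 1)
    (fun _ _ _ k => k.1) (fun _ k => k) hc) h1 h2 h3

theorem orb3 (h : Hyp P q K) (hS : Part K (T P 1) S) : Orb3 P K S := by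
  intro b c d y hy y' hy' e1 e2 e3
  refine (h.gs.one 1 b c d).orb hS
    ![fun y => ins (T P 1) y.1, fun y => ins (T P 1) y.2.1, fun y => ins (T P 1) y.2.2] (fun i => ?_) (fun i => ?_)
    (fun y hy u hu k => orb_inj1 h hS hy hu (k 0) (k 1) (k 2)) hy hy' fun i => ?_
  · fin_cases i <;> exact fun _ _ _ k => k.1
  · fin_cases i <;> exact eqI_ins P 1 fun _ _ _ => rfl
  · fin_cases i
    · change (S ∩ ins (T P 1) y.1).ncard = (S ∩ ins (T P 1) y'.1).ncard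
      rwa [inter_ins hS.sub, inter_ins hS.sub]
    · change (S ∩ ins (T P 1) y.2.1).ncard = (S ∩ ins (T P 1) y'.2.1).ncard
      rwa [inter_ins hS.sub, inter_ins hS.sub]
    · change (S ∩ ins (T P 1) y.2.2).ncard = (S ∩ ins (T P 1) y'.2.2).ncard
      rwa [inter_ins hS.sub, inter_ins hS.sub]

theorem dich1 (h : Hyp P q K) (hS : Part K (T P 1) S) : (∃ b, ∀ l ∈ T P 2, cnt S l = 0 ∨ cnt S l = b) ∨
    ∃ b, ∀ l ∈ T P 2, cnt (T P 1 \ S) l = 0 ∨ cnt (T P 1 \ S) l = b := by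
  obtain ⟨c₀, c₁, c₂, hc⟩ := (h.gs.one 1 1 2 2).q2 hS (Q₁ := fun y => {y.1}) (Q₂ := fun y => ins (T P 1) y.2.1)
    (fun y hy => Set.singleton_subset_iff.2 hy.2.2.1) (fun _ _ _ k => k.1) (eqI_single fun _ _ _ => rfl)
    (eqI_ins P 1 fun _ _ _ => rfl) (fun y hy u hu h1 h2 => orb_inj1 h hS hy hu (by rwa [orb_ins_self hy.2.2.1]) h2
      (by rwa [← T.eq_of_le hy.2.2.2.1 hy.2.2.2.2 hy.2.1])) (fun y => ind S y.1 * cnt S y.2.1) fun g hg y _ => by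
      change ind S (g • y.1) * cnt S (g • y.2.1) = _
      rw [ind_smul hS.inv hg, cnt_inv hS.inv hg]
  refine (dich_val (O := S) (B := T3 P 1 2 2) (pt := fun y => y.1) (n := fun y => cnt S y.2.1)
    (c₀ := c₀) (c₁ := c₁) (c₂ := c₂) fun y hy => ?_).imp (fun ⟨k, hk⟩ => ⟨k, fun l hl => ?_⟩)
    fun ⟨k, hk⟩ => ⟨th (Nat.card F) 2 - k, fun l hl => ?_⟩
  · rw [hc y hy, ncard_inter_single', inter_ins hS.sub]
    rfl
  · refine or_iff_not_imp_left.2 fun e => ?_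
    obtain ⟨x, hx, a⟩ := Set.nonempty_of_ncard_ne_zero e
    exact hk (x, l, l) ⟨a, le_rfl, hS.sub hx, hl, hl⟩ hx
  · refine or_iff_not_imp_left.2 fun e => ?_
    obtain ⟨x, hx, a⟩ := Set.nonempty_of_ncard_ne_zero e
    have h1 : cnt S l = k := hk (x, l, l) ⟨a, le_rfl, hx.1, hl, hl⟩ hx.2
    rw [← cnt_T1 hl, ← cnt_compl' hS.sub l, h1, Nat.add_sub_cancel_left]

theorem orb_dims {l m : Submodule F V} (hl : l ∈ T P 2) (hm : m ∈ nb P l) (hn : m ≠ l) :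
    dims (l, l, l) m = (1, 1, 1) ∧ dims (l, l, l) (P.perp m) = (2, 2, 2) := by
  have h1 := Submodule.finrank_lt_finrank_of_lt (inf_lt_left.2 fun k => hn (T.eq_of_le hm.1 hl k))
  have h2 : finrank F ↥(m ⊓ l) ≠ 0 := fun k => hm.2.1 (Submodule.finrank_eq_zero.1 k)
  have h3 : finrank F ↥(m ⊓ l) = 1 := by have := hm.1.2; omega
  have h4 : finrank F ↥(P.perp m ⊓ l) = 2 := by rw [inf_eq_right.2 (P.le_perp_comm.1 hm.2.2), hl.2]
  exact ⟨Prod.ext h3 (Prod.ext h3 h3), Prod.ext h4 (Prod.ext h4 h4)⟩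

theorem orb_ln (h : Hyp P q K) (t1 : Tr K (T P 1)) (hC : Part K (T P 2) C) : Tr K C := by
  obtain ⟨f, c, μ, f1, f2, f3⟩ := exists_eigen h.le' (inv_T P 2) (fun _ _ _ k => k.1) (eqI_nb P) hC
  refine tr_of_aff hC (f := f) fun hh hi => ?_
  obtain ⟨c₀, c₁, hc⟩ := h.gs.one 2 2 2 2 f f1 f2 1 (fun _ y => {y.1})
    (fun _ y hy => Set.singleton_subset_iff.2 hy.2.2.1) (fun _ => eqI_single fun _ _ _ => rfl) (by
      rintro ⟨l, l', l''⟩ hy u hu h0
      obtain rfl : l = l' := T.eq_of_le hy.2.2.1 hy.2.2.2.1 hy.1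
      obtain rfl : l = l'' := T.eq_of_le hy.2.2.1 hy.2.2.2.2 hy.2.1
      have hl : l ∈ T P 2 := hy.2.2.1
      have h1 : u l = 0 := (sm_single l u).symm.trans (h0 0)
      have h2 : ∀ m ∈ T P 2, u m = 0 → sm (nb P m) u = 0 := fun m hm e => by
        rw [hu.fam (eqI_nb P) (pt := id) (fun _ _ _ => rfl) (inv_T P 2) (fun _ _ _ k => k.1) (fun _ k => k) f3 m hm,
          id, e, mul_zero]
      obtain ⟨x, hx, -, hxl⟩ := exists_mid (j := 1) hl bot_le (by simp) (by omega)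
      refine inj12 h.pol h.six hx hl hxl (fun m hm m' hm' e => hu.pos m hm m' hm' ?_)
        (hu.tr h.le' f1 (eqI_thru P 2 (a := id) fun _ _ _ => rfl) (inv_T P 1) t1 fun z _ m hm => hm.1) h2 h1
        (sm_eq_zero fun m hm => ?_)
      · have a := congrArg (·.2.2) e.1
        have b := congrArg (·.2.2) e.2
        exact ⟨Prod.ext a (Prod.ext a a), Prod.ext b (Prod.ext b b)⟩
      · have hm' : m ∈ nb P l := ⟨hm.1.1, fun e => by
          have := hx.2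
          rw [eq_bot_iff.2 (e ▸ le_inf hm.1.2 hxl : x ≤ ⊥), finrank_bot] at this
          exact zero_ne_one this, hm.2⟩
        by_cases e : m = l
        · rwa [e]
        · refine sm_zero (h2 l hl h1) hm' fun b hb => or_iff_not_imp_left.2 fun k => ?_
          have e' : b ≠ l := fun j => k (j ▸ h1)
          exact hu.pos b hb.1 m hm'.1 ⟨(orb_dims hl hb e').1.trans (orb_dims hl hm' e).1.symm,
            (orb_dims hl hb e').2.trans (orb_dims hl hm' e).2.symm⟩)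
    (fun y => hh y.1) fun g hg y hy => hi g hg _ hy.2.2.1
  exact ⟨c₀, c₁ 0, fun x hx => by simpa [sm_single] using hc (x, x, x) ⟨le_rfl, le_rfl, hx, hx, hx⟩⟩

theorem exists_lv (h : Hyp P q K) (t1 : Tr K (T P 1)) (t2 : ¬ Tr K (T P 2)) : ∃ C, Lv P q K C := by
  obtain ⟨C, hC⟩ := exists_part ((inv_T P 2).mono h.le') t2
  exact ⟨C, h, t1, hC, orb_ln h t1 hC, orb_ln h t1 (hC.compl ((inv_T P 2).mono h.le'))⟩

end CfsgLib.KP
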