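import Mathlib
import Cfsg.Agent.Lib.KP.Intr

/-! KP: no ovoids (plans/KP.md, package OV). -/

set_option autoImplicit false
set_option linter.unusedSectionVars false

namespace CfsgLib.KP

open CfsgLib.CK CfsgLib.KL CfsgLib.Forms CfsgLib.RootMax CfsgLib.ClMax CfsgLib.Tech Module

variable {F : Type*} [Field F] [Finite F] {σ : F →+* F} {V : Type*} [AddCommGroup V] [Module F V] [Finite V]
  {P : PQ σ V} {q : ℕ} {K : Subgroup (V ≃ₗ[F] V)} {C : Set (Submodule F V)}

variable {Y : Submodule F V} {R : Set (Submodule F V)} {h₂ : ℕ}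

namespace Ov0

variable {L x y s : Submodule F V}

theorem npts (U : Submodule F V) :
    {y : Submodule F V | finrank F y = 1 ∧ y ≤ U}.ncard = th (Nat.card F) (finrank F U) := by
  have := ncard_cover (F := F) (bot_le (a := U))
  rw [finrank_bot, Nat.sub_zero] at this
  rw [← this]
  congr 1
  ext y
  simp [and_comm]

theorem finrank_sup (hx : finrank F x = 1) (hy : finrank F y = 1) (hn : x ≠ y) : finrank F ↥(x ⊔ y) = 2 := by
  have h1 := Submodule.finrank_sup_add_finrank_inf_eq x y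
  have h2 := Submodule.finrank_lt_finrank_of_lt
    (inf_lt_left.2 fun k : x ≤ y => hn (Submodule.eq_of_le_of_finrank_eq k (hx.trans hy.symm)))
  omega

/-- hyperbolic lines -/
theorem hyp (hx : x ∈ T P 1) (hy : y ∈ T P 1) (hn : ¬ y ≤ P.perp x) : ND P (x ⊔ y) ∧ finrank F ↥(x ⊔ y) = 2 := by
  refine ⟨?_, finrank_sup hx.2 hy.2 fun e => hn (e ▸ hx.1.2)⟩
  rw [ND, P.perp_sup, disjoint_iff, ← inf_assoc, sup_inf_assoc_of_le _ hx.1.2,
    cn_cov (Y := ⊥) (by rwa [pt_bot]) bot_le hn, sup_bot_eq]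
  exact cn_cov (Y := ⊥) (by rwa [pt_bot]) bot_le fun k => hn (P.le_perp_comm.1 k)

theorem inf_perp (h2 : finrank F L = 2) (hs : s ∈ T P 1) (hn : ¬ L ≤ P.perp s) : finrank F ↥(L ⊓ P.perp s) = 1 := by
  have := finrank_inf_perp (Y := ⊥) (E := L) (by rwa [pt_bot]) (by rw [P.perp_bot]; exact le_top) hn
  omega

theorem ar {j a Q : ℤ} (h0 : 0 < Q) (h1 : Q < a) (h : j + (Q + 1 - j) * (a + 1) = Q * a + 1) : False := by
  rcases le_or_gt j 1 with k | k <;> nlinarith

/-- counting along a hyperbolic line through a point of `R` -/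
theorem line (hR : Intr P ⊥ R 1 h₂) (hL : ND P L) (h2 : finrank F L = 2) (hx : x ∈ R) (hxL : x ≤ L)
    (hσ : ∀ y ≤ L, finrank F y = 1 → y ∉ R → cnt R (P.perp y) = h₂) :
    (cnt R L : ℤ) + (Nat.card F + 1 - cnt R L) * h₂ = R.ncard := by
  have hT : ∀ s ∈ R, s ∈ T P 1 := fun s hs => pt_bot P ▸ hR.sub hs
  have a := sm_comm {y : Submodule F V | finrank F y = 1 ∧ y ≤ L} R (fun y s => s ≤ P.perp y) fun _ => 1
  have sb : ins R L ⊆ {y : Submodule F V | finrank F y = 1 ∧ y ≤ L} := fun y hy => ⟨(hT y hy.1).2, hy.2⟩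
  rw [sm_const (S := R) (c := 1) fun s hs => ?_, sm_diff sb, sm_const (c := 1) fun y hy => ?_,
    sm_const (c := h₂) fun y hy => ?_, Set.cast_ncard_sdiff sb (Set.toFinite _), npts, h2, cn_th2, ← cnt_eq] at a
  · have : ((cnt R L + (Nat.card F + 1 - cnt R L) * h₂ : ℤ) : ℂ) = (R.ncard : ℤ) := by
      push_cast at a ⊢
      linear_combination a
    exact_mod_cast this
  · rw [sm_const fun _ _ => rfl, mul_one]
    exact congrArg Nat.cast (hσ y hy.1.2 hy.1.1 fun k => hy.2 ⟨k, hy.1.2⟩)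
  · rw [sm_const fun _ _ => rfl, mul_one]
    exact_mod_cast hR.h1 y hy.1
  · have hn : ¬ L ≤ P.perp s := fun k => by
      obtain rfl := hR.opp hs hx (hxL.trans k)
      have := (hT x hx).2
      rw [eq_bot_iff.2 (hL hxL (P.le_perp_comm.1 k)), finrank_bot] at this
      exact zero_ne_one this
    have := inf_perp h2 (hT s hs) hn
    rw [mul_one, Nat.cast_eq_one, Set.ncard_eq_one]
    exact ⟨L ⊓ P.perp s, Set.ext fun y => ⟨fun k => Submodule.eq_of_le_of_finrank_eq
      (le_inf k.1.2 (P.le_perp_comm.1 k.2)) (k.1.1.trans this.symm),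
      fun k => k ▸ ⟨⟨this, inf_le_left⟩, P.le_perp_comm.1 inf_le_right⟩⟩⟩

theorem sp (h : Pol P q) (k : IsSp P) (hR : Intr P ⊥ R 1 h₂) (h4 : 4 ≤ finrank F V) : False := by
  have hT : ∀ s ∈ R, s ∈ T P 1 := fun s hs => pt_bot P ▸ hR.sub hs
  obtain ⟨a1, a2⟩ := intr_ov h hR (d := finrank F V) (by simp) h4
  have ln : ∀ x ∈ T P 1, ∀ y ∈ R, ¬ y ≤ P.perp x →
      (cnt R (x ⊔ y) : ℤ) + (Nat.card F + 1 - cnt R (x ⊔ y)) * h₂ = R.ncard := fun x hx y hy hn =>
    line hR (hyp hx (hT y hy) hn).1 (hyp hx (hT y hy) hn).2 hy le_sup_right fun z _ hz =>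
      hR.h2 z ⟨h.ts_iff.2 fun v hv w hw => by
        obtain ⟨u, -, rfl⟩ := exists_of_rk (F := F) (V := V) (x := z) ((lin_rk z).trans hz)
        exact (P.ts_span_singleton (k.sing h u)).2 hv w hw, bot_le, by simpa using hz⟩
  obtain ⟨m, hm⟩ := even_sp h k
  have h3 := h.three
  obtain ⟨m, rfl⟩ : ∃ n, m = n + 2 := ⟨m - 2, by omega⟩
  rw [hm, tt, h.card_sp k, show (m + 2 + (m + 2)) % 2 = 0 by omega, pow_zero, mul_one] at a1 a2
  rw [show (m + 2 + (m + 2)) / 2 - 2 = m by omega] at a1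
  rw [show (m + 2 + (m + 2)) / 2 - 1 = m + 1 by omega] at a2
  rw [a1, a2, h.card_sp k] at ln
  rcases m with _ | m
  · rw [pow_zero, one_mul] at a1
    obtain ⟨s, hs, hn⟩ := hR.ne'
    have c1 := hR.h2 s hs hn
    obtain ⟨s', hs', h'⟩ := (Set.ncard_pos (Set.toFinite _)).1 (show 0 < cnt R (P.perp s) by omega)
    rw [pt_bot] at hs
    obtain ⟨a, -, a0, rfl⟩ := T.exists_vec hs
    obtain ⟨b, -, b0, rfl⟩ := T.exists_vec (hT _ hs')
    have ab : P.B a b = 0 := P.mem_perp_span_singleton.1 (h' (Submodule.mem_span_singleton_self b))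
    have bb := (k.sing h b).self_eq
    have yb : F ∙ b ≤ P.perp (F ∙ (a + b)) := (Submodule.span_singleton_le_iff_mem _ _).2
      (P.mem_perp_span_singleton.2 (by rw [P.B_add_left, ab, bb, add_zero]))
    have nb : a + b ∉ F ∙ b := fun e => hn (by
      rwa [T.eq_of_le hs (hT _ hs') ((Submodule.span_singleton_le_iff_mem _ _).2
        ((Submodule.add_mem_iff_left _ (Submodule.mem_span_singleton_self b)).1 e))])
    have hy : (F ∙ (a + b)) ∈ T P 1 := span_mem_T (k.sing h _) fun e => nb (e ▸ zero_mem _)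
    have ya : F ∙ (a + b) ≤ P.perp (F ∙ a) := (Submodule.span_singleton_le_iff_mem _ _).2
      (P.mem_perp_span_singleton.2 (by rw [P.B_add_right, ab, (k.sing h a).self_eq, add_zero]))
    have op : ∀ t ∈ ins R (P.perp (F ∙ a)) \ {F ∙ b}, ¬ t ≤ P.perp (F ∙ (a + b)) := fun t ht e =>
      ht.2 (hR.opp hs' ht.1.1 fun w hw => P.mem_perp_span_singleton.2 (by
        have := P.mem_perp_span_singleton.1 (e hw)
        rwa [P.B_add_left, P.mem_perp_span_singleton.1 (ht.1.2 hw), zero_add] at this))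
    have d := dc_eq (ins R (P.perp (F ∙ a)) \ {F ∙ b})
      ((fun t => (F ∙ (a + b)) ⊔ t) '' (ins R (P.perp (F ∙ a)) \ {F ∙ b})) (fun t l => t ≤ l) (m := 1) (k := 2)
      (fun t ht => Set.ncard_eq_one.2 ⟨(F ∙ (a + b)) ⊔ t, Set.ext fun l => ⟨by
        rintro ⟨⟨t', ht', rfl⟩, e⟩
        exact (Submodule.eq_of_le_of_finrank_eq (sup_le le_sup_left e)
          ((hyp hy (hT t ht.1.1) (op t ht)).2.trans (hyp hy (hT t' ht'.1.1) (op t' ht')).2.symm)).symm,
        fun e => e ▸ ⟨⟨t, ht, rfl⟩, le_sup_right⟩⟩⟩) (by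
      rintro _ ⟨t, ht, rfl⟩
      have j := ln _ hy t ht.1.1 (op t ht)
      have j2 : cnt R ((F ∙ (a + b)) ⊔ t) = 2 := by
        have : (q : ℤ) * (cnt R ((F ∙ (a + b)) ⊔ t) - 2) = 0 := by
          push_cast at j
          linear_combination -j
        have := (mul_eq_zero.1 this).resolve_left (by omega)
        omega
      rw [← j2, cnt]
      congr 1
      refine Set.ext fun u => ⟨fun e => ⟨e.1.1.1, e.2⟩, fun e => ⟨⟨⟨e.1, e.2.trans (sup_le ya ht.1.2)⟩, ?_⟩, e.2⟩⟩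
      rintro rfl
      have := le_inf e.2 yb
      rw [sup_inf_assoc_of_le _ hy.1.2, cn_cov (Y := ⊥) (by rw [pt_bot]; exact hT t ht.1.1) bot_le (op t ht),
        sup_bot_eq] at this
      exact nb (T.eq_of_le (hT _ hs') hy this ▸ Submodule.mem_span_singleton_self _))
    have c2 := Set.ncard_sdiff_singleton_add_one (s := ins R (P.perp (F ∙ a))) (a := F ∙ b) ⟨hs', h'⟩
    rw [← cnt_eq, c1, a1] at c2
    obtain ⟨n, hn⟩ := h.odd k
    omega
  · obtain ⟨y, hy⟩ := hR.ne
    obtain ⟨x, hx, hn⟩ := exists_opp h (hR.sub hy)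
    rw [pt_bot] at hx
    have := ln x hx y hy fun e => hn (P.le_perp_comm.1 e)
    have h5 : (1 : ℤ) < q ^ (m + 1) := one_lt_pow₀ (by omega) (by omega)
    refine ar (j := cnt R (x ⊔ y)) (a := q ^ (m + 1) * q) (Q := q) (by omega) (by nlinarith) ?_
    push_cast at this
    linear_combination this

/-- the variance trick -/
theorem all (h : P.Nondeg) (hR : Intr P ⊥ R 1 h₂) {a d : ℕ} (hd : finrank F V = d + 2) (ha : a ^ 2 = Nat.card F ^ d)
    (a1 : h₂ = a + 1) (a2 : R.ncard = Nat.card F * a + 1) (hy : finrank F y = 1) (hn : y ∉ R) :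
    cnt R (P.perp y) = h₂ := by
  classical
  have hT : ∀ s ∈ R, finrank F s = 1 := fun s hs => (show s ∈ T P 1 from pt_bot P ▸ hR.sub hs).2
  let X := {y : Submodule F V | finrank F y = 1}.toFinite.toFinset
  let S := R.toFinite.toFinset
  have mX : ∀ y, y ∈ X ↔ finrank F y = 1 := fun y => Set.Finite.mem_toFinset _
  have mS : ∀ y, y ∈ S ↔ y ∈ R := fun y => Set.Finite.mem_toFinset _
  have cX : X.card = th (Nat.card F) (d + 2) := by
    rw [← hd, ← ncard_rank_one, Set.ncard_eq_toFinset_card _ (Set.toFinite _)]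
  have cS : S.card = Nat.card F * a + 1 := by rw [← a2, Set.ncard_eq_toFinset_card _ (Set.toFinite _)]
  let ι : Submodule F V → Submodule F V → ℤ := fun y s => if s ≤ P.perp y then 1 else 0
  have e1 : ∀ y, (cnt R (P.perp y) : ℤ) = ∑ s ∈ S, ι y s := fun y => by
    rw [Finset.sum_boole, cnt, ← Set.ncard_coe_finset]
    congr 2
    ext s
    simp [mS]
  have e2 : ∀ s, ∑ y ∈ X, ι y s = th (Nat.card F) (d + 2 - finrank F s) := fun s => by
    have := P.finrank_perp h s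
    rw [Finset.sum_boole, show d + 2 - finrank F s = finrank F (P.perp s) by omega, ← npts, ← Set.ncard_coe_finset]
    congr 2
    ext y
    simp [mX, P.le_perp_comm (W := s)]
  have e3 : ∀ y s s', ι y s * ι y s' = ι y (s ⊔ s') := fun y s s' => by
    simp only [ι, sup_le_iff, ite_and, mul_ite, ite_mul]
    split_ifs <;> simp
  have S1 : ∑ y ∈ X, (cnt R (P.perp y) : ℤ) = S.card * th (Nat.card F) (d + 1) := by
    simp only [e1]
    rw [Finset.sum_comm, Finset.sum_congr rfl fun s hs => by rw [e2, hT s ((mS s).1 hs)], Finset.sum_const,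
      nsmul_eq_mul]
    rfl
  have S2 : ∑ y ∈ X, (cnt R (P.perp y) : ℤ) ^ 2 = S.card * (S.card * th (Nat.card F) d + Nat.card F ^ d) := by
    simp only [e1, sq, Finset.sum_mul_sum, e3]
    rw [Finset.sum_comm, Finset.sum_congr rfl fun s hs => ?_, Finset.sum_const, nsmul_eq_mul]
    rw [Finset.sum_comm, Finset.sum_congr (g := fun s' => (th (Nat.card F) d : ℤ) +
      if s = s' then (Nat.card F : ℤ) ^ d else 0) rfl fun s' hs' => ?_, Finset.sum_add_distrib, Finset.sum_const,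
      nsmul_eq_mul, Finset.sum_ite_eq, if_pos hs]
    rw [e2]
    split_ifs with e
    · rw [← e, sup_idem, hT s ((mS s).1 hs), show d + 2 - 1 = d + 1 from rfl, th_succ']
      push_cast
      rfl
    · rw [finrank_sup (hT s ((mS s).1 hs)) (hT s' ((mS s').1 hs')) e, add_zero]
      rfl
  have S3 : ∑ y ∈ X, ((cnt R (P.perp y) : ℤ) - h₂) ^ 2 = S.card * a ^ 2 := by
    simp only [sub_sq, Finset.sum_add_distrib, Finset.sum_sub_distrib, ← Finset.sum_mul, ← Finset.mul_sum]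
    have t := th_mul (Nat.card F) d
    have ha' : (a : ℤ) ^ 2 = Nat.card F ^ d := by exact_mod_cast ha
    rw [S1, S2, Finset.sum_const, nsmul_eq_mul, cX, cS, a1, th_succ' _ (d + 1), th_succ', pow_succ (Nat.card F)]
    push_cast
    rw [← ha'] at t ⊢
    linear_combination (a : ℤ) ^ 2 * (Nat.card F - 1) * t
  have sb : S ⊆ X := fun s hs => (mX s).2 (hT s ((mS s).1 hs))
  rw [← Finset.sum_sdiff sb, Finset.sum_congr (s₁ := S) (g := fun _ => (a : ℤ) ^ 2) rfl fun s hs => by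
    rw [hR.h1 s ((mS s).1 hs), a1]; push_cast; ring, Finset.sum_const, nsmul_eq_mul, add_eq_right,
    Finset.sum_eq_zero_iff_of_nonneg fun _ _ => sq_nonneg _] at S3
  have := S3 y (Finset.mem_sdiff.2 ⟨(mX y).2 hy, fun e => hn ((mS y).1 e)⟩)
  exact_mod_cast sub_eq_zero.1 (pow_eq_zero_iff two_ne_zero |>.1 this)

theorem odd (h : Pol P q) (ho : Odd (finrank F V)) (hR : Intr P ⊥ R 1 h₂) (h4 : 4 ≤ finrank F V) : False := by
  have k := h.card_herm (herm_of_odd h ho)
  obtain ⟨a1, a2⟩ := intr_ov h hR (d := finrank F V) (by simp) h4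
  obtain ⟨m, hm⟩ := ho
  obtain ⟨m, rfl⟩ : ∃ n, m = n + 2 := ⟨m - 2, by omega⟩
  rw [hm, tt, show (2 * (m + 2) + 1) % 2 = 1 by omega, pow_one] at a1 a2
  rw [show (2 * (m + 2) + 1) / 2 - 2 = m by omega] at a1
  rw [show (2 * (m + 2) + 1) / 2 - 1 = m + 1 by omega, pow_succ', mul_assoc] at a2
  obtain ⟨y, hy⟩ := hR.ne
  obtain ⟨x, hx, hn⟩ := exists_opp h (hR.sub hy)
  have hy' := hR.sub hy
  rw [pt_bot] at hx hy'
  have := line hR (hyp hy' hx hn).1 (hyp hy' hx hn).2 hy le_sup_left fun z _ =>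
    all h.nd hR (d := 2 * m + 3) hm (by rw [k]; ring) a1 a2
  have h3 := h.three
  have h5 := h.three_le
  have h6 : (0 : ℤ) < Nat.card F ^ m := by positivity
  rw [a1, a2] at this
  refine ar (j := cnt R (y ⊔ x)) (a := Nat.card F ^ m * (q * Nat.card F)) (Q := Nat.card F) (by omega) ?_ ?_
  · have : (1 : ℤ) * (2 * Nat.card F) ≤ Nat.card F ^ m * (q * Nat.card F) := by gcongr <;> omega
    omega
  · push_cast at this
    linear_combination this

end Ov0

theorem ov_sp (h : Pol P q) (k : IsSp P) (hR : Intr P Y R 1 h₂) (h4 : 2 * finrank F Y + 4 ≤ finrank F V) : False := by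
  obtain ⟨r⟩ := exists_res hR.ts
  have := r.finrank_D h.nd
  exact Ov0.sp (r.pol h) (r.sp k) (r.intr hR) (by omega)

theorem ov_odd (h : Pol P q) (ho : Odd (finrank F V)) (hR : Intr P Y R 1 h₂) (h4 : 2 * finrank F Y + 4 ≤ finrank F V) :
    False := by
  obtain ⟨r⟩ := exists_res hR.ts
  have := r.finrank_D h.nd
  exact Ov0.odd (r.pol h) (by rw [Nat.odd_iff] at ho ⊢; omega) (r.intr hR) (by omega)

end CfsgLib.KP
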