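import Mathlib
import Cfsg.Agent.Lib.KP.Orb
import Cfsg.Agent.Lib.KP.Ll
import Cfsg.Agent.Lib.KP.Hyp
import Cfsg.Agent.Lib.KP.Ov
import Cfsg.Agent.Lib.KP.L1e

/-! KP: point-transitivity (plans/KP.md, package LEV1). -/

set_option autoImplicit false
set_option linter.unusedSectionVars false

namespace CfsgLib.KP

open CfsgLib.CK CfsgLib.KL CfsgLib.Forms CfsgLib.RootMax CfsgLib.ClMax CfsgLib.Tech Module

variable {F : Type*} [Field F] [Finite F] {σ : F →+* F} {V : Type*} [AddCommGroup V] [Module F V] [Finite V]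
  {P : PQ σ V} {q : ℕ} {K : Subgroup (V ≃ₗ[F] V)} {C : Set (Submodule F V)}

theorem Pol.ne_four (h : Pol P q) : Nat.card F ≠ 4 := by
  have := h.three
  rcases h.kind with k | k
  · obtain ⟨n, hn⟩ := h.odd k.1
    have := k.2
    omega
  · rw [k.2]
    nlinarith

variable {S : Set (Submodule F V)} {x : Submodule F V}

theorem lev_one (hS : S ⊆ T P 1) (hx : x ∈ S) : cnt S x = 1 :=
  Set.ncard_eq_one.2 ⟨x, Set.eq_singleton_iff_unique_mem.2 ⟨⟨hx, le_rfl⟩, fun _ k => T.eq_of_le (hS k.1) (hS hx) k.2⟩⟩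

theorem lev_zero (hS : S ⊆ T P 1) (hx : x ∈ T P 1) (hn : x ∉ S) : cnt S x = 0 :=
  (Set.ncard_eq_zero (Set.toFinite _)).2 (Set.eq_empty_of_forall_notMem fun _ k =>
    hn (T.eq_of_le (hS k.1) hx k.2 ▸ k.1))

theorem lev_two {Z Z' : Submodule F V} (hZ : Z ∈ S) (hZ' : Z' ∈ S) (hn : Z ≠ Z') : 1 < cnt S (Z ⊔ Z') :=
  (Set.one_lt_ncard (Set.toFinite _)).2 ⟨Z, ⟨hZ, le_sup_left⟩, Z', ⟨hZ', le_sup_right⟩, hn⟩

theorem lev_ln {Z Z' : Submodule F V} (hZ : Z ∈ T P 1) (hZ' : Z' ∈ T P 1) (hp : Z' ≤ P.perp Z) (hn : Z ≠ Z') :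
    Z ⊔ Z' ∈ T P 2 :=
  Pt.sup (k := 0) ⟨P.ts_bot, finrank_bot F V⟩ (pt_bot P ▸ hZ) (pt_bot P ▸ hZ') hp hn

theorem lev_b (h : Hyp P q K) (hS : Part K (T P 1) S) {b : ℕ} (hb : ∀ l ∈ T P 2, cnt S l = 0 ∨ cnt S l = b) :
    b = 1 ∨ b = Nat.card F := by
  have h6 := h.six
  have o3 := orb3 h hS
  obtain ⟨z, hz, z', hz', zz, hn⟩ : ∃ z ∈ S, ∃ z' ∈ T P 1, z' ≤ P.perp z ∧ z' ∉ S := by
    by_contra! k
    obtain ⟨x, hx⟩ := hS.ne
    obtain ⟨x', hx', hn⟩ := hS.ne'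
    exact hn (conn (k := 0) h.pol ⟨P.ts_bot, finrank_bot F V⟩ (by omega) (pt_bot P ▸ hS.sub hx) hx
      (fun Z _ hZ Z' hZ' => k Z hZ Z' (pt_bot P ▸ hZ')) (pt_bot P ▸ hx'))
  have hl := lev_ln (hS.sub hz) hz' zz fun e => hn (e ▸ hz)
  obtain ⟨E, hE, lE⟩ := exists_ext (k := 3) h.pol hl (by omega) (by omega)
  obtain ⟨a1, -, a2⟩ := arc_pt hE.2 (fun x hx => (hS.sub hx).2) ⟨z, hz, le_sup_left.trans lE⟩
    ⟨z', le_sup_right.trans lE, hz'.2, hn⟩ fun l h1 h2 => hb l (T.mono hE h1 h2)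
  have a3 := a2 z' (le_sup_right.trans lE) hz'.2 hn
  have b1 : (ins S (z ⊔ z')).ncard = b := (hb _ hl).resolve_left
    (Set.ncard_ne_zero_of_mem (a := z) ⟨hz, le_sup_left⟩)
  have p1 : ∀ {x}, (lin F V).Pt ⊥ (z ⊔ z') x → x ∈ T P 1 := fun k => T.mono hl k.2.1 (by simpa [lin_d] using k.2.2)
  have t1 : ∀ x ∈ T P 1, ∀ x' ∈ T P 1, x ≤ z ⊔ z' → x' ≤ z ⊔ z' → cnt S x = cnt S x' →
      ∃ g ∈ Stab K (z ⊔ z'), g • x = x' := fun x hx x' hx' k k' e => by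
    obtain ⟨g, hg, e⟩ := o3 1 2 2 (x, z ⊔ z', z ⊔ z') ⟨k, le_rfl, hx, hl, hl⟩ (x', z ⊔ z', z ⊔ z')
      ⟨k', le_rfl, hx', hl, hl⟩ e rfl rfl
    exact ⟨g, ⟨hg, (Prod.ext_iff.1 (Prod.ext_iff.1 e).2).1⟩, (Prod.ext_iff.1 e).1⟩
  have c1 := ll (o := ⊥) (t := z ⊔ z') (by rw [hl.2, finrank_bot]) (Z := Stab K (z ⊔ z')) (fun g _ => smul_bot'' g)
    (fx_Stab _ _) (A := ins S (z ⊔ z')) (fun e he => ⟨bot_le, he.2, by simpa [lin_d] using (hS.sub he.1).2⟩)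
    (b1 ▸ a1) (fun g hg a ha => ⟨hS.inv g hg.1 a ha.1, by rw [← hg.2]; exact (smul_le g).2 ha.2⟩)
    (fun x hx x' hx' => t1 x (hS.sub hx.1) x' (hS.sub hx'.1) hx.2 hx'.2
      ((lev_one hS.sub hx.1).trans (lev_one hS.sub hx'.1).symm))
    fun x hx x' hx' => t1 x (p1 hx.1) x' (p1 hx'.1) hx.1.2.1 hx'.1.2.1
      ((lev_zero hS.sub (p1 hx.1) fun k => hx.2 ⟨k, hx.1.2.1⟩).trans
        (lev_zero hS.sub (p1 hx'.1) fun k => hx'.2 ⟨k, hx'.1.2.1⟩).symm)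
  have p2 : ∀ {m}, (lin F V).Pt z' E m → m ∈ T P 2 := fun k => T.mono hE k.2.1 (by
    have := ((lin F V).pt_iff.1 k).2.2
    rwa [lin_rk, lin_rk, hz'.2] at this)
  have t2 : ∀ m m', (lin F V).Pt z' E m → (lin F V).Pt z' E m' → cnt S m = cnt S m' →
      ∃ g ∈ Stab (Stab K z') E, g • m = m' := fun m m' k k' e => by
    obtain ⟨g, hg, e⟩ := o3 1 2 3 (z', m, E) ⟨k.1, k.2.1, hz', p2 k, hE⟩ (z', m', E)
      ⟨k'.1, k'.2.1, hz', p2 k', hE⟩ rfl e rfl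
    exact ⟨g, ⟨⟨hg, (Prod.ext_iff.1 e).1⟩, (Prod.ext_iff.1 (Prod.ext_iff.1 e).2).2⟩,
      (Prod.ext_iff.1 (Prod.ext_iff.1 e).2).1⟩
  have c2 := ll (o := z') (t := E) (by rw [hE.2, hz'.2]) (Z := Stab (Stab K z') E) (fun g hg => hg.1.2)
    (fx_Stab _ _) (A := {l | (lin F V).Pt z' E l ∧ cnt S l = 0}) (fun e he => he.1) (Dvd.intro _ a3)
    (fun g hg a ha => ⟨ha.1.smul' hg.1.2 hg.2, (cnt_inv hS.inv hg.1.1 a).trans ha.2⟩)
    (fun m hm m' hm' => t2 m m' hm.1 hm'.1 (hm.2.trans hm'.2.symm))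
    fun m hm m' hm' => t2 m m' hm.1 hm'.1 (((hb m (p2 hm.1)).resolve_left fun k => hm.2 ⟨hm.1, k⟩).trans
      ((hb m' (p2 hm'.1)).resolve_left fun k => hm'.2 ⟨hm'.1, k⟩).symm)
  have := h.pol.ne_four
  have := h.pol.three_le
  rw [b1] at c1
  rcases c1 with c1 | rfl | c1
  · exact Or.inl c1
  · omega
  · exact Or.inr c1

theorem lev_false (h : Hyp P q K) (hS : Part K (T P 1) S) {b : ℕ} (hb : ∀ l ∈ T P 2, cnt S l = 0 ∨ cnt S l = b) :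
    False := by
  have h6 := h.six
  rcases lev_b h hS hb with rfl | rfl
  · obtain ⟨h₁, h₂, hI⟩ := intr1 h hS
    obtain ⟨x, hx⟩ := hS.ne
    obtain rfl : h₁ = 1 := by
      rw [← hI.h1 x hx]
      refine Set.ncard_eq_one.2 ⟨x, Set.eq_singleton_iff_unique_mem.2 ⟨⟨hx, (hS.sub hx).1.2⟩, fun y hy => ?_⟩⟩
      by_contra e
      have h1 := lev_two hx hy.1 (Ne.symm e)
      have h2 := hb _ (lev_ln (hS.sub hx) (hS.sub hy.1) hy.2 (Ne.symm e))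
      omega
    rcases h.pol.kind with k | k
    · exact ov_sp h.pol k.1 hI (by rw [finrank_bot]; omega)
    · rcases Nat.even_or_odd (finrank F V) with e | e
      · exact l1e h.pol k.1 h6 e h.le' hS.inv hI (orb3 h hS)
      · exact ov_odd h.pol e hI (by rw [finrank_bot]; omega)
  · have c : ∀ l ∈ T P 2, cnt S l + cnt (T P 1 \ S) l = Nat.card F + 1 := fun l hl => by
      rw [cnt_compl' hS.sub, cnt_T1 hl, cn_th2]
    obtain ⟨x, hx⟩ := hS.ne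
    obtain ⟨a, a0, ha⟩ := hyp0 (R := T P 1 \ S) h.pol h6 ⟨P.ts_bot, pt_bot P ▸ Set.sdiff_subset,
      ⟨x, pt_bot P ▸ hS.sub hx, fun k => k.2 hx⟩, fun E hE _ h2 => by
        have hE' : E ∈ T P 2 := ⟨hE, by rwa [finrank_bot] at h2⟩
        have h1 := c E hE'
        have h2 := hb E hE'
        exact Set.nonempty_of_ncard_ne_zero (show cnt (T P 1 \ S) E ≠ 0 by omega),
      fun Z hZ Z' hZ' hn hp Z'' hZ'' k => ⟨pt_bot P ▸ hZ'', fun e => by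
        have h1 := c _ (lev_ln hZ.1 hZ'.1 hp hn)
        have h2 := hb _ (lev_ln hZ.1 hZ'.1 hp hn)
        have h3 := lev_two hZ hZ' hn
        have h4 : cnt S (Z ⊔ Z') ≠ 0 := Set.ncard_ne_zero_of_mem (a := Z'') ⟨e, k⟩
        omega⟩⟩
    have hc := hS.compl ((inv_T P 1).mono h.le')
    rcases h.irr (sSup (T P 1 \ S)) fun g hg => Submodule.eq_of_le_of_finrank_eq
      (Submodule.map_le_iff_le_comap.2 (sSup_le fun Z hZ => Submodule.map_le_iff_le_comap.1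
        (le_sSup (hc.inv g hg Z hZ)))) (finrank_smul _ _) with e | e
    · obtain ⟨y, hy⟩ := hc.ne
      have := hy.1.2
      rw [eq_bot_iff.2 (e ▸ le_sSup hy : y ≤ ⊥), finrank_bot] at this
      exact zero_ne_one this
    · exact a0 (h.pol.nd a fun v => P.mem_perp_span_singleton.1
        ((e.ge.trans (sSup_le fun Z hZ => (ha Z hZ.1).1 hZ)) Submodule.mem_top))

theorem lev1 (h : Hyp P q K) : Tr K (T P 1) := by
  by_contra hn
  obtain ⟨S, hS⟩ := exists_part ((inv_T P 1).mono h.le') hn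
  rcases dich1 h hS with ⟨b, hb⟩ | ⟨b, hb⟩
  · exact lev_false h hS hb
  · exact lev_false h (hS.compl ((inv_T P 1).mono h.le')) hb

end CfsgLib.KP
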