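import Mathlib
import Cfsg.Agent.Lib.KP.Cnt
import Cfsg.Agent.Lib.KP.Wit

/-! KP: point-plane flags in rank three (plans/KP.md, package N7A). -/

set_option autoImplicit false
set_option linter.unusedSectionVars false

namespace CfsgLib.KP

open CfsgLib.CK CfsgLib.KL CfsgLib.Forms CfsgLib.RootMax CfsgLib.ClMax CfsgLib.Tech Module

variable {F : Type*} [Field F] [Finite F] {σ : F →+* F} {V : Type*} [AddCommGroup V] [Module F V] [Finite V]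
  {P : PQ σ V} {q : ℕ} {K : Subgroup (V ≃ₗ[F] V)} {C : Set (Submodule F V)}

variable {x l : Submodule F V}

theorem n7a_max (h : Pol P q) (h7 : finrank F V ≤ 7) {E U : Submodule F V} (hE : E ∈ T P 3) (hU : P.TS U) :
    P.perp E ⊓ U = E ⊓ U :=
  le_antisymm (le_inf (le_of_max h hE (by omega) (hU.mono inf_le_right) inf_le_left) inf_le_right)
    (inf_le_inf_right _ hE.1.2)

theorem n7a_sup (hx : x ∈ T P 1) (hl : l ∈ T P 2) (hxl : x ≤ l) {w : Submodule F V} (h1 : w ≤ l) (h2 : ¬ w ≤ x) :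
    x ⊔ w = l := by
  refine Submodule.eq_of_le_of_finrank_le (sup_le hxl h1) ?_
  have := Submodule.finrank_lt_finrank_of_lt (left_lt_sup.2 h2)
  rw [hx.2] at this
  rw [hl.2]
  omega

theorem n7a_pt {z : Submodule F V} (hz : finrank F z = 1) {U : Submodule F V} (h : ¬ z ≤ U) : z ⊓ U = ⊥ := by
  have := Submodule.finrank_lt_finrank_of_lt (inf_lt_left.2 h)
  exact Submodule.finrank_eq_zero.1 (by omega)

theorem n7a_ne {z : Submodule F V} (hz : finrank F z = 1) : z ≠ ⊥ := fun e => by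
  rw [e, finrank_bot] at hz
  omega

/-- the chain cut out on a plane -/
def n7ch (P : PQ σ V) (x l E : Submodule F V) : ℕ → Submodule F V
  | 0 => ⊥
  | 1 => x ⊓ E
  | 2 => l ⊓ E
  | 3 => P.perp l ⊓ E
  | 4 => P.perp x ⊓ E
  | _ + 5 => E

/-- a point-plane flag as a chain -/
def n7fl (z E : Submodule F V) : ℕ → Submodule F V
  | 0 => ⊥
  | 1 => z
  | _ + 2 => E

theorem n7a_two (hl : l ∈ T P 2) (hxl : x ≤ l) {z E : Submodule F V} (h : z ≤ E) :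
    PfP.Two 5 (n7fl z E) (n7ch P x l E) := by
  have m1 : Monotone (n7fl z E) := monotone_nat_of_le_succ fun
    | 0 => bot_le
    | 1 => h
    | _ + 2 => le_rfl
  have m2 : Monotone (n7ch P x l E) := monotone_nat_of_le_succ fun
    | 0 => bot_le
    | 1 => inf_le_inf_right _ hxl
    | 2 => inf_le_inf_right _ hl.1.2
    | 3 => inf_le_inf_right _ (P.perp_anti hxl)
    | 4 => inf_le_right
    | _ + 5 => le_rfl
  exact ⟨m1, m2, rfl, rfl, fun i => m1 (Nat.le_add_right i 2), fun j => m2 (Nat.le_add_right j 5)⟩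

theorem n7a_dim (h : P.Nondeg) {z z' E E' : Submodule F V} (h1 : z ≤ E) (h2 : z' ≤ E')
    (hd : finrank F z = finrank F z') (hs : same1 P (x, l, l) z z') :
    ∀ j, finrank F ↥(z ⊓ n7ch P x l E j) = finrank F ↥(z' ⊓ n7ch P x l E' j) := by
  have k : ∀ {z E : Submodule F V}, z ≤ E → ∀ U, z ⊓ (U ⊓ E) = z ⊓ U := fun h U => by
    rw [inf_comm U, ← inf_assoc, inf_eq_left.2 h]
  have pr : ∀ U : Submodule F V, finrank F ↥(P.perp z ⊓ U) = finrank F ↥(P.perp z' ⊓ U) →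
      finrank F ↥(z ⊓ P.perp U) = finrank F ↥(z' ⊓ P.perp U) := fun U e => by
    have a1 := finrank_pair h z U
    have a2 := finrank_pair h z' U
    rw [inf_comm U] at a1 a2
    omega
  exact fun
    | 0 => by rw [n7ch, n7ch, inf_bot_eq, inf_bot_eq]
    | 1 => by rw [n7ch, n7ch, k h1, k h2]; exact congrArg (·.1) hs.1
    | 2 => by rw [n7ch, n7ch, k h1, k h2]; exact congrArg (·.2.1) hs.1
    | 3 => by rw [n7ch, n7ch, k h1, k h2]; exact pr l (congrArg (·.2.1) hs.2)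
    | 4 => by rw [n7ch, n7ch, k h1, k h2]; exact pr x (congrArg (·.1) hs.2)
    | _ + 5 => by rw [n7ch, n7ch, inf_eq_left.2 h1, inf_eq_left.2 h2, hd]

theorem same13 (h : Pol P q) (h7 : finrank F V ≤ 7) (hx : x ∈ T P 1) (hl : l ∈ T P 2) (hxl : x ≤ l)
    {a a' : Submodule F V × Submodule F V} (ha : a ∈ T2 P 1 3) (ha' : a' ∈ T2 P 1 3)
    (h1 : same1 P (x, l, l) a.1 a'.1) (h2 : same1 P (x, l, l) a.2 a'.2) : sameI P (x, l, l) a a' := by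
  obtain ⟨z, E⟩ := a
  obtain ⟨z', E'⟩ := a'
  obtain ⟨a1, a2, a3⟩ := ha
  obtain ⟨b1, b2, b3⟩ := ha'
  simp only at a1 a2 a3 b1 b2 b3 h1 h2
  obtain ⟨α, -, c1, c2⟩ := PfP.conj_two _ (n7a_two hl hxl a1) (n7a_two hl hxl b1) rfl fun
    | 0, j => by rw [n7fl, n7fl, bot_inf_eq, bot_inf_eq]
    | 1, j => n7a_dim h.nd a1 b1 (a2.2.trans b2.2.symm) h1 j
    | _ + 2, j => n7a_dim h.nd le_rfl le_rfl (a3.2.trans b3.2.symm) h2 j
  have d0 : α • z = z' := c1 1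
  have d1 : α • (x ⊓ E) = x ⊓ E' := c2 1
  have d2 : α • (l ⊓ E) = l ⊓ E' := c2 2
  have d3 : α • (P.perp l ⊓ E) = P.perp l ⊓ E' := c2 3
  have d4 : α • (P.perp x ⊓ E) = P.perp x ⊓ E' := c2 4
  have d5 : α • E = E' := c2 5
  have res : ∀ {g : V ≃ₗ[F] V}, (∀ v ∈ E, g v = α v) → ∀ U ≤ E, g • U = α • U := fun c U hU =>
    Submodule.ext fun v => ⟨fun ⟨w, hw, e⟩ => ⟨w, hw, (c w (hU hw)).symm.trans e⟩,
      fun ⟨w, hw, e⟩ => ⟨w, hw, (c w (hU hw)).trans e⟩⟩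
  have fin : ∀ g ∈ P.isom, (∀ v ∈ E, g v = α v) → g • x = x → g • l = l → sameI P (x, l, l) (z, E) (z', E') :=
    fun g hg c e1 e2 => ⟨g, hg, Prod.ext e1 (Prod.ext e2 e2),
      Prod.ext ((res c z a1).trans d0) ((res c E le_rfl).trans d5)⟩
  by_cases k : l ⊓ E ≤ x ∨ x ≤ E
  · obtain ⟨g, hg, e1, e2⟩ := wg h.nd a3.1 b3.1 hl.1 hl.1 rfl α d5 d2 d3
    refine fin g hg e1 ?_ e2
    have f1 : g • x ∈ T P 1 := (smul_T hg).2 hx
    by_cases k1 : x ≤ E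
    · rw [inf_eq_left.2 k1, ← res e1 x k1] at d1
      exact T.eq_of_le f1 hx (d1.le.trans inf_le_left)
    have k2 : l ⊓ E = ⊥ :=
      eq_bot_iff.2 ((le_inf (k.resolve_right k1) inf_le_right).trans (n7a_pt hx.2 k1).le)
    rw [k2, smul_bot''] at d2
    by_contra hn
    have f2 : x ⊔ g • x = l := n7a_sup hx hl hxl (e2 ▸ (smul_le g).2 hxl) fun e => hn (T.eq_of_le f1 hx e)
    have f3 : P.perp x ⊓ E' ≤ P.perp l := by
      rw [← f2, P.perp_sup]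
      refine le_inf inf_le_left ?_
      rw [← d4, ← res e1 _ inf_le_right, smul_le_perp hg]
      exact inf_le_left
    have f4 := finrank_pair h.nd x E'
    have f5 := finrank_pair h.nd l E'
    have f6 := Submodule.finrank_mono (le_inf inf_le_right f3 : P.perp x ⊓ E' ≤ E' ⊓ P.perp l)
    rw [inf_comm l, n7a_max h h7 b3 hl.1, inf_comm E' l, ← d2, finrank_bot, hl.2, b3.2] at f5
    rw [inf_comm E', hx.2, b3.2] at f4
    omega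
  · rw [not_or] at k
    obtain ⟨g, hg, e1, e2⟩ := wg h.nd a3.1 b3.1 hx.1 hx.1 rfl α d5 d1 d4
    refine fin g hg e1 e2 (T.eq_of_le ((smul_T hg).2 hl) hl ?_)
    nth_rw 1 [← n7a_sup hx hl hxl inf_le_left k.1]
    rw [smul_sup', e2, res e1 _ inf_le_right, d2]
    exact sup_le hxl inf_le_left

theorem n7a_sz (h : P.Nondeg) {z z' : Submodule F V} (hz : z ∈ T P 1) (hz' : z' ∈ T P 1) (h0 : z ≤ x ↔ z' ≤ x)
    (h1 : z ≤ l ↔ z' ≤ l) (h2 : z ≤ P.perp l ↔ z' ≤ P.perp l) (h3 : z ≤ P.perp x ↔ z' ≤ P.perp x) :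
    same1 P (x, l, l) z z' := by
  have k : ∀ U, (z ≤ U ↔ z' ≤ U) → finrank F ↥(z ⊓ U) = finrank F ↥(z' ⊓ U) := fun U e => by
    by_cases c : z ≤ U
    · rw [inf_eq_left.2 c, inf_eq_left.2 (e.1 c), hz.2, hz'.2]
    · rw [n7a_pt hz.2 c, n7a_pt hz'.2 fun c' => c (e.2 c')]
  have k' : ∀ U, (z ≤ P.perp U ↔ z' ≤ P.perp U) → finrank F ↥(P.perp z ⊓ U) = finrank F ↥(P.perp z' ⊓ U) :=
    fun U e => by
      have a1 := finrank_pair h z U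
      have a2 := finrank_pair h z' U
      rw [inf_comm U] at a1 a2
      have := k _ e
      have := hz.2
      have := hz'.2
      omega
  exact ⟨Prod.ext (k x h0) (Prod.ext (k l h1) (k l h1)), Prod.ext (k' x h3) (Prod.ext (k' l h2) (k' l h2))⟩

theorem n7a_sE (h : Pol P q) (h7 : finrank F V ≤ 7) (hx : x ∈ T P 1) (hl : l ∈ T P 2) {E E' : Submodule F V}
    (hE : E ∈ T P 3) (hE' : E' ∈ T P 3) (h0 : l ≤ E ↔ l ≤ E') (h1 : x ≤ E ↔ x ≤ E')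
    (h2 : E ⊓ l ≠ ⊥ ↔ E' ⊓ l ≠ ⊥) : same1 P (x, l, l) E E' := by
  have k1 : finrank F ↥(E ⊓ x) = finrank F ↥(E' ⊓ x) := by
    by_cases c : x ≤ E
    · rw [inf_eq_right.2 c, inf_eq_right.2 (h1.1 c)]
    · rw [inf_comm, n7a_pt hx.2 c, inf_comm, n7a_pt hx.2 fun c' => c (h1.2 c')]
  have k2 : finrank F ↥(E ⊓ l) = finrank F ↥(E' ⊓ l) := by
    by_cases c : l ≤ E
    · rw [inf_eq_right.2 c, inf_eq_right.2 (h0.1 c)]
    have a1 := Submodule.finrank_lt_finrank_of_lt (inf_lt_right.2 c)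
    have a2 := Submodule.finrank_lt_finrank_of_lt (inf_lt_right.2 fun c' => c (h0.2 c'))
    rw [ne_eq, ne_eq, ← Submodule.finrank_eq_zero, ← Submodule.finrank_eq_zero] at h2
    rw [hl.2] at a1 a2
    omega
  refine ⟨Prod.ext k1 (Prod.ext k2 k2), ?_⟩
  simp only [dims]
  rw [n7a_max h h7 hE hx.1, n7a_max h h7 hE hl.1, n7a_max h h7 hE' hx.1, n7a_max h h7 hE' hl.1, k1, k2]

theorem n7a_facts (hx : x ∈ T P 1) (hl : l ∈ T P 2) (hxl : x ≤ l) {a : Submodule F V × Submodule F V}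
    (ha : a ∈ T2 P 1 3) : (a.1 ≤ x → a.1 ≤ l) ∧ (a.1 ≤ l → a.1 ≤ P.perp l) ∧ (a.1 ≤ P.perp l → a.1 ≤ P.perp x) ∧
      (l ≤ a.2 → x ≤ a.2) ∧ (x ≤ a.2 → a.2 ⊓ l ≠ ⊥) ∧ (l ≤ a.2 → a.1 ≤ P.perp l) ∧ (x ≤ a.2 → a.1 ≤ P.perp x) ∧
      (a.1 ≤ x → x ≤ a.2) ∧ (a.1 ≤ l → a.2 ⊓ l ≠ ⊥) ∧ (x ≤ a.2 → a.1 ≤ l → ¬ a.1 ≤ x → l ≤ a.2) ∧
      (a.2 ⊓ l ≠ ⊥ → ¬ x ≤ a.2 → a.1 ≤ P.perp x → a.1 ≤ P.perp l) := by
  obtain ⟨a1, a2, a3⟩ := ha
  refine ⟨fun e => e.trans hxl, fun e => e.trans hl.1.2, fun e => e.trans (P.perp_anti hxl), hxl.trans,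
    fun e c => n7a_ne hx.2 (eq_bot_iff.2 ((le_inf e hxl).trans c.le)), T.le_perp a3 a1, T.le_perp a3 a1,
    fun e => T.eq_of_le a2 hx e ▸ a1, fun e c => n7a_ne a2.2 (eq_bot_iff.2 ((le_inf a1 e).trans c.le)),
    fun e1 e2 e3 => n7a_sup hx hl hxl e2 e3 ▸ sup_le e1 a1, fun e1 e2 e3 => ?_⟩
  rw [← n7a_sup hx hl hxl (w := a.2 ⊓ l) inf_le_right fun c =>
    e1 (eq_bot_iff.2 ((le_inf c inf_le_left).trans (n7a_pt hx.2 e2).le)), P.perp_sup]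
  exact le_inf e3 (T.le_perp a3 a1 inf_le_left)

theorem inj13 (h : Pol P q) (h7 : finrank F V ≤ 7) (hx : x ∈ T P 1) (hl : l ∈ T P 2) (hxl : x ≤ l)
    {u : Submodule F V × Submodule F V → ℂ} (pos : ∀ a ∈ T2 P 1 3, ∀ a' ∈ T2 P 1 3,
      same1 P (x, l, l) a.1 a'.1 → same1 P (x, l, l) a.2 a'.2 → u a = u a')
    (r1 : ∀ z ∈ T P 1, sm {a | a ∈ T2 P 1 3 ∧ a.1 = z} u = 0)
    (r2 : ∀ m ∈ T P 2, sm {a | a ∈ T2 P 1 3 ∧ a.1 ≤ m ∧ m ≤ a.2} u = 0)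
    (r3 : ∀ E ∈ T P 3, sm {a | a ∈ T2 P 1 3 ∧ a.2 = E} u = 0)
    (h0 : sm {a | a ∈ T2 P 1 3 ∧ a.1 = x ∧ l ≤ a.2} u = 0) : ∀ a ∈ T2 P 1 3, u a = 0 := by
  have eq : ∀ a ∈ T2 P 1 3, ∀ b ∈ T2 P 1 3, ((b.1 ≤ x ↔ a.1 ≤ x) ∧ (b.1 ≤ l ↔ a.1 ≤ l) ∧
      (b.1 ≤ P.perp l ↔ a.1 ≤ P.perp l) ∧ (b.1 ≤ P.perp x ↔ a.1 ≤ P.perp x)) →
      ((l ≤ b.2 ↔ l ≤ a.2) ∧ (x ≤ b.2 ↔ x ≤ a.2) ∧ (b.2 ⊓ l ≠ ⊥ ↔ a.2 ⊓ l ≠ ⊥)) → u b = u a := fun a ha b hb c d =>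
    pos b hb a ha (n7a_sz h.nd hb.2.1 ha.2.1 c.1 c.2.1 c.2.2.1 c.2.2.2)
      (n7a_sE h h7 hx hl hb.2.2 ha.2.2 d.1 d.2.1 d.2.2)
  have A1 : ∀ a ∈ T2 P 1 3, l ≤ a.2 → a.1 ≤ x → u a = 0 := fun a ha e p =>
    sm_zero h0 ⟨ha, T.eq_of_le ha.2.1 hx p, e⟩ fun b ⟨hb, c1, c2⟩ => Or.inr (eq a ha b hb
      (by rw [c1, T.eq_of_le ha.2.1 hx p]; exact ⟨Iff.rfl, Iff.rfl, Iff.rfl, Iff.rfl⟩) (by
        obtain ⟨-, -, -, f1, f2, -⟩ := n7a_facts hx hl hxl ha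
        obtain ⟨-, -, -, g1, g2, -⟩ := n7a_facts hx hl hxl hb
        exact ⟨iff_of_true c2 e, iff_of_true (g1 c2) (f1 e), iff_of_true (g2 (g1 c2)) (f2 (f1 e))⟩))
  have A2 : ∀ a ∈ T2 P 1 3, l ≤ a.2 → a.1 ≤ l → u a = 0 := fun a ha e p => by
    by_cases p0 : a.1 ≤ x
    · exact A1 a ha e p0
    refine sm_zero (r2 l hl) ⟨ha, p, e⟩ fun b ⟨hb, c1, c2⟩ => ?_
    by_cases q0 : b.1 ≤ x
    · exact Or.inl (A1 b hb c2 q0)
    obtain ⟨-, f1, f2, f3, f4, -⟩ := n7a_facts hx hl hxl ha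
    obtain ⟨-, g1, g2, g3, g4, -⟩ := n7a_facts hx hl hxl hb
    exact Or.inr (eq a ha b hb ⟨iff_of_false q0 p0, iff_of_true c1 p, iff_of_true (g1 c1) (f1 p),
      iff_of_true (g2 (g1 c1)) (f2 (f1 p))⟩
      ⟨iff_of_true c2 e, iff_of_true (g3 c2) (f3 e), iff_of_true (g4 (g3 c2)) (f4 (f3 e))⟩)
  have A3 : ∀ a ∈ T2 P 1 3, l ≤ a.2 → u a = 0 := fun a ha e => by
    by_cases p : a.1 ≤ l
    · exact A2 a ha e p
    refine sm_zero (r3 a.2 ha.2.2) ⟨ha, rfl⟩ fun b ⟨hb, c⟩ => ?_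
    have e' : l ≤ b.2 := c ▸ e
    by_cases p' : b.1 ≤ l
    · exact Or.inl (A2 b hb e' p')
    obtain ⟨f1, -, f2, -, -, f3, -⟩ := n7a_facts hx hl hxl ha
    obtain ⟨g1, -, g2, -, -, g3, -⟩ := n7a_facts hx hl hxl hb
    exact Or.inr (eq a ha b hb ⟨iff_of_false (mt g1 p') (mt f1 p), iff_of_false p' p, iff_of_true (g3 e') (f3 e),
      iff_of_true (g2 (g3 e')) (f2 (f3 e))⟩ (by rw [c]; exact ⟨Iff.rfl, Iff.rfl, Iff.rfl⟩))
  have B1 : ∀ a ∈ T2 P 1 3, a.1 ≤ l → u a = 0 := fun a ha p => by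
    by_cases e : l ≤ a.2
    · exact A3 a ha e
    refine sm_zero (r1 a.1 ha.2.1) ⟨ha, rfl⟩ fun b ⟨hb, c⟩ => ?_
    by_cases e' : l ≤ b.2
    · exact Or.inl (A3 b hb e')
    obtain ⟨-, -, -, -, -, -, -, f1, f2, f3, -⟩ := n7a_facts hx hl hxl ha
    obtain ⟨-, -, -, -, -, -, -, g1, g2, g3, -⟩ := n7a_facts hx hl hxl hb
    rw [c] at g1 g2 g3
    exact Or.inr (eq a ha b hb (by rw [c]; exact ⟨Iff.rfl, Iff.rfl, Iff.rfl, Iff.rfl⟩)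
      ⟨iff_of_false e' e, ⟨fun k => f1 (by_contra fun n => e' (g3 k p n)),
        fun k => g1 (by_contra fun n => e (f3 k p n))⟩, iff_of_true (g2 p) (f2 p)⟩)
  have one : ∀ E : Submodule F V, ¬ l ≤ E → E ⊓ l ≠ ⊥ → E ⊓ l ∈ T P 1 := fun E e1 e2 => by
    have a1 := Submodule.finrank_lt_finrank_of_lt (inf_lt_right.2 e1)
    rw [ne_eq, ← Submodule.finrank_eq_zero] at e2
    rw [hl.2] at a1
    exact T.mono hl inf_le_right (by omega)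
  have B2 : ∀ a ∈ T2 P 1 3, a.2 ⊓ l ≠ ⊥ → a.1 ≤ P.perp l → u a = 0 := fun a ha e2 p2 => by
    by_cases e : l ≤ a.2
    · exact A3 a ha e
    by_cases p : a.1 ≤ l
    · exact B1 a ha p
    have w := one a.2 e e2
    have hm := T.sup_pt w (pt_bot P ▸ ha.2.1) bot_le (T.le_perp ha.2.2 ha.1 inf_le_left)
      fun c => p (c.trans inf_le_right)
    refine sm_zero (r2 _ hm) ⟨ha, le_sup_right, sup_le inf_le_left ha.1⟩ fun b ⟨hb, c1, c2⟩ => ?_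
    by_cases e' : l ≤ b.2
    · exact Or.inl (A3 b hb e')
    by_cases p' : b.1 ≤ l
    · exact Or.inl (B1 b hb p')
    have p2' : b.1 ≤ P.perp l := c1.trans (sup_le (inf_le_right.trans hl.1.2) p2)
    have c3 : a.2 ⊓ l ≤ b.2 ⊓ l := le_inf (le_sup_left.trans c2) inf_le_right
    have e2' : b.2 ⊓ l ≠ ⊥ := fun c => e2 (eq_bot_iff.2 (c3.trans c.le))
    have c4 := T.eq_of_le w (one b.2 e' e2') c3
    obtain ⟨f1, -, f2, -⟩ := n7a_facts hx hl hxl ha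
    obtain ⟨g1, -, g2, -⟩ := n7a_facts hx hl hxl hb
    exact Or.inr (eq a ha b hb ⟨iff_of_false (mt g1 p') (mt f1 p), iff_of_false p' p, iff_of_true p2' p2,
      iff_of_true (g2 p2') (f2 p2)⟩ ⟨iff_of_false e' e, ⟨fun k => ((le_inf k hxl).trans c4.ge).trans inf_le_left,
        fun k => ((le_inf k hxl).trans c3).trans inf_le_left⟩, iff_of_true e2' e2⟩)
  have B3 : ∀ a ∈ T2 P 1 3, a.2 ⊓ l ≠ ⊥ → u a = 0 := fun a ha e2 => by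
    by_cases p : a.1 ≤ P.perp l
    · exact B2 a ha e2 p
    refine sm_zero (r3 a.2 ha.2.2) ⟨ha, rfl⟩ fun b ⟨hb, c⟩ => ?_
    by_cases p' : b.1 ≤ P.perp l
    · exact Or.inl (B2 b hb (c ▸ e2) p')
    obtain ⟨f1, f2, -, -, -, -, f3, -, -, -, f4⟩ := n7a_facts hx hl hxl ha
    obtain ⟨g1, g2, -, -, -, -, g3, -, -, -, g4⟩ := n7a_facts hx hl hxl hb
    rw [c] at g3 g4
    exact Or.inr (eq a ha b hb ⟨iff_of_false (mt g1 (mt g2 p')) (mt f1 (mt f2 p)), iff_of_false (mt g2 p') (mt f2 p),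
      iff_of_false p' p, ⟨fun k => f3 (by_contra fun n => p' (g4 e2 n k)),
        fun k => g3 (by_contra fun n => p (f4 e2 n k))⟩⟩ (by rw [c]; exact ⟨Iff.rfl, Iff.rfl, Iff.rfl⟩))
  intro a ha
  by_cases e : a.2 ⊓ l ≠ ⊥
  · exact B3 a ha e
  refine sm_zero (r1 a.1 ha.2.1) ⟨ha, rfl⟩ fun b ⟨hb, c⟩ => ?_
  by_cases e' : b.2 ⊓ l ≠ ⊥
  · exact Or.inl (B3 b hb e')
  obtain ⟨-, -, -, f1, f2, -⟩ := n7a_facts hx hl hxl ha
  obtain ⟨-, -, -, g1, g2, -⟩ := n7a_facts hx hl hxl hb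
  exact Or.inr (eq a ha b hb (by rw [c]; exact ⟨Iff.rfl, Iff.rfl, Iff.rfl, Iff.rfl⟩)
    ⟨iff_of_false (mt g1 (mt g2 e')) (mt f1 (mt f2 e)), iff_of_false (mt g2 e') (mt f2 e), iff_of_false e' e⟩)

end CfsgLib.KP
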