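import Mathlib
import Cfsg.Agent.Lib.KP.N7a
import Cfsg.Agent.Lib.KP.Pl
import Cfsg.Agent.Lib.KP.Inj
import Cfsg.Agent.Lib.KP.Intr
import Cfsg.Agent.Lib.KP.Syl

/-! KP: the exceptional case of dimension seven (plans/KP.md, package N7B). -/

set_option autoImplicit false
set_option linter.unusedSectionVars false

namespace CfsgLib.KP

open CfsgLib.CK CfsgLib.KL CfsgLib.Forms CfsgLib.RootMax CfsgLib.ClMax CfsgLib.Tech Module

variable {F : Type*} [Field F] [Finite F] {σ : F →+* F} {V : Type*} [AddCommGroup V] [Module F V] [Finite V]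
  {P : PQ σ V} {q : ℕ} {K : Subgroup (V ≃ₗ[F] V)} {C : Set (Submodule F V)}

variable {x : Submodule F V}

variable (P) in
/-- the point-plane flags over a point-line flag -/
def n7Q (x l : Submodule F V) : Set (Submodule F V × Submodule F V) := {a | a ∈ T2 P 1 3 ∧ a.1 = x ∧ l ≤ a.2}

theorem n7_aff (h : Hyp P q K) (h7 : finrank F V ≤ 7) (t1 : Tr K (T P 1)) (t2 : Tr K (T P 2)) (t3 : Tr K (T P 3))
    {O : Set (Submodule F V × Submodule F V)} (hO : Part K (T2 P 1 3) O) (hh : Submodule F V × Submodule F V → ℂ)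
    (hi : ∀ g ∈ K, ∀ y ∈ T2 P 1 2, hh (g • y) = hh y) :
    ∃ c₀ c₁ : ℂ, ∀ y ∈ T2 P 1 2, hh y = c₀ + c₁ * (O ∩ n7Q P y.1 y.2).ncard := by
  refine ((h.gs.two 1 3 1 2 2).q1 hO (Q := fun y => n7Q P y.1 y.2.1) (fun _ _ _ k => k.1)
    (fun g hg y a => and_congr (smul_T2 hg) (and_congr (MulAction.injective g).eq_iff (smul_le g))) ?_
    (fun y => hh (y.1, y.2.1)) fun g hg y hy => hi g hg (y.1, y.2.1) ⟨hy.1, hy.2.2.1, hy.2.2.2.1⟩).imp
    fun c₀ => .imp fun c₁ e y hy => e (y.1, y.2, y.2) ⟨hy.1, le_rfl, hy.2.1, hy.2.2, hy.2.2⟩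
  rintro ⟨x, l, l'⟩ ⟨xl, h2, hx, hl, hl'⟩ u hu h0
  dsimp only at xl h2 hx hl hl' h0
  obtain rfl := T.eq_of_le hl hl' h2
  have i : ∀ g ∈ K, ∀ a ∈ T2 P 1 3, ind O (g • a) = ind O a := fun g hg a _ => ind_smul hO.inv hg a
  refine inj13 h.pol h7 hx hl xl (fun a ha a' ha' s s' => hu.pos a ha a' ha' (same13 h.pol h7 hx hl xl ha ha' s s'))
    (hu.tr h.le' i (Q := fun z => {a | a ∈ T2 P 1 3 ∧ a.1 = z}) (fun g hg y a => ?_) (inv_T P 1) t1
      fun _ _ _ k => k.1)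
    (hu.tr h.le' i (Q := fun m => {a | a ∈ T2 P 1 3 ∧ a.1 ≤ m ∧ m ≤ a.2}) (fun g hg y a => ?_) (inv_T P 2) t2
      fun _ _ _ k => k.1)
    (hu.tr h.le' i (Q := fun E => {a | a ∈ T2 P 1 3 ∧ a.2 = E}) (fun g hg y a => ?_) (inv_T P 3) t3
      fun _ _ _ k => k.1) h0
  · exact and_congr (smul_T2 hg) (MulAction.injective g).eq_iff
  · exact and_congr (smul_T2 hg) (and_congr (smul_le g) (smul_le g))
  · exact and_congr (smul_T2 hg) (MulAction.injective g).eq_iff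

theorem n7_cnt (h : Pol P q) (h7 : finrank F V ≤ 7) {O : Set (Submodule F V × Submodule F V)} (hO : O ⊆ T2 P 1 3)
    (hx : x ∈ T P 1) {l : Submodule F V} (hl : l ∈ Pt P x) :
    sm (ins (Pt P x) (P.perp l)) (fun m => ((O ∩ n7Q P x m).ncard : ℂ)) =
      (O ∩ {a | a.1 = x}).ncard + Nat.card F * (O ∩ n7Q P x l).ncard := by
  have e : ∀ m, O ∩ n7Q P x m = {a | a ∈ O ∩ {a | a.1 = x} ∧ m ≤ a.2} := fun m =>
    Set.ext fun a => ⟨fun k => ⟨⟨k.1, k.2.2.1⟩, k.2.2.2⟩, fun k => ⟨k.1.1, hO k.1.1, k.1.2, k.2⟩⟩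
  have e1 := sm_comm (ins (Pt P x) (P.perp l)) (O ∩ {a | a.1 = x}) (fun m a => m ≤ a.2) fun _ => 1
  have e2 : ∀ a ∈ O ∩ {a | a.1 = x}, ({m | m ∈ ins (Pt P x) (P.perp l) ∧ m ≤ a.2}.ncard : ℂ) * 1 =
      1 + Nat.card F * ind {a | l ≤ a.2} a := fun a ha => by
    have hE := (hO ha.1).2.2
    have xE : x ≤ a.2 := ha.2.ge.trans (hO ha.1).1
    have e3 := cnt_ts (hE.1.mono (inf_le_left : a.2 ⊓ P.perp l ≤ _)) (le_inf xE (P.le_perp_comm.1 (cn_le hl)))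
    rw [cnt_eq, show ins (Pt P x) (a.2 ⊓ P.perp l) = {m | m ∈ ins (Pt P x) (P.perp l) ∧ m ≤ a.2} from Set.ext fun m =>
      ⟨fun k => ⟨⟨k.1, k.2.trans inf_le_right⟩, k.2.trans inf_le_left⟩, fun k => ⟨k.1.1, le_inf k.2 k.1.2⟩⟩, hx.2] at e3
    rw [e3, mul_one]
    by_cases k : l ≤ a.2
    · rw [ind_mem (x := a) (by exact k), inf_eq_left.2 (T.le_perp hE le_rfl k), hE.2, cn_th2]
      push_cast
      ring
    · have := finrank_inf_perp hl (T.le_perp hE le_rfl xE) fun e =>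
        k (le_of_max h hE (by omega) hl.1 (P.le_perp_comm.1 e))
      rw [hE.2] at this
      rw [ind_not (x := a) (by exact k), show finrank F ↥(a.2 ⊓ P.perp l) - 1 = 1 by omega, cn_th1]
      simp
  rw [sm_congr e2, in_add, in_mul, sm_ind, sm_const fun _ _ => rfl, mul_one] at e1
  rw [e l, show {a | a ∈ O ∩ {a | a.1 = x} ∧ l ≤ a.2} = {a | l ≤ a.2} ∩ (O ∩ {a | a.1 = x}) from
    Set.inter_comm _ _, ← e1]
  exact sm_congr fun m _ => by rw [e m, sm_const fun _ _ => rfl, mul_one]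

theorem n7a (h : Hyp P q K) (h7 : finrank F V ≤ 7) (t1 : Tr K (T P 1)) (t2 : Tr K (T P 2)) (t3 : Tr K (T P 3))
    (n13 : ¬ Tr K (T2 P 1 3)) (n12 : ¬ Tr K (T2 P 1 2)) (hx : x ∈ T P 1) :
    ∃ R h₂, Intr P x R (h₂ + Nat.card F) h₂ ∧ Tr (Stab K x) R ∧ Inv (Stab K x) R := by
  obtain ⟨O, hO⟩ := exists_part ((inv_T2 P 1 3).mono h.le') n13
  obtain ⟨O', hO'⟩ := exists_part ((inv_T2 P 1 2).mono h.le') n12
  have aff := n7_aff h h7 t1 t2 t3 hO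
  have t0 := tr_of_aff hO' aff
  obtain ⟨α, β, e⟩ := aff_of_two hO'.sub t0 (tr_of_aff (hO'.compl ((inv_T2 P 1 2).mono h.le')) aff)
    (hh := fun y => (O ∩ n7Q P y.1 y.2).ncard) fun g hg y _ => congrArg _
      (EqI.cnt_inv (I := P.isom) (Q := fun y : Submodule F V × Submodule F V => n7Q P y.1 y.2) (fun g hg y a =>
        and_congr (smul_T2 hg) (and_congr (MulAction.injective g).eq_iff (smul_le g))) hO.inv (h.le' hg) hg y)
  have β0 : β ≠ 0 := by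
    rintro rfl
    obtain ⟨c₀, c₁, e'⟩ := aff (ind O') fun g hg y _ => ind_smul hO'.inv hg y
    obtain ⟨y, hy⟩ := hO'.ne
    obtain ⟨y', hy', n⟩ := hO'.ne'
    have e1 := e' y (hO'.sub hy)
    have e2 := e' y' hy'
    rw [e y (hO'.sub hy), ind_mem hy] at e1
    rw [e y' hy', ind_not n] at e2
    exact one_ne_zero (by linear_combination e1 - e2 : (1 : ℂ) = 0)
  have pt : ∀ {l}, l ∈ Pt P x ↔ (x, l) ∈ T2 P 1 2 := fun {l} =>
    ⟨fun k => ⟨k.2.1, hx, cn_T hx k⟩, fun k => ⟨k.2.2.1, k.1, by rw [hx.2]; exact k.2.2.2⟩⟩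
  have mv : ∀ y ∈ T2 P 1 2, ∃ l ∈ Pt P x, ((x, l) ∈ O' ↔ y ∈ O') := fun y hy => by
    obtain ⟨g, hg, e⟩ := t1 _ hy.2.1 x hx
    have e' : (x, g • y.2) = g • y := Prod.ext e.symm rfl
    exact ⟨g • y.2, pt.2 (e' ▸ (smul_T2 (h.le' hg)).2 hy), e' ▸ inv_iff hO'.inv hg⟩
  have sub : {l | (x, l) ∈ O'} ⊆ Pt P x := fun l k => pt.2 (hO'.sub k)
  have key : ∀ l ∈ Pt P x, β * cnt {l | (x, l) ∈ O'} (P.perp l) = (O ∩ {a | a.1 = x}).ncard -
      α * kk (Nat.card F) q (finrank F V - 2 * 1) + Nat.card F * (α + β * ind O' (x, l)) := fun l hl => by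
    have e1 := n7_cnt h.pol h7 hO.sub hx hl
    rw [sm_congr (v := fun m => α + β * ind {l | (x, l) ∈ O'} m) fun m hm => e (x, m) (pt.1 hm.1), in_add, in_mul, sm_ind,
      sm_const fun _ _ => rfl, inter_ins sub, ← cnt_eq, ← cnt_eq, cnt_perp_pt h.pol hx hl, e (x, l) (pt.1 hl)] at e1
    linear_combination e1
  obtain ⟨y, hy⟩ := hO'.ne
  obtain ⟨y', hy', n⟩ := hO'.ne'
  obtain ⟨l, -, e1⟩ := mv y (hO'.sub hy)
  obtain ⟨l', hl', e2⟩ := mv y' hy'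
  have k0 := key l' hl'
  rw [ind_not (e2.not.2 n)] at k0
  refine ⟨{l | (x, l) ∈ O'}, cnt {l | (x, l) ∈ O'} (P.perp l'), ⟨hx.1, sub, ⟨l, e1.2 hy⟩, ⟨l', hl', e2.not.2 n⟩,
    fun Z hZ => ?_, fun Z hZ nZ => ?_⟩, fun a ha b hb => ?_, fun g hg a ha => ?_⟩
  · have k1 := key Z (sub hZ)
    rw [ind_mem (O := O') hZ] at k1
    exact_mod_cast mul_left_cancel₀ β0 (by linear_combination k1 - k0 :
      β * (cnt {l | (x, l) ∈ O'} (P.perp Z) : ℂ) = β * (cnt {l | (x, l) ∈ O'} (P.perp l') + Nat.card F))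
  · have k1 := key Z hZ
    rw [ind_not (O := O') nZ] at k1
    exact_mod_cast mul_left_cancel₀ β0 (k1.trans k0.symm)
  · obtain ⟨g, hg, e⟩ := t0 _ ha _ hb
    exact ⟨g, mem_Stab.2 ⟨hg, congrArg (·.1) e⟩, congrArg (·.2) e⟩
  · have := hO'.inv g hg.1 _ ha
    rwa [Prod.smul_mk, (mem_Stab.1 hg).2] at this

theorem n7_dvd {G X : Type*} [Group G] [MulAction G X] {H : Subgroup G} {A : Set X} (t : Tr H A) (i : Inv H A)
    (h : A.Nonempty) : A.ncard ∣ Nat.card H := h.elim fun _ ha => t.card_eq i ha ▸ dvd_mul_left _ _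

theorem n7_thru {a : ℕ} (hK : K ≤ P.isom) (hx : x ∈ T P 1) (t : Tr K (T2 P 1 a)) (h : (thru (T P a) x).Nonempty) :
    (thru (T P a) x).ncard ∣ Nat.card (Stab K x) := by
  refine n7_dvd (fun l hl l' hl' => ?_) (fun g hg l hl => ?_) h
  · obtain ⟨g, hg, e⟩ := t (x, l) ⟨hl.2, hx, hl.1⟩ (x, l') ⟨hl'.2, hx, hl'.1⟩
    exact ⟨g, mem_Stab.2 ⟨hg, congrArg (·.1) e⟩, congrArg (·.2) e⟩
  · exact ⟨(smul_T (hK hg.1)).2 hl.1, (mem_Stab.1 hg).2 ▸ (smul_le g).2 hl.2⟩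

theorem n7 (h : Hyp P q K) (k : P.IsHerm) (h7 : finrank F V = 7) (t1 : Tr K (T P 1)) (t2 : Tr K (T P 2))
    (hx : x ∈ T P 1) {r : ℕ} (hr : Od r (-q) 4) : r ∣ Nat.card (Stab K x) := by
  have hq := h.pol.card_herm k
  have q3 := h.pol.three
  have q0 : 0 < q := by omega
  have ex : ∀ a, 1 ≤ a → a ≤ 3 → (thru (T P a) x).Nonempty := fun a a1 a3 =>
    exists_ext h.pol hx a1 (by omega)
  by_cases n12 : Tr K (T2 P 1 2)
  · refine Nat.dvd_trans ?_ (n7_thru h.le' hx n12 (ex 2 (by omega) (by omega)))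
    rw [← pt_eq_thru hx.2, ncard_Pt h.pol hx, h7, hq]
    exact (hr.dvd_np q0 (by omega) 4).2 (.inr dvd_rfl)
  have t3 : Tr K (T P 3) := by
    by_contra n3
    refine n12 fun y hy y' hy' => ?_
    obtain ⟨g, hg, e⟩ := t2 _ hy.2.2 _ hy'.2.2
    obtain ⟨g', hg', e'⟩ := pl h t1 h7.le n3 hy'.2.2 (g • y.1) ⟨(smul_T (h.le' hg)).2 hy.2.1, e ▸ (smul_le g).2 hy.1⟩
      y'.1 ⟨hy'.2.1, hy'.1⟩
    refine ⟨g' * g, mul_mem hg'.1 hg, Prod.ext (by rw [mul_smul]; exact e') ?_⟩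
    rw [mul_smul, Prod.smul_snd, Prod.smul_snd, e, (mem_Stab.1 hg').2]
  by_cases n13 : Tr K (T2 P 1 3)
  swap
  · obtain ⟨R, h₂, hR, t, i⟩ := n7a h h7.le t1 t2 t3 n13 n12 hx
    refine Nat.dvd_trans ?_ (n7_dvd t i hR.ne)
    rcases intr (d := 5) h.pol hR (by rw [h7, hx.2]) (by omega) with ⟨-, e⟩ | ⟨e, -⟩
    · rw [show 5 / 2 - 1 = 1 from rfl, show 5 / 2 = 2 from rfl, cn_th1, cn_th2, mul_one, hq] at e
      exact e ▸ hr.dvd_add.mul_left _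
    · have := h.pol.three_le
      omega
  suffices r ∣ Nat.card K by
    rw [t1.card_eq ((inv_T P 1).mono h.le') hx, ncard_T1 h.pol, h7, hq] at this
    exact (hr.1.dvd_mul.1 this).resolve_right fun e => by simpa using (hr.dvd_np q0 (by omega) 6).1 e
  obtain ⟨u, hu⟩ := prime_any q3 (le_refl 3)
  have u1 : u ∣ Nat.card (Stab K x) := by
    refine Nat.dvd_trans ?_ (n7_thru h.le' hx n13 (ex 3 (by omega) le_rfl))
    have e := ncard_two h.pol hx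
    rw [h7, hq] at e
    exact (hu.1.dvd_mul.1 (e ▸ ((hu.dvd_np q0 le_rfl 2).2 (.inl dvd_rfl)).mul_left _)).resolve_right
      (hu.not_dvd_add (by decide))
  have := Fact.mk hu.1
  obtain ⟨R, hR⟩ := exists_isSylowIn u (Stab K x)
  have R0 : R ≠ ⊥ := fun e => hR.not_dvd (by rwa [e, Subgroup.relIndex_bot_left])
  have le : R ≤ P.isom := hR.le.trans ((Stab_le _ _).trans h.le')
  have nd := fix_nd h.pol.nd hu.1 (fun e => hu.not_dvd (by omega) (hu.1.dvd_of_dvd_pow (hq ▸ e))) hR.pgroup le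
  have h2 := dim_lin hu.1 hR.pgroup (W := P.perp (fixV R))
    (fun g hg => by rw [smul_perp (le hg), fx_fixV (Subgroup.le_normalizer hg)]) nd.symm
  rw [hq, hu.modEq_sq q0] at h2
  have xR := le_fixV hu.1 (hq ▸ hu.not_dvd_sub q0 le_rfl) hR.pgroup hx.2 ((fx_Stab _ _).mono hR.le)
  obtain ⟨v, v1, v0, e⟩ := T.exists_vec hx
  have h4 := two_le_of_sing nd (xR (e ▸ Submodule.mem_span_singleton_self v)) v1 v0
  have h5 := P.finrank_perp h.pol.nd (fixV R)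
  have h6 : finrank F (P.perp (fixV R)) ≠ 0 := fun e => R0 (eq_bot_iff.2 fun g hg => LinearEquiv.ext fun v =>
    (Submodule.eq_top_of_finrank_eq (S := fixV R) (by omega)).ge Submodule.mem_top g hg)
  refine Nat.dvd_trans ?_ ((n7_dvd (syl h.le' t1 hu.1 hx hR) (fun t ht b hb => ⟨(smul_T (h.le' ht.1)).2 hb.1, ?_⟩)
    ⟨x, hx, xR⟩).trans (Subgroup.card_dvd_of_le inf_le_left))
  · rw [← cnt_eq, cnt_nd h.pol nd, show finrank F (fixV R) = 3 + 1 by omega, hq]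
    exact (hr.dvd_np q0 (by omega) 3).2 (.inl dvd_rfl)
  · rw [← fx_fixV ht.2, smul_le]
    exact hb.2

end CfsgLib.KP
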