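import Mathlib
import Cfsg.Agent.Lib.KP.Hyp
import Cfsg.Agent.Lib.KP.Intr

/-! KP: pencils, no void plane (plans/KP.md, package PA). -/

set_option autoImplicit false
set_option linter.unusedSectionVars false

namespace CfsgLib.KP

open CfsgLib.CK CfsgLib.KL CfsgLib.Forms CfsgLib.RootMax CfsgLib.ClMax CfsgLib.Tech Module

variable {F : Type*} [Field F] [Finite F] {σ : F →+* F} {V : Type*} [AddCommGroup V] [Module F V] [Finite V]
  {P : PQ σ V} {q : ℕ} {K : Subgroup (V ≃ₗ[F] V)} {C : Set (Submodule F V)}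

namespace Pa

variable {x z l E : Submodule F V} {h₁ h₂ : ℕ}

variable (P C) in
/-- all lines of `E` through `x` lie in `C` -/
def Full (x E : Submodule F V) : Prop := ∀ m ∈ T P 2, x ≤ m → m ≤ E → m ∈ C

theorem join (hE : E ∈ T P 3) (hx : finrank F x = 1) (hz : finrank F z ≤ 1) (h1 : x ≤ E) (h2 : z ≤ E) :
    ∃ l ∈ T P 2, x ≤ l ∧ z ≤ l ∧ l ≤ E := by
  obtain ⟨l, hl, k1, k2⟩ := exists_mid (j := 2) hE (sup_le h1 h2)
    ((Submodule.finrank_add_le_finrank_add_finrank x z).trans (by omega)) (by omega)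
  exact ⟨l, hl, le_sup_left.trans k1, le_sup_right.trans k1, k2⟩

theorem full_cnt (hC : C ⊆ T P 2) (hE : E ∈ T P 3) (hx : x ∈ T P 1) (h1 : x ≤ E) (k : Full P C x E) :
    cnt (thru C x) E = Nat.card F + 1 := by
  rw [← cn_th2, show 2 = 2 + 1 - finrank F x by rw [hx.2], ← cnt_hy hE h1]
  exact congrArg Set.ncard (Set.ext fun m => ⟨fun j => ⟨⟨hC j.1.1, j.1.2⟩, j.2⟩, fun j => ⟨⟨k m j.1.1 j.1.2 j.2, j.1.2⟩, j.2⟩⟩)

theorem cen_cnt (hC : C ⊆ T P 2) (hE : E ∈ T P 3) (hx : x ∈ T P 1) (h1 : x ≤ E) (k : Cen C E z) (ne : x ≠ z) :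
    cnt (thru C x) E = 1 := by
  have l2 : x ⊔ z ∈ T P 2 := Pt.sup (k := 0) (T.mono hx bot_le (by simp)) (pt_bot P ▸ hx) (pt_bot P ▸ T.mono hE k.2.1 k.1)
    (T.le_perp hE k.2.1 h1) ne
  refine Set.ncard_eq_one.2 ⟨x ⊔ z, Set.eq_singleton_iff_unique_mem.2
    ⟨⟨⟨(k.2.2 _ l2.2 (sup_le h1 k.2.1)).2 le_sup_right, le_sup_left⟩, sup_le h1 k.2.1⟩, fun m hm => ?_⟩⟩
  exact (T.eq_of_le l2 (hC hm.1.1) (sup_le hm.1.2 ((k.2.2 m (hC hm.1.1).2 hm.2).1 hm.1.1))).symm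

theorem cen_full (hC : C ⊆ T P 2) (hE : E ∈ T P 3) (hx : x ∈ T P 1) (h1 : x ≤ E) (k : Cen C E z) :
    Full P C x E ↔ x = z :=
  ⟨fun j => by_contra fun ne => by
    have := (full_cnt hC hE hx h1 j).symm.trans (cen_cnt hC hE hx h1 k ne)
    have := Nat.card_pos (α := F)
    omega, fun e m hm xm mE => (k.2.2 m hm.2 mE).2 (e ▸ xm)⟩

theorem eta_out (h : Pol P q) (hC : C ⊆ T P 2) (hs : ∀ E ∈ T P 3, Pure C E ∨ ∃ z, Cen C E z) (hx : x ∈ T P 1)
    (hl : l ∈ T P 2) (lC : l ∉ C) (xl : x ≤ l) : eta P C x l = np (Nat.card F) q (finrank F V - 4) := by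
  have := eta_sum hC hx hl xl
  rw [sm_const (c := 1) fun E hE => ?_, ind_not lC, ncard_Pt h hl] at this
  · rw [zero_add, mul_one] at this
    exact_mod_cast this
  rcases hs E (cn_T hl hE) with k | ⟨z, k⟩
  · exact absurd (k l hl.2 hE.2.1) lC
  · rw [cen_cnt hC (cn_T hl hE) hx (xl.trans hE.2.1) k fun e => lC ((k.2.2 l hl.2 hE.2.1).2 (e ▸ xl)), ind_not lC]
    simp

theorem eta_in (hC : C ⊆ T P 2) (hs : ∀ E ∈ T P 3, Pure C E ∨ ∃ z, Cen C E z) (hx : x ∈ T P 1)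
    (lC : l ∈ C) (xl : x ≤ l) : eta P C x l = 1 + Nat.card F * {E | E ∈ Pt P l ∧ Full P C x E}.ncard := by
  have hl := hC lC
  have := eta_sum hC hx hl xl
  rw [sm_congr (v := fun E => Nat.card F * ind {E | Full P C x E} E) fun E hE => ?_, ind_mem lC, in_mul, sm_ind,
    Set.inter_comm] at this
  · exact_mod_cast this
  by_cases k : Full P C x E
  · rw [full_cnt hC (cn_T hl hE) hx (xl.trans hE.2.1) k, ind_mem lC, ind_mem (O := {E | Full P C x E}) k]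
    simp
  · obtain ⟨z, hz⟩ := (hs E (cn_T hl hE)).resolve_left fun j => k fun m hm _ mE => j m hm.2 mE
    rw [cen_cnt hC (cn_T hl hE) hx (xl.trans hE.2.1) hz (mt (cen_full hC (cn_T hl hE) hx (xl.trans hE.2.1) hz).2 k),
      ind_mem lC, ind_not (O := {E | Full P C x E}) k]
    simp

theorem dc (h : Pol P q) (hC : C ⊆ T P 2) (hs : ∀ E ∈ T P 3, Pure C E ∨ ∃ z, Cen C E z) (lC : l ∈ C) {j : ℕ}
    (hj : ∀ z ∈ T P 1, z ≤ l → {E | E ∈ Pt P l ∧ Full P C z E}.ncard = j) :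
    (Nat.card F + 1) * j = np (Nat.card F) q (finrank F V - 4) + Nat.card F * {E | E ∈ Pt P l ∧ Pure C E}.ncard := by
  have hl := hC lC
  have := sm_comm (ins (T P 1) l) (Pt P l) (Full P C) fun _ => 1
  rw [sm_const (c := j) fun z hz => by rw [sm_const (c := 1) fun _ _ => rfl, hj z hz.1 hz.2, mul_one],
    sm_congr (v := fun E => 1 + Nat.card F * ind {E | Pure C E} E) fun E hE => ?_, in_add, in_mul, sm_ind,
    sm_const (c := 1) fun _ _ => rfl, ← cnt_eq, cnt_T1 hl, cn_th2, ncard_Pt h hl, mul_one, Set.inter_comm] at this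
  · exact_mod_cast this
  by_cases k : Pure C E
  · rw [ind_mem (O := {E | Pure C E}) k, show {z | z ∈ ins (T P 1) l ∧ Full P C z E} = ins (T P 1) l from
      Set.ext fun z => and_iff_left fun m hm _ mE => k m hm.2 mE, ← cnt_eq, cnt_T1 hl, cn_th2]
    simp [add_comm]
  · obtain ⟨z, hz⟩ := (hs E (cn_T hl hE)).resolve_left k
    have z1 := T.mono (cn_T hl hE) hz.2.1 hz.1
    rw [ind_not (O := {E | Pure C E}) k, show {z | z ∈ ins (T P 1) l ∧ Full P C z E} = {z} from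
      Set.eq_singleton_iff_unique_mem.2 ⟨⟨⟨z1, (hz.2.2 l hl.2 hE.2.1).1 lC⟩, (cen_full hC (cn_T hl hE) z1 hz.2.1 hz).2 rfl⟩,
        fun w hw => (cen_full hC (cn_T hl hE) hw.1.1 (hw.1.2.trans hE.2.1) hz).1 hw.2⟩]
    simp

theorem gh (hC : Cl P C h₁ h₂) (hs : ∀ E ∈ T P 3, Pure C E ∨ ∃ z, Cen C E z) (hx : x ∈ T P 1) : GH P x (thru C x) where
  ts := hx.1
  sub := (hC.intr x hx).sub
  ne' := (hC.intr x hx).ne'
  meet E hE xE d := by
    have hE' : E ∈ T P 3 := ⟨hE, by rw [d, hx.2]⟩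
    rcases hs E hE' with k | ⟨z, k⟩
    · obtain ⟨m, hm, k1, -, k2⟩ := join hE' hx.2 hx.2.le xE xE
      exact ⟨m, ⟨k m hm.2 k2, k1⟩, k2⟩
    · obtain ⟨m, hm, k1, k2, k3⟩ := join hE' hx.2 k.1.le xE k.2.1
      exact ⟨m, ⟨(k.2.2 m hm.2 k3).2 k2, k1⟩, k3⟩
  cl Z hZ Z' hZ' ne pp W hW le := by
    have hE := Pt.sup hx ((hC.intr x hx).sub hZ) ((hC.intr x hx).sub hZ') pp ne
    refine ⟨?_, hW.2.1⟩
    rcases hs _ hE with k | ⟨z, k⟩
    · exact k W (cn_T hx hW).2 le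
    · have e := T.eq_of_le hx (T.inf_mem (k := 1) hE (hC.sub hZ.1) (hC.sub hZ'.1) le_sup_left le_sup_right ne).1
        (le_inf hZ.2 hZ'.2)
      exact (k.2.2 W (cn_T hx hW).2 le).2 ((le_inf ((k.2.2 Z (hC.sub hZ.1).2 le_sup_left).1 hZ.1)
        ((k.2.2 Z' (hC.sub hZ'.1).2 le_sup_right).1 hZ'.1)).trans (e.ge.trans hW.2.1))

theorem nonsing (h : Pol P q) (h6 : 6 ≤ finrank F V) (hC : Cl P C h₁ h₂) (hx : x ∈ T P 1) {a : V} (ha : a ∈ P.perp x)
    (ha' : a ∉ x) (k : ∀ Z ∈ Pt P x, Z ∈ thru C x ↔ Z ≤ P.perp (F ∙ a)) : ¬ P.Sing a := fun sa => by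
  have z0 := sup_mem_Pt hx.1 sa ha ha'
  have i := hC.intr x hx
  have k1 : ∀ Z ∈ Pt P x, Z ∈ thru C x ↔ Z ≤ P.perp (x ⊔ F ∙ a) := fun Z hZ => by
    rw [k Z hZ, P.perp_sup, le_inf_iff, and_iff_right (cn_le hZ)]
  have k2 : ∀ U, cnt (thru C x) U = cnt (Pt P x) (P.perp (x ⊔ F ∙ a) ⊓ U) := fun U =>
    congrArg Set.ncard (Set.ext fun m => ⟨fun j => ⟨i.sub j.1, le_inf ((k1 m (i.sub j.1)).1 j.1) j.2⟩,
      fun j => ⟨(k1 m j.1).2 (j.2.trans inf_le_left), j.2.trans inf_le_right⟩⟩)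
  have e1 := cnt_perp_pt h hx z0
  obtain ⟨d, hd⟩ : ∃ d, finrank F V - 2 * 1 = d + 4 := ⟨finrank F V - 6, by omega⟩
  have Q0 := Nat.card_pos (α := F)
  rw [hd, kk, show d + 4 - 2 = d + 2 from rfl, np_add_two] at e1
  obtain ⟨Z, hZ, ne⟩ := Set.exists_ne_of_one_lt_ncard (s := {e | e ∈ Pt P x ∧ e ≤ P.perp (x ⊔ F ∙ a)})
    (e1.ge.trans_lt' (by nlinarith [Nat.zero_le (Nat.card F * (Nat.card F * np (Nat.card F) q d + q * Nat.card F ^ d))]))
    (x ⊔ F ∙ a)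
  have e2 := cnt_col h hx z0 hZ.1 hZ.2 ne.symm
  rw [← k2, i.h1 Z ((k1 Z hZ.1).2 hZ.2), ← i.h1 _ ((k1 _ z0).2 (h.ts_iff.1 z0.1)), k2, inf_idem, e1, hd,
    Nat.add_sub_cancel] at e2
  have : 0 < Nat.card F * (q * Nat.card F ^ d) := by have := h.three; positivity
  nlinarith

theorem full_iff (hE : E ∈ T P 3) (hx : x ∈ T P 1) (xE : x ≤ E) {a : V}
    (k : ∀ Z ∈ Pt P x, Z ∈ thru C x ↔ Z ≤ P.perp (F ∙ a)) : Full P C x E ↔ E ≤ P.perp (F ∙ a) := by
  refine ⟨fun j v hv => ?_, fun j m hm xm mE => ((k m (pt_eq_thru hx.2 ▸ ⟨hm, xm⟩)).2 (mE.trans j)).1⟩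
  obtain ⟨m, hm, k1, k2, k3⟩ := join hE hx.2 (finrank_span_le_card {v} |>.trans (by simp)) xE
    ((Submodule.span_singleton_le_iff_mem v E).2 hv)
  exact (k m (pt_eq_thru hx.2 ▸ ⟨hm, k1⟩)).1 ⟨j m hm k1 k3, k1⟩ (k2 (Submodule.mem_span_singleton_self v))

theorem arith (h3 : 3 ≤ q) (k α : ℕ) (e : (q ^ 2 + 1) * np (q ^ 2) q (k + 3) = np (q ^ 2) q (k + 4) + q ^ 2 * α)
    (hα : α = np (q ^ 2) q (k + 3) ∨ α = np (q ^ 2) q (k + 2) ∨ α = 1 + q ^ 2 * np (q ^ 2) q (k + 1)) : False := by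
  have e1 := np_su q k
  have e2 := np_su q (k + 1)
  have e3 := np_su q (k + 2)
  have e4 := np_su q (k + 3)
  have q0 : (q : ℤ) ≠ 0 := by omega
  have x0 : (-q : ℤ) ^ k ≠ 0 := pow_ne_zero _ (neg_ne_zero.2 q0)
  have x1 : (-q : ℤ) ^ (k + 3) - 1 ≠ 0 := fun j => by
    have := congrArg Int.natAbs (sub_eq_zero.1 j)
    simp at this
    omega
  have q1 : (q : ℤ) - 1 ≠ 0 := by omega
  have q2 : (q : ℤ) + 1 ≠ 0 := by omega
  zify at e
  simp only [pow_succ _ (k + _), pow_succ _ k] at e1 e2 e3 e4 x1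
  generalize (-q : ℤ) ^ k = X at *
  rcases hα with rfl | rfl | rfl
  · refine mul_ne_zero (mul_ne_zero (mul_ne_zero x1 x0) (pow_ne_zero 2 q0)) (mul_ne_zero q1 q2) ?_
    linear_combination ((q : ℤ) ^ 2 - 1) * e + e4 - e3
  · refine mul_ne_zero (mul_ne_zero x0 (pow_ne_zero 2 q0)) (mul_ne_zero q1 (pow_ne_zero 2 q2)) ?_
    linear_combination -((q : ℤ) ^ 2 - 1) * e - e4 + (q ^ 2 + 1) * e3 - q ^ 2 * e2
  · refine mul_ne_zero (mul_ne_zero x0 (pow_ne_zero 2 q0)) (mul_ne_zero q1 q2) ?_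
    push_cast at e
    linear_combination -((q : ℤ) ^ 2 - 1) * e - e4 + (q ^ 2 + 1) * e3 - q ^ 4 * e1

end Pa

open Pa in
theorem pa (h : Pol P q) (h6 : 6 ≤ finrank F V) {h₁ h₂ : ℕ} (hC : Cl P C h₁ h₂) (hs : Pencil P C)
    (hv : ∀ E ∈ T P 3, ¬ Void C E) : False := by
  replace hs : ∀ E ∈ T P 3, Pure C E ∨ ∃ z, Cen C E z := fun E hE => (hs E hE).imp_right fun k => k.resolve_left (hv E hE)
  obtain ⟨x, hx⟩ := exists_T (k := 1) h (by omega)
  have i := hC.intr x hx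
  obtain ⟨l, lC, xl⟩ := i.ne
  have hl := hC.sub lC
  have Q3 := h.three_le
  have q3 := h.three
  by_cases h8 : finrank F V < 8
  · obtain ⟨l', hl', k⟩ := i.ne'
    have e2 := (hC.eta₂ hx (cn_T hx hl') (fun j => k ⟨j, hl'.2.1⟩) hl'.2.1).symm.trans
      (eta_out h hC.sub hs hx (cn_T hx hl') (fun j => k ⟨j, hl'.2.1⟩) hl'.2.1)
    have e1 := fun z hz zl => (hC.eta₁ (x := z) hz lC zl).symm.trans (eta_in hC.sub hs hz lC zl)
    have e3 := dc h hC.sub hs lC fun z hz zl => Nat.eq_of_mul_eq_mul_left (show 0 < Nat.card F by omega)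
      (Nat.add_left_cancel ((e1 z hz zl).symm.trans (e1 x hx xl)))
    have e4 := intr h i (d := finrank F V - 2) (by rw [hx.2]; omega) (by omega)
    have e5 : np (Nat.card F) q (finrank F V - 4) = 1 + tt (Nat.card F) q (finrank F V - 2) ∧
        0 < tt (Nat.card F) q (finrank F V - 2) ∧ tt (Nat.card F) q (finrank F V - 2) < Nat.card F ^ 2 := by
      rcases show finrank F V = 6 ∨ finrank F V = 7 by omega with e | e
      · have := h.q_le
        simp only [e, np, tt, Nat.reduceSub, Nat.reduceMod]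
        refine ⟨by simp, by positivity, by nlinarith⟩
      · have := h.card_herm (herm_of_odd h (by rw [e]; decide))
        simp only [e, np, tt, Nat.reduceSub, Nat.reduceMod]
        refine ⟨by simp, by positivity, by rw [this]; nlinarith [pow_pos (show 0 < q by omega) 3]⟩
    replace e1 := e1 x hx xl
    rw [show (finrank F V - 2) / 2 = 2 by omega] at e4
    rw [e5.1] at e2 e3
    generalize tt (Nat.card F) q (finrank F V - 2) = t at *
    generalize {E | E ∈ Pt P l ∧ Full P C x E}.ncard = j at *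
    generalize {E | E ∈ Pt P l ∧ Pure C E}.ncard = α at *
    generalize Nat.card F = Q at *
    rcases e4 with ⟨e4, -⟩ | ⟨e4, -⟩
    · have : t + Q ^ 2 = Q ^ 2 * α := by
        zify at e1 e2 e3 e4 ⊢
        linear_combination Q * e3 + (Q + 1) * (e1 - e2 - e4)
      rcases show α ≤ 1 ∨ 2 ≤ α by omega with k | k <;> nlinarith
    · have : j = 0 := by
        rw [Nat.sub_self, pow_zero, one_mul] at e4
        exact (Nat.mul_eq_zero.1 (show Q * j = 0 by omega)).resolve_left (by omega)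
      rw [this] at e3
      omega
  choose! a a1 a2 a3 using fun z (hz : z ∈ T P 1) => hyp h (by rw [hz.2]; omega) (gh hC hs hz)
  have ns := fun z hz => nonsing h h6 hC hz (a1 z hz) (a2 z hz) (a3 z hz)
  have la : ∀ z ∈ T P 1, z ≤ l → l ≤ P.perp (F ∙ a z) := fun z hz zl => (a3 z hz l (pt_eq_thru hz.2 ▸ ⟨hl, zl⟩)).1 ⟨lC, zl⟩
  have fl := fun z hz (zl : z ≤ l) E (hE : E ∈ Pt P l) => full_iff (x := z) (cn_T hl hE) hz (zl.trans hE.2.1) (a3 z hz)
  have e3 := dc h hC.sub hs lC fun z hz zl => (congrArg Set.ncard (Set.ext fun E => and_congr_right (fl z hz zl E))).trans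
    (cnt_nonsing h hl (P.le_perp_comm.1 (la z hz zl) (Submodule.mem_span_singleton_self _)) (ns z hz))
  obtain ⟨y, ⟨hy, yl⟩, ne⟩ := Set.exists_ne_of_one_lt_ncard (s := ins (T P 1) l)
    (by rw [← cnt_eq, cnt_T1 hl, cn_th2]; omega) x
  obtain ⟨U, hU⟩ : ∃ U, U = l ⊔ (F ∙ a x) ⊔ F ∙ a y := ⟨_, rfl⟩
  have u1 : l ≤ P.perp U := by
    rw [hU, P.perp_sup, P.perp_sup]
    exact le_inf (le_inf (h.ts_iff.1 hl.1) (la x hx xl)) (la y hy yl)
  have u2 : l ≤ U := hU ▸ le_sup_left.trans le_sup_left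
  have e4 := cnt_rad h hl.1 u1 (P.perp_anti u2)
  have e5 : {E | E ∈ Pt P l ∧ Pure C E}.ncard = cnt (Pt P l) (P.perp U) :=
    congrArg Set.ncard (Set.ext fun E => and_congr_right fun hE => by
      rw [hU, P.perp_sup, P.perp_sup, le_inf_iff, le_inf_iff, and_iff_right (cn_le hE), ← fl x hx xl E hE,
        ← fl y hy yl E hE]
      refine ⟨fun k => ⟨fun m hm _ => k m hm.2, fun m hm _ => k m hm.2⟩, fun k => (hs E (cn_T hl hE)).elim id ?_⟩
      exact fun ⟨z, hz⟩ => absurd (((cen_full hC.sub (cn_T hl hE) hy (yl.trans hE.2.1) hz).1 k.2).trans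
        ((cen_full hC.sub (cn_T hl hE) hx (xl.trans hE.2.1) hz).1 k.1).symm) ne)
  have d1 := P.finrank_perp h.nd U
  have d2 : finrank F l ≤ finrank F ↥(P.perp U ⊓ U) := Submodule.finrank_mono (le_inf u1 u2)
  have ax : a x ∈ U := hU ▸ Submodule.mem_sup_left (Submodule.mem_sup_right (Submodule.mem_span_singleton_self _))
  have d3 : finrank F ↥(P.perp U ⊓ U) < finrank F U := Submodule.finrank_lt_finrank_of_lt (inf_le_right.lt_of_ne fun e =>
    ns x hx (h.sing_iff.2 (P.mem_perp.1 (e.ge ax).1 _ ax)))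
  have d4 : finrank F U ≤ 4 := by
    have s : ∀ v : V, finrank F (F ∙ v) ≤ 1 := fun v => (finrank_span_le_card {v}).trans (by simp)
    have k1 := Submodule.finrank_add_le_finrank_add_finrank (l ⊔ F ∙ a x) (F ∙ a y)
    have k2 := Submodule.finrank_add_le_finrank_add_finrank l (F ∙ a x)
    have := s (a x)
    have := s (a y)
    rw [← hU] at k1
    rw [hl.2] at k2
    omega
  obtain ⟨k, hk⟩ : ∃ k, finrank F V = k + 8 := ⟨finrank F V - 8, by omega⟩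
  rw [P.perp_perp h.nd, ← e5, hl.2] at e4
  rw [hl.2] at d2
  rw [h.card_herm (herm_of_not_sing h (ns x hx))] at e3 e4
  refine arith q3 k _ (by simpa [hk] using e3) ?_
  rcases show finrank F ↥(P.perp U ⊓ U) = 2 ∧ finrank F (P.perp U) = k + 5 ∨
    finrank F ↥(P.perp U ⊓ U) = 2 ∧ finrank F (P.perp U) = k + 4 ∨
    finrank F ↥(P.perp U ⊓ U) = 3 ∧ finrank F (P.perp U) = k + 4 by omega with e | e | e <;> rw [e.1, e.2] at e4
  · exact .inl (by simpa [cn_th0] using e4)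
  · exact .inr (.inl (by simpa [cn_th0] using e4))
  · exact .inr (.inr (by simpa [cn_th1] using e4))

end CfsgLib.KP
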