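import Mathlib
import Cfsg.Agent.Lib.KP.Intr

/-! KP: no generalised hexagon (plans/KP.md, package PE3). -/

set_option autoImplicit false
set_option linter.unusedSectionVars false

namespace CfsgLib.KP

open CfsgLib.CK CfsgLib.KL CfsgLib.Forms CfsgLib.RootMax CfsgLib.ClMax CfsgLib.Tech Module

variable {F : Type*} [Field F] [Finite F] {σ : F →+* F} {V : Type*} [AddCommGroup V] [Module F V] [Finite V]
  {P : PQ σ V} {q : ℕ} {K : Subgroup (V ≃ₗ[F] V)} {C : Set (Submodule F V)}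

namespace Pe3

variable {π : Submodule F V → Submodule F V} {x y u l m E : Submodule F V}

theorem ln (hx : x ∈ T P 1) (hy : y ∈ T P 1) (hp : y ≤ P.perp x) (hn : x ≠ y) : x ⊔ y ∈ T P 2 :=
  Pt.sup (k := 0) ⟨P.ts_bot, finrank_bot F V⟩ (pt_bot P ▸ hx) (pt_bot P ▸ hy) hp hn

variable (P C) in
/-- the lines of `C` through `x` are the lines through `x` in `π x` -/
def Pi (π : Submodule F V → Submodule F V) : Prop :=
  ∀ x ∈ T P 1, π x ∈ T P 3 ∧ Cen C (π x) x ∧ ∀ m ∈ thru C x, m ≤ π x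

theorem exists_pi (h : Pol P q) (k : IsSp P) (h6 : finrank F V = 6) (hC : Cl P C (q + 1) 1) (hs : Pencil P C)
    (hn : ∀ E ∈ T P 3, ¬ Pure C E) : ∃ π, Pi P C π := by
  suffices ∀ x ∈ T P 1, ∃ E, E ∈ T P 3 ∧ Cen C E x ∧ ∀ m ∈ thru C x, m ≤ E by
    choose! π hπ using this
    exact ⟨π, hπ⟩
  intro x hx
  have hR := hC.intr x hx
  have c : (thru C x).ncard = q + 1 := by
    rcases intr h hR (d := 4) (by rw [hx.2, h6]) le_rfl with ⟨-, a⟩ | ⟨a, -⟩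
    · simpa [cn_th1, cn_th2, h.card_sp k] using a
    · have := h.three
      omega
  have o : ∀ Z ∈ thru C x, ∀ m ∈ thru C x, m ≤ P.perp Z := fun Z hZ m hm =>
    ((Set.eq_of_subset_of_ncard_le (s := ins (thru C x) (P.perp Z)) (fun _ e => e.1)
      (c.trans (hR.h1 Z hZ).symm).le).ge hm).2
  obtain ⟨Z, hZ, Z', hZ', ne⟩ := (Set.one_lt_ncard (s := thru C x)).1 (by have := h.three; omega)
  have hE := Pt.sup hx (hR.sub hZ) (hR.sub hZ') (o Z hZ Z' hZ') ne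
  refine ⟨Z ⊔ Z', hE, ?_, fun m hm => ?_⟩
  · obtain ⟨z, hz⟩ := ((hs _ hE).resolve_left (hn _ hE)).resolve_left fun e => e Z hZ.1 le_sup_left
    have h1 := le_inf ((hz.2.2 Z (hC.sub hZ.1).2 le_sup_left).1 hZ.1) ((hz.2.2 Z' (hC.sub hZ'.1).2 le_sup_right).1 hZ'.1)
    rw [cn_cov (hR.sub hZ) hZ'.2 fun e => ne (Pt.eq_of_le (hR.sub hZ) (hR.sub hZ') e)] at h1
    rwa [← Submodule.eq_of_le_of_finrank_eq h1 (hz.1.trans hx.2.symm)]
  · rw [← perp_eq_of_max h.nd hE h6, P.perp_sup]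
    exact le_inf (o Z hZ m hm) (o Z' hZ' m hm)

theorem Pi.le (hπ : Pi P C π) (hx : x ∈ T P 1) : x ≤ π x := (hπ x hx).2.1.2.1

theorem Pi.perp (hπ : Pi P C π) (hx : x ∈ T P 1) : π x ≤ P.perp x := T.le_perp (hπ x hx).1 le_rfl (hπ.le hx)

theorem Pi.col (hπ : Pi P C π) (hx : x ∈ T P 1) (hu : u ∈ T P 1) (h1 : u ≤ π x) (hn : x ≠ u) : x ⊔ u ∈ C :=
  ((hπ x hx).2.1.2.2 _ (ln hx hu (h1.trans (hπ.perp hx)) hn).2 (sup_le (hπ.le hx) h1)).2 le_sup_left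

theorem Pi.sym (hπ : Pi P C π) (hx : x ∈ T P 1) (hu : u ∈ T P 1) (h1 : u ≤ π x) : x ≤ π u := by
  by_cases hn : x = u
  · exact hn ▸ hπ.le hx
  · exact le_sup_left.trans ((hπ u hu).2.2 _ ⟨hπ.col hx hu h1 hn, le_sup_right⟩)

theorem Pi.dis (hπ : Pi P C π) (hx : x ∈ T P 1) (hy : y ∈ T P 1) (n : ¬ y ≤ P.perp x) (hu : u ∈ T P 1)
    (h1 : u ≤ π x) (h2 : u ≤ π y) : False :=
  n (T.le_perp (hπ u hu).1 (hπ.sym hy hu h2) (hπ.sym hx hu h1))

theorem Pi.dis' (hπ : Pi P C π) (hx : x ∈ T P 1) (hy : y ∈ T P 1) (n : ¬ y ≤ P.perp x) {v : V}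
    (h1 : v ∈ π x) (h2 : v ∈ π y) : v = 0 := by
  by_contra v0
  exact hπ.dis hx hy n (span_mem_T ((hπ x hx).1.1.1 v h1) v0) ((Submodule.span_singleton_le_iff_mem _ _).2 h1)
    ((Submodule.span_singleton_le_iff_mem _ _).2 h2)

theorem uniq {h₁ : ℕ} (hC : Cl P C h₁ 1) (hs : Pencil P C) (hn : ∀ E ∈ T P 3, ¬ Pure C E) (hl : l ∈ T P 2)
    (lC : l ∉ C) (hu : u ∈ T P 1) (ul : u ≤ l) (hm : m ∈ C) (um : u ≤ m) (ml : m ≤ P.perp l) (hE : E ∈ T P 3)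
    (lE : l ≤ E) (hv : ¬ Void C E) : m ≤ E := by
  obtain ⟨z, hz⟩ := ((hs _ hE).resolve_left (hn _ hE)).resolve_left hv
  have hz' : z ∈ T P 1 := T.mono hE hz.2.1 hz.1
  have h1 := ln hu hz' (T.le_perp hE hz.2.1 (ul.trans lE)) fun e => lC ((hz.2.2 l hl.2 lE).2 (e ▸ ul))
  have h2 : u ⊔ z ≤ E := sup_le (ul.trans lE) hz.2.1
  have h3 : m = u ⊔ z := (Set.ncard_le_one_iff (Set.toFinite _)).1 (hC.eta₂ hu hl lC ul).le ⟨⟨hm, um⟩, ml⟩
    ⟨⟨(hz.2.2 _ h1.2 h2).2 le_sup_right, le_sup_left⟩, T.le_perp hE h2 lE⟩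
  exact h3 ▸ h2

theorem Pi.two (hπ : Pi P C π) (hu : u ∈ T P 1) (hy : y ∈ T P 1) (h1 : x ≤ π u) (n : ¬ y ≤ P.perp x) :
    finrank F ↥(π u ⊓ P.perp y) = 2 := by
  have := finrank_inf_perp (Y := ⊥) (E := π u) (pt_bot P ▸ hy) (by rw [P.perp_bot]; exact le_top)
    fun e => n (P.le_perp_comm.1 (h1.trans e))
  rw [(hπ u hu).1.2] at this
  omega

theorem Pi.key {h₁ : ℕ} (hπ : Pi P C π) (h : P.Nondeg) (hC : Cl P C h₁ 1) (hs : Pencil P C)
    (hn : ∀ E ∈ T P 3, ¬ Pure C E) (hx : x ∈ T P 1) (hy : y ∈ T P 1) (n : ¬ y ≤ P.perp x) (hu : u ∈ T P 1)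
    (h1 : u ≤ π x) (h2 : u ≤ P.perp y) : ∃ v, v ≠ 0 ∧ v ∈ π y ∧ v ∈ P.perp x ∧ v ∈ π u := by
  have n' : ¬ x ≤ P.perp y := fun e => n (P.le_perp_comm.1 e)
  obtain ⟨v, ⟨⟨v1, v2⟩, v3⟩, v0⟩ := (Submodule.ne_bot_iff (π y ⊓ P.perp x ⊓ P.perp u)).1 fun e => by
    have a1 := finrank_pair h u (π y ⊓ P.perp x)
    rw [e, hu.2, hπ.two hy hx (hπ.le hy) n', finrank_bot] at a1
    omega
  refine ⟨v, v0, v1, v2, ?_⟩
  have hv := span_mem_T ((hπ y hy).1.1.1 v v1) v0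
  rw [SetLike.mem_coe, ← Submodule.span_singleton_le_iff_mem] at v1 v2 v3
  rw [← Submodule.span_singleton_le_iff_mem]
  have hl := ln hu hv v3 fun e => hπ.dis hx hy n hu h1 (e ▸ v1)
  by_cases lC : u ⊔ F ∙ v ∈ C
  · exact le_sup_right.trans ((hπ u hu).2.2 _ ⟨lC, le_sup_left⟩)
  have lx : u ⊔ F ∙ v ≤ P.perp x := sup_le (h1.trans (hπ.perp hx)) v2
  have hE := T.sup_pt hl (pt_bot P ▸ hy) bot_le (P.le_perp_comm.1 (sup_le h2 (v1.trans (hπ.perp hy))))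
    fun e => n (e.trans lx)
  have := uniq hC hs hn hl lC hu le_sup_left (hπ.col hx hu h1 fun e => n' (e ▸ h2)) le_sup_right
    (sup_le (P.le_perp_comm.1 lx) (le_sup_left.trans hl.1.2)) hE le_sup_left fun e =>
      e _ (hπ.col hy hv v1 fun e => n (e ▸ v2)) (sup_le le_sup_right (le_sup_right.trans le_sup_left))
  exact absurd (T.le_perp hE (le_sup_left.trans this) le_sup_right) n'

end Pe3

open Pe3 in
theorem pe3 (h : Pol P q) (k : IsSp P) (h6 : finrank F V = 6) (hC : Cl P C (q + 1) 1) (hs : Pencil P C)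
    (hn : ∀ E ∈ T P 3, ¬ Pure C E) : False := by
  obtain ⟨π, hπ⟩ := exists_pi h k h6 hC hs hn
  have alt : ∀ v w, P.B w v = -P.B v w := fun v w => by rw [P.symm, k.ε_eq, k.σ_eq, neg_one_mul]
  have b0 : ∀ v, P.B v v = 0 := fun v => (k.sing h v).self_eq
  have np : ∀ {v w}, P.B v w ≠ 0 → ¬ F ∙ w ≤ P.perp (F ∙ v) := fun e j =>
    e (P.mem_perp_span_singleton.1 (j (Submodule.mem_span_singleton_self _)))
  obtain ⟨x, hx⟩ := exists_T (k := 1) h (by omega)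
  obtain ⟨a, -, a0, rfl⟩ := T.exists_vec hx
  obtain ⟨b, ab⟩ : ∃ b, P.B a b ≠ 0 := by
    by_contra! e
    exact a0 (h.nd a e)
  have aw : P.B a (a + b) ≠ 0 := by rwa [P.B_add_right, b0, zero_add]
  have bw : P.B b (a + b) ≠ 0 := by rwa [P.B_add_right, b0, add_zero, alt, neg_ne_zero]
  have hy := span_mem_T (k.sing h b) fun e => ab (by simp [e])
  have hw := span_mem_T (k.sing h (a + b)) fun e => aw (by rw [e, map_zero])
  have Φ : ∀ u ∈ π (F ∙ a) ⊓ P.perp (F ∙ b), ∃ v ∈ π (F ∙ b), P.B a v = 0 ∧ u + v ∈ π (F ∙ (a + b)) ∧ P.B u v = 0 := by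
    rintro u ⟨u1, u2⟩
    by_cases u0 : u = 0
    · exact ⟨0, zero_mem _, by simp, by simp [u0], by simp⟩
    have hu := span_mem_T (k.sing h u) u0
    have u3 := P.mem_perp_span_singleton.1 (hπ.perp hx u1)
    have u4 : u ∈ P.perp (F ∙ (a + b)) := P.mem_perp_span_singleton.2 (by
      rw [P.B_add_left, u3, P.mem_perp_span_singleton.1 u2, add_zero])
    have u1' := (Submodule.span_singleton_le_iff_mem _ _).2 u1
    obtain ⟨v, v0, v1, v2, v3⟩ := hπ.key h.nd hC hs hn hx hy (np ab) hu u1'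
      ((Submodule.span_singleton_le_iff_mem _ _).2 u2)
    obtain ⟨w, w0, w1, w2, w3⟩ := hπ.key h.nd hC hs hn hx hw (np aw) hu u1'
      ((Submodule.span_singleton_le_iff_mem _ _).2 u4)
    have w4 : w ∈ P.perp (F ∙ b) := P.mem_perp_span_singleton.2 (by
      have := P.mem_perp_span_singleton.1 (hπ.perp hw w1)
      rwa [P.B_add_left, P.mem_perp_span_singleton.1 w2, zero_add] at this)
    have e : (F ∙ u) ⊔ F ∙ v = π (F ∙ u) ⊓ P.perp (F ∙ b) := Submodule.eq_of_le_of_finrank_eq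
      (sup_le (le_inf (hπ.le hu) ((Submodule.span_singleton_le_iff_mem _ _).2 u2))
        ((Submodule.span_singleton_le_iff_mem _ _).2 ⟨v3, hπ.perp hy v1⟩)) (by
      rw [hπ.two hu hy (hπ.sym hx hu u1') (np ab), Submodule.finrank_sup_span_singleton, finrank_span_singleton u0]
      exact fun j => v0 (hπ.dis' hx hy (np ab) (u1' j) v1))
    obtain ⟨_, j1, _, j2, rfl⟩ := Submodule.mem_sup.1 (e.ge ⟨w3, w4⟩)
    obtain ⟨s, rfl⟩ := Submodule.mem_span_singleton.1 j1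
    obtain ⟨t, rfl⟩ := Submodule.mem_span_singleton.1 j2
    have s0 : s ≠ 0 := by
      rintro rfl
      rw [zero_smul, zero_add] at w0 w1
      exact w0 (hπ.dis' hy hw (np bw) (Submodule.smul_mem _ t v1) w1)
    refine ⟨(s⁻¹ * t) • v, Submodule.smul_mem _ _ v1, ?_, ?_, ?_⟩
    · rw [P.B_smul_right, P.mem_perp_span_singleton.1 v2, mul_zero]
    · have := Submodule.smul_mem _ s⁻¹ w1
      rwa [smul_add, smul_smul, smul_smul, inv_mul_cancel₀ s0, one_smul] at this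
    · rw [P.B_smul_right, P.mem_perp_span_singleton.1 (hπ.perp hu v3), mul_zero]
  obtain ⟨u, hu, u0⟩ := (Submodule.ne_bot_iff (π (F ∙ a) ⊓ P.perp (F ∙ b))).1 fun e => by
    have := hπ.two hx hy (hπ.le hx) (np ab)
    rw [e, finrank_bot] at this
    omega
  obtain ⟨v, v1, v2, v3, v4⟩ := Φ u hu
  have or : ∀ u' ∈ π (F ∙ a) ⊓ P.perp (F ∙ b), P.B u' v = 0 := fun u' hu' => by
    obtain ⟨v', v1', -, v3', v4'⟩ := Φ u' hu'
    obtain ⟨w, w1, -, w3, w4⟩ := Φ (u + u') (add_mem hu hu')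
    have e : w - (v + v') = 0 := hπ.dis' hy hw (np bw) (sub_mem w1 (add_mem v1 v1')) (by
      convert sub_mem w3 (add_mem v3 v3') using 1
      abel)
    have e1 := (hπ _ hw).1.1.B_eq v3 v3'
    rw [sub_eq_zero.1 e] at w4
    simp only [P.B_add_left, P.B_add_right, v4, v4', (hπ _ hx).1.1.B_eq hu.1 hu'.1, (hπ _ hy).1.1.B_eq v1 v1',
      alt u' v] at w4 e1
    exact (mul_eq_zero.1 (by linear_combination w4 - e1)).resolve_left k.two
  have ba : P.B b a ≠ 0 := by rwa [alt, neg_ne_zero]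
  have v5 : v ∈ π (F ∙ a) := by
    rw [← perp_eq_of_max h.nd (hπ _ hx).1 h6]
    intro p hp
    have := or (p - (P.B b p / P.B b a) • a) ⟨sub_mem hp (Submodule.smul_mem _ _
      (hπ.le hx (Submodule.mem_span_singleton_self a))), P.mem_perp_span_singleton.2 (by
        rw [P.B_sub_right, P.B_smul_right, div_mul_cancel₀ _ ba, sub_self])⟩
    rwa [P.B_sub_left, P.B_smul_left, v2, mul_zero, sub_zero] at this
  rw [hπ.dis' hx hy (np ab) v5 v1, add_zero] at v3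
  exact u0 (hπ.dis' hx hw (np aw) hu.1 v3)

end CfsgLib.KP
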