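import Mathlib
import Cfsg.Agent.Lib.KP.Part
import Cfsg.Agent.Lib.KP.Intr

/-! KP: single lines, no void plane (plans/KP.md, package SA). -/

set_option autoImplicit false
set_option linter.unusedSectionVars false

namespace CfsgLib.KP

open CfsgLib.CK CfsgLib.KL CfsgLib.Forms CfsgLib.RootMax CfsgLib.ClMax CfsgLib.Tech Module

variable {F : Type*} [Field F] [Finite F] {σ : F →+* F} {V : Type*} [AddCommGroup V] [Module F V] [Finite V]
  {P : PQ σ V} {q : ℕ} {K : Subgroup (V ≃ₗ[F] V)} {C : Set (Submodule F V)}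

theorem sa_tt (h : Pol P q) {d : ℕ} (hd : d % 2 = finrank F V % 2) :
    (IsSp P ∧ Nat.card F = q ∧ tt (Nat.card F) q d = q) ∨
      (Nat.card F = q ^ 2 ∧ (tt (Nat.card F) q d = q ∨ tt (Nat.card F) q d = q ^ 3)) := by
  rcases h.kind with k | k
  · exact Or.inl ⟨k.1, k.2, by rw [tt, hd, Nat.even_iff.1 (even_sp h k.1), pow_zero, mul_one]⟩
  · refine Or.inr ⟨k.2, ?_⟩
    rcases Nat.mod_two_eq_zero_or_one d with e | e
    · exact Or.inl (by rw [tt, e, pow_zero, mul_one])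
    · exact Or.inr (by rw [tt, e, k.2]; ring)

theorem not_dvd_tt_sub (h : Pol P q) {d : ℕ} (hd : d % 2 = finrank F V % 2) :
    ¬ ((Nat.card F : ℤ) + 1) ∣ (tt (Nat.card F) q d : ℤ) - 1 := fun k => by
  have h3 : (3 : ℤ) ≤ q := by exact_mod_cast h.three
  rcases sa_tt h hd with ⟨-, e, e'⟩ | ⟨e, e' | e'⟩ <;> rw [e', e] at k <;> push_cast at k
  · have := Int.le_of_dvd (by omega) k
    omega
  · have := Int.le_of_dvd (by omega) k
    nlinarith
  · have k' := dvd_sub (dvd_mul_left _ (q : ℤ)) k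
    rw [show (q : ℤ) * (q ^ 2 + 1) - (q ^ 3 - 1) = q + 1 by ring] at k'
    have := Int.le_of_dvd (by omega) k'
    nlinarith

theorem sp_of_dvd_tt (h : Pol P q) {d : ℕ} (hd : d % 2 = finrank F V % 2)
    (h1 : Nat.card F + 1 ∣ tt (Nat.card F) q d + 1) : IsSp P := by
  have h3 : (3 : ℤ) ≤ q := by exact_mod_cast h.three
  have k := Int.natCast_dvd_natCast.2 h1
  rcases sa_tt h hd with ⟨e, -⟩ | ⟨e, e' | e'⟩
  · exact e
  · rw [e', e] at k
    push_cast at k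
    have := Int.le_of_dvd (by omega) k
    nlinarith
  · rw [e', e] at k
    push_cast at k
    have k' := dvd_sub (dvd_mul_left _ (q : ℤ)) k
    rw [show (q : ℤ) * (q ^ 2 + 1) - (q ^ 3 + 1) = q - 1 by ring] at k'
    have := Int.le_of_dvd (by omega) k'
    nlinarith

section
variable {h₁ h₂ : ℕ} {x l E : Submodule F V}

theorem sa_cnt (hC : C ⊆ T P 2) (hx : x ∈ T P 1) (hE : E ∈ T P 3) (h1 : x ≤ E) (hp : Pure C E) :
    cnt (thru C x) E = Nat.card F + 1 := by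
  rw [← cn_th2, show 2 = 2 + 1 - finrank F x by rw [hx.2], ← cnt_hy hE h1]
  exact congrArg Set.ncard (Set.ext fun m => ⟨fun k => ⟨⟨hC k.1.1, k.1.2⟩, k.2⟩,
    fun k => ⟨⟨hp m k.1.1.2 k.2, k.1.2⟩, k.2⟩⟩)

theorem sa_h1 (hC : Cl P C h₁ h₂) (hs : Single P C) (hx : x ∈ T P 1) (hl : l ∈ C) (hxl : x ≤ l) :
    h₁ = 1 + {E | E ∈ Pt P l ∧ Pure C E}.ncard * Nat.card F := by
  have hl2 := hC.sub hl
  have e := eta_sum hC.sub hx hl2 hxl
  rw [hC.eta₁ hx hl hxl, ind_mem hl, sm_sub (S' := {E | E ∈ Pt P l ∧ Pure C E}) (fun E hE => hE.1) fun E hE hn => by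
      have : ins (thru C x) E = {l} := Set.eq_singleton_iff_unique_mem.2 ⟨⟨⟨hl, hxl⟩, hE.2.1⟩, fun m hm => by
        by_contra k
        exact hn ⟨hE, hs E (cn_T hl2 hE) m hm.1.1 l hl hm.2 hE.2.1 k⟩⟩
      rw [cnt_eq, this, Set.ncard_singleton, Nat.cast_one, sub_self],
    sm_const (c := Nat.card F) fun E hE => by
      rw [sa_cnt hC.sub hx (cn_T hl2 hE.1) (hxl.trans hE.1.2.1) hE.2]; push_cast; ring] at e
  exact_mod_cast e

theorem sa_h2 (hC : Cl P C h₁ h₂) (hs : Single P C) (hv : ∀ E ∈ T P 3, ¬ Void C E) (hl : l ∈ T P 2) (hn : l ∉ C) :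
    (Nat.card F + 1) * h₂ = (Pt P l).ncard := by
  have ne : ∀ m ∈ C, m ≠ l := fun m hm e => hn (e ▸ hm)
  have pt : ∀ m ∈ C ∩ nb P l, m ⊓ l ∈ T P 1 := fun m hm => ⟨hl.1.mono inf_le_right, by
    have b1 := Submodule.finrank_lt_finrank_of_lt (inf_lt_right.2 fun k => ne m hm.1 (T.eq_of_le hl hm.2.1 k).symm)
    have b2 : finrank F ↥(m ⊓ l) ≠ 0 := fun e => hm.2.2.1 (Submodule.finrank_eq_zero.1 e)
    rw [hl.2] at b1
    omega⟩
  have e1 := dc_eq (ins (T P 1) l) (C ∩ nb P l) (fun x m => x ≤ m) (m := h₂) (k := 1) (fun x hx => by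
      rw [← hC.eta₂ hx.1 hl hn hx.2]
      exact congrArg Set.ncard (Set.ext fun m => ⟨fun k => ⟨⟨k.1.1, k.2⟩, k.1.2.2.2⟩, fun k => ⟨⟨k.1.1, hC.sub k.1.1,
        fun e => pa_not_le hx.1 (show ⊥ ∈ T P 0 from ⟨hl.1.mono bot_le, finrank_bot _ _⟩) one_pos
          (e ▸ le_inf k.1.2 hx.2), k.2⟩, k.1.2⟩⟩))
    fun m hm => Set.ncard_eq_one.2 ⟨m ⊓ l, Set.eq_singleton_iff_unique_mem.2 ⟨⟨⟨pt m hm, inf_le_right⟩, inf_le_left⟩,
      fun x hx => T.eq_of_le hx.1.1 (pt m hm) (le_inf hx.2 hx.1.2)⟩⟩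
  have e2 := dc_eq (Pt P l) (C ∩ nb P l) (fun E m => m ≤ E) (m := 1) (k := 1) (fun E hE => by
      have hE3 := cn_T hl hE
      obtain ⟨m, hm, b1⟩ : ∃ m ∈ C, m ≤ E := by
        by_contra k
        exact hv E hE3 fun m hm k' => k ⟨m, hm, k'⟩
      refine Set.ncard_eq_one.2 ⟨m, Set.eq_singleton_iff_unique_mem.2 ⟨⟨⟨hm, hC.sub hm, fun e => ?_,
        T.le_perp hE3 b1 hE.2.1⟩, b1⟩, fun m' hm' => ?_⟩⟩
      · have := (T.inf_mem hE3 (hC.sub hm) hl b1 hE.2.1 (ne m hm)).1.2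
        rw [e, finrank_bot] at this
        exact zero_ne_one this
      · by_contra k
        exact hn (hs E hE3 m' hm'.1.1 m hm hm'.2 b1 k l hl.2 hE.2.1))
    fun m hm => by
      have hE : l ⊔ m ∈ Pt P l := pa_mem hl (T.sup_pt hl (pa_mem (pt m hm) hm.2.1 inf_le_left) inf_le_right hm.2.2.2
        fun k => ne m hm.1 (T.eq_of_le hm.2.1 hl k)) le_sup_left
      exact Set.ncard_eq_one.2 ⟨l ⊔ m, Set.eq_singleton_iff_unique_mem.2 ⟨⟨hE, le_sup_right⟩,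
        fun E hE' => (Pt.eq_of_le hE hE'.1 (sup_le hE'.1.2.1 hE'.2)).symm⟩⟩
  rw [← cnt_eq, cnt_T1 hl, cn_th2] at e1
  omega

theorem sa_big (h : Pol P q) (h10 : 10 ≤ finrank F V) (hC : C ⊆ T P 2) (hs : Single P C)
    (hv : ∀ E ∈ T P 3, ¬ Void C E) (hl : l ∈ C) :
    (Pt P l).ncard ≤ (Nat.card F + 1) * {E | E ∈ Pt P l ∧ Pure C E}.ncard := by
  have hl2 := hC hl
  have e1 := dc_le (thru (T P (2 + 2)) l) {E | E ∈ Pt P l ∧ Pure C E} (fun X E => E ≤ X) (m := 1)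
    (k := np (Nat.card F) q (finrank F V - 2 * 2 - 2)) (fun X hX => by
      obtain ⟨E, hE, b1, b2, b3⟩ := sa5 h h10 hC hs hv hl hX.1 hX.2
      exact (Set.ncard_pos).2 ⟨E, ⟨pa_mem hl2 hE b1, b3⟩, b2⟩)
    fun E hE => by
      rw [show finrank F V - 2 * 2 - 2 = finrank F V - 2 * (2 + 1) by omega, ← ncard_Pt h (cn_T hl2 hE.1)]
      exact Set.ncard_le_ncard fun X hX => pa_mem (cn_T hl2 hE.1) hX.1.1 hX.2
  have e2 := ncard_two h hl2
  rw [ncard_Pt h hl2]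
  refine Nat.le_of_mul_le_mul_right ?_ (np_pos (Nat.card F) q (d := finrank F V - 2 * 2 - 2) (by omega))
  rw [← e2, mul_comm, mul_assoc]
  exact Nat.mul_le_mul_left _ (by simpa using e1)

end

theorem sa (h : Pol P q) (h6 : 6 ≤ finrank F V) {h₁ h₂ : ℕ} (hC : Cl P C h₁ h₂) (hs : Single P C)
    (hv : ∀ E ∈ T P 3, ¬ Void C E) (hp : ∃ E ∈ T P 3, Pure C E) : IsSp P ∧ finrank F V = 6 ∧ Spr P C := by
  have hQ := h.three_le
  obtain ⟨e, he⟩ : ∃ e, finrank F V = e + 4 := ⟨finrank F V - 4, by omega⟩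
  have par : e % 2 = finrank F V % 2 := by omega
  have dich : ∀ x ∈ T P 1, (h₁ = h₂ + Nat.card F ^ (e / 2) ∧
      (thru C x).ncard * th (Nat.card F) (e / 2) = h₂ * th (Nat.card F) (e / 2 + 1)) ∨
      h₁ + Nat.card F ^ (e / 2 - 1) * tt (Nat.card F) q e = h₂ := fun x hx => by
    have := intr (d := e + 2) h (hC.intr x hx) (by rw [hx.2]; omega) (by omega)
    rw [in_tt, show (e + 2) / 2 = e / 2 + 1 by omega] at this
    exact this.imp_right And.left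
  have N2 : ∀ l ∈ T P 2, (Pt P l).ncard =
      th (Nat.card F) (e / 2) * (Nat.card F ^ (e / 2 - 1) * tt (Nat.card F) q e + 1) := fun l hl => by
    rw [ncard_Pt h hl, show finrank F V - 2 * 2 = e by omega, np_eq]
  obtain ⟨E₀, hE₀, hp⟩ := hp
  obtain ⟨l₀, hl₀, -, b1⟩ := exists_mid (j := 2) hE₀ bot_le (by simp) (by omega)
  obtain ⟨x₀, hx₀, -, b2⟩ := exists_mid (j := 1) hl₀ bot_le (by simp) (by omega)
  have hl₀' := hp l₀ hl₀.2 b1
  have a1 := sa_h1 hC hs hx₀ hl₀' b2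
  have a2 : 0 < {E | E ∈ Pt P l₀ ∧ Pure C E}.ncard := (Set.ncard_pos).2 ⟨E₀, pa_mem hl₀ hE₀ b1, hp⟩
  obtain ⟨l', hl', hn⟩ := (hC.intr x₀ hx₀).ne'
  have a3 := sa_h2 hC hs hv (cn_T hx₀ hl') fun k => hn ⟨k, hl'.2.1⟩
  rw [N2 _ (cn_T hx₀ hl')] at a3
  have t0 : 0 < tt (Nat.card F) q e := Nat.mul_pos (by have := h.three; omega) (by positivity)
  obtain j1 | j2 | j3 : e / 2 = 1 ∨ e / 2 = 2 ∨ 3 ≤ e / 2 := by omega
  · simp only [j1, Nat.sub_self, pow_zero, one_mul, cn_th1, mul_one, pow_one] at dich a3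
    have sp := sp_of_dvd_tt h par ⟨h₂, a3.symm⟩
    have ev := Nat.even_iff.1 (even_sp h sp)
    have tq : tt (Nat.card F) q e = Nat.card F := by
      rw [tt, par, ev, pow_zero, mul_one, h.card_sp sp]
    rw [tq] at a3 dich
    obtain rfl : h₂ = 1 := Nat.eq_of_mul_eq_mul_left (Nat.succ_pos _) (a3.trans (mul_one _).symm)
    refine ⟨sp, by omega, fun x hx => ?_⟩
    obtain ⟨c1, c2⟩ := (dich x hx).resolve_right (by omega)
    obtain ⟨l, hl⟩ := (hC.intr x hx).ne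
    have c3 := sa_h1 hC hs hx hl.1 hl.2
    obtain ⟨E, hE, hpE⟩ : {E | E ∈ Pt P l ∧ Pure C E}.Nonempty := Set.nonempty_of_ncard_ne_zero fun k => by
      rw [k] at c3; omega
    have hE3 := cn_T (hC.sub hl.1) hE
    have c4 := sa_cnt hC.sub hx hE3 (hl.2.trans hE.2.1) hpE
    have c5 : ins (thru C x) E = thru C x := Set.eq_of_subset_of_ncard_le (fun m hm => hm.1)
      (by rw [← cnt_eq, c4, c2, one_mul, cn_th2])
    exact ⟨E, hE3, hl.2.trans hE.2.1, hpE, fun m hm => (c5.symm ▸ hm : m ∈ ins (thru C x) E).2⟩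
  · simp only [j2, cn_th2, Nat.add_one_sub_one, pow_one] at dich a3
    have c1 := Nat.eq_of_mul_eq_mul_left (Nat.succ_pos _) a3
    rcases dich x₀ hx₀ with ⟨-, c2⟩ | c2
    · refine (not_dvd_tt_sub h par ?_).elim
      rw [th_succ', cn_th2, c1] at c2
      have c3 := congrArg (Nat.cast : ℕ → ℤ) c2
      push_cast at c3
      generalize (tt (Nat.card F) q e : ℤ) = t at c3 ⊢
      generalize (Nat.card F : ℤ) = Q at c3 ⊢
      exact ⟨t + (Q * t + 1) * Q - (thru C x₀).ncard, by linear_combination c3⟩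
    · nlinarith
  · have c1 := sa_big h (by omega) hC.sub hs hv hl₀'
    rw [N2 _ hl₀, ← a3] at c1
    have c2 := Nat.le_of_mul_le_mul_left c1 (Nat.succ_pos _)
    have c3 : 1 + h₂ * Nat.card F ≤ h₁ := by rw [a1]; gcongr
    obtain ⟨k, hk⟩ : ∃ k, e / 2 = k + 3 := ⟨e / 2 - 3, by omega⟩
    rw [hk] at dich a3
    rcases dich x₀ hx₀ with ⟨c4, -⟩ | c4
    · have c5 : Nat.card F * Nat.card F ^ (k + 3) ≤ (Nat.card F + 1) * h₂ := by
        rw [a3, th_succ', show k + 3 - 1 = k + 2 by omega]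
        calc Nat.card F * Nat.card F ^ (k + 3) = Nat.card F ^ (k + 2) * (Nat.card F ^ 2 * 1) := by ring
          _ ≤ _ := by
            gcongr
            · omega
            · exact le_add_right (Nat.mul_le_mul (Nat.pow_le_pow_right (by omega) (by omega)) t0)
      exfalso
      generalize Nat.card F ^ (k + 3) = A at c4 c5
      nlinarith
    · have := Nat.le_mul_of_pos_right h₂ (show 0 < Nat.card F by omega)
      omega

end CfsgLib.KP
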