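import Mathlib
import Cfsg.Agent.Lib.KP.Pa
import Cfsg.Agent.Lib.KP.Pe3
import Cfsg.Agent.Lib.KP.Sa

/-! KP: pencils, no pure plane (plans/KP.md, package PE). -/

set_option autoImplicit false
set_option linter.unusedSectionVars false

namespace CfsgLib.KP

open CfsgLib.CK CfsgLib.KL CfsgLib.Forms CfsgLib.RootMax CfsgLib.ClMax CfsgLib.Tech Module

variable {F : Type*} [Field F] [Finite F] {σ : F →+* F} {V : Type*} [AddCommGroup V] [Module F V] [Finite V]
  {P : PQ σ V} {q : ℕ} {K : Subgroup (V ≃ₗ[F] V)} {C : Set (Submodule F V)}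

namespace Pe

open Pa

variable {x l : Submodule F V}

theorem eta_out (hC : C ⊆ T P 2) (hs : ∀ E ∈ T P 3, Void C E ∨ ∃ z, Cen C E z) (hx : x ∈ T P 1)
    (hl : l ∈ T P 2) (lC : l ∉ C) (xl : x ≤ l) : eta P C x l = {E | E ∈ Pt P l ∧ ¬ Void C E}.ncard := by
  have := eta_sum hC hx hl xl
  rw [sm_congr (v := ind {E | ¬ Void C E}) fun E hE => ?_, ind_not lC, sm_ind, Set.inter_comm, zero_add] at this
  · exact_mod_cast this
  by_cases k : Void C E
  · rw [ind_not lC, ind_not (O := {E | ¬ Void C E}) (not_not.2 k), sub_zero, Nat.cast_eq_zero]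
    exact (Set.ncard_eq_zero (Set.toFinite _)).2 (Set.eq_empty_of_forall_notMem fun m j => k m j.1.1 j.2)
  · obtain ⟨z, hz⟩ := (hs E (cn_T hl hE)).resolve_left k
    rw [cen_cnt hC (cn_T hl hE) hx (xl.trans hE.2.1) hz fun e => lC ((hz.2.2 l hl.2 hE.2.1).2 (e ▸ xl)), ind_not lC,
      ind_mem (O := {E | ¬ Void C E}) k]
    simp

theorem eta_in (hC : C ⊆ T P 2) (hs : ∀ E ∈ Pt P l, ∃ z, Cen C E z) (hx : x ∈ T P 1)
    (lC : l ∈ C) (xl : x ≤ l) : eta P C x l = 1 + Nat.card F * {E | E ∈ Pt P l ∧ Full P C x E}.ncard := by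
  have hl := hC lC
  have := eta_sum hC hx hl xl
  rw [sm_congr (v := fun E => Nat.card F * ind {E | Full P C x E} E) fun E hE => ?_, ind_mem lC, in_mul, sm_ind,
    Set.inter_comm] at this
  · exact_mod_cast this
  by_cases k : Full P C x E
  · rw [full_cnt hC (cn_T hl hE) hx (xl.trans hE.2.1) k, ind_mem lC, ind_mem (O := {E | Full P C x E}) k]
    simp
  · obtain ⟨z, hz⟩ := hs E hE
    rw [cen_cnt hC (cn_T hl hE) hx (xl.trans hE.2.1) hz (mt (cen_full hC (cn_T hl hE) hx (xl.trans hE.2.1) hz).2 k),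
      ind_mem lC, ind_not (O := {E | Full P C x E}) k]
    simp

theorem dc (hC : C ⊆ T P 2) (hs : ∀ E ∈ Pt P l, ∃ z, Cen C E z) (lC : l ∈ C) {j : ℕ}
    (hj : ∀ z ∈ T P 1, z ≤ l → {E | E ∈ Pt P l ∧ Full P C z E}.ncard = j) :
    (Nat.card F + 1) * j = (Pt P l).ncard := by
  have hl := hC lC
  have := dc_eq (ins (T P 1) l) (Pt P l) (Full P C) (m := j) (k := 1) (fun z hz => hj z hz.1 hz.2) fun E hE => by
    obtain ⟨z, hz⟩ := hs E hE
    have z1 := T.mono (cn_T hl hE) hz.2.1 hz.1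
    exact Set.ncard_eq_one.2 ⟨z, Set.eq_singleton_iff_unique_mem.2
      ⟨⟨⟨z1, (hz.2.2 l hl.2 hE.2.1).1 lC⟩, (cen_full hC (cn_T hl hE) z1 hz.2.1 hz).2 rfl⟩,
        fun w hw => (cen_full hC (cn_T hl hE) hw.1.1 (hw.1.2.trans hE.2.1) hz).1 hw.2⟩⟩
  rwa [← cnt_eq, cnt_T1 hl, cn_th2, mul_one] at this

end Pe

theorem pe (h : Pol P q) (h6 : 6 ≤ finrank F V) {h₁ h₂ : ℕ} (hC : Cl P C h₁ h₂) (hs : Pencil P C)
    (hn : ∀ E ∈ T P 3, ¬ Pure C E) : False := by
  have hs' : ∀ E ∈ T P 3, Void C E ∨ ∃ z, Cen C E z := fun E hE => (hs E hE).resolve_left (hn E hE)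
  have hQ := h.three_le
  obtain ⟨e, he⟩ : ∃ e, finrank F V = e + 4 := ⟨finrank F V - 4, by omega⟩
  have par : e % 2 = finrank F V % 2 := by omega
  obtain ⟨x, hx⟩ := exists_T (k := 1) h (by omega)
  have i := hC.intr x hx
  obtain ⟨l, lC, xl⟩ := i.ne
  have hl := hC.sub lC
  have dich := intr (d := e + 2) h i (by rw [hx.2]; omega) (by omega)
  rw [in_tt, show (e + 2) / 2 = e / 2 + 1 by omega] at dich
  have N2 : ∀ l ∈ T P 2, (Pt P l).ncard =
      th (Nat.card F) (e / 2) * (Nat.card F ^ (e / 2 - 1) * tt (Nat.card F) q e + 1) := fun l hl => by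
    rw [ncard_Pt h hl, show finrank F V - 2 * 2 = e by omega, np_eq]
  have cen : ∀ E ∈ Pt P l, ∃ z, Cen C E z := fun E hE => (hs' E (cn_T hl hE)).resolve_left fun k => k l lC hE.2.1
  have e1 := fun z hz zl => (hC.eta₁ (x := z) hz lC zl).symm.trans (Pe.eta_in hC.sub cen hz lC zl)
  have ej := fun z hz zl => Nat.eq_of_mul_eq_mul_left (show 0 < Nat.card F by omega)
    (Nat.add_left_cancel ((e1 z hz zl).symm.trans (e1 x hx xl)))
  have e3 := Pe.dc hC.sub cen lC ej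
  have e2 : ∀ m ∈ T P 2, m ∉ C → h₂ = {E | E ∈ Pt P m ∧ ¬ Void C E}.ncard := fun m hm k => by
    obtain ⟨z, hz, -, zm⟩ := exists_mid (j := 1) hm bot_le (by simp) (by omega)
    exact (hC.eta₂ hz hm k zm).symm.trans (Pe.eta_out hC.sub hs' hz hm k zm)
  obtain j1 | j2 | j3 : e / 2 = 1 ∨ e / 2 = 2 ∨ 3 ≤ e / 2 := by omega
  · obtain ⟨l', hl', k⟩ := i.ne'
    have e4 := (e2 l' (cn_T hx hl') fun j => k ⟨j, hl'.2.1⟩).trans_le
      (Set.ncard_le_ncard (t := Pt P l') fun _ j => j.1)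
    rw [N2 _ (cn_T hx hl')] at e4
    rw [N2 _ hl] at e3
    simp only [j1, Nat.sub_self, pow_zero, one_mul, cn_th1, mul_one, pow_one, Nat.add_one_sub_one] at dich e3 e4
    have sp := sp_of_dvd_tt h par ⟨_, e3.symm⟩
    have ev := Nat.even_iff.1 (even_sp h sp)
    have tq : tt (Nat.card F) q e = Nat.card F := by
      rw [tt, par, ev, pow_zero, mul_one, h.card_sp sp]
    rw [tq] at e3 e4 dich
    have e5 := e1 x hx xl
    rw [Nat.eq_of_mul_eq_mul_left (Nat.succ_pos _) (e3.trans (mul_one _).symm), mul_one] at e5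
    obtain ⟨c, -⟩ := dich.resolve_right (by omega)
    obtain rfl : h₂ = 1 := by omega
    obtain rfl : h₁ = q + 1 := by rw [← h.card_sp sp]; omega
    exact pe3 h sp (by omega) hC hs hn
  · rw [N2 _ hl] at e3
    simp only [j2, cn_th2, Nat.add_one_sub_one, pow_one, Nat.reduceAdd, Nat.reduceSub] at dich e3 N2
    have e5 := e1 x hx xl
    rw [Nat.eq_of_mul_eq_mul_left (Nat.succ_pos _) e3] at e5
    rcases dich with ⟨c1, c2⟩ | ⟨c, -⟩
    · refine not_dvd_tt_sub h par ?_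
      rw [th_succ', cn_th2] at c2
      have c3 := congrArg (Nat.cast : ℕ → ℤ) c2
      have c4 := congrArg (Nat.cast : ℕ → ℤ) (c1.symm.trans e5)
      push_cast at c3 c4
      generalize (tt (Nat.card F) q e : ℤ) = t at c3 c4 ⊢
      generalize (Nat.card F : ℤ) = Q at c3 c4 ⊢
      exact ⟨(thru C x).ncard - h₂ * Q - 1 - (Q - 1) * (t - 1), by linear_combination -c3 - c4⟩
    · refine pa h h6 hC hs fun E hE k => ?_
      obtain ⟨m, hm, -, mE⟩ := exists_mid (j := 2) hE bot_le (by simp) (by omega)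
      refine ((Set.eq_of_subset_of_ncard_le (s := {E | E ∈ Pt P m ∧ ¬ Void C E}) (t := Pt P m) (fun _ j => j.1) ?_).ge
        ⟨hE.1, mE, by rw [hE.2, hm.2]⟩).2 k
      rw [← e2 m hm fun j => k m j mE, N2 m hm, ← c, e5]
      exact le_of_eq (by ring)
  · obtain ⟨z, hz⟩ := pe5 h (by omega) hC.sub hs hn lC
    obtain ⟨y, ⟨hy, yl⟩, ne⟩ := Set.exists_ne_of_one_lt_ncard (s := ins (T P 1) l)
      (by rw [← cnt_eq, cnt_T1 hl, cn_th2]; omega) z
    rw [← ej y hy yl, (Set.ncard_eq_zero (Set.toFinite _)).2 (Set.eq_empty_of_forall_notMem fun E k =>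
      ne ((Pa.cen_full hC.sub (cn_T hl k.1) hy (yl.trans k.1.2.1) (hz E k.1)).1 k.2)), ncard_Pt h hl] at e3
    have := np_pos (Nat.card F) q (d := finrank F V - 2 * 2) (by omega)
    omega

end CfsgLib.KP
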