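import Mathlib
import Cfsg.Agent.Lib.KP.Wit
import Cfsg.Agent.Lib.KP.Cnt
import Cfsg.Agent.Lib.KP.Rt

/-! KP: reducible stabilisers, totally singular subspaces (plans/KP.md, package RED1). -/

set_option autoImplicit false
set_option linter.unusedSectionVars false

namespace CfsgLib.KP

open CfsgLib.CK CfsgLib.KL CfsgLib.Forms CfsgLib.RootMax CfsgLib.ClMax CfsgLib.Tech Module

variable {F : Type*} [Field F] [Finite F] {σ : F →+* F} {V : Type*} [AddCommGroup V] [Module F V] [Finite V]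
  {P : PQ σ V} {q : ℕ} {K : Subgroup (V ≃ₗ[F] V)} {C : Set (Submodule F V)}

open MulAction

variable {Ω : Type*} [Finite Ω] [MulAction (G0 P) Ω] {W : Submodule F V}

theorem red_core [IsPreprimitive (G0 P) Ω] (ω : Ω) (fx : ∀ g ∈ stabilizer (G0 P) ω, (g : V ≃ₗ[F] V) • W = W)
    (hne : ∃ g ∈ G0 P, g • W ≠ W) : ∃ φ : Ω → Submodule F V, Function.Injective φ ∧ φ ω = W ∧
      ∀ (g : G0 P) a, φ (g • a) = (g : V ≃ₗ[F] V) • φ a := by
  obtain ⟨a, ha, ha'⟩ := hne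
  have : Nontrivial Ω := ⟨⟨(⟨a, ha⟩ : G0 P) • ω, ω, fun e => ha' (fx ⟨a, ha⟩ e)⟩⟩
  have hK : ∀ g : G0 P, (g : V ≃ₗ[F] V) • W = W → g • ω = ω := fun g hg =>
    ((((IsPreprimitive.isCoatom_stabilizer_of_isPreprimitive (G0 P) ω).ne_top_iff_eq
      (b := (stabilizer (V ≃ₗ[F] V) W).subgroupOf (G0 P)) fun g hg => fx g hg).1
        fun e => ha' (e.ge (Subgroup.mem_top ⟨a, ha⟩))).le hg :)
  choose c hc using exists_smul_eq (G0 P) ω
  have he : ∀ g : G0 P, (c (g • ω) : V ≃ₗ[F] V) • W = (g : V ≃ₗ[F] V) • W := fun g => by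
    have := fx (g⁻¹ * c (g • ω)) (by rw [mem_stabilizer_iff, mul_smul, hc, inv_smul_smul])
    rwa [Subgroup.coe_mul, mul_smul, Subgroup.coe_inv, inv_smul_eq_iff] at this
  refine ⟨fun a => (c a : V ≃ₗ[F] V) • W, fun a b h => ?_, fx _ (hc ω), fun g a => ?_⟩
  · have := hK ((c b)⁻¹ * c a) (by rwa [Subgroup.coe_mul, mul_smul, Subgroup.coe_inv, inv_smul_eq_iff])
    rwa [mul_smul, hc, inv_smul_eq_iff, hc] at this
  · change (c (g • a) : V ≃ₗ[F] V) • W = (g : V ≃ₗ[F] V) • (c a : V ≃ₗ[F] V) • W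
    conv_lhs => rw [← hc a, ← mul_smul, he, Subgroup.coe_mul, mul_smul]

/-- four conjugates of `W` in different positions -/
theorem red_four [IsPreprimitive (G0 P) Ω] (ω : Ω) (h3 : Nat.card (orbitRel.Quotient (stabilizer (G0 P) ω) Ω) = 3)
    (fx : ∀ g ∈ stabilizer (G0 P) ω, (g : V ≃ₗ[F] V) • W = W) {α : Type*} (inv : Submodule F V → α)
    (hi : ∀ g ∈ G0 P, g • W = W → ∀ U, inv (g • U) = inv U) (U : Fin 4 → Submodule F V)
    (hU : ∀ i, ∃ g ∈ G0 P, g • W = U i) (hinj : Function.Injective fun i => inv (U i)) : False := by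
  choose c hc hc' using hU
  obtain ⟨φ, -, h1, h2⟩ := red_core ω fx (by
    by_contra! h
    exact absurd (hinj (a₁ := 0) (a₂ := 1) (by
      change inv (U 0) = inv (U 1)
      rw [← hc', ← hc', h _ (hc 0), h _ (hc 1)])) (by decide))
  have h4 : ∀ i, φ ((⟨c i, hc i⟩ : G0 P) • ω) = U i := fun i => by rw [h2, h1, hc']
  have := Nat.card_le_card_of_injective (fun i : Fin 4 =>
    (Quotient.mk _ ((⟨c i, hc i⟩ : G0 P) • ω) : orbitRel.Quotient (stabilizer (G0 P) ω) Ω)) fun i j h => by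
      obtain ⟨k, hk⟩ := Quotient.exact h
      refine hinj ?_
      change inv (U i) = inv (U j)
      rw [← h4 i, ← hk, ← h4 j]
      change inv (φ ((k : G0 P) • _)) = _
      rw [h2, hi _ (k : G0 P).2 (fx k k.2)]
  rw [h3, Nat.card_eq_fintype_card, Fintype.card_fin] at this
  omega

/-- lowering the intersection with `W` -/
theorem red_step (h : P.Nondeg) (hW : P.TS W) {U : Submodule F V} {k j : ℕ} (hU : U ∈ T P k)
    (h1 : U ⊓ P.perp W ≤ W) (h2 : finrank F ↥(U ⊓ W) = j + 1) :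
    ∃ U' ∈ T P k, U' ⊓ P.perp W ≤ W ∧ finrank F ↥(U' ⊓ W) = j := by
  obtain ⟨x, hx, x0⟩ := Submodule.exists_mem_ne_zero_of_ne_bot (p := U ⊓ W) fun e => by
    rw [e, finrank_bot] at h2
    omega
  obtain ⟨a, ha, -⟩ := P.exists_dual_vec h ⊥ (u := x) (by simpa using x0)
  set H := U ⊓ P.perp (F ∙ a) with hH
  have xH : x ∉ H := fun k => by
    have := (P.mem_perp_span_singleton).1 k.2
    rw [ha] at this
    exact one_ne_zero this
  obtain ⟨y, hy, y1, y2⟩ := P.exists_partner h H (hU.1.1 x hx.1) xH fun v hv => hU.1.B_eq hx.1 hv.1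
  have xy : P.B x y = P.ε := P.B_eq_ε_of_B_eq_one y1
  have key : ∀ Z : Submodule F V, x ∈ Z → finrank F ↥(Z ⊓ P.perp (F ∙ a)) + 1 = finrank F Z := fun Z hZ => by
    have e : Z ⊓ P.perp (F ∙ a) ⊔ F ∙ x = Z := le_antisymm (sup_le inf_le_left ((Submodule.span_singleton_le_iff_mem _ _).2 hZ))
      fun v hv => Submodule.mem_sup.2 ⟨v - P.B a v • x, ⟨Z.sub_mem hv (Z.smul_mem _ hZ),
        (P.mem_perp_span_singleton).2 (by rw [P.B_sub_right, P.B_smul_right, ha, mul_one, sub_self])⟩,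
        P.B a v • x, Submodule.smul_mem _ _ (Submodule.mem_span_singleton_self x), sub_add_cancel _ _⟩
    conv_rhs => rw [← e]
    rw [Submodule.finrank_sup_span_singleton fun k => by
      have := (P.mem_perp_span_singleton).1 k.2
      rw [ha] at this
      exact one_ne_zero this]
  have yH : y ∉ H := fun k => P.ε_ne (xy ▸ hU.1.B_eq hx.1 k.1)
  have e : (H ⊔ F ∙ y) ⊓ P.perp W ≤ H := fun v hv => by
    obtain ⟨u, hu, z, hz, rfl⟩ := Submodule.mem_sup.1 hv.1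
    obtain ⟨t, rfl⟩ := Submodule.mem_span_singleton.1 hz
    have := hv.2 x hx.2
    rw [P.B_add_right, P.B_smul_right, hU.1.B_eq hx.1 hu.1, zero_add, xy] at this
    rwa [(mul_eq_zero.1 this).resolve_right P.ε_ne, zero_smul, add_zero]
  refine ⟨H ⊔ F ∙ y, ⟨(hU.1.mono inf_le_left).sup (P.ts_span_singleton hy)
    ((Submodule.span_singleton_le_iff_mem _ _).2 ((P.mem_perp').2 y2)), ?_⟩,
    fun v hv => h1 ⟨(e hv).1, hv.2⟩, ?_⟩
  · rw [Submodule.finrank_sup_span_singleton yH, key U hx.1, hU.2]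
  · have := key (U ⊓ W) hx
    rw [show (H ⊔ F ∙ y) ⊓ W = U ⊓ W ⊓ P.perp (F ∙ a) from le_antisymm
      (fun v hv => ⟨⟨(e ⟨hv.1, hW.2 hv.2⟩).1, hv.2⟩, (e ⟨hv.1, hW.2 hv.2⟩).2⟩)
      fun v hv => ⟨Submodule.mem_sup_left ⟨hv.1.1, hv.2⟩, hv.1.2⟩]
    omega

theorem red_low (h : P.Nondeg) (hW : P.TS W) (i : ℕ) : ∀ j, j + i = finrank F W →
    ∃ U ∈ T P (finrank F W), U ⊓ P.perp W ≤ W ∧ finrank F ↥(U ⊓ W) = j := by
  induction i with
  | zero => exact fun j hj => ⟨W, ⟨hW, rfl⟩, inf_le_left, by rw [inf_idem, ← hj, add_zero]⟩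
  | succ i ih =>
    intro j hj
    obtain ⟨U, hU, h1, h2⟩ := ih (j + 1) (by omega)
    exact red_step h hW hU h1 h2

theorem red_ts (h : Pol P q) (h6 : 6 ≤ finrank F V) [IsPreprimitive (G0 P) Ω] (ω : Ω)
    (h3 : Nat.card (orbitRel.Quotient (stabilizer (G0 P) ω) Ω) = 3) (hW : P.TS W) (h0 : W ≠ ⊥)
    (fx : ∀ g ∈ stabilizer (G0 P) ω, (g : V ≃ₗ[F] V) • W = W) :
    Nat.card Ω = np (Nat.card F) q (finrank F V) := by
  classical
  have k0 : finrank F W ≠ 0 := fun e => h0 (Submodule.finrank_eq_zero.1 e)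
  by_cases k1 : finrank F W = 1
  · obtain ⟨φ, h1, h2, h4⟩ := red_core ω fx (by
      obtain ⟨k, hk, hk'⟩ := exists_not_mem_stab_ts h.nd (allFull_isom_inf_SLV P) (Or.inr (by omega)) hW h0
      exact ⟨k, hk, fun e => hk' ⟨mem_stabV_iff_map.2 e, hk⟩⟩)
    rw [← ncard_T1 h, ← Nat.card_range_of_injective h1, Nat.card_coe_set_eq]
    congr 1
    refine Set.ext fun U => ⟨?_, fun hU => ?_⟩
    · rintro ⟨a, rfl⟩
      obtain ⟨g, rfl⟩ := exists_smul_eq (G0 P) ω a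
      rw [h4, h2]
      exact (smul_T (G0_le P g.2)).2 ⟨hW, k1⟩
    · obtain ⟨g, hg, e⟩ := tr_T h 1 W ⟨hW, k1⟩ U hU
      exact ⟨(⟨g, hg⟩ : G0 P) • ω, by rw [h4, h2, e]⟩
  · have hex : ∀ i : Fin 4, ∃ U ∈ T P (finrank F W),
        (if U ⊓ P.perp W ≤ W then finrank F ↥(U ⊓ W) else 3) = i := fun i => by
      by_cases hi : (i : ℕ) ≤ finrank F W
      · obtain ⟨U, hU, h1, h2⟩ := red_low h.nd hW (finrank F W - i) i (by omega)
        exact ⟨U, hU, by rw [if_pos h1, h2]⟩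
      · have hi' := i.2
        obtain ⟨E, hE, h1⟩ := exists_ext h (k := 3) ⟨hW, rfl⟩ (by omega) (by omega)
        obtain ⟨x, hx, hx'⟩ := SetLike.not_le_iff_exists.1 (fun e : E ≤ W => by
          have := Submodule.finrank_mono e
          rw [hE.2] at this
          omega)
        obtain ⟨U, hU, h2, h4⟩ := exists_mid (j := finrank F W) hE ((Submodule.span_singleton_le_iff_mem x E).2 hx)
          (by rw [finrank_span_singleton fun e : x = 0 => hx' (e ▸ W.zero_mem)]; omega) (by omega)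
        have h5 := h2 (Submodule.mem_span_singleton_self x)
        exact ⟨U, hU, by rw [if_neg fun e => hx' (e ⟨h5, P.perp_anti h1 (hE.1.2 hx)⟩)]; omega⟩
    choose U hU hU' using hex
    refine (red_four ω h3 fx (fun U => if U ⊓ P.perp W ≤ W then finrank F ↥(U ⊓ W) else 3) (fun g hg e U => ?_) U
      (fun i => tr_T h _ W ⟨hW, rfl⟩ _ (hU i)) fun i j e => Fin.ext (by rw [← hU', ← hU']; exact e)).elim
    conv_lhs => rw [← e, ← smul_perp (G0_le P hg), ← smul_inf'', ← smul_inf'', smul_le, finrank_smul]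

/-- the root group of a point -/
def rootG (P : PQ σ V) {x : V} (hx : P.B x x = 0) : Subgroup (G0 P) where
  carrier := {g | ∃ a c, P.B x a = 0 ∧ ∀ v, g.1 v = rt P x a c v}
  mul_mem' := by
    rintro g g' ⟨a, c, ha, e⟩ ⟨a', c', ha', e'⟩
    exact ⟨a + a', _, by rw [P.B_add_right, ha, ha', add_zero], fun v => by
      rw [Subgroup.coe_mul, LinearEquiv.mul_apply, e', e, rt_rt P hx ha ha']⟩
  one_mem' := ⟨0, 0, by simp, fun v => by simp [rt]⟩
  inv_mem' := by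
    rintro g ⟨a, c, ha, e⟩
    refine ⟨-a, P.ε * P.B a a - c, by simp [ha], fun v => g.1.injective ?_⟩
    rw [← LinearEquiv.mul_apply, ← Subgroup.coe_mul, mul_inv_cancel, e, rt_rt P hx ha (by simp [ha])]
    simp [rt]

theorem rootG_pow {x a : V} {c : F} (hx : P.B x x = 0) (ha : P.B x a = 0) {g : V ≃ₗ[F] V}
    (e : ∀ v, g v = rt P x a c v) (n : ℕ) :
    ∃ c', (a = 0 → c' = n * c) ∧ ∀ v, (g ^ n) v = rt P x ((n : F) • a) c' v := by
  induction n with
  | zero => exact ⟨0, by simp, fun v => by simp [rt]⟩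
  | succ n ih =>
    obtain ⟨c', h1, h2⟩ := ih
    refine ⟨c' + c + P.ε * P.B ((n : F) • a) a, fun h0 => by simp [h0, h1 h0, add_mul], fun v => ?_⟩
    rw [pow_succ, LinearEquiv.mul_apply, e, h2, rt_rt P hx (by simp [ha]) ha, Nat.cast_succ, add_smul, one_smul]

theorem rootG_p {p : ℕ} [CharP F p] {x : V} (hx : P.B x x = 0) : IsPGroup p (rootG P hx) := by
  rintro ⟨g, a, c, ha, e⟩
  obtain ⟨c', -, h1⟩ := rootG_pow hx ha e p
  rw [CharP.cast_eq_zero, zero_smul] at h1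
  obtain ⟨c'', h2, h3⟩ := rootG_pow hx (by simp) h1 p
  refine ⟨2, Subtype.ext (Subtype.ext (LinearEquiv.ext fun v => ?_))⟩
  rw [← pow_mul, ← sq, h2 rfl, CharP.cast_eq_zero] at h3
  simpa [rt] using h3 v

theorem red0 {p : ℕ} [Fact p.Prime] [CharP F p] (h : Pol P q) (h6 : 6 ≤ finrank F V) [IsPretransitive (G0 P) Ω]
    [Nontrivial Ω] (hp : ¬ p ∣ Nat.card Ω) (ω : Ω) : ∃ W : Submodule F V, P.TS W ∧ W ≠ ⊥ ∧
      ∀ g ∈ stabilizer (G0 P) ω, (g : V ≃ₗ[F] V) • W = W := by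
  obtain ⟨x, -, hx, x0⟩ := exists_sing h (cn_nd_top h.nd) (by rw [finrank_top]; omega)
  obtain ⟨ω', hω⟩ := (rootG_p (p := p) hx.self_eq).nonempty_fixed_point_of_prime_not_dvd_card Ω hp
  set X := (stabilizer (G0 P) ω').map (G0 P).subtype with hX
  have le : X ≤ P.isom := (Subgroup.map_subtype_le _).trans (G0_le P)
  have full : Full P X x := fun a ha => ⟨ha, fun c hc => by
    obtain ⟨g, hg, e⟩ := (allFull_isom_inf_SLV P).rt hx ha hc
    exact ⟨g, ⟨⟨g, hg⟩, hω ⟨⟨g, hg⟩, a, c, ha, e⟩, rfl⟩, e⟩⟩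
  set W := Submodule.span F {y | P.Sing y ∧ Full P X y} with hW
  have ts : P.TS W := P.ts_span (fun y hy => hy.1) fun y hy z hz => by
    by_contra hn
    obtain ⟨a, ha⟩ := exists_ne ω'
    obtain ⟨g, rfl⟩ := exists_smul_eq (G0 P) ω' a
    obtain ⟨k, hk, e⟩ := (rootGroup h (by omega)).gen X le (allFull_of_two h.nd le hy.1 hz.1 hy.2 hz.2 hn) g.2
    exact ha (Subtype.ext e ▸ hk)
  have fx : ∀ g ∈ stabilizer (G0 P) ω', (g : V ≃ₗ[F] V) • W = W := fun g hg => smul_eq_of_le fun v hv => by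
    have : W ≤ W.comap ((g : V ≃ₗ[F] V) : V →ₗ[F] V) := Submodule.span_le.2 fun y hy => Submodule.subset_span
      ⟨(PQ.IsIso.sing (G0_le P g.2)).2 hy.1, hy.2.conj ⟨g, hg, rfl⟩ (G0_le P g.2)⟩
    exact this hv
  obtain ⟨k, rfl⟩ := exists_smul_eq (G0 P) ω' ω
  refine ⟨(k : V ≃ₗ[F] V) • W, (ts_smul (G0_le P k.2)).2 ts, fun e => x0 ?_, fun g hg => ?_⟩
  · rw [← smul_bot'' (k : V ≃ₗ[F] V), smul_left_cancel_iff] at e
    exact (Submodule.mem_bot F).1 (e ▸ Submodule.subset_span ⟨hx, full⟩)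
  · have := fx (k⁻¹ * g * k) (by
      rw [mem_stabilizer_iff, mul_smul, mul_smul, mem_stabilizer_iff.1 hg, inv_smul_smul])
    rwa [Subgroup.coe_mul, Subgroup.coe_mul, mul_smul, mul_smul, Subgroup.coe_inv, inv_smul_eq_iff] at this

end CfsgLib.KP
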