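import Mathlib
import Cfsg.Agent.Lib.KP.Red1

/-! KP: reducible stabilisers, non-degenerate subspaces (plans/KP.md, package RED2). -/

set_option autoImplicit false
set_option linter.unusedSectionVars false

namespace CfsgLib.KP

open CfsgLib.CK CfsgLib.KL CfsgLib.Forms CfsgLib.RootMax CfsgLib.ClMax CfsgLib.Tech Module

variable {F : Type*} [Field F] [Finite F] {σ : F →+* F} {V : Type*} [AddCommGroup V] [Module F V] [Finite V]
  {P : PQ σ V} {q : ℕ} {K : Subgroup (V ≃ₗ[F] V)} {C : Set (Submodule F V)}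

open MulAction

theorem r2_zero {W : Submodule F V} (hW : ND P W) {w : V} (h1 : w ∈ W) (h2 : w ∈ P.perp W) : w = 0 :=
  (Submodule.disjoint_def.1 hW) w h1 h2

theorem r2_pair (h : Pol P q) {W : Submodule F V} (hW : ND P W) (h2 : 2 ≤ finrank F W) :
    ∃ e ∈ W, ∃ f ∈ W, P.B e e = 0 ∧ P.B f f = 0 ∧ P.B f e = 1 := by
  obtain ⟨e, f, h1, h2, h3, h4, h5⟩ := exists_hyp (k := 1) h hW h2
  exact ⟨e 0, h1 0, f 0, h2 0, h3 0 0, h4 0 0, by simpa using h5 0 0⟩

/-- an isometric image of `W` is a conjugate -/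
theorem r2_move (h : Pol P q) {W : Submodule F V} (hW : ND P W) {e f : V} (he : P.B e e = 0) (hf : P.B f f = 0)
    (hfe : P.B f e = 1) (h1 : e ∈ W ∧ f ∈ W ∨ e ∈ P.perp W ∧ f ∈ P.perp W) (φ : V →ₗ[F] V)
    (hφ : ∀ v ∈ W, ∀ w ∈ W, P.B (φ v) (φ w) = P.B v w) : ∃ g ∈ G0 P, g • W = W.map φ := by
  obtain ⟨g, hg, e1⟩ := P.witt h.nd W (φ.domRestrict W) ((injective_iff_map_eq_zero _).2 fun v hv =>
    Subtype.ext (r2_zero hW v.2 fun w hw => by rw [← hφ w hw v v.2, show φ v = 0 from hv, map_zero]))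
    (fun v w => hφ v v.2 w w.2) fun v => h.mx _ (by
      have := hφ v v.2 v v.2
      rw [P.self, P.self] at this
      rw [map_sub, LinearMap.domRestrict_apply]
      linear_combination this)
  obtain ⟨g', h2, h3⟩ := det_pair h (g := g) hg (h.sing_iff.2 he) (h.sing_iff.2 hf) hfe
  refine ⟨g', h2, (h3 W (h1.imp And.left fun k => P.mem_perp'.1 k.2) (h1.imp And.right fun k => P.mem_perp'.1 k.1)).trans ?_⟩
  ext v
  exact ⟨fun ⟨w, hw, e⟩ => ⟨w, hw, (e1 ⟨w, hw⟩).symm.trans e⟩, fun ⟨w, hw, e⟩ => ⟨w, hw, (e1 ⟨w, hw⟩).trans e⟩⟩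

section
variable {Ω : Type*} [Finite Ω] [MulAction (G0 P) Ω] [IsPreprimitive (G0 P) Ω] (ω : Ω)
  (h3 : Nat.card (orbitRel.Quotient (stabilizer (G0 P) ω) Ω) = 3) {W : Submodule F V}
  (fx : ∀ g ∈ stabilizer (G0 P) ω, (g : V ≃ₗ[F] V) • W = W)
include h3 fx

theorem r2_four (p₁ p₂ : Submodule F V → Prop) (i₁ : ∀ g ∈ G0 P, g • W = W → ∀ U, p₁ U → p₁ (g • U))
    (i₂ : ∀ g ∈ G0 P, g • W = W → ∀ U, p₂ U → p₂ (g • U)) {U₁ U₂ U₃ : Submodule F V}
    (c₁ : ∃ g ∈ G0 P, g • W = U₁) (c₂ : ∃ g ∈ G0 P, g • W = U₂) (c₃ : ∃ g ∈ G0 P, g • W = U₃)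
    (n₁ : U₁ ≠ W) (n₂ : U₂ ≠ W) (n₃ : U₃ ≠ W) (a₁ : p₁ U₁) (a₂ : ¬ p₁ U₂) (a₃ : p₁ U₃) (b₁ : p₂ U₁)
    (b₃ : ¬ p₂ U₃) : False := by
  have key : ∀ p : Submodule F V → Prop, (∀ g ∈ G0 P, g • W = W → ∀ U, p U → p (g • U)) →
      ∀ g ∈ G0 P, g • W = W → ∀ U, p (g • U) = p U := fun p i g hg e U =>
    propext ⟨fun k => by simpa using i g⁻¹ (inv_mem hg) (inv_smul_eq_iff.2 e.symm) _ k, i g hg e U⟩
  refine red_four ω h3 fx (fun U => (U = W, p₁ U, p₂ U)) (fun g hg e U => ?_) ![W, U₁, U₂, U₃] (fun i => ?_)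
    fun i j => ?_
  · rw [key _ i₁ g hg e, key _ i₂ g hg e, key (· = W) (fun g _ e U k => by rw [k, e]) g hg e]
  · fin_cases i
    exacts [⟨1, one_mem _, one_smul _ _⟩, c₁, c₂, c₃]
  · fin_cases i <;> fin_cases j <;> simp [*]

theorem r2_big (h : Pol P q) (hW : ND P W) (d1 : 2 ≤ finrank F W) (d2 : 2 ≤ finrank F (P.perp W)) : False := by
  obtain ⟨e, he, f, hf, ee, ff, fe⟩ := r2_pair h hW d1
  obtain ⟨e', he', f', hf', ee', ff', fe'⟩ := r2_pair h (hW.perp h.nd) d2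
  have o1 : ∀ w ∈ W, ∀ u ∈ P.perp W, P.B w u = 0 := fun w hw u hu => hu w hw
  have o2 : ∀ w ∈ W, ∀ u ∈ P.perp W, P.B u w = 0 := fun w hw u hu => P.mem_perp'.1 hu w hw
  have ef := P.B_eq_ε_of_B_eq_one fe
  have ef' := P.B_eq_ε_of_B_eq_one fe'
  have εε := P.εε
  -- the map `e ↦ a e + e'`, `f ↦ μ f + ν f'`
  let φ : F → F → F → V →ₗ[F] V := fun a μ ν => LinearMap.id + (P.B f).smulRight ((a - 1) • e + e') +
    (P.ε • P.B e).smulRight ((μ - 1) • f + ν • f')
  have hφ : ∀ a μ ν w, φ a μ ν w = (w + (P.B f w * (a - 1)) • e + (P.ε * P.B e w * (μ - 1)) • f) +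
      (P.B f w • e' + (P.ε * P.B e w * ν) • f') := fun a μ ν w => by
    simp only [φ, LinearMap.add_apply, LinearMap.id_apply, LinearMap.smulRight_apply, LinearMap.smul_apply,
      smul_eq_mul]
    module
  have m1 : ∀ (s t : F), ∀ w ∈ W, w + s • e + t • f ∈ W := fun s t w hw =>
    add_mem (add_mem hw (W.smul_mem _ he)) (W.smul_mem _ hf)
  have m2 : ∀ s t : F, s • e' + t • f' ∈ P.perp W := fun s t =>
    add_mem (Submodule.smul_mem _ _ he') (Submodule.smul_mem _ _ hf')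
  have mv : ∀ a μ ν : F, σ μ * a + σ ν = 1 → ∃ g ∈ G0 P, g • W = W.map (φ a μ ν) := fun a μ ν k =>
    r2_move h hW ee ff fe (.inl ⟨he, hf⟩) _ fun v hv w hw => by
      have k' : μ * σ a + ν = 1 := by simpa [P.σσ] using congrArg σ k
      rw [hφ, hφ, P.B_add_left, P.B_add_right, P.B_add_right _ _ (_ + _), o1 _ (m1 _ _ _ hv) _ (m2 _ _),
        o2 _ (m1 _ _ _ hw) _ (m2 _ _)]
      simp only [P.B_add_left, P.B_add_right, P.B_smul_left, P.B_smul_right, ee, ff, fe, ef, ee', ff', fe', ef',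
        map_mul, map_sub, map_one, P.σε, P.symm e v, P.symm f v]
      linear_combination (σ (P.B e v) * P.B f w * P.ε) * k + (σ (P.B f v) * P.B e w * (P.ε * P.ε)) * k' +
        (σ (P.B f v) * P.B e w * (σ a - 1)) * (-εε)
  have ne : ∀ a μ ν, W.map (φ a μ ν) ≠ W := fun a μ ν k => by
    have := o2 _ (k.le ⟨e, he, rfl⟩) _ hf'
    rw [hφ, P.B_add_right, o2 _ (m1 _ _ _ he) _ hf'] at this
    simp [fe, fe', ff'] at this
  have dj : ∀ μ ν, μ ≠ 0 → Disjoint (W.map (φ 1 μ ν)) (P.perp W) := fun μ ν k => Submodule.disjoint_def.2 (by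
    rintro _ ⟨w, hw, rfl⟩ h1
    rw [hφ, Submodule.add_mem_iff_left _ (m2 _ _)] at h1
    have h2 := r2_zero hW (m1 _ _ _ hw) h1
    have h4 := congrArg (P.B e) h2
    simp only [P.B_add_right, P.B_smul_right, ee, ef, map_zero] at h4
    have h5 : P.B e w = 0 := (mul_eq_zero.1 (by linear_combination h4 - P.B e w * (μ - 1) * εε)).resolve_left k
    rw [show w = 0 by simpa [h5] using h2, map_zero])
  obtain ⟨ν, n0, n1⟩ : ∃ ν : F, ν ≠ 0 ∧ ν ≠ 1 := by
    classical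
    by_contra! k
    have := Fintype.ofFinite F
    have h4 := (Finset.card_le_card (s := Finset.univ) (t := {(0 : F), 1}) fun b _ => by
      rw [Finset.mem_insert, Finset.mem_singleton]
      exact or_iff_not_imp_left.2 (k b)).trans Finset.card_le_two
    have := h.three_le
    rw [Finset.card_univ, ← Nat.card_eq_fintype_card] at h4
    omega
  refine r2_four ω h3 fx (fun U => Disjoint U (P.perp W)) (fun U => ∃ v, W ≤ U ⊔ F ∙ v) (fun g hg k U a => ?_)
    (fun g hg k U ⟨v, a⟩ => ⟨g v, ?_⟩) (mv 1 1 0 (by simp)) (mv 0 0 1 (by simp)) (mv 1 (1 - ν) ν (by simp))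
    (ne _ _ _) (ne _ _ _) (ne _ _ _) (dj _ _ one_ne_zero) (fun k => ?_) (dj _ _ (sub_ne_zero.2 n1.symm))
    ⟨e', fun w hw => ?_⟩ fun ⟨v, k⟩ => ?_
  · rw [disjoint_iff, ← k, ← smul_perp (G0_le P hg), ← smul_inf'', a.eq_bot, smul_bot'']
  · rw [← smul_span, ← smul_sup', ← k, smul_le]
    exact a
  · have := Submodule.disjoint_def.1 k _ ⟨e, he, rfl⟩ (by
      rw [hφ]
      exact add_mem (by simp [fe, ee]) (m2 _ _))
    have := congrArg (P.B f') this
    rw [hφ, P.B_add_right, o2 _ (m1 _ _ _ he) _ hf'] at this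
    simp [fe, fe', ff'] at this
  · refine Submodule.mem_sup.2 ⟨_, ⟨w, hw, rfl⟩, (-P.B f w) • e',
      Submodule.smul_mem _ _ (Submodule.mem_span_singleton_self _), ?_⟩
    rw [hφ]
    simp
  · have key : ∀ u ∈ W.map (φ 1 (1 - ν) ν), u ∈ W → P.B f u = 0 ∧ P.B e u = 0 := by
      rintro _ ⟨w, hw, rfl⟩ h1
      have h2 := o2 _ h1 _ hf'
      have h4 := o2 _ h1 _ he'
      rw [hφ, P.B_add_right, o2 _ (m1 _ _ _ hw) _ ‹_›] at h2 h4
      simp only [P.B_add_right, P.B_smul_right, ee', ff', fe', ef'] at h2 h4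
      have h5 : P.B f w = 0 := by linear_combination h2
      have h6 : P.B e w = 0 := (mul_eq_zero.1 (by linear_combination h4 - P.B e w * ν * εε)).resolve_left n0
      rw [hφ]
      simp [h5, h6]
    obtain ⟨u, hu, _, k1, e1⟩ := Submodule.mem_sup.1 (k he)
    obtain ⟨u', hu', _, k2, e2⟩ := Submodule.mem_sup.1 (k hf)
    obtain ⟨s, rfl⟩ := Submodule.mem_span_singleton.1 k1
    obtain ⟨t, rfl⟩ := Submodule.mem_span_singleton.1 k2
    have e3 : t • u - s • u' = t • e - s • f := by rw [← e1, ← e2]; module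
    have := (key _ (sub_mem (Submodule.smul_mem _ t hu) (Submodule.smul_mem _ s hu'))
      (e3 ▸ sub_mem (W.smul_mem _ he) (W.smul_mem _ hf))).2
    rw [e3, P.B_sub_right, P.B_smul_right, P.B_smul_right, ee, ef] at this
    obtain rfl : s = 0 := by simpa [P.ε_ne] using this
    obtain rfl : u = e := by simpa using e1
    exact one_ne_zero (fe.symm.trans (key _ hu he).1)

theorem r2_one (h : Pol P q) (hW : ND P W) (d1 : finrank F W = 1) (d2 : 2 ≤ finrank F (P.perp W)) : False := by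
  obtain ⟨e, he, f, hf, ee, ff, fe⟩ := r2_pair h (hW.perp h.nd) d2
  obtain ⟨⟨a, ha⟩, a0, a1⟩ := finrank_eq_one_iff'.1 d1
  obtain rfl : W = F ∙ a := le_antisymm (fun w hw => Submodule.mem_span_singleton.2
    ((a1 ⟨w, hw⟩).imp fun _ k => congrArg Subtype.val k)) ((Submodule.span_singleton_le_iff_mem _ _).2 ha)
  have aa : P.B a a ≠ 0 := fun k => a0 (Subtype.ext (r2_zero hW ha (P.mem_perp_span_singleton.2 k)))
  have H := herm_of_not_sing h (a := a) (h.sing_iff.not.2 aa)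
  have ae := P.mem_perp_span_singleton.1 he
  have af := P.mem_perp_span_singleton.1 hf
  have ea := P.B_eq_zero_comm.1 ae
  have fa := P.B_eq_zero_comm.1 af
  have ef : P.B e f = 1 := by rw [← H.conj, fe, map_one]
  obtain ⟨θ, hθ⟩ := H.exists_trace_one
  have hA := H.conj a a
  let b : F → V := fun l => l • a + e + (θ * ((1 - σ l * l) * P.B a a)) • f
  have ab : ∀ l, P.B a (b l) = l * P.B a a := fun l => by simp [b, ae, af]
  have ba : ∀ l, P.B (b l) a = σ l * P.B a a := fun l => by rw [← H.conj, ab, map_mul, hA]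
  have bb : ∀ l, P.B (b l) (b l) = P.B a a := fun l => by
    simp only [b, P.B_add_left, P.B_add_right, P.B_smul_left, P.B_smul_right, ee, ff, fe, ef, ae, af, ea, fa,
      map_mul, map_sub, map_one, P.σσ, hA]
    linear_combination ((1 - σ l * l) * P.B a a) * hθ
  have mv : ∀ l, ∃ g ∈ G0 P, g • (F ∙ a) = F ∙ b l := fun l => by
    have e1 : (((P.B a a)⁻¹ • P.B a).smulRight (b l)) a = b l := by simp [aa]
    obtain ⟨g, hg, k⟩ := r2_move h hW ee ff fe (.inr ⟨he, hf⟩) (((P.B a a)⁻¹ • P.B a).smulRight (b l))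
      fun v hv w hw => by
        obtain ⟨s, rfl⟩ := Submodule.mem_span_singleton.1 hv
        obtain ⟨t, rfl⟩ := Submodule.mem_span_singleton.1 hw
        rw [map_smul _ s a, map_smul _ t a, e1, P.B_smul_left, P.B_smul_right, P.B_smul_left, P.B_smul_right, bb]
    exact ⟨g, hg, by rw [k, Submodule.map_span, Set.image_singleton, e1]⟩
  have ne : ∀ l, (F ∙ b l) ≠ F ∙ a := fun l k => by
    have := P.mem_perp'.1 hf _ (k.le (Submodule.mem_span_singleton_self _))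
    simp [b, fa, fe, ff] at this
  have p1 : ∀ l, (F ∙ b l) ≤ P.perp (F ∙ a) ↔ l = 0 := fun l => by
    rw [Submodule.span_singleton_le_iff_mem, P.mem_perp_span_singleton, ab, mul_eq_zero, or_iff_left aa]
  obtain ⟨l, l0, l1⟩ : ∃ l : F, l ≠ 0 ∧ σ l * l ≠ 1 := by
    have h4 := h.cq ▸ h.three
    have := Fintype.ofFinite P.Λ
    rw [Nat.card_eq_fintype_card] at h4
    obtain ⟨δ, d0⟩ := Fintype.exists_ne_of_one_lt_card (by omega) (0 : P.Λ)
    obtain ⟨δ', d3, d4⟩ : ∃ δ' : P.Λ, δ' ≠ 0 ∧ δ' ≠ δ := by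
      classical
      by_contra! k
      have := (Finset.card_le_card (s := Finset.univ) (t := {0, δ}) fun b _ => by
        rw [Finset.mem_insert, Finset.mem_singleton]
        exact or_iff_not_imp_left.2 (k b)).trans Finset.card_le_two
      rw [Finset.card_univ] at this
      omega
    have d5 : (δ : F) ≠ 0 := fun k => d0 (Subtype.ext k)
    obtain ⟨l, hl⟩ := H.norm_surj ((δ' : F) / δ) (by
      rw [map_div₀, eq_neg_of_add_eq_zero_right ((H.mem_Λ _).1 δ.2),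
        eq_neg_of_add_eq_zero_right ((H.mem_Λ _).1 δ'.2), neg_div_neg_eq])
    refine ⟨l, fun k => d3 (Subtype.ext ?_), fun k => d4 (Subtype.ext ?_)⟩
    · simpa [k, d5] using hl.symm
    · exact (div_eq_one_iff_eq d5).1 (hl.symm.trans k)
  refine r2_four ω h3 fx (fun U => ¬ U ≤ P.perp (F ∙ a))
    (fun U => ∀ w ∈ F ∙ a, ∀ u ∈ U, P.B w u * P.B u w = P.B w w * P.B u u) (fun g hg k U c => ?_)
    (fun g hg k U c w hw _ ⟨u, hu, e⟩ => ?_) (mv 1) (mv 0) (mv l) (ne _) (ne _) (ne _) (by simp [p1])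
    (by simp [p1]) (by simpa [p1]) (fun w hw u hu => ?_) fun k => l1 ?_
  · rwa [← k, smul_le_perp (G0_le P hg)]
  · obtain ⟨w, hw', rfl⟩ := k.ge hw
    simp only [← e, LinearEquiv.coe_coe, (G0_le P hg).B_eq]
    exact c w hw' u hu
  · obtain ⟨s, rfl⟩ := Submodule.mem_span_singleton.1 hw
    obtain ⟨t, rfl⟩ := Submodule.mem_span_singleton.1 hu
    simp only [P.B_smul_left, P.B_smul_right, ab, ba, bb, map_one]
    ring
  · have := k a (Submodule.mem_span_singleton_self _) _ (Submodule.mem_span_singleton_self _)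
    rw [ab, ba, bb] at this
    exact mul_right_cancel₀ (mul_ne_zero aa aa) (by linear_combination this)

end

theorem red_nd {Ω : Type*} [Finite Ω] [MulAction (G0 P) Ω] (h : Pol P q) (h6 : 6 ≤ finrank F V)
    [IsPreprimitive (G0 P) Ω] (ω : Ω) (h3 : Nat.card (orbitRel.Quotient (stabilizer (G0 P) ω) Ω) = 3)
    {W : Submodule F V} (hW : ND P W) (h0 : W ≠ ⊥) (h1 : W ≠ ⊤)
    (fx : ∀ g ∈ stabilizer (G0 P) ω, (g : V ≃ₗ[F] V) • W = W) : False := by
  have key : ∀ W : Submodule F V, ND P W → W ≠ ⊥ → 2 ≤ finrank F (P.perp W) →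
      (∀ g ∈ stabilizer (G0 P) ω, (g : V ≃ₗ[F] V) • W = W) → False := fun W hW h0 d2 fx => by
    rcases (Submodule.one_le_finrank_iff.2 h0).eq_or_lt with d1 | d1
    · exact r2_one ω h3 fx h hW d1.symm d2
    · exact r2_big ω h3 fx h hW d1 d2
  have := P.finrank_perp h.nd W
  by_cases d2 : 2 ≤ finrank F (P.perp W)
  · exact key W hW h0 d2 fx
  · refine key _ (hW.perp h.nd) (fun e => h1 ?_) (by rw [P.perp_perp h.nd]; omega) fun g hg => ?_
    · rw [← P.perp_perp h.nd W, e, P.perp_bot]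
    · rw [smul_perp (G0_le P g.2), fx g hg]

end CfsgLib.KP
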