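import Mathlib
import Cfsg.Agent.Lib.KP.Syl

/-! KP: no spread of planes (plans/KP.md, package SPL). -/

set_option autoImplicit false
set_option linter.unusedSectionVars false

namespace CfsgLib.KP

open CfsgLib.CK CfsgLib.KL CfsgLib.Forms CfsgLib.RootMax CfsgLib.ClMax CfsgLib.Tech Module

variable {F : Type*} [Field F] [Finite F] {σ : F →+* F} {V : Type*} [AddCommGroup V] [Module F V] [Finite V]
  {P : PQ σ V} {q : ℕ} {K : Subgroup (V ≃ₗ[F] V)} {C : Set (Submodule F V)}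

/-- a pure plane through `y` is the plane of the spread -/
theorem spl_eq {y E E' : Submodule F V} (hy : y ∈ T P 1) (hE : E ∈ T P 3) (h1 : y ≤ E)
    (h2 : ∀ l ∈ thru C y, l ≤ E) (hE' : E' ∈ T P 3) (h3 : y ≤ E') (h4 : Pure C E') : E' = E := by
  refine T.eq_of_le hE' hE fun v hv => ?_
  by_cases hvy : v ∈ y
  · exact h1 hvy
  have hp := sup_mem_Pt hy.1 (hE'.1.1 v hv) (T.le_perp hE' le_rfl h3 hv) hvy
  have hle : y ⊔ F ∙ v ≤ E' := sup_le h3 ((Submodule.span_singleton_le_iff_mem _ _).2 hv)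
  exact h2 _ ⟨h4 _ (by rw [hp.2.2, hy.2]) hle, le_sup_left⟩
    (Submodule.mem_sup_right (Submodule.mem_span_singleton_self v))

theorem spl_pure (inv : Inv K C) {g : V ≃ₗ[F] V} (hg : g ∈ K) {E : Submodule F V} (h : Pure C E) :
    Pure C (g • E) := fun l h1 h2 => by
  have := h (g⁻¹ • l) (by rw [finrank_smul, h1]) ((smul_le g).1 (by rwa [smul_inv_smul]))
  exact (inv_iff inv (inv_mem hg)).1 this

theorem spl_half (h : P.Nondeg) {U W : Submodule F V} (hW : ND P W) (hU : P.TS U) :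
    2 * finrank F ↥(U ⊓ W) ≤ finrank F W := by
  have e := finrank_pair h (U ⊓ W) W
  have e1 : U ⊓ W ⊓ P.perp W = ⊥ := eq_bot_iff.2 ((inf_le_inf_right _ inf_le_right).trans hW.le_bot)
  have e2 : finrank F ↥(U ⊓ W) ≤ finrank F ↥(W ⊓ P.perp (U ⊓ W)) :=
    Submodule.finrank_mono (le_inf inf_le_right (hU.mono inf_le_left).2)
  rw [e1, finrank_bot] at e
  omega

theorem spl_cnt (h : Pol P q) (k : IsSp P) (hs : Spr P C) {A B : Submodule F V} (hA : ND P A)
    (dA : finrank F A = 4) (dB : finrank F B = 2)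
    (hd : ∀ v ∈ A, v ≠ 0 → ∀ E ∈ T P 3, v ∈ E → Pure C E → E ≤ E ⊓ A ⊔ E ⊓ B) : False := by
  classical
  have h1 : ∀ v ∈ A, v ≠ 0 → ∃ z ∈ B, z ≠ 0 ∧ ∃ E ∈ T P 3, Pure C E ∧ v ∈ E ∧ z ∈ E := by
    intro v hv h0
    obtain ⟨E, hE, e1, e2, -⟩ := hs _ (span_mem_T (k.sing h v) h0)
    have hvE := e1 (Submodule.mem_span_singleton_self v)
    have e3 := Submodule.finrank_mono (hd v hv h0 E hE hvE e2)
    have e4 := Submodule.finrank_sup_add_finrank_inf_eq (E ⊓ A) (E ⊓ B)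
    have e5 := spl_half h.nd hA hE.1
    have e6 : E ⊓ B ≠ ⊥ := fun e => by
      rw [e, finrank_bot, sup_bot_eq] at e4
      rw [e, sup_bot_eq, hE.2] at e3
      omega
    obtain ⟨z, hz, z0⟩ := Submodule.exists_mem_ne_zero_of_ne_bot e6
    exact ⟨z, hz.2, z0, E, hE, e2, hvE, hz.1⟩
  choose! f hf f0 hE using h1
  have c1 : ∀ U : Submodule F V, ((U : Set V) \ {0}).toFinite.toFinset.card + 1 = Nat.card F ^ finrank F U := by
    intro U
    rw [← Set.ncard_eq_toFinset_card, Set.ncard_sdiff_singleton_add_one U.zero_mem, cn_sub]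
  have := Finset.card_le_mul_card_image_of_maps_to (f := f) (s := ((A : Set V) \ {0}).toFinite.toFinset)
    (t := ((B : Set V) \ {0}).toFinite.toFinset) (fun v hv => by
      simp only [Set.Finite.mem_toFinset] at hv ⊢
      exact ⟨hf v hv.1 hv.2, f0 v hv.1 hv.2⟩) (Nat.card F ^ 2) (fun z hz => by
      simp only [Set.Finite.mem_toFinset] at hz
      have hy := span_mem_T (k.sing h z) hz.2
      obtain ⟨E, hE1, e1, -, e3⟩ := hs _ hy
      have e5 := spl_half h.nd hA hE1.1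
      calc _ ≤ ((E ⊓ A : Submodule F V) : Set V).toFinite.toFinset.card := Finset.card_le_card fun v hv => by
              simp only [Finset.mem_filter, Set.Finite.mem_toFinset] at hv ⊢
              obtain ⟨E', hE', a1, a2, a3⟩ := hE v hv.1.1 hv.1.2
              rw [hv.2] at a3
              rw [spl_eq hy hE1 e1 e3 hE' ((Submodule.span_singleton_le_iff_mem _ _).2 a3) a1] at a2
              exact ⟨a2, hv.1.1⟩
        _ ≤ _ := by
              rw [← Set.ncard_eq_toFinset_card, cn_sub]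
              exact Nat.pow_le_pow_right Nat.card_pos (by omega))
  have a1 := c1 A
  have a2 := c1 B
  rw [dA] at a1
  rw [dB] at a2
  have a3 := h.three_le
  have a4 : Nat.card F ^ 4 = Nat.card F ^ 2 * Nat.card F ^ 2 := by ring
  have a5 : 9 ≤ Nat.card F ^ 2 := by nlinarith
  rw [a4, ← a2] at a1
  rw [← a2] at this a5
  nlinarith

/-- the only involution is `-1` -/
theorem spl_inv (h : Pol P q) (k : IsSp P) (h6 : finrank F V = 6) (hK : K ≤ P.isom) (inv : Inv K C)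
    (hs : Spr P C) {τ : V ≃ₗ[F] V} (hτ : τ ∈ K) (h2 : τ * τ = 1) {w : V} (hw : τ w = w) (h0 : w ≠ 0) : τ = 1 := by
  by_contra h1
  have tt : ∀ v, τ (τ v) = v := fun v => by rw [← LinearEquiv.mul_apply, h2]; rfl
  let A : F → Submodule F V := fun c => Module.End.eigenspace (τ : V →ₗ[F] V) c
  have mA : ∀ c v, v ∈ A c ↔ τ v = c • v := fun c v => Module.End.mem_eigenspace_iff
  have dec : ∀ c : F, c * c = 1 → ∀ E : Submodule F V, (∀ v ∈ E, τ v ∈ E) → E ≤ E ⊓ A c ⊔ E ⊓ A (-c) := by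
    intro c hc E hE v hv
    have e : v = (2 : F)⁻¹ • (v + c • τ v) + (2 : F)⁻¹ • (v - c • τ v) := by
      rw [← smul_add, add_add_sub_cancel, ← two_smul F, smul_smul, inv_mul_cancel₀ k.two, one_smul]
    rw [e]
    refine Submodule.add_mem_sup (Submodule.smul_mem _ _ ⟨add_mem hv (E.smul_mem _ (hE v hv)), (mA _ _).2 ?_⟩)
      (Submodule.smul_mem _ _ ⟨sub_mem hv (E.smul_mem _ (hE v hv)), (mA _ _).2 ?_⟩)
    · rw [map_add, map_smul, tt, smul_add, smul_smul, hc, one_smul, add_comm]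
    · rw [map_sub, map_smul, tt, smul_sub, smul_smul, neg_mul, hc, neg_smul, neg_smul, one_smul]
      abel
  have orth : ∀ c : F, c * c = 1 → ∀ a ∈ A c, ∀ b ∈ A (-c), P.B a b = 0 := by
    intro c hc a ha b hb
    have e := (hK hτ).B_eq a b
    rw [(mA _ _).1 ha, (mA _ _).1 hb, P.B_smul_left, P.B_smul_right, k.σ_eq] at e
    refine (mul_eq_zero.1 ?_).resolve_left k.two
    linear_combination (-1 : F) * e - P.B a b * hc
  have nd : ∀ c : F, c * c = 1 → ND P (A c) := fun c hc => P.disjoint_perp_iff.2 fun a ha e => h.nd a fun v => by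
    obtain ⟨b, hb, b', hb', rfl⟩ := Submodule.mem_sup.1 (dec c hc ⊤ (fun _ _ => trivial) (Submodule.mem_top (x := v)))
    rw [P.B_add_right, e b hb.2, orth c hc a ha b' hb'.2, add_zero]
  have hd : ∀ c : F, c * c = 1 → ∀ v ∈ A c, v ≠ 0 → ∀ E ∈ T P 3, v ∈ E → Pure C E → E ≤ E ⊓ A c ⊔ E ⊓ A (-c) := by
    intro c hc v hv v0 E hE hvE hp
    have hy := span_mem_T (k.sing h v) v0
    obtain ⟨E', hE', e1, -, e3⟩ := hs _ hy
    have a1 := spl_eq hy hE' e1 e3 hE ((Submodule.span_singleton_le_iff_mem _ _).2 hvE) hp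
    have a2 := spl_eq hy hE' e1 e3 ((smul_T (hK hτ)).2 hE) ((Submodule.span_singleton_le_iff_mem _ _).2
      ⟨τ v, by rw [(mA _ _).1 hv]; exact E.smul_mem _ hvE, tt v⟩) (spl_pure inv hτ hp)
    exact dec c hc E fun u hu => (a2.trans a1.symm).le ⟨u, hu, rfl⟩
  have n1 := nd 1 (one_mul 1)
  have n2 := nd (-1) (by ring)
  have d1 : finrank F (A 1) + finrank F (A (-1)) = 6 := by
    have e1 : A 1 ⊔ A (-1) = ⊤ := eq_top_iff.2 (by simpa using dec 1 (one_mul 1) ⊤ fun _ _ => trivial)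
    have e2 : A 1 ⊓ A (-1) = ⊥ := eq_bot_iff.2 ((inf_le_inf_left _ fun b hb a ha =>
      orth 1 (one_mul 1) a ha b hb).trans n1.le_bot)
    rw [← Submodule.finrank_sup_add_finrank_inf_eq, e1, e2, finrank_bot, finrank_top, h6]
  have d2 : finrank F (A 1) ≠ 0 := fun e =>
    h0 ((Submodule.finrank_eq_zero.1 e).le ((mA 1 w).2 (by rw [hw, one_smul])))
  have d3 : finrank F (A 1) ≠ 6 := fun e => h1 (LinearEquiv.ext fun v => by
    have := (mA 1 v).1 ((Submodule.eq_top_of_finrank_eq (e.trans h6.symm)).ge Submodule.mem_top)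
    rwa [one_smul] at this)
  obtain ⟨a, ha⟩ := even_nd h k n1
  rcases (by omega : finrank F (A 1) = 4 ∨ finrank F (A 1) = 2) with e | e
  · exact spl_cnt h k hs n1 e (by omega) (hd 1 (one_mul 1))
  · exact spl_cnt h k hs n2 (by omega) e (by simpa using hd (-1) (by ring))

theorem spl (h : Pol P q) (k : IsSp P) (h6 : finrank F V = 6) (hK : K ≤ P.isom) (hC : C ⊆ T P 2) (inv : Inv K C)
    (hs : Spr P C) {x : Submodule F V} (hx : x ∈ T P 1) (tr : Tr (Stab K x) (thru C x)) : False := by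
  have : Fact (Nat.Prime 2) := ⟨Nat.prime_two⟩
  obtain ⟨E, hE, e1, e2, e3⟩ := hs x hx
  obtain ⟨S, hS⟩ := exists_isSylowIn 2 (Stab K x)
  obtain ⟨v, -, v0, rfl⟩ := T.exists_vec hx
  have hc : ∀ g : S, ∃ c : F, g.1 v = c • v := fun g => by
    have : g.1 v ∈ g.1 • (F ∙ v) := ⟨v, Submodule.mem_span_singleton_self v, rfl⟩
    rw [(mem_Stab.1 (hS.le g.2)).2] at this
    obtain ⟨c, hc⟩ := Submodule.mem_span_singleton.1 this
    exact ⟨c, hc.symm⟩
  choose c hc using hc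
  let χ : S →* F :=
    { toFun := c
      map_one' := smul_left_injective F v0 (by simpa using (hc 1).symm)
      map_mul' := fun a b => smul_left_injective F v0 (by
        have := hc (a * b)
        rw [Subgroup.coe_mul, LinearEquiv.mul_apply, hc b, map_smul, hc a, smul_smul, mul_comm] at this
        exact this.symm) }
  have hχ : Function.Injective χ := (injective_iff_map_eq_one χ).2 fun g hg => by
    by_contra h1
    obtain ⟨n, hn⟩ := IsPGroup.iff_orderOf.1 hS.pgroup g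
    obtain _ | n := n
    · exact h1 (orderOf_eq_one_iff.1 hn)
    have o2 : orderOf (g ^ 2 ^ n) = 2 := by
      rw [orderOf_pow_of_dvd (by positivity) (hn ▸ pow_dvd_pow 2 n.le_succ), hn, pow_succ,
        Nat.mul_div_cancel_left _ (by positivity)]
    have e : (g ^ 2 ^ n).1 = 1 := spl_inv h k h6 hK inv hs (mem_Stab.1 (hS.le (g ^ 2 ^ n).2)).1
      (by rw [← Subgroup.coe_mul, ← pow_two, orderOf_dvd_iff_pow_eq_one.1 o2.dvd]; rfl) (w := v)
      (by rw [hc, show c (g ^ 2 ^ n) = χ (g ^ 2 ^ n) from rfl, map_pow, hg, one_pow, one_smul]) v0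
    rw [show g ^ 2 ^ n = 1 from Subtype.ext e, orderOf_one] at o2
    omega
  have := isCyclic_of_injective_ringHom χ hχ
  obtain ⟨s, hs'⟩ := IsCyclic.exists_generator (α := S)
  have s1 : s ^ (Nat.card F - 1) = 1 := hχ (by
    have := Fintype.ofFinite F
    rw [map_pow, map_one, Nat.card_eq_fintype_card]
    exact FiniteField.pow_card_sub_one_eq_one _ ((Group.isUnit s).map χ).ne_zero)
  have fE : ∀ g ∈ Stab K (F ∙ v), g • E = E := fun g hg =>
    spl_eq hx hE e1 e3 ((smul_T (hK hg.1)).2 hE) ((mem_Stab.1 hg).2 ▸ (smul_le g).2 e1) (spl_pure inv hg.1 e2)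
  obtain ⟨l, ⟨l1, l2, l3⟩, l4⟩ := exists_eig (g := s.1) (o := F ∙ v) (t := E)
    (lt_of_le_of_ne e1 fun e => by have := hE.2; rw [← e, hx.2] at this; omega)
    (mem_Stab.1 (hS.le s.2)).2 (fE _ (hS.le s.2)) (fun u _ => by
      rw [← Subgroup.coe_pow, s1]
      simp)
  rw [lin_d, hx.2] at l3
  have hl : l ∈ thru C (F ∙ v) := ⟨e2 l (by omega) l2, l1⟩
  have hA : (thru C (F ∙ v)).ncard = Nat.card F + 1 := by
    have := cnt_hy (k := 2) hE e1
    rw [hx.2, cn_th2, cnt_eq] at this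
    rw [← this]
    congr 1
    exact Set.ext fun m => ⟨fun hm => ⟨⟨hC hm.1, hm.2⟩, e3 m hm⟩, fun hm => ⟨e2 m hm.1.1.2 hm.2, hm.1.2⟩⟩
  have := orb_dvd Nat.prime_two hS tr (fun g hg m hm => by
    have := (smul_thru inv hg.1).2 hm
    rwa [(mem_Stab.1 hg).2] at this) (k := 1) (by
      rw [hA, pow_one, h.card_sp k]
      exact (h.odd k).add_one.two_dvd) hl
  have ho : orb S l = {l} := Set.eq_singleton_iff_unique_mem.2 ⟨⟨1, one_mem S, one_smul _ l⟩, by
    rintro _ ⟨g, hg, rfl⟩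
    obtain ⟨j, hj⟩ := hs' ⟨g, hg⟩
    have : s.1 ^ j ∈ MulAction.stabilizer (V ≃ₗ[F] V) l := zpow_mem l4 j
    rwa [← Subgroup.coe_zpow, show s ^ j = ⟨g, hg⟩ from hj] at this⟩
  rw [ho, Set.ncard_singleton] at this
  omega

end CfsgLib.KP
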