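import Mathlib
import Cfsg.Agent.Lib.KP.Wit
import Cfsg.Agent.Lib.KP.Geo
import Cfsg.Agent.Lib.KL.Span
import Cfsg.Agent.Lib.KL.Flag
import Cfsg.Agent.Lib.CKS.Abs1

/-! KP: the span property (plans/KP.md, package SPN). -/

set_option autoImplicit false
set_option linter.unusedSectionVars false

namespace CfsgLib.KP

open CfsgLib.CK CfsgLib.KL CfsgLib.Forms CfsgLib.RootMax CfsgLib.ClMax CfsgLib.Tech Module

variable {F : Type*} [Field F] [Finite F] {σ : F →+* F} {V : Type*} [AddCommGroup V] [Module F V] [Finite V]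
  {P : PQ σ V} {q : ℕ} {K : Subgroup (V ≃ₗ[F] V)} {C : Set (Submodule F V)}

open SpanP in
theorem spanF_of_sp {p : ℕ} {G₀ G X Y : Type*} [Group G₀] [Finite G₀] [Group G] [MulAction G X] [MulAction G Y]
    [Finite X] (f : G₀ →* G) {H₀ : Subgroup G₀} (hsp : SP p H₀) {I H : Subgroup G} (hI : ∀ g, f g ∈ I)
    (hH : ∀ h ∈ H₀, f h ∈ H) {A : Set X} {B : Set Y} {same : Y → X → X → Prop} (iA : Inv I A) (iB : Inv I B)
    (tA : ∀ x ∈ A, ∀ x' ∈ A, ∃ g, f g • x = x') (tB : ∀ y ∈ B, ∀ y' ∈ B, ∃ g, f g • y = y')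
    (fA : ∀ x ∈ A, ∃ U : Sylow p G₀, ∀ g ∈ Bor U, f g • x = x)
    (fB : ∀ y ∈ B, ∃ U : Sylow p G₀, ∀ g ∈ Bor U, f g • y = y)
    (hs : ∀ y ∈ B, ∀ x ∈ A, ∀ x' ∈ A, same y x x' → ∃ g, f g • y = y ∧ f g • x = x') : SpanF I H A B same := by
  classical
  rintro φ hφ ⟨x₀, hx₀, x₁, hx₁, hne⟩ k Q hQ eQ inj hh hi
  obtain hB | ⟨y₀, hy₀⟩ := B.eq_empty_or_nonempty
  · exact ⟨0, 0, fun y hy => by simp [hB] at hy⟩
  obtain ⟨U, hU⟩ := fA x₀ hx₀
  obtain ⟨U', hU'⟩ := fB y₀ hy₀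
  obtain ⟨c, t, hc⟩ := hsp U U' (fun g => φ (f g • x₀)) (fun g => hh (f g • y₀))
    (fun k hk y => by simp only [map_mul, mul_smul, hφ _ (hH k hk) _ (iA _ (hI y) _ hx₀)])
    (fun k hk y => by simp only [map_mul, mul_smul, hi _ (hH k hk) _ (iB _ (hI y) _ hy₀)])
    (fun b hb y => by simp only [map_mul, mul_smul, hU b hb])
    (fun b hb y => by simp only [map_mul, mul_smul, hU' b hb])
    (by
      obtain ⟨g, rfl⟩ := tA x₀ hx₀ x₁ hx₁
      exact ⟨1, g, by simpa using hne⟩)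
  have := Fintype.ofFinite G₀
  let T : Subgroup G₀ := (MulAction.stabilizer G y₀).comap f
  have hT : ∀ s : T, f s • y₀ = y₀ := fun s => s.2
  let w : G₀ → X → ℂ := fun g a => if a ∈ A then ∑ s : T, φ (f (g * s) • a) else 0
  have hw : ∀ g, ∀ a ∈ A, ev a (w g) = ∑ s : T, φ (f (g * s) • a) := fun g a ha => if_pos ha
  let n : Fin k → G₀ → ℂ := fun i g => sm (Q i (f g • y₀)) φ
  have hS : ∀ S ⊆ A, ∀ g, smL S (w g) = ∑ s : T, sm S fun a => φ (f (g * s) • a) := fun S hS g => by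
    simp only [smL_apply, sm_eq_sum]
    rw [Finset.sum_comm]
    exact Finset.sum_congr rfl fun a ha => hw g a (hS ((Set.Finite.mem_toFinset _).1 ha))
  have top : aff w n = ⊤ := by
    refine eq_top_of_coann fun u hu => ?_
    have h1 : AdmF I A φ (same y₀) u := by
      refine ⟨fun x hx x' hx' h => ?_, fun S hSA x hx c μ hS' => ?_⟩
      · obtain ⟨s₀, h2, rfl⟩ := hs y₀ hy₀ x hx x' hx' h
        refine sub_eq_zero.1 (hu (ev x - ev (f s₀ • x)) (mem_aff_of_const (c₀ := 0) fun g => ?_))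
        rw [LinearMap.sub_apply, hw g _ hx, hw g _ hx', sub_eq_zero,
          ← Equiv.sum_comp (Equiv.mulRight (⟨s₀, h2⟩ : T))]
        refine Finset.sum_congr rfl fun s _ => ?_
        simp only [Equiv.coe_mulRight, Subgroup.coe_mul, map_mul, mul_smul]
      · rw [← smL_apply]
        refine sub_eq_zero.1 (hu (smL S - μ • ev x) (mem_aff_of_const (c₀ := ∑ _s : T, c) fun g => ?_))
        rw [LinearMap.sub_apply, LinearMap.smul_apply, hS S hSA, hw g _ hx, smul_eq_mul, Finset.mul_sum,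
          ← Finset.sum_sub_distrib]
        exact Finset.sum_congr rfl fun s _ => by rw [hS' _ (hI _), add_sub_cancel_right]
    have h2 : ∀ i, sm (Q i y₀) u = 0 := fun i => by
      rw [← smL_apply]
      refine hu _ (mem_aff_of_mul (c := Fintype.card T) (i := i) fun g => ?_)
      rw [hS _ (hQ i _ hy₀), Finset.sum_congr rfl (g := fun _ => n i g) fun s _ => by
        rw [(eQ i).sm (hI _), map_mul, mul_smul, hT]]
      simp
    funext x
    by_cases hx : x ∈ A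
    exacts [inj y₀ hy₀ u h1 h2 x hx, hu (ev x) (mem_aff_of_const (c₀ := 0) fun g => if_neg hx)]
  obtain ⟨c₀, d, hd⟩ : ∑ x : G₀, t x • ev (f x • x₀) ∈ aff w n := top ▸ Submodule.mem_top
  have hN : (Fintype.card T : ℂ) ≠ 0 := Nat.cast_ne_zero.2 Fintype.card_ne_zero
  refine ⟨c + c₀ / Fintype.card T, fun i => d i / Fintype.card T, fun y hy => ?_⟩
  obtain ⟨g, rfl⟩ := tB y₀ hy₀ y hy
  have h1 : ∑ s : T, hh (f (g * s) • y₀) = Fintype.card T * hh (f g • y₀) := by
    simp only [map_mul, mul_smul, hT]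
    simp
  have h2 := hd g
  simp only [LinearMap.sum_apply, LinearMap.smul_apply, fun x => hw g _ (iA _ (hI x) _ hx₀), smul_eq_mul,
    Finset.mul_sum] at h2
  rw [Finset.sum_comm] at h2
  simp only [hc, finsum_eq_sum_of_fintype, Finset.sum_add_distrib, Finset.sum_const, Finset.card_univ,
    nsmul_eq_mul] at h1
  have h3 : ∑ s : T, ∑ x, t x * φ (f (g * s * x) • x₀) = c₀ + ∑ i, d i * n i g := by
    rw [← h2]
    simp only [map_mul, mul_smul]
  rw [h3] at h1
  have h4 := hc g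
  rw [finsum_eq_sum_of_fintype] at h4
  refine mul_left_cancel₀ hN ?_
  rw [h4, ← h1, mul_add, mul_add, Finset.mul_sum, add_assoc]
  congr 2
  · field_simp
  · exact Finset.sum_congr rfl fun i _ => by simp only [n]; field_simp

/-- a complete flag of a totally singular subspace is fixed by a Sylow normaliser -/
theorem flag_chain {p : ℕ} [Fact p.Prime] [CharP F p] (h : Pol P q) {c : ℕ} {W : ℕ → Submodule F V} (hW : Monotone W)
    (hd : ∀ i ≤ c, finrank F (W i) = i) (ts : P.TS (W c)) :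
    ∃ U : Sylow p (G0 P), ∀ g ∈ Bor U, ∀ i ≤ c, (g : V ≃ₗ[F] V) • W i = W i := by
  let D : ℕ → Submodule F V := fun i => if i ≤ c then W i else P.perp (W (2 * c + 1 - i))
  have D1 : ∀ i ≤ c, D i = W i := fun i hi => if_pos hi
  have D2 : ∀ i, c < i → D i = P.perp (W (2 * c + 1 - i)) := fun i hi => if_neg (by omega)
  have pp : ∀ i ≤ c, ∀ j ≤ c, W i ≤ P.perp (W j) := fun i hi j hj =>
    (hW hi).trans (ts.2.trans (P.perp_anti (hW hj)))
  have hD : Monotone D := monotone_nat_of_le_succ fun i => by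
    rcases lt_trichotomy i c with e | rfl | e
    · rw [D1 _ e.le, D1 _ e]; exact hW i.le_succ
    · rw [D1 _ le_rfl, D2 _ i.lt_succ_self]; exact pp _ le_rfl _ (by omega)
    · rw [D2 _ e, D2 _ (by omega)]; exact P.perp_anti (hW (by omega))
  have W0 : W 0 = ⊥ := Submodule.finrank_eq_zero.1 (hd 0 c.zero_le)
  obtain ⟨U, hU⟩ := ((FlagP.uni_p (p := p) hD ((D1 0 c.zero_le).trans W0) (n := 2 * c + 1) (by
    rw [D2 _ (by omega), Nat.sub_self, W0, P.perp_bot])).comap_of_injective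
      (Subgroup.inclusion (inf_le_right : G0 P ≤ SLV F V)) (Subgroup.inclusion_injective _)).exists_le_sylow
  refine ⟨U, fun g hg i hi => smul_eq_of_le (CKS.flag_inv (G0 P).subtype hU U.2 (k := c)
    (hd c le_rfl ▸ Submodule.finrank_le _) W hd (fun i hi v hv => ?_) g hg i hi)⟩
  obtain ⟨x, x1, x2⟩ := SetLike.exists_of_lt (Submodule.lt_of_le_of_finrank_lt_finrank (hW i.le_succ)
    (by rw [hd _ hi.le, hd _ hi]; omega))
  have key : ∀ a ∈ P.perp (W (i + 1)), ∀ d, d - σ (P.N a) ∈ P.Λ → rt P x a d v - v ∈ W i := fun a ha d hd => by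
    obtain ⟨r, r1, r2, r3⟩ := exists_rt P (ts.1 x (hW hi x1)) (ha x x1) hd
    rw [← r3]
    refine hv ⟨r, r1, r2⟩ fun j w hw => ?_
    change r w - w ∈ _
    have k : ∀ {Z : Submodule F V}, P.B x w = 0 → x ∈ Z ∨ P.B a w = 0 → r w - w ∈ Z := fun e e' => by
      rw [r3, rt_of_orth_left P _ _ e, add_sub_cancel_left]
      exact e'.elim (Submodule.smul_mem _ _) fun e => by simp [e]
    rcases lt_trichotomy j c with e | rfl | e
    · rw [D1 _ e] at hw
      rw [D1 _ e.le]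
      refine k (pp _ e _ hi hw x x1) ((le_or_gt j i).symm.imp (fun e' => hW e' x1) fun e' => ?_)
      exact P.B_eq_zero_comm.1 (ha w (hW (by omega) hw))
    · rw [D2 _ j.lt_succ_self] at hw
      rw [D1 _ le_rfl]
      exact k (hw x (hW (by omega) x1)) (.inl (hW hi x1))
    · rw [D2 _ (by omega)] at hw
      rw [D2 _ e]
      rcases le_or_gt (2 * c + 1 - j) (i + 1) with e' | e'
      · rw [r3, rt_def, add_sub_assoc, add_sub_cancel_left]
        exact P.perp_anti (hW e') (sub_mem (Submodule.smul_mem _ _ (pp _ hi _ hi x1)) (Submodule.smul_mem _ _ ha))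
      · exact k (hw x (hW (by omega) x1)) (.inl (pp _ hi _ (by omega) x1))
  obtain ⟨d, hd, d0⟩ := (AddSubgroup.bot_or_exists_ne_zero P.Λ).resolve_left fun e => by
    have := h.three
    rw [← h.cq, e, AddSubgroup.card_bot] at this
    omega
  have e1 := key 0 (zero_mem _) d (sub_mem hd (σ_mem P P.sing_zero))
  have e2 : P.B x v = 0 := by_contra fun e => x2 ((Submodule.smul_mem_iff _ (mul_ne_zero d0 e)).1
    (by simpa [rt_def] using e1))
  rw [← P.perp_perp h.nd (W (i + 1))]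
  intro a ha
  have e3 := key a ha _ (by rw [sub_self]; exact zero_mem _)
  rw [rt_of_orth_left P _ _ e2, add_sub_cancel_left] at e3
  exact by_contra fun e => x2 ((Submodule.smul_mem_iff _ e).1 e3)

theorem flag {p : ℕ} [Fact p.Prime] [CharP F p] (h : Pol P q) {a b c : ℕ}
    {x : Submodule F V × Submodule F V × Submodule F V} (hx : x ∈ T3 P a b c) :
    ∃ U : Sylow p (G0 P), ∀ g ∈ Bor U, (g : V ≃ₗ[F] V) • x = x := by
  obtain ⟨h1, h2, h3, h4, h5⟩ := id hx
  have := h3.2 ▸ h4.2 ▸ Submodule.finrank_mono h1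
  have := h4.2 ▸ h5.2 ▸ Submodule.finrank_mono h2
  obtain ⟨W', hW', hd'⟩ := FlagP.chain (F := F) (V := x.2.2)
  let W : ℕ → Submodule F V := fun i => (W' i).map x.2.2.subtype
  have hW : Monotone W := fun i j e => Submodule.map_mono (hW' e)
  have hd : ∀ i ≤ c, finrank F (W i) = i := fun i hi => by
    rw [Submodule.finrank_map_subtype_eq, hd', h5.2, min_eq_left hi]
  have ts : ∀ i ≤ c, W i ∈ T P i := fun i hi => T.mono h5 (Submodule.map_subtype_le _ _) (hd i hi)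
  obtain ⟨U, key⟩ := flag_chain (p := p) h hW hd (ts c le_rfl).1
  obtain ⟨g, hg, e⟩ := tr_T3 h a b c (W a, W b, W c) ⟨hW (by omega), hW (by omega), ts a (by omega), ts b (by omega),
    ts c le_rfl⟩ x hx
  lift g to G0 P using hg
  refine ⟨g • U, fun h hh => ?_⟩
  have hn : g⁻¹ * h * g ∈ Bor U := by
    have h6 : h • g • U = g • U := Sylow.smul_eq_iff_mem_normalizer.2 hh
    exact Sylow.smul_eq_iff_mem_normalizer.1 (by rw [mul_smul, mul_smul, h6, inv_smul_smul])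
  have k' : ((g⁻¹ * h * g : G0 P) : V ≃ₗ[F] V) • (W a, W b, W c) = (W a, W b, W c) :=
    Prod.ext (key _ hn a (by omega)) (Prod.ext (key _ hn b (by omega)) (key _ hn c le_rfl))
  rwa [Subgroup.coe_mul, Subgroup.coe_mul, Subgroup.coe_inv, mul_smul, mul_smul, e, inv_smul_eq_iff, e] at k'

theorem gs_of_sp {p : ℕ} [Fact p.Prime] [CharP F p] (h : Pol P q) {K₀ : Subgroup (G0 P)} (hsp : SP p K₀)
    (hK : ∀ k ∈ K₀, (k : V ≃ₗ[F] V) ∈ K) : GS P K := by
  have tr : ∀ {X : Type _} [MulAction (V ≃ₗ[F] V) X] {A : Set X}, Tr (G0 P) A →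
      ∀ x ∈ A, ∀ x' ∈ A, ∃ g, (G0 P).subtype g • x = x' := fun t x hx x' hx' =>
    let ⟨g, hg, e⟩ := t x hx x' hx'; ⟨⟨g, hg⟩, e⟩
  refine ⟨fun a b c d => spanF_of_sp (G0 P).subtype hsp (fun g => G0_le P g.2) hK (inv_T P a) (inv_T3 P b c d)
    (tr (tr_T h a)) (tr (tr_T3 h b c d)) (fun x hx => ?_) (fun y hy => flag h hy) fun y hy x hx x' hx' e => ?_,
    fun a a' b c d => spanF_of_sp (G0 P).subtype hsp (fun g => G0_le P g.2) hK (inv_T2 P a a') (inv_T3 P b c d)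
    (tr (tr_T2 h a a')) (tr (tr_T3 h b c d)) (fun x hx => ?_) (fun y hy => flag h hy) fun y hy x hx x' hx' e => ?_⟩
  · exact (flag h (x := (x, x, x)) ⟨le_rfl, le_rfl, hx, hx, hx⟩).imp fun U k g hg => congrArg Prod.fst (k g hg)
  · obtain ⟨g, hg, e⟩ := wit h hy hy hx hx' e
    exact ⟨⟨g, hg⟩, e⟩
  · exact (flag h (x := (x.1, x.2, x.2)) ⟨hx.1, le_rfl, hx.2.1, hx.2.2, hx.2.2⟩).imp fun U k g hg =>
      Prod.ext (congrArg (·.1) (k g hg)) (congrArg (·.2.1) (k g hg))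
  · obtain ⟨g, hg, e1, rfl⟩ := e
    obtain ⟨g', hg', e2, e3⟩ := det_fix h hy (x := (x.1, x.2, x.2)) ⟨hx.1, le_rfl, hx.2.1, hx.2.2, hx.2.2⟩ hg
    exact ⟨⟨g', hg'⟩, e2.trans e1, Prod.ext (congrArg (·.1) e3) (congrArg (·.2.1) e3)⟩

end CfsgLib.KP
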