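import Mathlib
import Cfsg.Agent.Lib.KP.Lam
import Cfsg.Agent.Lib.KP.Spr
import Cfsg.Agent.Lib.KP.Cq
import Cfsg.Agent.Lib.KP.Wit
import Cfsg.Agent.S0800

/-! KP: point-transitive subgroups, symplectic case (plans/KP.md, package TSP). -/

set_option autoImplicit false
set_option linter.unusedSectionVars false

namespace CfsgLib.KP

open CfsgLib.CK CfsgLib.KL CfsgLib.Forms CfsgLib.RootMax CfsgLib.ClMax CfsgLib.Tech Module

variable {F : Type*} [Field F] [Finite F] {σ : F →+* F} {V : Type*} [AddCommGroup V] [Module F V] [Finite V]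
  {P : PQ σ V} {q : ℕ} {K : Subgroup (V ≃ₗ[F] V)} {C : Set (Submodule F V)}

theorem tsp_two {U : Submodule F V} (hU : ND P U) (hd : finrank F U = 2) {a b : V} (ha : a ∈ U) (a0 : a ≠ 0)
    (aa : P.B a a = 0) (hb : b ∈ U) (ab : P.B a b = 0) : b ∈ F ∙ a := by
  by_contra hn
  have h1 : (F ∙ a) ⊔ (F ∙ b) = U := Submodule.eq_of_le_of_finrank_eq
    (sup_le ((Submodule.span_singleton_le_iff_mem _ _).2 ha) ((Submodule.span_singleton_le_iff_mem _ _).2 hb))
    (by rw [Submodule.finrank_sup_span_singleton hn, finrank_span_singleton a0, hd])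
  refine a0 (Submodule.disjoint_def.1 hU a ha ?_)
  rw [← h1, P.perp_sup]
  exact ⟨P.mem_perp_span_singleton.2 aa, P.mem_perp_span_singleton.2 (P.B_eq_zero_comm.1 ab)⟩

theorem tsp_half (h2 : (2 : F) ≠ 0) {v : V} (h : -v = v) : v = 0 :=
  (smul_eq_zero.1 (show (2 : F) • v = 0 by rw [two_smul]; exact neg_eq_iff_add_eq_zero.1 h)).resolve_left h2

theorem tsp_smul {U e : Submodule F V} {t : V ≃ₗ[F] V} (h : (∀ v ∈ U, t v = v) ∨ ∀ v ∈ U, t v = -v) (he : e ≤ U) :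
    t • e = e := smul_eq_of_le fun v hv => by
  rcases h with h | h <;> rw [h v (he hv)]
  exacts [hv, neg_mem hv]

/-- the two-dimensional case -/
theorem sl2_inv (h : Pol P q) (k : IsSp P) {U : Submodule F V} (hU : ND P U) (hd : finrank F U = 2) {t : V ≃ₗ[F] V}
    (ht : t ∈ P.isom) (tU : t • U = U) (h2 : ∀ v ∈ U, t (t v) = v) : (∀ v ∈ U, t v = v) ∨ ∀ v ∈ U, t v = -v := by
  by_contra! hn
  obtain ⟨⟨v, hv, h3⟩, w, hw, h4⟩ := hn
  have m := fun v => apply_mem_of_smul_eq tU (v := v)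
  have e1 : t (t v - v) = -(t v - v) := by rw [map_sub, h2 v hv, neg_sub]
  have e2 : t (t w + w) = t w + w := by rw [map_add, h2 w hw, add_comm]
  have e3 := ht.B_eq (t v - v) (t w + w)
  rw [e1, e2, map_neg, LinearMap.neg_apply] at e3
  obtain ⟨c, hc⟩ := Submodule.mem_span_singleton.1 (tsp_two hU hd (sub_mem (m v hv) hv) (sub_ne_zero.2 h3)
    (h.sing_iff.1 (k.sing h _)) (add_mem (m w hw) hw) (tsp_half (V := F) k.two e3))
  refine h4 (eq_neg_of_add_eq_zero_left (tsp_half k.two ?_))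
  have e4 : t (t w + w) = -(t w + w) := by rw [← hc, map_smul, e1, smul_neg]
  exact e4.symm.trans e2

theorem sl2_ord (h : Pol P q) (k : IsSp P) {U : Submodule F V} (hU : ND P U) (hd : finrank F U = 2) {t : V ≃ₗ[F] V}
    (ht : t ∈ P.isom) (tU : t • U = U) {j : ℕ} (h2 : t ^ 2 ^ j = 1) :
    (∀ v ∈ U, (t ^ (q - 1)) v = v) ∨ ∀ v ∈ U, (t ^ (q + 1)) v = v := by
  let t' : U ≃ₗ[F] U := t.ofSubmodules U U tU
  have e1 : ∀ (n : ℕ) (v : U), ((t' ^ n) v : V) = (t ^ n) v := fun n v => by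
    induction n with
    | zero => rfl
    | succ n ih => rw [pow_succ', pow_succ', LinearEquiv.mul_apply, LinearEquiv.mul_apply, ← ih]; rfl
  have h1 : t' ∈ SLV F U := isom_le_sp (h.restrict hU) ⟨k.σ_eq, k.ε_eq, k.two⟩
    ⟨fun v w => ht.B_eq v w, fun v => ht.N_eq v⟩
  let E := (Matrix.SpecialLinearGroup.toLin_equiv (finBasisOfFinrankEq F U hd)).symm
  let s : SpecialLinearGroup F U := ⟨t', h1⟩
  have e2 : ∀ n : ℕ, E s ^ n = 1 ↔ ∀ v ∈ U, (t ^ n) v = v := fun n => by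
    rw [← map_pow, map_eq_one_iff E E.injective, SpecialLinearGroup.ext_iff]
    exact ⟨fun e v hv => (e1 n ⟨v, hv⟩).symm.trans (congrArg Subtype.val (e ⟨v, hv⟩)),
      fun e v => Subtype.ext ((e1 n v).trans (e v v.2))⟩
  have := Fintype.ofFinite F
  have : Fact (ringChar F).Prime := ⟨CharP.char_is_prime F _⟩
  refine (Cfsg.Agent.S0800.result (Nat.card_eq_fintype_card.symm.trans (h.card_sp k)) (ringChar F) (E s) ?_).imp
    (fun d => (e2 _).1 (orderOf_dvd_iff_pow_eq_one.1 d)) fun d => (e2 _).1 (orderOf_dvd_iff_pow_eq_one.1 d)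
  refine Nat.Coprime.coprime_dvd_left (orderOf_dvd_of_pow_eq_one ((e2 (2 ^ j)).2 fun v _ => by rw [h2]; rfl))
    (Nat.Coprime.pow_left j ((Nat.coprime_primes Nat.prime_two this.out).2 fun e => k.two ?_))
  exact_mod_cast (ringChar.spec F 2).2 (e ▸ dvd_rfl)

/-- the fixed space of a `u`-subgroup of a point stabiliser -/
theorem tsp_fix (h : Tb P q K) (k : IsSp P) {x : Submodule F V} (hx : x ∈ T P 1) {m e u : ℕ}
    (hn : finrank F V = 2 * m + 2) (hu : Od u q e) (he : 3 ≤ e) (hm : ∀ d, Even d → e ∣ d → 2 * m ∣ d)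
    {R : Subgroup (V ≃ₗ[F] V)} (hR : IsPGroup u R) (h1 : R ≤ Stab K x) (h0 : R ≠ ⊥) :
    ND P (fixV R) ∧ finrank F (fixV R) = 2 ∧ finrank F (P.perp (fixV R)) = 2 * m := by
  have hq := h.pol.card_sp k
  have q0 : 0 < q := by have := h.pol.three; omega
  have le : R ≤ P.isom := h1.trans ((Stab_le _ _).trans h.le')
  have nd := fix_nd h.pol.nd hu.1 (hq ▸ hu.not_dvd' (by omega)) hR le
  have h2 := dim_lin hu.1 hR (W := P.perp (fixV R))
    (fun g hg => by rw [smul_perp (le hg), fx_fixV (Subgroup.le_normalizer hg)]) nd.symm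
  rw [hq, hu.modEq q0] at h2
  have h3 := hm _ (even_nd h.pol k (nd.perp h.pol.nd)) h2
  obtain ⟨v, v1, v0, rfl⟩ := T.exists_vec hx
  have h4 := two_le_of_sing nd (le_fixV hu.1 (hq ▸ hu.not_dvd_sub' q0 (by omega)) hR hx.2 ((fx_Stab _ _).mono h1)
    (Submodule.mem_span_singleton_self v)) v1 v0
  have h5 := P.finrank_perp h.pol.nd (fixV R)
  have h6 : finrank F (P.perp (fixV R)) ≠ 0 := fun e => h0 (eq_bot_iff.2 fun g hg => LinearEquiv.ext fun v =>
    (Submodule.eq_top_of_finrank_eq (S := fixV R) (by omega)).ge Submodule.mem_top g hg)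
  have h7 := Nat.le_of_dvd (Nat.pos_of_ne_zero h6) h3
  exact ⟨nd, by omega, by omega⟩

theorem tsp_triv (h : Tb P q K) (k : IsSp P) (hL : NoL P K) {U : Submodule F V} (hU : ND P U) (hd : finrank F U = 2)
    (j : ℕ) : ∀ t ∈ K, t • U = U → (∀ w ∈ P.perp U, t w = w) → t ^ 2 ^ j = 1 → ∀ v ∈ U, t v = v := by
  induction j with
  | zero => exact fun t _ _ _ e v _ => by rw [show t = 1 by simpa using e]; rfl
  | succ j ih =>
    intro t ht tU tW e
    refine (sl2_inv h.pol k hU hd (h.le' ht) tU (ih (t * t) (mul_mem ht ht) (by rw [mul_smul, tU, tU])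
      (fun w hw => by rw [LinearEquiv.mul_apply, tW w hw, tW w hw])
      (by rwa [← pow_two, ← pow_mul, ← pow_succ']))).resolve_right fun e' => ?_
    exact spr h k.two hL hd hU ⟨t, ht, e', tW⟩

theorem tsp_card {G X : Type*} [Group G] [MulAction G X] {S : Subgroup G} {s : G} {a : X} {M : ℕ} (hM : 0 < M)
    (h1 : s ^ M • a = a) (h2 : ∀ k ∈ S, ∃ j : ℕ, k • a = s ^ j • a) {n : ℕ} (h : n ∣ (orb S a).ncard) : n ≤ M := by
  classical
  have h3 : orb S a ⊆ (Finset.range M).image fun j => s ^ j • a := by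
    rintro _ ⟨k, hk, rfl⟩
    obtain ⟨j, hj⟩ := h2 k hk
    refine Finset.mem_coe.2 (Finset.mem_image.2 ⟨j % M, Finset.mem_range.2 (Nat.mod_lt _ hM), ?_⟩)
    rw [hj, ← Nat.mod_add_div j M, pow_add, pow_mul, mul_smul, Nat.mod_add_div,
      (pow_mem (MulAction.mem_stabilizer_iff.2 h1) _ : (s ^ M) ^ _ ∈ MulAction.stabilizer G a)]
  refine (Nat.le_of_dvd ((Set.ncard_pos ((Finset.finite_toSet _).subset h3)).2 ⟨a, 1, one_mem _, one_smul _ _⟩) h).trans
    ((Set.ncard_le_ncard h3 (Finset.finite_toSet _)).trans ?_)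
  rw [Set.ncard_coe_finset]
  exact Finset.card_image_le.trans (Finset.card_range M).le

theorem tsp (h : Tb P q K) (k : IsSp P) {x : Submodule F V} (hx : x ∈ T P 1)
    (hd : np q q (finrank F V - 2) ∣ (q + 1) * Nat.card (Stab K x)) : False := by
  have hq := h.pol.card_sp k
  have q3 := h.pol.three
  have q0 : 0 < q := by omega
  have qo := h.pol.odd k
  obtain ⟨m, hn, m2⟩ : ∃ m, finrank F V = 2 * m + 2 ∧ 2 ≤ m := by
    obtain ⟨m, hm⟩ := even_sp h.pol k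
    have := h.six
    exact ⟨m - 1, by omega, by omega⟩
  rw [hn, Nat.add_sub_cancel, np_sp] at hd
  have pr : ∀ e, 3 ≤ e → e ∣ 2 * m → ∃ r, Od r q e ∧ Pp r (ringChar F) (q ^ e) ∧ r ∣ Nat.card (Stab K x) := by
    intro e he hm
    obtain ⟨f, -, hf⟩ := h.pol.exists_pow
    obtain ⟨r, r1, r2⟩ := prime_sp (f := f) (CharP.char_is_prime F (ringChar F))
      (fun e => (Nat.not_even_iff_odd.2 qo) (even_iff_two_dvd.2 (e ▸ h.pol.p_dvd))) (hf ▸ q3) he
    rw [← hf] at r1 r2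
    exact ⟨r, r1, r2, ((r1.1.dvd_mul).1 (((r1.dvd_th q0 (by omega) _).2 hm).trans hd)).resolve_left
      (r1.not_dvd_add' he)⟩
  have hL : NoL P K := by
    obtain ⟨r, r1, r2, r3⟩ := pr (2 * m) (by omega) dvd_rfl
    exact lam h r1.1 (hq ▸ r1.not_dvd' (by omega)) (hq ▸ r1.not_dvd_sub' q0 (by omega)) hx r3 (hq ▸ r2)
      (hq ▸ (r1.modEq q0 _).2 dvd_rfl) (.inl hn)
  obtain ⟨e, e3, em, hm, he⟩ : ∃ e, 3 ≤ e ∧ e ∣ 2 * m ∧ (∀ d, Even d → e ∣ d → 2 * m ∣ d) ∧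
      ((e = 2 * m ∧ (q % 4 = 1 ∨ Even m)) ∨ (e = m ∧ Odd m ∧ q % 4 = 3)) := by
    by_cases c : q % 4 = 1 ∨ Even m
    · exact ⟨_, by omega, dvd_rfl, fun _ _ k => k, .inl ⟨rfl, c⟩⟩
    · rw [not_or, Nat.not_even_iff_odd] at c
      have c1 := Nat.odd_iff.1 c.2
      have c2 := Nat.odd_iff.1 qo
      exact ⟨m, by omega, dvd_mul_left _ _, fun d k k' => (Nat.coprime_two_left.2 c.2).mul_dvd_of_dvd_of_dvd
        (even_iff_two_dvd.1 k) k', .inr ⟨rfl, c.2, by omega⟩⟩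
  obtain ⟨u, u1, -, u2⟩ := pr e e3 em
  have := Fact.mk u1.1
  obtain ⟨R, hR⟩ := exists_isSylowIn u (Stab K x)
  have R0 : R ≠ ⊥ := fun e => hR.not_dvd (by rwa [e, Subgroup.relIndex_bot_left])
  have RK := hR.le.trans (Stab_le _ _)
  obtain ⟨nd, dU, dW⟩ := tsp_fix h k hx hn u1 e3 hm hR.pgroup hR.le R0
  have fW : ∀ g ∈ K ⊓ Subgroup.normalizer (R : Set (V ≃ₗ[F] V)), g • P.perp (fixV R) = P.perp (fixV R) :=
    fun g hg => by rw [smul_perp (h.le' hg.1), fx_fixV hg.2]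
  have fpf : ∀ g ∈ R, g ≠ 1 → ∀ w ∈ P.perp (fixV R), g w = w → w = 0 := fun g hg g1 w hw e => by
    have le := Subgroup.zpowers_le.2 hg
    have h1 : fixV R = fixV (Subgroup.zpowers g) := Submodule.eq_of_le_of_finrank_eq (fun v hv a ha => hv a (le ha))
      (dU.trans (tsp_fix h k hx hn u1 e3 hm (hR.pgroup.to_le le) (le.trans hR.le) (by simpa)).2.1.symm)
    exact Submodule.disjoint_def.1 nd w (h1.ge fun a ha =>
      (Subgroup.zpowers_le (H := MulAction.stabilizer (V ≃ₗ[F] V) w)).2 e ha) hw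
  obtain ⟨g, gR, go, gN⟩ := cyc u1.1 (hq ▸ u1.not_dvd' (by omega)) hR.pgroup R0
    (fun g hg => fW g ⟨RK hg, Subgroup.le_normalizer hg⟩) (fun e => by rw [e, finrank_bot] at dW; omega) fpf
  obtain ⟨S, hS⟩ := exists_isSylowIn 2 (K ⊓ Subgroup.normalizer (R : Set (V ≃ₗ[F] V)))
  obtain ⟨s, hs, sg⟩ := exists_gen u1.1 go fun k hk => gN k (hS.le hk).2
  have pm : ∀ t ∈ S, Commute t g → (∀ v ∈ fixV R, t v = v) ∨ ∀ v ∈ fixV R, t v = -v := fun t ht c => by
    obtain ⟨j, hj⟩ := isPGroup_iff_mem.1 hS.pgroup t ht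
    have tK := (hS.le ht).1
    have tU := fx_fixV (hS.le ht).2
    have h1 := cq h.pol k (nd.perp h.pol.nd) dW m2 u1 he (h.le' (RK gR)) go
      (fW g ⟨RK gR, Subgroup.le_normalizer gR⟩) (fpf g gR fun e => u1.1.one_lt.ne (by rw [← go, e, orderOf_one]))
      (h.le' tK) (fW t (hS.le ht)) hj c
    refine sl2_inv h.pol k nd dU (h.le' tK) tU (tsp_triv h k hL nd dU j (t * t) (mul_mem tK tK)
      (by rw [mul_smul, tU, tU]) (fun w hw => ?_) (by rw [← pow_two, ← pow_mul, mul_comm, pow_mul, hj, one_pow]))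
    rw [LinearEquiv.mul_apply]
    rcases h1 with h1 | h1
    · rw [h1 w hw, h1 w hw]
    · rw [h1 w hw, map_neg, h1 w hw, neg_neg]
  have key : ∀ a ∈ ins (T P 1) (fixV R), ∀ j M : ℕ, 0 < M → s ^ M • a = a → 2 ^ j ∣ q + 1 → 2 ^ j ≤ M := by
    intro a ha j M M0 h1 h2
    refine tsp_card M0 h1 (fun t ht => (sg t ht).imp fun i c => ?_) (orb_dvd Nat.prime_two hS
      (syl h.le' h.tr u1.1 hx hR) (fun t ht b hb => ⟨(smul_T (h.le' ht.1)).2 hb.1, ?_⟩) ?_ ha)
    · rw [← inv_mul_cancel_right t (s ^ i), mul_smul]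
      refine tsp_smul (pm _ (mul_mem ht (inv_mem (pow_mem hs i))) c) ?_
      rw [← fx_fixV (hS.le (pow_mem hs i)).2, smul_le]
      exact ha.2
    · rw [← fx_fixV ht.2, smul_le]
      exact hb.2
    · rw [← cnt_eq, cnt_nd h.pol nd, dU, hq]
      simpa [np, add_comm] using h2
  obtain ⟨j, hj⟩ := isPGroup_iff_mem.1 hS.pgroup s hs
  have sU := fx_fixV (hS.le hs).2
  rcases sl2_ord h.pol k nd dU (h.le' (hS.le hs).1) sU hj with h1 | h1
  · obtain ⟨a, ⟨-, a1, a2⟩, a3⟩ := exists_eig (o := ⊥) (bot_lt_iff_ne_bot.2 fun e => by rw [e, finrank_bot] at dU; omega)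
      (smul_bot'' s) sU fun v hv => by rw [hq, h1 v hv, sub_self]; exact zero_mem _
    rw [lin_d, finrank_bot, Nat.sub_zero] at a2
    obtain ⟨⟨v, hv⟩, -, v1⟩ := finrank_eq_one_iff'.1 a2
    have v2 : a ≤ F ∙ v := fun w hw => Submodule.mem_span_singleton.2
      ((v1 ⟨w, hw⟩).imp fun _ k => congrArg Subtype.val k)
    have := key a ⟨⟨(P.ts_span_singleton (k.sing h.pol v)).mono v2, a2⟩, a1⟩ 1 1 one_pos (by rwa [pow_one])
      (by simpa using qo.add_one.two_dvd)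
    omega
  · obtain ⟨a, o, ho, e⟩ := Nat.exists_eq_two_pow_mul_odd (n := q + 1) (by omega)
    obtain ⟨b, rfl⟩ : ∃ b, a = b + 1 := Nat.exists_eq_succ_of_ne_zero (by
      rintro rfl
      rw [pow_zero, one_mul] at e
      exact (Nat.not_even_iff_odd.2 ho) (e ▸ qo.add_one))
    have h2 : ∀ v ∈ fixV R, (s ^ 2 ^ (b + 1)) v = v := fun v hv => by
      obtain ⟨n, hn⟩ := exists_pow_eq_self_of_coprime (x := s ^ 2 ^ (b + 1)) (n := o)
        (Nat.Coprime.coprime_dvd_right (orderOf_dvd_of_pow_eq_one (n := 2 ^ j)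
          (by rw [← pow_mul, mul_comm, pow_mul, hj, one_pow])) ((Nat.coprime_two_right.2 ho).pow_right j))
      rw [← hn]
      exact (MulAction.stabilizer (V ≃ₗ[F] V) v).pow_mem (by rw [← pow_mul, ← e]; exact h1 v hv) n
    have xU := le_fixV u1.1 (hq ▸ u1.not_dvd_sub' q0 (by omega)) hR.pgroup hx.2 ((fx_Stab _ _).mono hR.le)
    have hs' := hS.le (pow_mem hs (2 ^ b))
    have := key x ⟨hx, xU⟩ (b + 1) (2 ^ b) (by positivity) (tsp_smul (sl2_inv h.pol k nd dU (h.le' hs'.1)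
      (fx_fixV hs'.2) fun v hv => by rw [← LinearEquiv.mul_apply, ← pow_add, ← two_mul, ← pow_succ']; exact h2 v hv) xU)
      (e ▸ dvd_mul_right _ _)
    exact absurd (Nat.pow_le_pow_iff_right one_lt_two |>.1 this) (by omega)

end CfsgLib.KP
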