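import Mathlib
import Cfsg.Agent.Lib.KP.Syl

/-! KP: the centraliser of a fixed-point-free element, unitary case (plans/KP.md, package SOLV). -/

set_option autoImplicit false
set_option linter.unusedSectionVars false

namespace CfsgLib.KP

open CfsgLib.CK CfsgLib.KL CfsgLib.Forms CfsgLib.RootMax CfsgLib.ClMax CfsgLib.Tech Module
open scoped commutatorElement

variable {F : Type*} [Field F] [Finite F] {σ : F →+* F} {V : Type*} [AddCommGroup V] [Module F V] [Finite V]
  {P : PQ σ V} {q : ℕ} {K : Subgroup (V ≃ₗ[F] V)} {C : Set (Submodule F V)}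

variable {W : Submodule F V} {g : V ≃ₗ[F] V}

theorem so_aeval (gW : g • W = W) {c : V ≃ₗ[F] V} (hc : ∀ w ∈ W, c (g w) = g (c w)) (p : Polynomial F) :
    ∀ w ∈ W, Polynomial.aeval (g : End F V) p w ∈ W ∧
      c (Polynomial.aeval (g : End F V) p w) = Polynomial.aeval (g : End F V) p (c w) := by
  induction p using Polynomial.induction_on with
  | C a => intro w hw; simpa using W.smul_mem a hw
  | add p p' h h' =>
    intro w hw
    simp only [map_add, LinearMap.add_apply, (h w hw).2, (h' w hw).2, and_true]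
    exact add_mem (h w hw).1 (h' w hw).1
  | monomial n a h =>
    intro w hw
    have := h _ (apply_mem_of_smul_eq gW hw)
    rw [hc w hw] at this
    rw [pow_succ, ← mul_assoc, map_mul, Polynomial.aeval_X]
    exact this

/-- the centraliser of an irreducible element is commutative -/
theorem cycv (gW : g • W = W) (irr : ∀ U ≤ W, g • U = U → U = ⊥ ∨ U = W) {c c' : V ≃ₗ[F] V} (cW : c • W = W)
    (cW' : c' • W = W) (hc : ∀ w ∈ W, c (g w) = g (c w)) (hc' : ∀ w ∈ W, c' (g w) = g (c' w)) :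
    ∀ w ∈ W, c (c' w) = c' (c w) := by
  intro v hv
  by_cases v0 : v = 0
  · simp [v0]
  let φ : Polynomial F →ₗ[F] V := LinearMap.applyₗ v ∘ₗ (Polynomial.aeval (g : End F V)).toLinearMap
  have hφ : ∀ p, φ p = Polynomial.aeval (g : End F V) p v := fun _ => rfl
  have e : LinearMap.range φ = W := by
    refine (irr _ ?_ (smul_eq_of_le ?_)).resolve_left fun k => v0 ?_
    · rintro _ ⟨p, rfl⟩
      exact (so_aeval gW hc p v hv).1
    · rintro _ ⟨p, rfl⟩
      exact ⟨Polynomial.X * p, by rw [hφ, hφ, map_mul, Polynomial.aeval_X]; rfl⟩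
    · exact (Submodule.eq_bot_iff _).1 k v ⟨1, by rw [hφ, map_one]; rfl⟩
  obtain ⟨p, hp⟩ := e.ge (apply_mem_of_smul_eq cW hv)
  obtain ⟨p', hp'⟩ := e.ge (apply_mem_of_smul_eq cW' hv)
  rw [hφ] at hp hp'
  calc c (c' v) = Polynomial.aeval (g : End F V) (p' * p) v := by
        rw [← hp', (so_aeval gW hc p' v hv).2, ← hp, map_mul]; rfl
    _ = c' (c v) := by
        rw [← hp, (so_aeval gW hc' p v hv).2, ← hp', mul_comm, map_mul]; rfl

theorem so_triv {a b : V ≃ₗ[F] V} (ha : a • W = W) (hb : b • W = W) (h : ∀ w ∈ W, a (b w) = b (a w)) :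
    ∀ w ∈ W, ⁅a, b⁆ w = w := fun w hw => by
  have m : (a⁻¹ * b⁻¹) w ∈ W := apply_mem_of_smul_eq
    (by rw [mul_smul, inv_smul_eq_iff.2 hb.symm, inv_smul_eq_iff.2 ha.symm]) hw
  calc _ = a (b ((a⁻¹ * b⁻¹) w)) := rfl
    _ = (b * a * (a⁻¹ * b⁻¹)) w := h _ m
    _ = w := by rw [show b * a * (a⁻¹ * b⁻¹) = 1 by group]; rfl

theorem so_compl {r : ℕ} (hr : (r : F) ≠ 0) (ho : g ^ r = 1) {U : Submodule F V} (hU : g • U = U) :
    ∃ D, g • D = D ∧ IsCompl U D := by
  have s : End.IsSemisimple (g : End F V) := End.isSemisimple_of_squarefree_aeval_eq_zero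
    (Polynomial.X_pow_sub_one_separable_iff.2 hr).squarefree (by
      ext v
      have : (g ^ r) v = v := by rw [ho]; rfl
      simpa [End.pow_apply, LinearEquiv.pow_apply, sub_eq_zero] using this)
  obtain ⟨D, hD, k⟩ := End.isSemisimple_iff.1 s U fun v hv => apply_mem_of_smul_eq hU hv
  exact ⟨D, smul_eq_of_le fun v hv => hD hv, k⟩

theorem solv (h : Pol P q) (k : P.IsHerm) (hW : ND P W) {r : ℕ} (hr : Od r (-q) (finrank F W)) (h3 : 3 ≤ finrank F W)
    (hg : g ∈ P.isom) (ho : orderOf g = r) (gW : g • W = W) (fpf : ∀ w ∈ W, g w = w → w = 0)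
    {Z : Subgroup (V ≃ₗ[F] V)} (hZ : Fx Z W) (hc : Z ≤ Subgroup.centralizer {g}) :
    ∀ c ∈ ⁅⁅Z, Z⁆, ⁅Z, Z⁆⁆, ∀ w ∈ W, c w = w := by
  have q0 : 0 < q := by have := h.three; omega
  have cF := h.card_herm k
  have gr : g ^ r = 1 := ho ▸ pow_orderOf_eq_one g
  have pg : IsPGroup r (Subgroup.zpowers g) := isPGroup_zpowers_of_pow (k := 1) (by rwa [pow_one])
  have fx : ∀ U : Submodule F V, g • U = U → Fx (Subgroup.zpowers g) U := fun U hU _ hk =>
    (Subgroup.zpowers_le.2 (MulAction.mem_stabilizer_iff.2 hU)) hk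
  have dj : ∀ U ≤ W, Disjoint U (fixV (Subgroup.zpowers g)) := fun U hU =>
    Submodule.disjoint_def.2 fun v h1 h2 => fpf v (hU h1) (h2 g (Subgroup.mem_zpowers g))
  have cz : ∀ c ∈ Z, ∀ w, c (g w) = g (c w) := fun c hc' w =>
    congrArg (· w) (Subgroup.mem_centralizer_singleton_iff.1 (hc hc'))
  have dim : ∀ U ≤ W, g • U = U → U = ⊥ ∨ U = W ∨ 2 * finrank F U = finrank F W := fun U hU gU => by
    have := dim_lin hr.1 pg (fx U gU) (dj U hU)
    rw [cF, hr.modEq_sq q0] at this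
    obtain ⟨j, hj⟩ := this
    have le := Submodule.finrank_mono hU
    have : j ≤ 2 := by
      by_contra! t
      have := Nat.mul_le_mul_left (finrank F W) t
      omega
    interval_cases j
    · exact Or.inl (Submodule.finrank_eq_zero.1 (by omega))
    · exact Or.inr (Or.inr (by omega))
    · exact Or.inr (Or.inl (Submodule.eq_of_le_of_finrank_eq hU (by omega)))
  have irr : ∀ U ≤ W, 2 * finrank F U = finrank F W → ∀ X ≤ U, g • X = X → X = ⊥ ∨ X = U :=
    fun U hU dU X hX gX => by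
      rcases dim X (hX.trans hU) gX with e | e | e
      · exact Or.inl e
      · have := Submodule.finrank_mono hX
        rw [e] at this
        omega
      · exact Or.inr (Submodule.eq_of_le_of_finrank_eq hX (by omega))
  have ts : ∀ U ≤ W, g • U = U → 2 * finrank F U ≤ finrank F W → U ≤ P.perp U := fun U hU gU dU => by
    rcases dim U hU gU with e | e | e
    · rw [e]; exact bot_le
    · rw [e] at dU
      omega
    rcases irr U hU e (U ⊓ P.perp U) inf_le_left (by rw [smul_inf'', smul_perp hg, gU]) with f | f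
    · have := dim_np h hr.1 (cF ▸ hr.not_dvd_sub q0 h3) pg (Subgroup.zpowers_le.2 hg) (fx U gU)
        (disjoint_iff.2 f) (dj U hU)
      obtain ⟨j, hj⟩ : ∃ j, finrank F U = j + 1 := ⟨finrank F U - 1, by omega⟩
      rw [cF, hj, hr.dvd_np q0 h3] at this
      rcases this with t | t
      · have := Nat.le_of_dvd j.succ_pos t
        omega
      · have := Nat.eq_zero_of_dvd_of_lt t (by omega)
        omega
    · exact inf_eq_left.1 f
  have ZZ : ⁅Z, Z⁆ ≤ Z := Subgroup.commutator_le_self Z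
  suffices s : ∀ a ∈ ⁅Z, Z⁆, ∀ b ∈ ⁅Z, Z⁆, ∀ w ∈ W, a (b w) = b (a w) from fun c hc' =>
    (mem_fixingSubgroup_iff (V ≃ₗ[F] V)).1 (Subgroup.commutator_le.2 (fun a ha b hb =>
      (mem_fixingSubgroup_iff (V ≃ₗ[F] V) (s := (W : Set V))).2
        (so_triv (hZ a (ZZ ha)) (hZ b (ZZ hb)) (s a ha b hb))) hc')
  by_cases hi : ∀ U ≤ W, g • U = U → U = ⊥ ∨ U = W
  · exact fun a ha b hb => cycv gW hi (hZ a (ZZ ha)) (hZ b (ZZ hb)) (fun w _ => cz a (ZZ ha) w)
      fun w _ => cz b (ZZ hb) w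
  push Not at hi
  obtain ⟨A, AW, gA, A0, A1⟩ := hi
  have dA := ((dim A AW gA).resolve_left A0).resolve_left A1
  obtain ⟨D, gD, cD⟩ := so_compl (sy_cast hr.1 (cF ▸ fun t => hr.not_dvd (by omega)
    (hr.1.dvd_of_dvd_pow t))) gr gA
  have sB : A ⊔ D ⊓ W = W := by rw [← sup_inf_assoc_of_le _ AW, cD.sup_eq_top, top_inf_eq]
  have iB : A ⊓ (D ⊓ W) = ⊥ := by rw [← inf_assoc, cD.inf_eq_bot, bot_inf_eq]
  have gB : g • (D ⊓ W) = D ⊓ W := by rw [smul_inf'', gD, gW]
  have dB : 2 * finrank F ↥(D ⊓ W) = finrank F W := by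
    have := Submodule.finrank_sup_add_finrank_inf_eq A (D ⊓ W)
    rw [sB, iB, finrank_bot] at this
    omega
  have two : ∀ U ≤ W, g • U = U → 2 * finrank F U = finrank F W → U = A ∨ U = D ⊓ W := fun U hU gU dU => by
    by_contra! hn
    obtain ⟨π, ρ, m1, m2, e, g1, g2⟩ : ∃ π ρ : V →ₗ[F] V, (∀ v, π v ∈ A) ∧ (∀ v, ρ v ∈ D) ∧
        (∀ v, π v + ρ v = v) ∧ (∀ v, g (π v) = π (g v)) ∧ ∀ v, g (ρ v) = ρ (g v) := by
      have e := Submodule.projection_add_projection_eq_self cD
      have m1 := Submodule.projection_apply_mem cD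
      have m2 := Submodule.projection_apply_mem cD.symm
      have t : ∀ v, g (A.projection D cD v) - A.projection D cD (g v) =
          D.projection A cD.symm (g v) - g (D.projection A cD.symm v) := fun v => by
        rw [sub_eq_sub_iff_add_eq_add, ← map_add, e, add_comm, e]
      have z : ∀ v, g (A.projection D cD v) - A.projection D cD (g v) = 0 := fun v =>
        Submodule.disjoint_def.1 cD.disjoint _ (sub_mem (apply_mem_of_smul_eq gA (m1 v)) (m1 _))
          (t v ▸ sub_mem (m2 _) (apply_mem_of_smul_eq gD (m2 v)))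
      exact ⟨_, _, m1, m2, e, fun v => sub_eq_zero.1 (z v), fun v => (sub_eq_zero.1 (t v ▸ z v)).symm⟩
    have m3 : ∀ v ∈ U, ρ v ∈ D ⊓ W := fun v hv =>
      ⟨m2 v, by rw [eq_sub_of_add_eq' (e v)]; exact sub_mem (hU hv) (AW (m1 v))⟩
    have gm : ∀ f : V →ₗ[F] V, (∀ v, g (f v) = f (g v)) → g • U.map f = U.map f := fun f hf =>
      smul_eq_of_le (by
        rintro _ ⟨v, hv, rfl⟩
        exact ⟨g v, apply_mem_of_smul_eq gU hv, (hf v).symm⟩)
    have tA := ts A AW gA dA.le
    have tB := ts _ inf_le_right gB dB.le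
    have key : ∀ l : F, ∀ u ∈ U, ∀ u' ∈ U, l * P.B (π u) (ρ u') + σ l * P.B (ρ u) (π u') = 0 :=
      fun l u hu u' hu' => by
        have t := ts (U.map (π + l • ρ)) (by
            rintro _ ⟨v, hv, rfl⟩
            exact add_mem (AW (m1 v)) (W.smul_mem l (m3 v hv).2))
          (gm _ fun v => by simp [g1, g2])
          (dU ▸ Nat.mul_le_mul_left 2 (Submodule.finrank_map_le _ _))
        have := t ⟨u', hu', rfl⟩ _ ⟨u, hu, rfl⟩
        simp only [LinearMap.add_apply, LinearMap.smul_apply, P.B_add_left, P.B_add_right, P.B_smul_left,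
          P.B_smul_right, tA (m1 u') _ (m1 u), tB (m3 u' hu') _ (m3 u hu)] at this
        linear_combination this
    obtain ⟨l, hl⟩ : ∃ l, σ l ≠ l := by
      by_contra! t
      exact k.σ_ne (RingHom.ext t)
    have e1 : U.map π = A := (irr A AW dA _ (by rintro _ ⟨v, _, rfl⟩; exact m1 v) (gm π g1)).resolve_left
      fun t => hn.2 (Submodule.eq_of_le_of_finrank_eq (fun v hv => by
        have := e v
        rw [(Submodule.eq_bot_iff _).1 t _ ⟨v, hv, rfl⟩, zero_add] at this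
        exact this ▸ m3 v hv) (by omega))
    have e2 : U.map ρ = D ⊓ W := (irr _ inf_le_right dB _ (by rintro _ ⟨v, hv, rfl⟩; exact m3 v hv)
      (gm ρ g2)).resolve_left fun t => hn.1 (Submodule.eq_of_le_of_finrank_eq (fun v hv => by
        have := e v
        rw [(Submodule.eq_bot_iff _).1 t _ ⟨v, hv, rfl⟩, add_zero] at this
        exact this ▸ m1 v) (by omega))
    refine A0 (eq_bot_iff.2 (hW AW ?_))
    rw [← sB, P.perp_sup, le_inf_iff, P.le_perp_comm (W' := D ⊓ W)]
    refine ⟨tA, fun y hy x hx => ?_⟩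
    obtain ⟨u, hu, rfl⟩ := e1.ge hx
    obtain ⟨u', hu', rfl⟩ := e2.ge hy
    have k1 := key 1 u hu u' hu'
    rw [map_one] at k1
    refine (mul_eq_zero.1 ?_).resolve_left (sub_ne_zero.2 hl)
    linear_combination σ l * k1 - key l u hu u' hu'
  have BW : D ⊓ W ≤ W := inf_le_right
  generalize D ⊓ W = B at sB iB gB dB two BW
  have AB : A ≠ B := fun e => A0 (by rwa [← e, inf_idem] at iB)
  have zi : ∀ c ∈ Z, ∀ U ≤ W, g • U = U → 2 * finrank F U = finrank F W → c • U = A ∨ c • U = B :=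
    fun c hc' U hU gU dU => two _ (hZ c hc' ▸ (smul_le c).2 hU) (by
      rw [← mul_smul, ← Subgroup.mem_centralizer_singleton_iff.1 (hc hc'), mul_smul, gU])
      (by rwa [finrank_smul])
  have sw : ∀ c ∈ Z, (c • A = A ∧ c • B = B) ∨ (c • A = B ∧ c • B = A) := fun c hc' => by
    rcases zi c hc' A AW gA dA with e | e <;> rcases zi c hc' B BW gB dB with f | f
    · exact absurd (MulAction.injective c (e.trans f.symm)) AB
    · exact Or.inl ⟨e, f⟩
    · exact Or.inr ⟨e, f⟩
    · exact absurd (MulAction.injective c (e.trans f.symm)) AB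
  have st : ⁅Z, Z⁆ ≤ MulAction.stabilizer _ A ⊓ MulAction.stabilizer _ B :=
    Subgroup.commutator_le.2 fun a ha b hb => by
      rcases sw a ha with ⟨h1, h2⟩ | ⟨h1, h2⟩ <;> rcases sw b hb with ⟨h3, h4⟩ | ⟨h3, h4⟩ <;>
        simp only [Subgroup.mem_inf, MulAction.mem_stabilizer_iff, commutatorElement_def, mul_smul,
          inv_smul_eq_iff.2 h1.symm, inv_smul_eq_iff.2 h2.symm, inv_smul_eq_iff.2 h3.symm,
          inv_smul_eq_iff.2 h4.symm, h1, h2, h3, h4, and_self]
  intro a ha b hb w hw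
  obtain ⟨x, hx, y, hy, rfl⟩ := Submodule.mem_sup.1 (sB.ge hw)
  simp only [map_add]
  rw [cycv gA (irr A AW dA) (st ha).1 (st hb).1 (fun w _ => cz a (ZZ ha) w) (fun w _ => cz b (ZZ hb) w) x hx,
    cycv gB (irr B BW dB) (st ha).2 (st hb).2 (fun w _ => cz a (ZZ ha) w) (fun w _ => cz b (ZZ hb) w) y hy]

end CfsgLib.KP
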