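import Mathlib
import Cfsg.Agent.Lib.KP.Solv

/-! KP: point-transitive subgroups of `U₃(q)` are not solvable (plans/KP.md, package NS3). -/

set_option autoImplicit false
set_option linter.unusedSectionVars false

namespace CfsgLib.KP

open CfsgLib.CK CfsgLib.KL CfsgLib.Forms CfsgLib.RootMax CfsgLib.ClMax CfsgLib.Tech Module

open scoped commutatorElement

namespace Ns3

section Grp

variable {G : Type*} [Group G]

theorem relIndex_cent_le [Finite G] (N : Subgroup G) (y : G) (s : Set G) (hs : ∀ n ∈ N, n * y * n⁻¹ ∈ s) :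
    (Subgroup.centralizer {y}).relIndex N ≤ s.ncard := by
  rw [Subgroup.relIndex, Subgroup.index, ← Nat.card_coe_set_eq]
  refine Nat.card_le_card_of_injective (fun c => ⟨c.out * y * (c.out : G)⁻¹, hs _ c.out.2⟩) fun c d h => ?_
  rw [← c.out_eq', ← d.out_eq', QuotientGroup.eq, Subgroup.mem_subgroupOf, Subgroup.mem_centralizer_singleton_iff]
  have h' : (c.out : G) * y * (c.out : G)⁻¹ = d.out * y * (d.out : G)⁻¹ := congrArg Subtype.val h
  simp only [Subgroup.coe_mul, InvMemClass.coe_inv]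
  calc (c.out : G)⁻¹ * d.out * y = (c.out : G)⁻¹ * (d.out * y * (d.out : G)⁻¹) * d.out := by group
    _ = _ := by rw [← h']; group

/-- the last term of the derived series outside `Z` -/
theorem exists_A {K Z : Subgroup G} (hs : Group.IsSolvable K) (hn : ¬ K ≤ Z) :
    ∃ A ≤ K, (∀ k ∈ K, ∀ a ∈ A, k * a * k⁻¹ ∈ A) ∧ ¬ A ≤ Z ∧ ∀ a ∈ A, ∀ b ∈ A, ⁅a, b⁆ ∈ Z := by
  classical
  obtain ⟨n, hn'⟩ := hs.solvable
  have ex : ∃ m, (derivedSeries K m).map K.subtype ≤ Z := ⟨n, by rw [hn', Subgroup.map_bot]; exact bot_le⟩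
  have h1 := Nat.find_spec ex
  obtain h0 | ⟨m, hm⟩ := Nat.eq_zero_or_eq_succ_pred (Nat.find ex) |>.imp_right fun k => (⟨_, k⟩ : ∃ m, _ = m + 1)
  · rw [h0, derivedSeries_zero, ← MonoidHom.range_eq_map, Subgroup.range_subtype] at h1
    exact absurd h1 hn
  · refine ⟨(derivedSeries K m).map K.subtype, Subgroup.map_subtype_le _, ?_, Nat.find_min ex (by omega), ?_⟩
    · rintro k hk _ ⟨a, ha, rfl⟩
      exact ⟨_, (derivedSeries_normal K m).conj_mem a ha ⟨k, hk⟩, rfl⟩
    · rintro _ ⟨a, ha, rfl⟩ _ ⟨b, hb, rfl⟩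
      rw [hm, derivedSeries_succ] at h1
      exact h1 ⟨_, Subgroup.commutator_mem_commutator ha hb, map_commutatorElement _ _ _⟩

theorem conj_pow {b c x : G} (hx : Commute b x) (h : b * c * b⁻¹ = x * c) (n : ℕ) :
    b ^ n * c * (b ^ n)⁻¹ = x ^ n * c := by
  induction n with
  | zero => simp
  | succ n ih =>
    calc b ^ (n + 1) * c * (b ^ (n + 1))⁻¹ = b * (b ^ n * c * (b ^ n)⁻¹) * b⁻¹ := by rw [pow_succ']; group
      _ = x ^ n * (b * c * b⁻¹) := by rw [ih, ← mul_assoc, (hx.pow_right n).eq]; group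
      _ = _ := by rw [h, pow_succ, mul_assoc]

theorem comm_of_zpow {g c : G} {r : ℕ} (hr : r.Prime) (hg : g ^ r = 1) {k : ℤ} (hk : ¬ (r : ℤ) ∣ k)
    (h : Commute (g ^ k) c) : Commute g c := by
  obtain ⟨u, v, e⟩ := ((Nat.prime_iff_prime_int.1 hr).coprime_iff_not_dvd.2 hk)
  have : g = (g ^ k) ^ v := by
    rw [← zpow_mul, show k * v = 1 - r * u by linear_combination e, zpow_sub, zpow_mul, zpow_natCast, hg]
    simp
  exact this ▸ h.zpow_left v

/-- ten different conjugates -/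
theorem ten {g c : G} {r : ℕ} (hr : r.Prime) (h7 : 7 ≤ r) (hg : g ^ r = 1) (h3 : c ^ 3 = 1) (hc : ¬ Commute g c) :
    Function.Injective fun i : Fin 5 × Bool => g ^ (i.1 : ℕ) * (if i.2 then c else c⁻¹) * (g ^ (i.1 : ℕ))⁻¹ := by
  rintro ⟨i, ε⟩ ⟨j, δ⟩ h
  have e : g ^ ((i : ℕ) - (j : ℕ) : ℤ) * (if ε then c else c⁻¹) * (g ^ ((i : ℕ) - (j : ℕ) : ℤ))⁻¹ =
      if δ then c else c⁻¹ := by
    have h' : g ^ (i : ℕ) * (if ε then c else c⁻¹) * (g ^ (i : ℕ))⁻¹ =
      g ^ (j : ℕ) * (if δ then c else c⁻¹) * (g ^ (j : ℕ))⁻¹ := h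
    calc _ = (g ^ (j : ℕ))⁻¹ * (g ^ (i : ℕ) * (if ε then c else c⁻¹) * (g ^ (i : ℕ))⁻¹) * g ^ (j : ℕ) := by group
      _ = _ := by rw [h']; group
  generalize hk : ((i : ℕ) - (j : ℕ) : ℤ) = k at e
  have e' : g ^ k * c * (g ^ k)⁻¹ = c ∨ g ^ k * c * (g ^ k)⁻¹ = c⁻¹ := by
    cases ε <;> cases δ <;> simp only [Bool.false_eq_true, if_false, if_true] at e
    · exact Or.inl (inv_injective (by rw [← e]; group))
    · exact Or.inr (inv_injective (by rw [inv_inv]; exact Eq.trans (by group) e))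
    · exact Or.inr e
    · exact Or.inl e
  have e2 : Commute (g ^ (2 * k)) c := by
    have : g ^ (2 * k) * c * (g ^ (2 * k))⁻¹ = g ^ k * (g ^ k * c * (g ^ k)⁻¹) * (g ^ k)⁻¹ := by group
    rcases e' with e' | e'
    · rw [e', e'] at this
      exact mul_inv_eq_iff_eq_mul.1 this
    · rw [e', show g ^ k * c⁻¹ * (g ^ k)⁻¹ = (g ^ k * c * (g ^ k)⁻¹)⁻¹ by group, e', inv_inv] at this
      exact mul_inv_eq_iff_eq_mul.1 this
  have k0 : k = 0 := by
    by_contra k0
    refine hc (comm_of_zpow hr hg (fun d => ?_) e2)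
    rcases (Nat.prime_iff_prime_int.1 hr).dvd_or_dvd d with d | d
    · have := Int.le_of_dvd two_pos d
      omega
    · have := Int.le_of_dvd (abs_pos.2 k0) ((dvd_abs _ _).2 d)
      have := i.2
      have := j.2
      rcases abs_cases k with a | a <;> omega
  have ij : i = j := Fin.ext (by omega)
  subst k0 ij
  refine Prod.ext rfl ?_
  by_contra hne
  rw [zpow_zero, one_mul, inv_one, mul_one] at e
  have h2 : c⁻¹ = c := by
    cases ε <;> cases δ
    · exact absurd rfl hne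
    · exact e
    · exact e.symm
    · exact absurd rfl hne
  refine hc ?_
  rw [pow_three, inv_eq_iff_mul_eq_one.1 h2, mul_one] at h3
  rw [h3]
  exact Commute.one_right g

end Grp

variable {F : Type*} [Field F] [Finite F] {σ : F →+* F} {V : Type*} [AddCommGroup V] [Module F V] [Finite V]
  {P : PQ σ V} {q : ℕ} {K A : Subgroup (V ≃ₗ[F] V)} {a b g x y : V ≃ₗ[F] V} {v : V} {r : ℕ}

/-- no proper invariant subspace -/
def Irr (x : V ≃ₗ[F] V) : Prop := ∀ U : Submodule F V, x • U = U → U = ⊥ ∨ U = ⊤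

/-- the underlying endomorphism -/
abbrev toE : (V ≃ₗ[F] V) →* End F V := LinearEquiv.automorphismGroup.toLinearMapMonoidHom

theorem toE_apply (x : V ≃ₗ[F] V) (v : V) : toE x v = x v := rfl

theorem toE_inj : Function.Injective (toE : (V ≃ₗ[F] V) → End F V) := LinearEquiv.toLinearMap_injective

/-- the scalars -/
def Zs (F V : Type*) [Field F] [AddCommGroup V] [Module F V] : Subgroup (V ≃ₗ[F] V) where
  carrier := {x | Sc x}
  mul_mem' := by
    rintro x y ⟨c, hc⟩ ⟨d, hd⟩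
    exact ⟨c * d, fun v => by rw [LinearEquiv.mul_apply, hc, hd, smul_smul]⟩
  one_mem' := ⟨1, fun v => by simp⟩
  inv_mem' := by
    rintro x ⟨c, hc⟩
    by_cases h0 : c = 0
    · exact ⟨0, fun v => x.injective (by rw [hc, hc, h0, zero_smul, zero_smul])⟩
    · refine ⟨c⁻¹, fun v => x.injective ?_⟩
      rw [← LinearEquiv.mul_apply, mul_inv_cancel, hc, smul_smul, mul_inv_cancel₀ h0, one_smul]
      rfl

theorem sc_comm (h : Sc x) (y : V ≃ₗ[F] V) : Commute y x := by
  obtain ⟨c, hc⟩ := h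
  exact LinearEquiv.ext fun v => by rw [LinearEquiv.mul_apply, LinearEquiv.mul_apply, hc, hc, map_smul]

instance : (Zs F V).Normal := ⟨fun x hx y => by rw [(sc_comm hx y).eq, mul_inv_cancel_right]; exact hx⟩

theorem sc_fix (h : Sc x) (U : Submodule F V) : x • U = U := by
  obtain ⟨c, hc⟩ := h
  exact smul_eq_of_le fun v hv => by rw [hc]; exact U.smul_mem c hv

theorem Irr.schur (h : Irr x) {f : End F V} (hc : toE x * f = f * toE x) (hv : v ≠ 0) (h0 : f v = 0) : f = 0 := by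
  rcases h (LinearMap.ker f) (smul_eq_of_le fun w hw => by
    have := congrArg (fun φ : End F V => φ w) hc
    simp only [End.mul_apply, toE_apply] at this
    rw [LinearMap.mem_ker, ← this, LinearMap.mem_ker.1 hw, map_zero]) with k | k
  · exact absurd (k.le (LinearMap.mem_ker.2 h0)) hv
  · exact LinearMap.ker_eq_top.1 k

theorem Irr.sc (h : Irr x) (hc : Commute x y) (hv : v ≠ 0) {μ : F} (e : y v = μ • v) : Sc y := by
  have := h.schur (f := toE y - μ • 1) (by
    rw [mul_sub, sub_mul, ← map_mul, ← map_mul, hc.eq, mul_smul_comm, smul_mul_assoc, mul_one, one_mul]) hv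
    (by rw [LinearMap.sub_apply, toE_apply, e]; simp)
  exact ⟨μ, fun w => by simpa [toE_apply, sub_eq_zero] using congrArg (fun φ : End F V => φ w) this⟩

theorem Irr.not_sc (h : Irr x) (h3 : finrank F V = 3) : ¬ Sc x := fun k => by
  have : Nontrivial V := Module.nontrivial_of_finrank_pos (R := F) (by omega)
  obtain ⟨v, hv⟩ := exists_ne (0 : V)
  have := finrank_span_singleton (K := F) hv
  rcases h _ (sc_fix k (F ∙ v)) with e | e <;> rw [e] at this <;> simp at this
  omega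

/-- a proper invariant subspace yields an invariant point -/
theorem pt_of_inv (h : P.Nondeg) (h3 : finrank F V = 3) {S : Set (V ≃ₗ[F] V)} (hS : ∀ s ∈ S, s ∈ P.isom)
    {U : Submodule F V} (hU : ∀ s ∈ S, s • U = U) (h0 : U ≠ ⊥) (h1 : U ≠ ⊤) :
    ∃ v : V, v ≠ 0 ∧ ∀ s ∈ S, ∃ μ : F, s v = μ • v := by
  have key : ∀ W : Submodule F V, finrank F W = 1 → (∀ s ∈ S, s • W = W) →
      ∃ v : V, v ≠ 0 ∧ ∀ s ∈ S, ∃ μ : F, s v = μ • v := fun W hW hs => by
    obtain ⟨v, hv, rfl⟩ := exists_of_rk (F := F) (V := V) (x := W) ((lin_rk W).trans hW)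
    exact ⟨v, hv, fun s k => (Submodule.mem_span_singleton.1
      (apply_mem_of_smul_eq (hs s k) (Submodule.mem_span_singleton_self v))).imp fun _ e => e.symm⟩
  have a1 := Submodule.finrank_lt h1
  have a2 : finrank F U ≠ 0 := fun k => h0 (Submodule.finrank_eq_zero.1 k)
  have a3 := P.finrank_perp h U
  by_cases a4 : finrank F U = 1
  · exact key U a4 hU
  · exact key (P.perp U) (by omega) fun s k => by rw [smul_perp (hS s k), hU s k]

/-- the weight spaces -/
def Wt (A : Subgroup (V ≃ₗ[F] V)) (χ : (V ≃ₗ[F] V) → F) : Submodule F V := ⨅ a : A, (toE a.1).eigenspace (χ a)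

theorem mem_Wt {χ : (V ≃ₗ[F] V) → F} : v ∈ Wt A χ ↔ ∀ a ∈ A, a v = χ a • v := by
  simp only [Wt, Submodule.mem_iInf, End.mem_eigenspace_iff, toE_apply, Subtype.forall]

/-- an abelian normal subgroup with a common eigenvector is scalar -/
theorem wt (h3 : finrank F V = 3) (hr : r.Prime) (h7 : 7 ≤ r) (hg : g ∈ K) (ho : orderOf g = r) (irr : Irr g)
    (hN : ∀ k ∈ K, ∀ a ∈ A, k * a * k⁻¹ ∈ A) (hA : ∀ a ∈ A, ∀ b ∈ A, Commute a b) (hv : v ≠ 0)
    (he : ∀ a ∈ A, ∃ μ : F, a v = μ • v) : A ≤ Zs F V := by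
  classical
  have := Fact.mk hr
  choose! χ hχ using he
  let X : Set (Submodule F V) := {U | U ≠ ⊥ ∧ ∃ χ, U = Wt A χ}
  have ind : iSupIndep fun χ : A → F => ⨅ a : A, (toE a.1).eigenspace (χ a) :=
    (End.independent_iInf_maxGenEigenspace_of_forall_mapsTo (fun a : A => toE a.1) fun a b φ =>
      End.mapsTo_maxGenEigenspace_of_comm ((hA b b.2 a a.2).map toE) φ).mono
      fun χ => iInf_mono fun a => End.eigenspace_le_maxGenEigenspace
  have hX : X.ncard ≤ 3 := by
    have := Fintype.ofFinite {χ : A → F // (⨅ a : A, (toE a.1).eigenspace (χ a)) ≠ ⊥}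
    have h1 := ind.subtype_ne_bot_le_finrank
    rw [h3, ← Nat.card_eq_fintype_card] at h1
    refine le_trans (Set.ncard_le_ncard (t := Set.range fun χ : {χ : A → F // (⨅ a : A, (toE a.1).eigenspace (χ a)) ≠ ⊥} =>
      ⨅ a : A, (toE a.1).eigenspace (χ.1 a)) ?_) (le_trans ?_ h1)
    · rintro _ ⟨h0, χ, rfl⟩
      exact ⟨⟨fun a => χ a, h0⟩, rfl⟩
    · rw [← Set.image_univ, ← Set.ncard_univ]
      exact Set.ncard_image_le
  have hI : Inv (Subgroup.zpowers g) X := by
    rintro k hk _ ⟨h0, χ, rfl⟩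
    have hk' := (Subgroup.zpowers_le_of_mem hg) hk
    refine ⟨fun e => h0 ((smul_eq_iff_eq_inv_smul k).1 e |>.trans (smul_bot'' _)), fun a => χ (k⁻¹ * a * k), ?_⟩
    ext w
    rw [mem_smul, mem_Wt, mem_Wt]
    refine ⟨fun h a ha => k.symm.injective ?_, fun h a ha => k.injective ?_⟩
    · have := h _ (hN _ (inv_mem hk') a ha)
      rw [inv_inv] at this
      rw [map_smul, ← this]
      simp [LinearEquiv.mul_apply, LinearEquiv.coe_inv]
    · have := h _ (hN _ hk' a ha)
      rw [show k⁻¹ * (k * a * k⁻¹) * k = a by group] at this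
      rw [map_smul, LinearEquiv.apply_symm_apply, ← this]
      rfl
  have h0 : Wt A χ ≠ ⊥ := fun e => hv (e.le (mem_Wt.2 hχ))
  have := fx_of_lt hr (IsPGroup.of_card (n := 1) (by rw [Nat.card_zpowers, ho, pow_one])) hI (by omega)
    (a := Wt A χ) ⟨h0, χ, rfl⟩ g (Subgroup.mem_zpowers g)
  exact fun a ha => ⟨χ a, fun w => mem_Wt.1 (((irr _ this).resolve_left h0).ge trivial) a ha⟩

open scoped IsMulCommutative in
/-- at most three commuting conjugates -/
theorem conj_le (h3 : finrank F V = 3) (hA : ∀ a ∈ A, ∀ b ∈ A, Commute a b) (ha : a ∈ A) (irr : Irr a) :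
    {b | b ∈ A ∧ Polynomial.aeval (toE b) (toE a).charpoly = 0}.ncard ≤ 3 := by
  have : Nontrivial V := Module.nontrivial_of_finrank_pos (R := F) (by omega)
  let E := Algebra.adjoin F (toE '' (A : Set (V ≃ₗ[F] V)))
  have : IsMulCommutative E := Algebra.isMulCommutative_adjoin F (by
    rintro _ ⟨a, ha, rfl⟩ _ ⟨b, hb, rfl⟩
    exact ((hA a ha b hb).map toE).eq)
  have m : ∀ b ∈ A, toE b ∈ E := fun b hb => Algebra.subset_adjoin ⟨b, hb, rfl⟩
  have : NoZeroDivisors E := ⟨fun {x y} h => by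
    by_contra! k
    obtain ⟨w, hw⟩ := DFunLike.ne_iff.1 fun e : y.1 = 0 => k.2 (Subtype.ext e)
    exact k.1 (Subtype.ext (irr.schur (congrArg Subtype.val (mul_comm (⟨_, m a ha⟩ : E) x)) hw
      (congrArg (fun φ : E => φ.1 w) h)))⟩
  have : IsDomain E := NoZeroDivisors.to_isDomain E
  have h1 := Polynomial.ncard_rootSet_le (toE a).charpoly E
  rw [LinearMap.charpoly_natDegree, h3] at h1
  rw [← Set.ncard_image_of_injective _ toE_inj]
  refine le_trans (Set.ncard_le_ncard ?_ (((toE a).charpoly.rootSet_finite E).image Subtype.val))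
    ((Set.ncard_image_le ((toE a).charpoly.rootSet_finite E)).trans h1)
  rintro _ ⟨b, ⟨hb, e⟩, rfl⟩
  exact ⟨⟨_, m b hb⟩, (LinearMap.charpoly_monic _).mem_rootSet.2
    (Subtype.ext ((Polynomial.aeval_subalgebra_coe _ E _).trans e)), rfl⟩

theorem aeval_conj (k a : V ≃ₗ[F] V) (p : Polynomial F) (h : Polynomial.aeval (toE a) p = 0) :
    Polynomial.aeval (toE (k * a * k⁻¹)) p = 0 := by
  have e : toE (k * a * k⁻¹) = (k.conjAlgEquiv F) (toE a) := rfl
  rw [e, Polynomial.aeval_algHom_apply, h, map_zero]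

/-- the abelian case -/
theorem ab (h : Pol P q) (k : P.IsHerm) (h3 : finrank F V = 3) (hK : K ≤ P.isom) (tr : Tr K (T P 1))
    (hr : r.Prime) (h7 : 7 ≤ r) (hg : g ∈ K) (ho : orderOf g = r) (irr : Irr g) (le : A ≤ K)
    (hN : ∀ k ∈ K, ∀ a ∈ A, k * a * k⁻¹ ∈ A) (hA : ∀ a ∈ A, ∀ b ∈ A, Commute a b) : A ≤ Zs F V := by
  intro a ha
  by_contra hn
  have ia : Irr a := fun U hU => by
    by_contra! k0
    obtain ⟨v, hv, k1⟩ := pt_of_inv h.nd h3 (S := {a}) (fun s hs => hs ▸ hK (le ha)) (fun s hs => hs ▸ hU) k0.1 k0.2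
    obtain ⟨μ, hμ⟩ := k1 a rfl
    obtain ⟨w, hw, k2⟩ := pt_of_inv h.nd h3 (S := A) (U := (toE a).eigenspace μ) (fun s hs => hK (le hs))
      (fun s hs => smul_eq_of_le fun w hw => by
        rw [End.mem_eigenspace_iff, toE_apply] at hw ⊢
        rw [← map_smul, ← hw, ← LinearEquiv.mul_apply, (hA a ha s hs).eq, LinearEquiv.mul_apply])
      (fun e => hv (e.le (End.mem_eigenspace_iff.2 hμ)))
      fun e => hn ⟨μ, fun w => End.mem_eigenspace_iff.1 (e.ge (Submodule.mem_top (x := w)))⟩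
    exact hn (wt h3 hr h7 hg ho irr hN hA hw k2 ha)
  let C := K ⊓ Subgroup.centralizer {a}
  let Z := K ⊓ Zs F V
  have hj : C.relIndex K ≤ 3 := by
    rw [Subgroup.inf_relIndex_left]
    refine le_trans (relIndex_cent_le K a _ fun k hk => ?_) (conj_le h3 hA ha ia)
    exact ⟨hN k hk a ha, aeval_conj k a _ (LinearMap.aeval_self_charpoly _)⟩
  have hj0 : C.relIndex K ≠ 0 := Subgroup.index_ne_zero_of_finite
  have ZC : Z ≤ C := fun z hz => ⟨hz.1, Subgroup.mem_centralizer_singleton_iff.2 (sc_comm hz.2 a).symm.eq⟩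
  have st : ∀ y : Submodule F V, finrank F y = 1 → Stab C y = Z := fun y hy => by
    obtain ⟨v, hv, rfl⟩ := exists_of_rk (F := F) (V := V) (x := y) ((lin_rk y).trans hy)
    refine le_antisymm (fun z hz => ⟨hz.1.1, ?_⟩) fun z hz => ⟨ZC hz, sc_fix hz.2 _⟩
    obtain ⟨μ, hμ⟩ := Submodule.mem_span_singleton.1
      (apply_mem_of_smul_eq hz.2 (Submodule.mem_span_singleton_self v))
    exact ia.sc (Subgroup.mem_centralizer_singleton_iff.1 hz.1.2).symm hv hμ.symm
  have d1 := dc_eq {y : Submodule F V | finrank F y = 1} (orb C '' {y : Submodule F V | finrank F y = 1})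
    (fun y O => y ∈ O) (m := 1) (k := Z.relIndex C) (fun y hy => Set.ncard_eq_one.2 ⟨orb C y, Set.ext fun O =>
      ⟨fun ⟨⟨y', _, e⟩, k⟩ => e ▸ orb_eq_iff.2 (by rwa [← e] at k),
        fun e => e ▸ ⟨⟨y, hy, rfl⟩, 1, one_mem C, one_smul _ y⟩⟩⟩) (by
    rintro _ ⟨y, hy, rfl⟩
    rw [← st y hy, ← ncard_orb]
    congr 1
    exact Set.ext fun y' => and_iff_right_of_imp (by rintro ⟨z, -, rfl⟩; exact (finrank_smul z y).trans hy))
  rw [ncard_rank_one, h3, h.card_herm k, mul_one] at d1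
  obtain ⟨x, hx⟩ := exists_T (k := 1) h (by omega)
  have d2 := Subgroup.relIndex_dvd_of_le_left K (show Z ≤ Stab K x from fun z hz => ⟨hz.1, sc_fix hz.2 x⟩)
  rw [tr.relIndex ((inv_T P 1).mono hK) hx, ncard_T1 h, h3, h.card_herm k,
    ← Subgroup.relIndex_mul_relIndex Z C K ZC inf_le_left] at d2
  have d3 := d2.trans (Nat.mul_dvd_mul_right (Dvd.intro_left _ d1.symm) _)
  obtain ⟨s, rfl⟩ : ∃ s, q = s + 1 := ⟨q - 1, by have := h.three; omega⟩
  rw [show np ((s + 1) ^ 2) (s + 1) 3 = (s ^ 2 + s + 1) * (s + 2) by simp only [np]; ring,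
    show th ((s + 1) ^ 2) 3 = (s ^ 2 + s + 1) * ((s + 2) * (s + 1) + 1) by
      simp only [th, Finset.sum_range_succ, Finset.sum_range_zero]; ring, mul_assoc,
    Nat.mul_dvd_mul_iff_left (by positivity), add_mul, mul_assoc, one_mul,
    Nat.dvd_add_right (dvd_mul_right _ _)] at d3
  have := Nat.le_of_dvd (Nat.pos_of_ne_zero hj0) d3
  have := h.three
  omega

theorem sc_cube (h3 : finrank F V = 3) {ω : F} (h : ∀ v, ⁅a, b⁆ v = ω • v) : ω ^ 3 = 1 := by
  have h1 : LinearEquiv.det ⁅a, b⁆ = 1 := by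
    rw [map_commutatorElement, commutatorElement_eq_one_iff_mul_comm, mul_comm]
  have h2 := congrArg Units.val h1
  rwa [LinearEquiv.coe_det, show (⁅a, b⁆ : V ≃ₗ[F] V).toLinearMap = ω • LinearMap.id from LinearMap.ext h,
    LinearMap.det_smul, LinearMap.det_id, h3, mul_one] at h2

theorem cube (h3 : finrank F V = 3) (h : Sc ⁅a, b⁆) : ⁅a, b⁆ ^ 3 = 1 := by
  obtain ⟨ω, hω⟩ := h
  refine LinearEquiv.ext fun v => ?_
  rw [pow_three, LinearEquiv.mul_apply, LinearEquiv.mul_apply, hω, hω, hω, smul_smul, smul_smul, mul_assoc, ← pow_three,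
    sc_cube h3 hω, one_smul]
  rfl

theorem conj_eq (a b : V ≃ₗ[F] V) : a * b * a⁻¹ = ⁅a, b⁆ * b := by
  rw [commutatorElement_def, inv_mul_cancel_right]

theorem tr_zero (h3 : finrank F V = 3) (h : Sc ⁅a, b⁆) (hn : ¬ Commute a b) :
    LinearMap.trace F V (toE b) = 0 ∧ (3 : F) ≠ 0 := by
  obtain ⟨ω, hω⟩ := h
  have h1 : ω - 1 ≠ 0 := fun e => hn (commutatorElement_eq_one_iff_commute.1
    (LinearEquiv.ext fun v => by rw [hω, sub_eq_zero.1 e, one_smul]; rfl))
  refine ⟨(mul_eq_zero.1 ?_).resolve_left h1, fun e => h1 (pow_eq_zero_iff three_ne_zero |>.1 ?_)⟩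
  · have h2 : toE (a * b * a⁻¹) = ω • toE b := LinearMap.ext fun v => by
      rw [conj_eq, toE_apply, LinearEquiv.mul_apply, hω]
      rfl
    have := congrArg (LinearMap.trace F V) h2
    rw [map_mul, LinearMap.trace_mul_comm, ← map_mul, inv_mul_cancel_left, map_smul, smul_eq_mul] at this
    linear_combination -this
  · linear_combination sc_cube h3 hω + (ω - ω ^ 2) * e

/-- the non-abelian case -/
theorem nab (h3 : finrank F V = 3) (hr : r.Prime) (h7 : 7 ≤ r) (hg : g ∈ K) (ho : orderOf g = r) (irr : Irr g)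
    (hN : ∀ k ∈ K, ∀ a ∈ A, k * a * k⁻¹ ∈ A) (hA : ∀ a ∈ A, ∀ b ∈ A, Sc ⁅a, b⁆)
    (hZ : ∀ a ∈ A, (∀ b ∈ A, Commute b a) → Sc a) : A ≤ Zs F V := by
  have hgr : g ^ r = 1 := ho ▸ pow_orderOf_eq_one g
  have key : ∀ c ∈ A, Commute g c := fun c hc => by
    have h1 : Sc ⁅g, c⁆ := by
      by_contra hn
      let π := QuotientGroup.mk' (Zs F V)
      have c3 : π c ^ 3 = 1 := by
        rw [← map_pow]
        refine (QuotientGroup.eq_one_iff _).2 (hZ _ (pow_mem hc 3) fun b hb => ?_)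
        have := conj_pow (sc_comm (hA c hc b hb) c) (conj_eq c b) 3
        rw [cube h3 (hA c hc b hb), one_mul] at this
        exact (show Commute (c ^ 3) b from mul_inv_eq_iff_eq_mul.1 this).symm
      have nc : ¬ Commute (π g) (π c) := fun e => hn ((QuotientGroup.eq_one_iff _).1 (by
        change π _ = 1
        rw [map_commutatorElement, commutatorElement_eq_one_iff_commute.2 e]))
      have inj := ten hr h7 (by rw [← map_pow, hgr, map_one]) c3 nc
      let x : Fin 5 × Bool → V ≃ₗ[F] V := fun i => g ^ (i.1 : ℕ) * (if i.2 then c else c⁻¹) * (g ^ (i.1 : ℕ))⁻¹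
      have xA : ∀ i, x i ∈ A := fun i => hN _ (pow_mem hg _) _ (by split_ifs; exacts [hc, inv_mem hc])
      have t0 : ∀ i j, i ≠ j → LinearMap.trace F V (toE ((x i)⁻¹ * x j)) = 0 ∧ (3 : F) ≠ 0 := fun i j hij => by
        have m := mul_mem (inv_mem (xA i)) (xA j)
        have : ¬ ∀ b ∈ A, Commute b ((x i)⁻¹ * x j) := fun e => hij (inj (by
          have := QuotientGroup.eq.2 (show _ ∈ Zs F V from hZ _ m e)
          change π _ = π _ at this
          simpa only [x, map_mul, map_inv, map_pow, apply_ite π] using this))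
        push Not at this
        obtain ⟨b, hb, e⟩ := this
        exact tr_zero h3 (hA b hb _ m) e
      have li : LinearIndependent F fun i => toE (x i) := Fintype.linearIndependent_iff.2 fun l hl i => by
        have := congrArg (fun φ => LinearMap.trace F V (toE (x i)⁻¹ * φ)) hl
        simp only [Finset.mul_sum, mul_smul_comm, map_sum, map_smul, ← map_mul, mul_zero, map_zero] at this
        rw [Finset.sum_eq_single i (fun j _ hj => by rw [(t0 i j hj.symm).1, smul_zero]) (by simp), inv_mul_cancel,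
          map_one, LinearMap.trace_one, h3, smul_eq_mul] at this
        exact (mul_eq_zero.1 this).resolve_right (by exact_mod_cast (t0 (0, true) (0, false) (by simp)).2)
      have := li.fintype_card_le_finrank
      rw [finrank_linearMap, h3] at this
      simp at this
    have h2 := conj_pow (sc_comm h1 g) (conj_eq g c) r
    rw [hgr, one_mul, inv_one, mul_one, eq_comm, mul_eq_right] at h2
    refine commutatorElement_eq_one_iff_commute.1 (orderOf_eq_one_iff.1 (Nat.eq_one_of_dvd_coprimes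
      ((Nat.coprime_primes hr Nat.prime_three).2 (by omega)) (orderOf_dvd_of_pow_eq_one h2)
      (orderOf_dvd_of_pow_eq_one (cube h3 h1))))
  have gt : ∀ z : V ≃ₗ[F] V, z • (⊤ : Submodule F V) = ⊤ := fun z => smul_eq_of_le fun _ _ => trivial
  exact fun a ha => hZ a ha fun b hb => LinearEquiv.ext fun w => cycv (gt g) (fun U _ => irr U) (gt b) (gt a)
    (fun w _ => (DFunLike.congr_fun (key b hb).eq w).symm) (fun w _ => (DFunLike.congr_fun (key a ha).eq w).symm) w trivial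

/-- an irreducible element of prime order -/
theorem exists_irr (h : Pol P q) (k : P.IsHerm) (h3 : finrank F V = 3) (hK : K ≤ P.isom) (tr : Tr K (T P 1)) :
    ∃ r : ℕ, ∃ g ∈ K, r.Prime ∧ 7 ≤ r ∧ orderOf g = r ∧ Irr g := by
  have hq : 0 < q := by have := h.three; omega
  obtain ⟨r, hr⟩ := prime_any (e := 3) h.three le_rfl
  have := Fact.mk hr.1
  obtain ⟨x, hx⟩ := exists_T (k := 1) h (by omega)
  obtain ⟨g, ho⟩ := exists_prime_orderOf_dvd_card' (G := K) r (by
    rw [tr.card_eq ((inv_T P 1).mono hK) hx, ncard_T1 h, h3, h.card_herm k]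
    exact ((hr.dvd_np hq le_rfl 2).2 (Or.inl dvd_rfl)).mul_left _)
  rw [← Subgroup.orderOf_coe] at ho
  have hR : IsPGroup r (Subgroup.zpowers g.1) := IsPGroup.of_card (n := 1) (by rw [Nat.card_zpowers, ho, pow_one])
  have le : Subgroup.zpowers g.1 ≤ P.isom := (Subgroup.zpowers_le_of_mem g.2).trans hK
  have fx : ∀ U : Submodule F V, g.1 • U = U → Fx (Subgroup.zpowers g.1) U := fun U hU =>
    (Subgroup.zpowers_le_of_mem (show g.1 ∈ MulAction.stabilizer _ U from hU) :)
  have dm : ∀ U : Submodule F V, g.1 • U = U → Disjoint U (fixV (Subgroup.zpowers g.1)) → U = ⊥ ∨ U = ⊤ :=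
    fun U hU hd => by
      have h1 := dim_lin hr.1 hR (fx U hU) hd
      rw [h.card_herm k, hr.modEq_sq hq] at h1
      have h2 := Submodule.finrank_le U
      by_cases h0 : finrank F U = 0
      · exact Or.inl (Submodule.finrank_eq_zero.1 h0)
      · exact Or.inr (Submodule.eq_top_of_finrank_eq (by omega))
  have nd := fix_nd h.nd hr.1 (by
    rw [h.card_herm k]
    exact fun d => hr.not_dvd (by decide) (hr.1.dvd_of_dvd_pow d)) hR le
  have f0 : fixV (Subgroup.zpowers g.1) = ⊥ := by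
    rcases dm (P.perp (fixV (Subgroup.zpowers g.1))) (by
      rw [smul_perp (hK g.2), fx_fixV (Subgroup.le_normalizer (Subgroup.mem_zpowers _))]) nd.symm with e | e
    · rw [← P.perp_top h.nd] at e
      have : g.1 = 1 := LinearEquiv.ext fun v => (P.perp_injective h.nd e).ge trivial _ (Subgroup.mem_zpowers _)
      rw [this, orderOf_one] at ho
      exact absurd ho.symm hr.1.one_lt.ne'
    · exact P.perp_injective h.nd (e.trans P.perp_bot.symm)
  exact ⟨r, g, g.2, hr.1, hr.seven_le, ho, fun U hU => dm U hU (f0 ▸ disjoint_bot_right)⟩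

end Ns3

variable {F : Type*} [Field F] [Finite F] {σ : F →+* F} {V : Type*} [AddCommGroup V] [Module F V] [Finite V]
  {P : PQ σ V} {q : ℕ} {K : Subgroup (V ≃ₗ[F] V)} {C : Set (Submodule F V)}

theorem ns3_abs (h : Pol P q) (k : P.IsHerm) (h3 : finrank F V = 3) (hK : K ≤ P.isom) (tr : Tr K (T P 1)) :
    ¬ Group.IsSolvable K := fun hs => by
  obtain ⟨r, g, hg, hr, h7, ho, irr⟩ := Ns3.exists_irr h k h3 hK tr
  obtain ⟨A, le, hN, hn, hA⟩ := Ns3.exists_A (Z := Ns3.Zs F V) hs fun e => irr.not_sc h3 (e hg)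
  refine hn (Ns3.nab h3 hr h7 hg ho irr hN hA fun a ha hc => Ns3.ab (A := A ⊓ Subgroup.centralizer A) h k h3 hK tr
    hr h7 hg ho irr (inf_le_left.trans le) (fun z hz b hb => ⟨hN z hz b hb.1, fun c hc => ?_⟩)
    (fun b hb c hc => hc.2 b hb.1) ⟨ha, hc⟩)
  have := hb.2 _ (hN _ (inv_mem hz) c hc)
  calc c * (z * b * z⁻¹) = z * (z⁻¹ * c * z⁻¹⁻¹ * b) * z⁻¹ := by group
    _ = _ := by rw [this]; group

theorem ns3 (h : Pol P q) (k : P.IsHerm) {U : Submodule F V} (hU : ND P U) (h3 : finrank F U = 3) (hK : K ≤ P.isom)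
    (fx : Fx K U) (tr : Tr K (ins (T P 1) U)) : ¬ Group.IsSolvable K := fun hs => by
  have le : K ≤ linStab U := fun g hg => mem_linStab_iff_map.2 (fx g hg)
  let φ := (linStabRes U).comp (Subgroup.inclusion le)
  refine ns3_abs (K := φ.range) (h.restrict hU) (k.restrict U) h3 ?_ ?_
    (Group.isSolvable_of_surjective φ.rangeRestrict_surjective)
  · rintro _ ⟨g, rfl⟩
    exact P.isIso_linStabRes _ (hK g.2)
  · intro x hx y hy
    obtain ⟨v, hv, v0, rfl⟩ := T.exists_vec hx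
    obtain ⟨w, hw, w0, rfl⟩ := T.exists_vec hy
    obtain ⟨g, hg, e⟩ := tr (F ∙ v.1) ⟨span_mem_T hv (by simpa using v0), by simp⟩
      (F ∙ w.1) ⟨span_mem_T hw (by simpa using w0), by simp⟩
    refine ⟨φ ⟨g, hg⟩, ⟨_, rfl⟩, Submodule.map_injective_of_injective U.injective_subtype ?_⟩
    rw [smul_span] at e ⊢
    rw [Submodule.map_span, Submodule.map_span, Set.image_singleton, Set.image_singleton]
    exact e

end CfsgLib.KP
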