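import Mathlib
import Cfsg.Agent.Lib.KP.Lam
import Cfsg.Agent.Lib.KP.Spr
import Cfsg.Agent.Lib.KP.Ns3
import Cfsg.Agent.Lib.KP.Geo
import Cfsg.Agent.S0205

/-! KP: point-transitive subgroups, unitary case (plans/KP.md, package TSU). -/

set_option autoImplicit false
set_option linter.unusedSectionVars false

namespace CfsgLib.KP

open CfsgLib.CK CfsgLib.KL CfsgLib.Forms CfsgLib.RootMax CfsgLib.ClMax CfsgLib.Tech Module

theorem tsu_solv {G : Type*} [Group G] {K : Subgroup G} (h : Group.IsSolvable (⁅K, K⁆ : Subgroup G)) :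
    Group.IsSolvable K := by
  have h1 : Group.IsSolvable (_root_.commutator K) := by
    have e := (_root_.commutator K).equivMapOfInjective K.subtype K.subtype_injective
    rw [Subgroup.map_subtype_commutator] at e
    exact Group.isSolvable_of_isSolvable_injective (f := e.toMonoidHom) e.injective
  have h2 : Group.IsSolvable (Abelianization K) := inferInstance
  exact Group.isSolvable_of_ker_le_range (_root_.commutator K).subtype Abelianization.of
    (by rw [Abelianization.ker_of, Subgroup.range_subtype])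

variable {F : Type*} [Field F] [Finite F] {σ : F →+* F} {V : Type*} [AddCommGroup V] [Module F V] [Finite V]
  {P : PQ σ V} {q : ℕ} {K : Subgroup (V ≃ₗ[F] V)} {C : Set (Submodule F V)}

/-- the determinant of a reflection in a subspace -/
theorem tsu_det {t : V ≃ₗ[F] V} {A B : Submodule F V} (hc : IsCompl A B) (hA : ∀ v ∈ A, t v = -v)
    (hB : ∀ v ∈ B, t v = v) : LinearMap.det (t : V →ₗ[F] V) = (-1) ^ finrank F A := by
  have e : (t : V →ₗ[F] V) = ((Submodule.prodEquivOfIsCompl A B hc : (A × B) ≃ₗ[F] V) : A × B →ₗ[F] V) ∘ₗ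
      (LinearMap.prodMap ((-1 : F) • LinearMap.id) LinearMap.id) ∘ₗ
      ((Submodule.prodEquivOfIsCompl A B hc).symm : V →ₗ[F] A × B) := by
    refine LinearMap.ext fun v => ?_
    obtain ⟨⟨a, b⟩, rfl⟩ := (Submodule.prodEquivOfIsCompl A B hc).surjective v
    simp only [LinearEquiv.coe_coe, LinearMap.comp_apply, LinearEquiv.symm_apply_apply]
    simp [hA a a.2, hB b b.2]
  rw [e, LinearMap.det_conj, LinearMap.det_prodMap, LinearMap.det_smul, LinearMap.det_id, LinearMap.det_id, mul_one,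
    mul_one]

/-- an involution of `K` can not be trivial on a non-degenerate subspace of codimension three -/
theorem tsu_inv (h : Tb P q K) (hL : NoL P K) {U : Submodule F V} (hU : ND P U) (h3 : finrank F U = 3)
    {t : V ≃ₗ[F] V} (ht : t ∈ K) (ho : orderOf t = 2) (hW : ∀ w ∈ P.perp U, t w = w) : False := by
  have nd := h.pol.nd
  have hB := PQ.IsIso.B_eq (h.le' ht)
  have t1 : t ≠ 1 := fun e => by rw [e, orderOf_one] at ho; omega
  have tt : ∀ v, t (t v) = v := fun v => by
    have := pow_orderOf_eq_one t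
    rw [ho, sq] at this
    rw [← LinearEquiv.mul_apply, this]; rfl
  have hB' : ∀ v w, P.B (t v) w = P.B v (t w) := fun v w => by
    conv_lhs => rw [← tt w]
    exact hB v (t w)
  have hs : ∀ v w, P.B (t v - v) w = P.B v (t w - w) := fun v w => by rw [P.B_sub_left, P.B_sub_right, hB']
  have hU' : ∀ v, t v - v ∈ U := fun v => by
    rw [← P.perp_perp nd U, P.mem_perp']
    intro w hw
    rw [hs, hW w hw, sub_self, map_zero]
  obtain ⟨v₀, hv₀⟩ : ∃ v, t v - v ≠ 0 := by
    by_contra! k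
    exact t1 (LinearEquiv.ext fun v => sub_eq_zero.1 (k v))
  by_cases h2 : (2 : F) = 0
  · set Y : Submodule F V := LinearMap.range ((t : V →ₗ[F] V) - LinearMap.id) with hY
    have mY : ∀ v, t v - v ∈ Y := fun v => ⟨v, rfl⟩
    have hYY : Y ≤ P.perp Y := by
      rintro _ ⟨v, rfl⟩ _ ⟨w, rfl⟩
      change P.B (t w - w) (t v - v) = 0
      rw [hs, map_sub t, tt]
      have : v - t v - (t v - v) = (2 : F) • (v - t v) := by module
      rw [this, h2, zero_smul, map_zero]
    have hYU : Y ≤ U := by rintro _ ⟨v, rfl⟩; exact hU' v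
    have d1 := finrank_pair nd Y U
    have d2 : Y ⊓ P.perp U = ⊥ := (hU.mono_left hYU).eq_bot
    have d3 := Submodule.finrank_mono (le_inf hYU hYY)
    rw [d2, finrank_bot, h3] at d1
    have d4 : (F ∙ (t v₀ - v₀)) = Y := Submodule.eq_of_le_of_finrank_le
      ((Submodule.span_singleton_le_iff_mem _ _).2 (mY v₀)) (by rw [finrank_span_singleton hv₀]; omega)
    refine t1 (h.noT hL _ (h.pol.sing_iff.2 (hYY (mY v₀) _ (mY v₀))) hv₀ t ht fun v hv => ?_)
    refine sub_eq_zero.1 (nd _ fun w => ?_)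
    obtain ⟨c, hc⟩ := Submodule.mem_span_singleton.1 (d4 ▸ mY w : t w - w ∈ F ∙ (t v₀ - v₀))
    rw [hs, ← hc, P.B_smul_right, P.B_eq_zero_comm.1 hv, mul_zero]
  · set A : Submodule F V := LinearMap.ker ((t : V →ₗ[F] V) + LinearMap.id) with hA
    have mA : ∀ {v}, v ∈ A ↔ t v = -v := fun {v} => by
      rw [hA, LinearMap.mem_ker, ← add_eq_zero_iff_eq_neg]; rfl
    have mA' : ∀ v, t v - v ∈ A := fun v => mA.2 (by rw [map_sub, tt, neg_sub])
    have hAU : A ≤ U := fun v hv => by
      have h4 := hU' v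
      rw [mA.1 hv, show -v - v = (-2 : F) • v by module] at h4
      exact (Submodule.smul_mem_iff _ (neg_ne_zero.2 h2)).1 h4
    have hP : ∀ v ∈ P.perp A, t v = v := fun v hv => sub_eq_zero.1 (nd _ fun w => by
      rw [hs]; exact P.mem_perp'.1 hv _ (mA' w))
    have hN : ND P A := Submodule.disjoint_def.2 fun v h4 h5 => by
      have h6 := mA.1 h4
      rw [hP v h5, ← add_eq_zero_iff_eq_neg, ← two_smul F, smul_eq_zero] at h6
      exact h6.resolve_left h2
    have d1 := tsu_det (P.isCompl_perp nd hN) (fun v hv => mA.1 hv) hP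
    rw [mem_SLV.1 (h.le ht).2] at d1
    have d2 : Even (finrank F A) := by
      by_contra k
      rw [(Nat.not_even_iff_odd.1 k).neg_one_pow] at d1
      exact h2 (by linear_combination d1)
    have d3 := Submodule.finrank_mono hAU
    have d4 : finrank F A ≠ 0 := fun k => hv₀ (by simpa [Submodule.finrank_eq_zero.1 k] using mA' v₀)
    obtain ⟨j, hj⟩ := d2
    exact spr h h2 hL (U := A) (by omega) hN ⟨t, ht, fun v hv => mA.1 hv, hP⟩

/-- the fixed space of a non-trivial `r`-subgroup of a point stabiliser -/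
theorem tsu_dim (h : Tb P q K) (k : P.IsHerm) {r : ℕ} (hr : Od r (-q) (finrank F V - 3)) {x : Submodule F V}
    (hx : x ∈ T P 1) {R : Subgroup (V ≃ₗ[F] V)} (hR : IsPGroup r R) (le : R ≤ Stab K x) (h1 : R ≠ ⊥) :
    ND P (fixV R) ∧ finrank F (fixV R) = 3 := by
  have nd := h.pol.nd
  have six := h.six
  have q0 : 0 < q := by have := h.pol.three; omega
  have hQ := h.pol.card_herm k
  have n1 : ¬ r ∣ Nat.card F := by
    rw [hQ]; exact fun e => hr.not_dvd (by omega) (hr.1.dvd_of_dvd_pow e)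
  have n2 : ¬ r ∣ Nat.card F - 1 := by rw [hQ]; exact hr.not_dvd_sub q0 (by omega)
  have le' : R ≤ P.isom := fun g hg => h.le' (le hg).1
  have hU := fix_nd nd hr.1 n1 hR le'
  refine ⟨hU, ?_⟩
  have hxU := le_fixV hr.1 n2 hR hx.2 fun g hg => (le hg).2
  obtain ⟨v, hv, v0, rfl⟩ := T.exists_vec hx
  have d1 := two_le_of_sing hU (hxU (Submodule.mem_span_singleton_self v)) hv v0
  have d2 := P.finrank_perp nd (fixV R)
  have fx : Fx R (P.perp (fixV R)) := fun g hg => by
    rw [smul_perp (le' hg), fx_fixV (Subgroup.le_normalizer hg)]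
  have d3 := dim_lin hr.1 hR fx hU.symm
  have d4 := dim_np h.pol hr.1 n2 hR le' fx (hU.perp nd) hU.symm
  have d5 : finrank F (P.perp (fixV R)) ≠ 0 := fun e => h1 (by
    have e2 : fixV R = ⊤ := Submodule.eq_top_of_finrank_eq (by omega)
    refine eq_bot_iff.2 fun g hg => Subgroup.mem_bot.2 (LinearEquiv.ext fun w => ?_)
    exact (show w ∈ fixV R from e2 ▸ Submodule.mem_top) g hg)
  obtain ⟨d, hd⟩ := Nat.exists_eq_succ_of_ne_zero d5
  rw [hd] at d2 d3 d4
  rw [hQ] at d3 d4
  rw [hr.modEq_sq q0] at d3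
  rw [hr.dvd_np q0 (by omega)] at d4
  rcases d4 with ⟨m, hm⟩ | d4
  · obtain _ | _ | m := m
    · omega
    · omega
    · have : (finrank F V - 3) * (m + 1 + 1) = (finrank F V - 3) * m + 2 * (finrank F V - 3) := by ring
      omega
  · have d6 : finrank F V - 3 ∣ 2 := (Nat.dvd_add_right (d4.mul_left 2)).1 d3
    have := Nat.le_of_dvd two_pos d6
    omega

theorem tsu (h : Tb P q K) (k : P.IsHerm) (hL : NoL P K) {r : ℕ} (hr : Od r (-q) (finrank F V - 3))
    {x : Submodule F V} (hx : x ∈ T P 1) (hd : r ∣ Nat.card (Stab K x)) : False := by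
  have : Fact r.Prime := ⟨hr.1⟩
  have nd := h.pol.nd
  have six := h.six
  have n1 : ¬ r ∣ Nat.card F := by
    rw [h.pol.card_herm k]; exact fun e => hr.not_dvd (by omega) (hr.1.dvd_of_dvd_pow e)
  obtain ⟨R, hR⟩ := exists_isSylowIn r (Stab K x)
  have h1 : R ≠ ⊥ := fun e => hR.not_dvd (by rwa [e, Subgroup.relIndex_bot_left])
  obtain ⟨hU, h3⟩ := tsu_dim h k hr hx hR.pgroup hR.le h1
  have le' : R ≤ P.isom := fun g hg => h.le' (hR.le hg).1
  have d2 := P.finrank_perp nd (fixV R)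
  set N := K ⊓ Subgroup.normalizer (R : Set (V ≃ₗ[F] V)) with hN
  have fU : Fx N (fixV R) := fun g hg => fx_fixV hg.2
  have fW : Fx N (P.perp (fixV R)) := fun g hg => by rw [smul_perp (h.le' hg.1), fU g hg]
  have RN : R ≤ N := le_inf (hR.le.trans inf_le_left) Subgroup.le_normalizer
  have fpf : ∀ g ∈ R, g ≠ 1 → ∀ w ∈ P.perp (fixV R), g w = w → w = 0 := fun g hg g1 w hw e => by
    have zl : Subgroup.zpowers g ≤ R := (Subgroup.zpowers_le).2 hg
    obtain ⟨-, h4⟩ := tsu_dim h k hr hx (hR.pgroup.to_le zl) (zl.trans hR.le) (by simpa using g1)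
    have h5 : fixV R = fixV (Subgroup.zpowers g) :=
      Submodule.eq_of_le_of_finrank_eq (fun v hv c hc => hv c (zl hc)) (by omega)
    refine Submodule.disjoint_def.1 hU w ?_ hw
    rw [h5]
    exact fun c hc => (show Subgroup.zpowers g ≤ MulAction.stabilizer (V ≃ₗ[F] V) w from
      (Subgroup.zpowers_le).2 e) hc
  have W0 : P.perp (fixV R) ≠ ⊥ := fun e => by rw [e, finrank_bot] at d2; omega
  obtain ⟨g, hg, ho, hc⟩ := cyc hr.1 n1 hR.pgroup h1 (fun g hg => fW g (RN hg)) W0 fpf
  have ns := ns3 h.pol k hU h3 (inf_le_left.trans h.le') fU (syl h.le' h.tr hr.1 hx hR)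
  have c1 : ⁅N, N⁆ ≤ N := Subgroup.commutator_le_self N
  have hs := solv h.pol k (hU.perp nd) (r := r) (by rwa [show finrank F (P.perp (fixV R)) = finrank F V - 3 by omega])
    (by omega) (le' hg) ho (fW g (RN hg))
    (fpf g hg fun e => hr.1.one_lt.ne (by rw [← ho, e, orderOf_one])) (Z := ⁅N, N⁆) (fun c hc => fW c (c1 hc))
    (comm_cent hr.1 ho fun c hc' => hc c hc'.2)
  set L := ⁅⁅⁅N, N⁆, ⁅N, N⁆⁆, ⁅⁅N, N⁆, ⁅N, N⁆⁆⁆ with hLd
  have c2 : L ≤ K := (Subgroup.commutator_le_self _).trans ((Subgroup.commutator_le_self _).trans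
    (c1.trans inf_le_left))
  have ev : 2 ∣ Nat.card L := by
    by_contra e
    exact ns (tsu_solv (tsu_solv (tsu_solv (Cfsg.Agent.S0205.result (G := L) (Nat.odd_iff.2 (by omega))))))
  obtain ⟨t, ht⟩ := exists_prime_orderOf_dvd_card' 2 ev
  exact tsu_inv h hL hU h3 (c2 t.2) (by rwa [Subgroup.orderOf_coe]) (hs t t.2)

end CfsgLib.KP
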