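import Mathlib
import Cfsg.Agent.Lib.KP.S12
import Cfsg.Agent.Lib.KP.Ll

/-! KP: the two types in case 2a (plans/KP.md, package TYP). -/

set_option autoImplicit false
set_option linter.unusedSectionVars false

namespace CfsgLib.KP

open CfsgLib.CK CfsgLib.KL CfsgLib.Forms CfsgLib.RootMax CfsgLib.ClMax CfsgLib.Tech Module

variable {F : Type*} [Field F] [Finite F] {σ : F →+* F} {V : Type*} [AddCommGroup V] [Module F V] [Finite V]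
  {P : PQ σ V} {q : ℕ} {K : Subgroup (V ≃ₗ[F] V)} {C : Set (Submodule F V)}

theorem Lv.aff_compl (h : Lv P q K C) (ha : Aff P K C) : Aff P K (T P 2 \ C) := fun hh hi => by
  obtain ⟨c₀, c₁, c₂, c₃, hc⟩ := ha hh hi
  refine ⟨c₀ + c₁ + c₂ * th (Nat.card F) 2 + c₃ * th (Nat.card F) 3, -c₁, -c₂, -c₃, fun y hy => ?_⟩
  have e1 := cnt_compl h.part.sub y.1 y.2.2
  have e2 := cnt_compl' h.part.sub y.2.2
  rw [cnt_hy hy.2.2.2.2 (hy.1.trans hy.2.1), hy.2.2.1.2] at e1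
  rw [cnt_hy' hy.2.2.2.2] at e2
  have e3 : ind (T P 2 \ C) y.2.1 = 1 - ind C y.2.1 := by
    by_cases k : y.2.1 ∈ C
    · rw [ind_mem k, ind_not fun j => j.2 k, sub_self]
    · rw [ind_not k, ind_mem (O := T P 2 \ C) ⟨hy.2.2.2.1, k⟩, sub_zero]
  rw [hc y hy, e3, ← e1, ← e2]
  push_cast
  ring

namespace Ty

variable {x z l E x' E' : Submodule F V}

theorem cz {R : Set (Submodule F V)} : cnt R E ≠ 0 ↔ ∃ m ∈ R, m ≤ E := by
  rw [cnt, ← Nat.pos_iff_ne_zero, Set.ncard_pos]; rfl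

variable (P C) in
/-- a mixed pencil -/
def Mx (x E : Submodule F V) : Prop :=
  x ∈ T P 1 ∧ E ∈ T P 3 ∧ x ≤ E ∧ cnt (thru C x) E ≠ 0 ∧ cnt (thru (T P 2 \ C) x) E ≠ 0

theorem Mx.compl (h : Lv P q K C) (m : Mx P C x E) : Mx P (T P 2 \ C) x E :=
  ⟨m.1, m.2.1, m.2.2.1, m.2.2.2.2, by rw [Set.sdiff_sdiff_cancel_left h.part.sub]; exact m.2.2.2.1⟩

theorem join (hE : E ∈ T P 3) (hx : finrank F x = 1) (hz : finrank F z = 1) (h1 : x ≤ E) (h2 : z ≤ E) :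
    ∃ l ∈ T P 2, x ≤ l ∧ z ≤ l ∧ l ≤ E := by
  obtain ⟨l, hl, k1, k2⟩ := exists_mid (j := 2) hE (sup_le h1 h2)
    ((Submodule.finrank_add_le_finrank_add_finrank x z).trans (by omega)) (by omega)
  exact ⟨l, hl, le_sup_left.trans k1, le_sup_right.trans k1, k2⟩

theorem not_both (hE : E ∈ T P 3) (hx : x ∈ T P 1) (hz : z ∈ T P 1) (h1 : x ≤ E) (h2 : z ≤ E)
    (k : cnt (thru C x) E = 0) : cnt (thru (T P 2 \ C) z) E ≠ 0 := by
  obtain ⟨l, hl, k1, k2, k3⟩ := join hE hx.2 hz.2 h1 h2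
  exact cz.2 ⟨l, ⟨⟨hl, fun j => (cz (R := thru C x)).2 ⟨l, ⟨j, k1⟩, k3⟩ k⟩, k2⟩, k3⟩

theorem pt0 : (lin F V).Pt ⊥ l z ↔ z ≤ l ∧ finrank F z = 1 := by simp [PG.Pt, lin_d]

theorem pt1 (hx : finrank F x = 1) : (lin F V).Pt x E l ↔ x ≤ l ∧ l ≤ E ∧ finrank F l = 2 := by
  rw [PG.Pt, lin_d, hx]
  exact and_congr_right fun _ => and_congr_right fun _ => by omega

theorem exists_pt {k : ℕ} (hl : l ∈ T P (k + 1)) : ∃ x ∈ T P 1, x ≤ l := by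
  obtain ⟨x, hx, -, k⟩ := exists_mid (j := 1) hl bot_le (by simp) (by omega)
  exact ⟨x, hx, k⟩

theorem conj (ha : Aff P K C) {l' : Submodule F V} (hy : (x, l, E) ∈ T3 P 1 2 3) (hy' : (x', l', E') ∈ T3 P 1 2 3)
    (e1 : ind C l = ind C l') (e2 : cnt (thru C x) E = cnt (thru C x') E') (e3 : cnt C E = cnt C E') :
    ∃ g ∈ K, g • x = x' ∧ g • l = l' ∧ g • E = E' := by
  obtain ⟨c₀, c₁, c₂, c₃, hc⟩ := ha (ind (orb K (x, l, E))) fun g hg y _ => ind_smul (inv_orb K _) hg y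
  by_contra k
  have := hc _ hy
  have k' := hc _ hy'
  simp only at this k'
  rw [e1, e2, e3, ← k', ind_mem (O := orb K _) ⟨1, one_mem _, one_smul _ _⟩,
    ind_not (O := orb K _) fun ⟨g, hg, e⟩ => k ⟨g, hg, by simpa using e⟩] at this
  exact one_ne_zero this

theorem exists_mx (h : Lv P q K C) : ∃ x E, Mx P C x E := by
  obtain ⟨x, hx⟩ := exists_T (k := 1) h.pol (by have := h.six; omega)
  obtain ⟨l, hl⟩ := h.thru_ne hx
  obtain ⟨l', hl'⟩ := h.compl.thru_ne hx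
  by_contra! k
  refine hl'.1.2 (conn h.pol hx (by have := h.six; omega) (R := C) (Z := l)
    (pt_eq_thru hx.2 ▸ ⟨h.part.sub hl.1, hl.2⟩) hl.1 (fun Z hZ zC Z' hZ' pp => by_contra fun zC' => ?_)
    (pt_eq_thru hx.2 ▸ ⟨hl'.1.1, hl'.2⟩))
  exact k x (Z ⊔ Z') ⟨hx, Pt.sup hx hZ hZ' pp fun e => zC' (e ▸ zC), hZ.2.1.trans le_sup_left,
    cz.2 ⟨Z, ⟨zC, hZ.2.1⟩, le_sup_left⟩, cz.2 ⟨Z', ⟨⟨cn_T hx hZ', zC'⟩, hZ'.2.1⟩, le_sup_right⟩⟩

theorem const (h : Lv P q K C) (ha : Aff P K C) (m : Mx P C x E) (m' : Mx P C x' E') :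
    cnt (thru C x) E = cnt (thru C x') E' ∧ cnt C E = cnt C E' := by
  have key : ∀ φ : Submodule F V → Submodule F V → ℕ, (∀ g ∈ K, ∀ x E, φ (g • x) (g • E) = φ x E) →
      φ x E = φ x' E' := by
    intro φ hφ
    obtain ⟨c₀, c₁, c₂, c₃, hc⟩ := ha (fun y => ind C y.2.1 * φ y.1 y.2.2) fun g hg y _ => by
      simp only [Prod.smul_fst, Prod.smul_snd, ind_smul h.part.inv hg, hφ g hg]
    have k : ∀ x E, Mx P C x E → (φ x E : ℂ) = c₁ := by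
      rintro x E ⟨hx, hE, -, m1, m2⟩
      obtain ⟨l, ⟨l1, l2⟩, l3⟩ := cz.1 m1
      obtain ⟨l', ⟨l1', l2'⟩, l3'⟩ := cz.1 m2
      have e1 := hc (x, l, E) ⟨l2, l3, hx, h.part.sub l1, hE⟩
      have e2 := hc (x, l', E) ⟨l2', l3', hx, l1'.1, hE⟩
      simp only [ind_mem l1, ind_not l1'.2] at e1 e2
      linear_combination e1 - e2
    exact_mod_cast (k _ _ m).trans (k _ _ m').symm
  exact ⟨key (fun x E => cnt (thru C x) E) fun g hg x E => cnt_thru_inv h.part.inv hg x E,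
    key (fun _ E => cnt C E) fun g hg _ E => cnt_inv h.part.inv hg E⟩

theorem arc (h : Lv P q K C) (ha : Aff P K C) (m : Mx P C x E)
    (h0 : ∀ z ∈ T P 1, z ≤ E → cnt (thru (T P 2 \ C) z) E ≠ 0) :
    (∀ z ≤ E, finrank F z = 1 → cnt (thru C z) E = 0 ∨ cnt (thru C z) E = cnt (thru C x) E) ∧
    cnt (thru C x) E ∣ Nat.card F ∧ cnt C E + Nat.card F = (Nat.card F + 1) * cnt (thru C x) E ∧
    ∀ l ≤ E, finrank F l = 2 → l ∉ C →
      {z | (lin F V).Pt ⊥ l z ∧ cnt (thru C z) E = 0}.ncard * cnt (thru C x) E = Nat.card F := by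
  have k : ∀ z ≤ E, finrank F z = 1 → cnt (thru C z) E = 0 ∨ cnt (thru C z) E = cnt (thru C x) E := fun z zE hz =>
    or_iff_not_imp_left.2 fun j => (const h ha ⟨T.mono m.2.1 zE hz, m.2.1, zE, j, h0 z (T.mono m.2.1 zE hz) zE⟩ m).1
  obtain ⟨l, l1, l2⟩ := cz.1 m.2.2.2.1
  obtain ⟨l', l1', l2'⟩ := cz.1 m.2.2.2.2
  exact ⟨k, arc_ln m.2.1.2 (fun l hl => (h.part.sub hl).2) ⟨l, l1.1, l2⟩ ⟨l', l2', l1'.1.1.2, l1'.1.2⟩ k⟩

variable (P C) in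
/-- no full point in a plane with a mixed pencil -/
def H0 : Prop := ∀ x E, Mx P C x E → ∀ z ∈ T P 1, z ≤ E → cnt (thru (T P 2 \ C) z) E ≠ 0

theorem dich (h : Lv P q K C) (ha : Aff P K C) : H0 P C ∨ H0 P (T P 2 \ C) := by
  by_contra! k
  simp only [H0, not_forall, not_not] at k
  obtain ⟨⟨x, E, m, z, hz, zE, k⟩, x', E', m', z', hz', zE', k'⟩ := k
  rw [Set.sdiff_sdiff_cancel_left h.part.sub] at k'
  have m2 := m'.compl h.compl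
  rw [Set.sdiff_sdiff_cancel_left h.part.sub] at m2
  have a1 := (arc h.compl (h.aff_compl ha) (m.compl h) fun w hw wE => not_both m.2.1 hz hw zE wE k).2.2.1
  have a2 := (arc h ha m2 fun w hw wE => not_both m2.2.1 hz' hw zE' wE k').2.2.1
  have e1 := cnt_compl h.part.sub x E
  have e2 := cnt_compl' h.part.sub E
  rw [cnt_hy m.2.1 m.2.2.1, m.1.2, cn_th2] at e1
  rw [cnt_hy' m.2.1, th_succ', cn_th2] at e2
  rw [← (const h ha m m2).1, ← (const h ha m m2).2] at a2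
  have := h.pol.three_le
  nlinarith

theorem val (h : Lv P q K C) (h4 : Nat.card F ≠ 4) (ha : Aff P K C) (h0 : H0 P C) (m : Mx P C x E) :
    cnt (thru C x) E = 1 ∨ cnt (thru C x) E = Nat.card F := by
  obtain ⟨a0, a1, -, a3⟩ := arc h ha m (h0 x E m)
  obtain ⟨hx, hE, xE, -, m2⟩ := m
  obtain ⟨l, ⟨⟨hl, lC⟩, xl⟩, lE⟩ := cz.1 m2
  have r1 := ll (o := x) (t := E) (by rw [hE.2, hx.2]) (Z := Stab (Stab K x) E) (fun g hg => hg.1.2) (fun g hg => hg.2)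
    (A := ins (thru C x) E) (fun e he => (pt1 hx.2).2 ⟨he.1.2, he.2, (h.part.sub he.1.1).2⟩) a1
    (fun g hg e he => ⟨⟨h.part.inv g hg.1.1 e he.1.1, by rw [← hg.1.2, smul_le]; exact he.1.2⟩,
      by rw [← hg.2, smul_le]; exact he.2⟩)
    (fun e he e' he' => by
      obtain ⟨g, hg, k⟩ := conj ha ⟨he.1.2, he.2, hx, h.part.sub he.1.1, hE⟩
        ⟨he'.1.2, he'.2, hx, h.part.sub he'.1.1, hE⟩ ((ind_mem he.1.1).trans (ind_mem he'.1.1).symm) rfl rfl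
      exact ⟨g, ⟨⟨hg, k.1⟩, k.2.2⟩, k.2.1⟩)
    (fun e he e' he' => by
      obtain ⟨k1, k2, k3⟩ := (pt1 hx.2).1 he.1
      obtain ⟨k1', k2', k3'⟩ := (pt1 hx.2).1 he'.1
      obtain ⟨g, hg, k⟩ := conj ha ⟨k1, k2, hx, T.mono hE k2 k3, hE⟩
        ⟨k1', k2', hx, T.mono hE k2' k3', hE⟩ ((ind_not fun j => he.2 ⟨⟨j, k1⟩, k2⟩).trans
          (ind_not fun j => he'.2 ⟨⟨j, k1'⟩, k2'⟩).symm) rfl rfl
      exact ⟨g, ⟨⟨hg, k.1⟩, k.2.2⟩, k.2.1⟩)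
  have a4 := a3 l lE hl.2 lC
  have tr : ∀ e e', (lin F V).Pt ⊥ l e → (lin F V).Pt ⊥ l e' → cnt (thru C e) E = cnt (thru C e') E →
      ∃ g ∈ Stab (Stab K l) E, g • e = e' := fun e e' he he' k0 => by
    rw [pt0] at he he'
    obtain ⟨g, hg, k⟩ := conj ha ⟨he.1, lE, T.mono hl he.1 he.2, hl, hE⟩
      ⟨he'.1, lE, T.mono hl he'.1 he'.2, hl, hE⟩ rfl k0 rfl
    exact ⟨g, ⟨⟨hg, k.2.1⟩, k.2.2⟩, k.1⟩
  have r2 := ll (o := ⊥) (t := l) (by simp [hl.2]) (Z := Stab (Stab K l) E) (fun g _ => smul_bot'' g)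
    (fun g hg => hg.1.2) (A := {z | (lin F V).Pt ⊥ l z ∧ cnt (thru C z) E = 0}) (fun e he => he.1) ⟨_, a4.symm⟩
    (fun g hg e he => ⟨pt0.2 ⟨by rw [← hg.1.2, smul_le]; exact (pt0.1 he.1).1,
      ((smul_T (h.le' hg.1.1)).2 (T.mono hl (pt0.1 he.1).1 (pt0.1 he.1).2)).2⟩,
      by rw [← hg.2, cnt_thru_inv h.part.inv hg.1.1]; exact he.2⟩)
    (fun e he e' he' => tr e e' he.1 he'.1 (he.2.trans he'.2.symm))
    (fun e he e' he' => tr e e' he.1 he'.1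
      (((a0 e ((pt0.1 he.1).1.trans lE) (pt0.1 he.1).2).resolve_left fun j => he.2 ⟨he.1, j⟩).trans
        ((a0 e' ((pt0.1 he'.1).1.trans lE) (pt0.1 he'.1).2).resolve_left fun j => he'.2 ⟨he'.1, j⟩).symm))
  rw [← cnt_eq] at r1
  have := h.pol.three_le
  rcases r1 with r1 | r1 | r1
  · exact .inl r1
  · rw [r1] at a4; omega
  · exact .inr r1

theorem cases (hC : C ⊆ T P 2) (hE : E ∈ T P 3) : Pure C E ∨ Void C E ∨ ∃ x, Mx P C x E := by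
  by_contra! k
  obtain ⟨k1, k2, k3⟩ := k
  simp only [Pure, Void, not_forall, not_not] at k1 k2
  obtain ⟨l, hl, lE, lC⟩ := k1
  obtain ⟨l', lC', lE'⟩ := k2
  exact k3 (l ⊓ l') ⟨(T.inf_mem (k := 1) hE (T.mono hE lE hl) (hC lC') lE lE' fun e => lC (e ▸ lC')).1, hE,
    inf_le_left.trans lE, cz.2 ⟨l', ⟨lC', inf_le_right⟩, lE'⟩, cz.2 ⟨l, ⟨⟨T.mono hE lE hl, lC⟩, inf_le_left⟩, lE⟩⟩

theorem pure_iff (hE : E ∈ T P 3) : Void (T P 2 \ C) E ↔ Pure C E :=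
  ⟨fun k l hl lE => by_contra fun j => k l ⟨T.mono hE lE hl, j⟩ lE, fun k l hl lE => hl.2 (k l hl.1.2 lE)⟩

theorem void_iff (hC : C ⊆ T P 2) (hE : E ∈ T P 3) : Pure (T P 2 \ C) E ↔ Void C E := by
  rw [← pure_iff hE, Set.sdiff_sdiff_cancel_left hC]

theorem exists_ch (hE : E ∈ T P 3) : ∃ x l, (x, l, E) ∈ T3 P 1 2 3 := by
  obtain ⟨x, hx, xE⟩ := exists_pt hE
  obtain ⟨l, hl, k1, -, k2⟩ := join hE hx.2 hx.2 xE xE
  exact ⟨x, l, k1, k2, hx, hl, hE⟩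

theorem pv (h : Lv P q K C) (ha : Aff P K C) (h0 : H0 P C) :
    (∀ E ∈ T P 3, ¬ Pure C E) ∨ ∀ E ∈ T P 3, ¬ Void C E := by
  classical
  by_contra! k
  obtain ⟨⟨E₁, h1, p1⟩, E₂, h2, p2⟩ := k
  obtain ⟨x, E, m⟩ := exists_mx h
  obtain ⟨-, -, -, a3⟩ := arc h ha m (h0 x E m)
  obtain ⟨hx, hE, xE, m1, m2⟩ := m
  obtain ⟨l, ⟨l1, l2⟩, l3⟩ := cz.1 m1
  obtain ⟨l', ⟨l1', l2'⟩, l3'⟩ := cz.1 m2
  have a4 := a3 l' l3' l1'.1.2 l1'.2
  obtain ⟨z, hz, z0⟩ := Set.nonempty_of_ncard_ne_zero (s := {z | (lin F V).Pt ⊥ l' z ∧ cnt (thru C z) E = 0})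
    fun e => by rw [e, zero_mul] at a4; exact Nat.card_pos.ne a4
  rw [pt0] at hz
  obtain ⟨x₁, l₁, y1⟩ := exists_ch h1
  obtain ⟨x₂, l₂, y2⟩ := exists_ch h2
  obtain ⟨c₀, c₁, c₂, c₃, hc⟩ := ha (fun y => if cnt C y.2.2 = 0 then 1 else 0) fun g hg y _ => by
    simp only [Prod.smul_snd, cnt_inv h.part.inv hg]
  have n0 : cnt C E ≠ 0 := cz.2 ⟨l, l1, l3⟩
  have lc : l₁ ∈ C := p1 l₁ y1.2.2.2.1.2 y1.2.1
  have n1 : cnt C E₁ ≠ 0 := cz.2 ⟨l₁, lc, y1.2.1⟩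
  have n2 : cnt C E₂ = 0 := by_contra fun e => (cz.1 e).elim fun m hm => p2 m hm.1 hm.2
  have n3 : cnt (thru C x₂) E₂ = 0 := by_contra fun e => (cz.1 e).elim fun m hm => p2 m hm.1.1 hm.2
  have n4 : cnt (T P 2 \ C) E₁ = 0 := by_contra fun e => (cz.1 e).elim fun m hm => (pure_iff h1).2 p1 m hm.1 hm.2
  have n5 : cnt (T P 2 \ C) E ≠ 0 := cz.2 ⟨l', l1', l3'⟩
  have n6 : (cnt C E₁ : ℂ) ≠ cnt C E := by
    have e1 := cnt_compl' h.part.sub E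
    have e2 := cnt_compl' h.part.sub E₁
    rw [cnt_hy' hE] at e1
    rw [cnt_hy' h1] at e2
    exact fun e => by have := Nat.cast_injective e; omega
  have e1 := hc (x, l, E) ⟨l2, l3, hx, h.part.sub l1, hE⟩
  have e2 := hc (x, l', E) ⟨l2', l3', hx, l1'.1, hE⟩
  have e3 := hc (z, l', E) ⟨hz.1, l3', T.mono l1'.1 hz.1 hz.2, l1'.1, hE⟩
  have e4 := hc _ y1
  have e5 := hc _ y2
  simp only [ind_mem l1, ind_not l1'.2, ind_mem lc, ind_not fun j => p2 l₂ j y2.2.1, n0, n1, n2, n3, z0, if_true,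
    if_false, Nat.cast_zero] at e1 e2 e3 e4 e5
  have f2 : c₂ = 0 := (mul_eq_zero.1 (show c₂ * cnt (thru C x) E = 0 by linear_combination e3 - e2)).resolve_right
    (Nat.cast_ne_zero.2 m1)
  have f3 : c₃ = 0 := (mul_eq_zero.1 (show c₃ * (cnt C E₁ - cnt C E : ℂ) = 0 by
    rw [f2] at e1 e4; linear_combination e1 - e4)).resolve_right (sub_ne_zero.2 n6)
  rw [f3] at e3
  exact one_ne_zero (show (1 : ℂ) = 0 by linear_combination e5 - e3)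

theorem main (h : Lv P q K C) (h4 : Nat.card F ≠ 4) (ha : Aff P K C) (h0 : H0 P C) :
    Typ P C ∨ Typ P (T P 2 \ C) := by
  obtain ⟨x₀, E₀, m₀⟩ := exists_mx h
  have p := pv h ha h0
  rcases val h h4 ha h0 m₀ with v | v
  · refine .inl ⟨.inl fun E hE l hl l' hl' lE lE' ne => ?_, p⟩
    rcases cases h.part.sub hE with k | k | ⟨x, m⟩
    · exact k
    · exact absurd lE (k l hl)
    · have := (arc h ha m (h0 x E m)).2.2.1
      rw [(const h ha m m₀).1, v] at this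
      exact absurd ((Set.ncard_le_one_iff_subsingleton (s := ins C E)).1 (by rw [← cnt_eq]; omega) ⟨hl, lE⟩ ⟨hl', lE'⟩) ne
  · refine .inr ⟨.inr fun E hE => ?_, p.symm.imp (fun k E hE j => k E hE ((void_iff h.part.sub hE).1 j))
      fun k E hE j => k E hE ((pure_iff hE).1 j)⟩
    rcases cases h.part.sub hE with k | k | ⟨x, m⟩
    · exact .inr (.inl ((pure_iff hE).2 k))
    · exact .inl ((void_iff h.part.sub hE).2 k)
    have a := (arc h ha m (h0 x E m)).2.2.2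
    rw [(const h ha m m₀).1, v] at a
    have a1 : ∀ l ≤ E, finrank F l = 2 → l ∉ C → ∃ z, {z | (lin F V).Pt ⊥ l z ∧ cnt (thru C z) E = 0} = {z} :=
      fun l lE hl lC => Set.ncard_eq_one.1 (Nat.eq_of_mul_eq_mul_right Nat.card_pos ((a l lE hl lC).trans (one_mul _).symm))
    have a2 : ∀ l ≤ E, finrank F l = 2 → l ∉ C → ∃ z ≤ l, finrank F z = 1 ∧ cnt (thru C z) E = 0 := fun l lE hl lC =>
      (a1 l lE hl lC).imp fun z hz => ⟨(pt0.1 (hz.ge rfl).1).1, (pt0.1 (hz.ge rfl).1).2, (hz.ge rfl).2⟩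
    obtain ⟨l, hl, lE⟩ := cz.1 m.2.2.2.2
    obtain ⟨z, zl, hz, z0⟩ := a2 l lE hl.1.1.2 hl.1.2
    have a3 : ∀ n ≤ E, z ≤ n → n ∉ C := fun n nE zn nC => (cz (R := thru C z)).2 ⟨n, ⟨nC, zn⟩, nE⟩ z0
    refine .inr (.inr ⟨z, hz, zl.trans lE, fun n hn nE => ⟨fun k => ?_, fun k => ⟨T.mono hE nE hn, a3 n nE k⟩⟩⟩)
    obtain ⟨w, wn, hw, w0⟩ := a2 n nE hn k.2
    obtain ⟨j, hj, k1, k2, k3⟩ := join hE hz hw (zl.trans lE) (wn.trans nE)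
    obtain ⟨u, hu⟩ := a1 j k3 hj.2 (a3 j k3 k1)
    rwa [show z = w from (hu.le ⟨pt0.2 ⟨k1, hz⟩, z0⟩).trans (hu.le ⟨pt0.2 ⟨k2, hw⟩, w0⟩).symm]

end Ty

theorem types (h : Lv P q K C) (h4 : Nat.card F ≠ 4) (ha : Aff P K C) : Typ P C ∨ Typ P (T P 2 \ C) := by
  rcases Ty.dich h ha with k | k
  · exact Ty.main h h4 ha k
  · have := Ty.main h.compl h4 (h.aff_compl ha) k
    rw [Set.sdiff_sdiff_cancel_left h.part.sub] at this
    exact this.symm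

theorem s0 (h : Pol P q) (h6 : 6 ≤ finrank F V) {h₁ h₂ : ℕ} (hC : Cl P C h₁ h₂) (hs : Single P C)
    (hn : ∀ E ∈ T P 3, ¬ Pure C E) : h₁ = 1 := by
  obtain ⟨x, hx⟩ := exists_T (k := 1) h (by omega)
  obtain ⟨l, hl⟩ := (hC.intr x hx).ne
  rw [← (hC.intr x hx).h1 l hl, cnt, Set.ncard_eq_one]
  have p := (hC.intr x hx).sub
  refine ⟨l, Set.eq_singleton_iff_unique_mem.2 ⟨⟨hl, h.ts_iff.1 (p hl).1⟩, fun m hm => by_contra fun k => ?_⟩⟩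
  have := Pt.sup hx (p hl) (p hm.1) hm.2 (Ne.symm k)
  exact hn _ this (hs _ this l hl.1 m hm.1.1 le_sup_left le_sup_right (Ne.symm k))

end CfsgLib.KP
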