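import Mathlib
import Cfsg.Agent.Lib.KP.Spn
import Cfsg.Agent.Lib.KP.Red2
import Cfsg.Agent.Lib.KP.Lev1
import Cfsg.Agent.Lib.KP.Dich2
import Cfsg.Agent.Lib.KP.Aff3
import Cfsg.Agent.Lib.KP.Types
import Cfsg.Agent.Lib.KP.Pe
import Cfsg.Agent.Lib.KP.B6a
import Cfsg.Agent.Lib.KP.B6b
import Cfsg.Agent.Lib.KP.N7b
import Cfsg.Agent.Lib.KP.Tsp
import Cfsg.Agent.Lib.KP.Tsu
import Cfsg.Agent.Lib.KP.Spl
import Cfsg.Agent.Lib.KL.Spk
import Cfsg.Agent.Lib.KL.How

/-! KP: the main theorem (plans/KP.md, package MAIN). -/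

set_option autoImplicit false
set_option linter.unusedSectionVars false

namespace CfsgLib.KP

open CfsgLib.CK CfsgLib.KL CfsgLib.Forms CfsgLib.RootMax CfsgLib.ClMax CfsgLib.Tech Module

variable {F : Type*} [Field F] [Finite F] {σ : F →+* F} {V : Type*} [AddCommGroup V] [Module F V] [Finite V]
  {P : PQ σ V} {q : ℕ} {K : Subgroup (V ≃ₗ[F] V)} {C : Set (Submodule F V)}

variable {x : Submodule F V} {h₁ h₂ : ℕ}

theorem su_lam (h : Tb P q K) (k : P.IsHerm) (hx : x ∈ T P 1) {e : ℕ} (he : 3 ≤ e) (ho : Odd e)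
    (hn : finrank F V = e + 2 ∨ finrank F V = e + 3) (hd : ∀ r, Od r (-q) e → r ∣ Nat.card (Stab K x)) : NoL P K := by
  obtain ⟨f, -, hf⟩ := h.pol.exists_pow
  have h3 := h.pol.three
  have hQ := h.pol.card_herm k
  obtain ⟨r, hr, hp⟩ := prime_odd (CharP.char_is_prime F (ringChar F)) (hf ▸ h3) he ho
  rw [← hf] at hr hp
  refine lam h hr.1 (fun c => hr.not_dvd (by omega) (hr.1.dvd_of_dvd_pow (hQ ▸ c)))
    (hQ ▸ hr.not_dvd_sub (by omega) he) hx (hd r hr) (hQ ▸ hp) ?_ (hn.imp id fun c => ⟨c, k⟩)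
  rw [hQ, hr.modEq_sq (by omega)]
  exact Dvd.intro_left 2 rfl

theorem su_even (h : Tb P q K) (k : P.IsHerm) (hx : x ∈ T P 1) (he : Even (finrank F V))
    (hd : ∀ r, Od r (-q) (finrank F V - 3) → r ∣ Nat.card (Stab K x)) : False := by
  have := h.six
  obtain ⟨r, hr⟩ := prime_any h.pol.three (e := finrank F V - 3) (by omega)
  exact tsu h k (su_lam h k hx (by omega) (by rw [Nat.odd_iff]; rw [Nat.even_iff] at he; omega) (by omega) hd) hr hx
    (hd r hr)

theorem su_any (h : Tb P q K) (k : P.IsHerm) (hx : x ∈ T P 1)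
    (hd : ∀ r e, Od r (-q) e → e = finrank F V - 2 ∨ e = finrank F V - 3 → r ∣ Nat.card (Stab K x)) : False := by
  have := h.six
  rcases Nat.even_or_odd (finrank F V) with he | ho
  · exact su_even h k hx he fun r hr => hd r _ hr (.inr rfl)
  · obtain ⟨r, hr⟩ := prime_any h.pol.three (e := finrank F V - 3) (by omega)
    exact tsu h k (su_lam h k hx (e := finrank F V - 2) (by omega) (by rw [Nat.odd_iff] at ho ⊢; omega) (by omega)
      fun r hr => hd r _ hr (.inl rfl)) hr hx (hd r _ hr (.inr rfl))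

theorem Od.dvd_np' {r e n : ℕ} (hr : Od r (-q) e) (hq : 3 ≤ q) (h6 : 6 ≤ n) (he : e = n - 2 ∨ e = n - 3) :
    r ∣ np (q ^ 2) q (n - 2) := by
  rw [show n - 2 = n - 3 + 1 by omega, hr.dvd_np (by omega) (by omega)]
  exact he.imp (fun c => Dvd.intro 1 (by omega)) fun c => Dvd.intro 1 (by omega)

/-- line-transitive groups -/
theorem line_tr (h : Hyp P q K) (t1 : Tr K (T P 1)) (t2 : Tr K (T P 2)) : False := by
  have tb : Tb P q K := ⟨h.toSub, t1⟩
  have h6 := h.six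
  have h3 := h.pol.three
  obtain ⟨x, hx⟩ := exists_T h.pol (k := 1) (by omega)
  obtain ⟨l, hl⟩ := exists_T h.pol (k := 2) (by omega)
  have e1 := t1.card_eq ((inv_T P 1).mono h.le') hx
  have e2 := t2.card_eq ((inv_T P 2).mono h.le') hl
  have e3 := ncard_T2 h.pol
  rw [ncard_T1 h.pol] at e1
  have hd : np (Nat.card F) q (finrank F V - 2) ∣ (Nat.card F + 1) * Nat.card (Stab K x) :=
    Dvd.intro_left (Nat.card (Stab K l)) (Nat.eq_of_mul_eq_mul_right (np_pos (Nat.card F) q (d := finrank F V) (by omega))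
      (by rw [mul_assoc, mul_assoc, ← e1, mul_comm (np _ _ (_ - 2)), ← e3, e2]; ring))
  rcases h.pol.kind with ⟨k, hq⟩ | ⟨k, hq⟩
  · exact tsp tb k hx (hq ▸ hd)
  rw [hq] at hd
  have key : ∀ r e, Od r (-q) e → e = finrank F V - 2 ∨ e = finrank F V - 3 → e ≠ 4 → r ∣ Nat.card (Stab K x) :=
    fun r e hr he h4 => ((Nat.Prime.dvd_mul hr.1).1 ((hr.dvd_np' h3 h6 he).trans hd)).resolve_left
      (hr.not_dvd_add fun c => by have := Nat.le_of_dvd (by omega) c; interval_cases e <;> omega)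
  rcases Nat.even_or_odd (finrank F V) with he | ho
  · exact su_even tb k hx he fun r hr => key r _ hr (.inr rfl) (by rw [Nat.even_iff] at he; omega)
  refine su_any tb k hx fun r e hr he => ?_
  by_cases h4 : e = 4
  · subst h4
    exact n7 h k (by rw [Nat.odd_iff] at ho; omega) t1 t2 hx hr
  · exact key r e hr he h4

theorem typ_false (h : Lv P q K C) (hC : Cl P C h₁ h₂) (ht : Typ P C) : False := by
  have h6 := h.six
  have h3 := h.pol.three
  obtain ⟨x, hx⟩ := exists_T h.pol (k := 1) (by omega)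
  have tr := tr12a h hC hx
  obtain ⟨hs | hs, hn⟩ := ht
  swap
  · exact hn.elim (pe h.pol h6 hC hs) (pa h.pol h6 hC hs)
  by_cases hp : ∃ E ∈ T P 3, Pure C E
  · obtain ⟨k, e6, s⟩ := sa h.pol h6 hC hs (hn.resolve_left fun c => let ⟨E, a, b⟩ := hp; c E a b) hp
    exact spl h.pol k e6 h.le' hC.sub h.part.inv s hx tr
  obtain rfl := s0 h.pol h6 hC hs fun E a b => hp ⟨E, a, b⟩
  have hi := hC.intr x hx
  have h1 : finrank F x = 1 := hx.2
  rcases h.pol.kind with ⟨k, hq⟩ | ⟨k, hq⟩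
  · exact ov_sp h.pol k hi (by omega)
  rcases Nat.even_or_odd (finrank F V) with he | ho
  swap
  · exact ov_odd h.pol ho hi (by omega)
  refine su_even h.tb k hx he fun r hr => Dvd.dvd.trans ?_ (h.dvd hx tr)
  rw [Nat.even_iff] at he
  rw [(intr_ov h.pol hi (d := finrank F V - 2) (by omega) (by omega)).2, hq, tt,
    show (finrank F V - 2) % 2 = 0 by omega, pow_zero, mul_one, ← pow_mul, ← pow_succ,
    show 2 * ((finrank F V - 2) / 2 - 1) + 1 = finrank F V - 3 by omega]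
  exact hr.dvd_pow_add (by rw [Nat.odd_iff]; omega)

theorem two_b (h : Lv P q K C) (hn : ¬ ∃ h₁ h₂, Cl P C h₁ h₂) (hx : x ∈ T P 1) (tr : Tr (Stab K x) (thru C x)) :
    False := by
  have h6 := h.six
  have h3 := h.pol.three
  have hd := ((dich2 h).resolve_left hn x hx).trans (mul_dvd_mul_right (Int.natCast_dvd_natCast.2 (h.dvd hx tr)) _)
  rcases h.pol.kind with ⟨k, hq⟩ | ⟨k, hq⟩
  · obtain ⟨m, hm⟩ := even_sp h.pol k
    refine tsp h.tb k hx ?_
    rw [hq, show finrank F V - 2 = 2 * (m - 3) + 4 by omega, ss_sp, sub_zero,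
      show 2 * (m - 3) + 4 = 2 * (m - 2) + 2 by omega, kk_sp] at hd
    rw [show finrank F V - 2 = 2 * (m - 2) + 2 by omega]
    rw [show 2 * (m - 2) + 2 = 2 * (m - 1) by omega, np_sp, show 2 * (m - 1) = 2 * (m - 2) + 1 + 1 by omega] at hd ⊢
    refine (coprime_th q _).dvd_of_dvd_mul_right (Int.natCast_dvd_natCast.1 (hd.trans (Dvd.intro 1 ?_)))
    push_cast
    ring
  by_cases e6 : finrank F V = 6
  · obtain ⟨_, _, hB⟩ | ⟨_, _, hB⟩ := b6a h e6 hn <;> exact b6b h.pol k e6 hB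
  refine su_any h.tb k hx fun r e hr he => ?_
  rw [hq] at hd
  have h1 := (Int.natCast_dvd_natCast.2 (hr.dvd_np' h3 h6 he)).trans hd
  refine Int.natCast_dvd_natCast.1 (((Nat.prime_iff_prime_int.1 hr.1).dvd_or_dvd h1).resolve_right ?_)
  push_cast
  exact hr.delta (by omega) (by omega) (by omega)

theorem hyp_false (h : Hyp P q K) : False := by
  have t1 := lev1 h
  by_cases t2 : Tr K (T P 2)
  · exact line_tr h t1 t2
  obtain ⟨C, hC⟩ := exists_lv h t1 t2
  have e : T P 2 \ (T P 2 \ C) = C := Set.sdiff_sdiff_cancel_left hC.part.sub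
  by_cases hc : ∃ h₁ h₂, Cl P C h₁ h₂
  · obtain ⟨h₁, h₂, hc⟩ := hc
    obtain ⟨_, _, hc'⟩ := hc.compl h.pol
    exact (types hC h.pol.ne_four (aff3 hC hc)).elim (typ_false hC hc) (typ_false hC.compl hc')
  obtain ⟨x, hx⟩ := exists_T h.pol (k := 1) (by have := h.six; omega)
  refine (tr12 hC hx).elim (two_b hC hc hx) (two_b hC.compl (fun ⟨_, _, c⟩ => hc ?_) hx)
  simpa only [e] using c.compl h.pol

open MulAction in
theorem main {p : ℕ} [Fact p.Prime] [CharP F p] (h : Pol P q) (h6 : 6 ≤ finrank F V) {Ω : Type*} [Finite Ω]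
    [MulAction (G0 P) Ω] [IsPreprimitive (G0 P) Ω] (ω : Ω)
    (h3 : Nat.card (orbitRel.Quotient (stabilizer (G0 P) ω) Ω) = 3)
    (hZ : ∀ z : G0 P, Sc (z : V ≃ₗ[F] V) → ∀ a : Ω, z • a = a) (hN : p ∣ Nat.card Ω → NGen p (G0 P) Ω) :
    Nat.card Ω = np (Nat.card F) q (finrank F V) := by
  have : Nontrivial Ω := by
    have : Nontrivial (orbitRel.Quotient (stabilizer (G0 P) ω) Ω) := Finite.one_lt_card_iff_nontrivial.1 (by omega)
    exact (Quotient.mk_surjective (s := orbitRel (stabilizer (G0 P) ω) Ω)).nontrivial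
  by_contra hc
  have irr0 : ∀ W : Submodule F V, P.TS W → (∀ g ∈ stabilizer (G0 P) ω, (g : V ≃ₗ[F] V) • W = W) → W = ⊥ :=
    fun W hW fx => by_contra fun h0 => hc (red_ts h h6 ω h3 hW h0 fx)
  have hp : p ∣ Nat.card Ω := by
    by_contra hp
    obtain ⟨W, h0, h1, hW⟩ := red0 h h6 hp ω
    exact h1 (irr0 W h0 hW)
  refine hyp_false (P := P) (q := q) (K := (stabilizer (G0 P) ω).map (G0 P).subtype)
    ⟨⟨h, h6, Subgroup.map_subtype_le _, fun c => ?_, fun g hg s => ⟨⟨g, hg⟩, hZ ⟨g, hg⟩ s ω, rfl⟩⟩, fun U hU => ?_,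
      gs_of_sp h (sp_of_rank ω h3 (hN hp)) fun k hk => ⟨k, hk, rfl⟩⟩
  · obtain ⟨a, ha⟩ := exists_ne ω
    obtain ⟨g, rfl⟩ := exists_smul_eq (G0 P) ω a
    obtain ⟨k, hk, e⟩ := c g.2
    exact ha (Subtype.ext e ▸ hk)
  · have fx : ∀ g ∈ stabilizer (G0 P) ω, (g : V ≃ₗ[F] V) • U = U := fun g hg => hU _ ⟨g, hg, rfl⟩
    by_contra! hne
    refine red_nd h h6 ω h3 (disjoint_iff.2 (irr0 _ ?_ fun g hg => ?_)) hne.1 hne.2 fx
    · rw [h.ts_iff]
      exact fun v hv => (P.mem_perp).2 fun w hw => P.B_eq_zero_comm.1 ((P.mem_perp).1 hw.2 v hv.1)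
    · rw [smul_inf'', smul_perp (G0_le P g.2), fx g hg]

open MulAction in
/-- the form used by the statements -/
theorem main_grp {p : ℕ} [Fact p.Prime] [CharP F p] (h : Pol P q) (h6 : 6 ≤ finrank F V) {L G X : Type*} [Group L]
    [Group G] [Finite X] [MulAction G X] (e₀ : G0 P ≃* L) (e : G ≃* L ⧸ Subgroup.center L)
    (hprim : IsPreprimitive G X) (x : X) (h3 : Nat.card (orbitRel.Quotient (stabilizer G x) X) = 3)
    (hN : ∀ [MulAction (L ⧸ Subgroup.center L) X] [IsPretransitive (L ⧸ Subgroup.center L) X], p ∣ Nat.card X →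
      NGen p (L ⧸ Subgroup.center L) X) : Nat.card X = np (Nat.card F) q (finrank F V) := by
  let f₀ : G0 P →* L ⧸ Subgroup.center L := (QuotientGroup.mk' _).comp e₀.toMonoidHom
  have hf₀ : Function.Surjective f₀ := (QuotientGroup.mk'_surjective _).comp e₀.surjective
  let f : G0 P →* G := e.symm.toMonoidHom.comp f₀
  have hf : Function.Surjective f := e.symm.surjective.comp hf₀
  let : MulAction (L ⧸ Subgroup.center L) X := MulAction.compHom X e.symm.toMonoidHom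
  let : MulAction (G0 P) X := MulAction.compHom X f
  have : IsPretransitive (L ⧸ Subgroup.center L) X := ⟨fun a b => by
    obtain ⟨g, hg⟩ := exists_smul_eq G a b
    exact ⟨e g, show e.symm (e g) • a = b by rw [e.symm_apply_apply, hg]⟩⟩
  have : IsPreprimitive (G0 P) X :=
    (isPreprimitive_congr (φ := f) (f := ⟨id, fun _ _ => rfl⟩) hf Function.bijective_id).2 hprim
  refine main (p := p) h h6 x ?_ (fun z ⟨c, hz⟩ a => ?_) fun hp => (hN hp).lift f₀ hf₀ fun _ _ => rfl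
  · rw [← h3]
    refine congrArg (fun s : Setoid X => Nat.card (Quotient s)) (Setoid.ext fun a b => ⟨?_, ?_⟩)
    · rintro ⟨g, rfl⟩
      exact ⟨⟨f g, g.2⟩, rfl⟩
    · rintro ⟨⟨g, hg⟩, rfl⟩
      obtain ⟨g, rfl⟩ := hf g
      exact ⟨⟨g, hg⟩, rfl⟩
  · have h1 : f₀ z = 1 := (QuotientGroup.eq_one_iff _).2 (Subgroup.mem_center_iff.2 fun g => by
      obtain ⟨g, rfl⟩ := e₀.surjective g
      change _ * e₀ z = e₀ z * _
      rw [← map_mul, ← map_mul]
      congr 1
      ext v : 2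
      change g.1 (z.1 v) = z.1 (g.1 v)
      rw [hz, hz, map_smul])
    change e.symm (f₀ z) • a = a
    rw [h1, map_one, one_smul]

end CfsgLib.KP
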